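import Cfsg.Agent.Lib.Char.DadeExt
import Cfsg.Agent.Lib.FT.Main

/-!
# Extending the faithful character of an extraspecial `2`-group

Dade's theorem is iterated along a solvable operator group and applied in the central extension
attached to an invariant character.
-/

set_option autoImplicit false
set_option linter.unusedSectionVars false
set_option linter.style.haveILetI false

namespace CT

open Cfsg GT Subgroup
open scoped commutatorElement ComplexConjugate

section Iter

variable {Γ : Type*} [Group Γ] [Finite Γ]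

theorem ExtTo.invBy {K V S : Subgroup Γ} {θ : K → ℂ} (h : ExtTo θ V) (hS : S ≤ V) :
    InvBy S θ := by
  obtain ⟨hK, η, h1, rfl⟩ := h
  exact ((invBy_self h1.isClassFunction).mono hS).resLe hK

theorem exists_isSylowIn_not_le {D L : Subgroup Γ} (h : ¬ D ≤ L) :
    ∃ (p : ℕ) (S : Subgroup Γ), p.Prime ∧ IsSylowIn p S D ∧ ¬ S ≤ L := by
  have h1 : L.relIndex D ≠ 1 := fun e => h (relIndex_eq_one.1 e)
  obtain ⟨p, hp, hd⟩ := Nat.exists_prime_and_dvd h1
  haveI := Fact.mk hp
  obtain ⟨S, hS⟩ := exists_isSylowIn p D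
  exact ⟨p, S, hp, hS, fun hL => hS.not_dvd_relIndex_of_le hL hd⟩

/-- Dade's theorem iterated along a group `K` acting as a solvable group of coprime order. -/
theorem dade_iter (n : ℕ) : ∀ {B K H : Subgroup Γ}, Nat.card B ≤ n → K ≤ H →
    H ≤ normalizer (K : Set Γ) → H ≤ normalizer (B : Set Γ) →
    (∀ p : ℕ, p.Prime → p ∣ Nat.card B → ∀ S ≤ K, IsPGroup p S → S ≤ centralizer (B : Set Γ)) →
    (∀ D ≤ K, ⁅D, D⁆ = D → D ≤ centralizer (B : Set Γ)) →
    ∀ {θ : IrrCharacter B}, ExtTo θ.1 (B ⊔ H) →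
    ∀ {C : Subgroup Γ}, C = B ⊓ centralizer (K : Set Γ) → ∀ hCB : C ≤ B,
      ∃ φ : IrrCharacter C, LiesOverLe hCB θ.1 φ.1 ∧
        ∃ H' ≤ H, H ≤ K ⊔ H' ∧ ExtTo φ.1 (C ⊔ H') := by
  induction n with
  | zero => intro B K H h; exact absurd h (by have := Nat.card_pos (α := B); omega)
  | succ n ih =>
    intro B K H hn hKH hHK hHB hcop hsol θ hθ C hC hCB
    by_cases hK : K ≤ centralizer (B : Set Γ)
    · obtain rfl : C = B := le_antisymm hCB (hC ▸ le_inf le_rfl (le_centralizer_iff.1 hK))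
      exact ⟨θ, liesOverLe_of_resLe_eq rfl, H, le_rfl, le_sup_right, hθ⟩
    obtain ⟨D, ⟨hDK, hHD, hD⟩, hmin⟩ := (wellFounded_lt (α := Subgroup Γ)).has_min
      {D | D ≤ K ∧ H ≤ normalizer (D : Set Γ) ∧ ¬ D ≤ centralizer (B : Set Γ)} ⟨K, le_rfl, hHK, hK⟩
    have hDD : ⁅D, D⁆ ≤ D := le_normalizer_iff_commutator_le_left.1 le_normalizer
    have hD' : ⁅D, D⁆ ≤ centralizer (B : Set Γ) := by
      by_contra h
      exact hmin _ ⟨hDD.trans hDK, le_normalizer_commutator hHD hHD, h⟩
        (lt_of_le_of_ne hDD fun e => hD (hsol D hDK e))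
    obtain ⟨p, S, hp, hS, hSB⟩ := exists_isSylowIn_not_le hD
    haveI := Fact.mk hp
    have hSK : S ≤ K := hS.le.trans hDK
    have hpB : ¬ p ∣ Nat.card B := fun h => hSB (hcop p hp h S hSK hS.isPGroup)
    have hSN : S ≤ normalizer (B : Set Γ) := (hSK.trans hKH).trans hHB
    set C₁ := B ⊓ centralizer (S : Set Γ) with hC₁
    have h1 : C₁ ≤ B := inf_le_left
    have hlt : C₁ < B := lt_of_le_of_ne h1 fun e => hSB (le_centralizer_iff.1 (e ▸ inf_le_right))
    set H₁ := normalizer (S : Set Γ) ⊓ H with hH₁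
    have hθS : InvBy S θ.1 := hθ.invBy ((hSK.trans hKH).trans le_sup_right)
    obtain ⟨φ, hφ⟩ := (glaubP_of_isPGroup hp hS.isPGroup hSN hpB hC₁ h1).ex θ hθS
    have h2 : ExtTo φ.1 (C₁ ⊔ H₁) :=
      dade_ext S hS.isPGroup hSN hpB (sup_le (h1.trans le_normalizer) (inf_le_right.trans hHB))
        (sup_le (le_normalizer_of_le_centralizer inf_le_right) inf_le_left) hC₁ h1 le_sup_left hθS
        hφ (hθ.mono le_sup_left (sup_le le_sup_left (sup_le (h1.trans le_sup_left)
          (inf_le_right.trans le_sup_right))))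
    have hcc : centralizer (B : Set Γ) ≤ centralizer (C₁ : Set Γ) := centralizer_le h1
    -- Frattini
    have h3 : D ≤ (⁅D, D⁆ ⊔ S) ⊔ (K ⊓ H₁) := by
      have h4 : D ≤ normalizer ((⁅D, D⁆ ⊔ S : Subgroup Γ) : Set Γ) :=
        le_normalizer_iff_commutator_le_left.2 ((commutator_mono (sup_le hDD hS.le) le_rfl).trans
          le_sup_left)
      refine ((hS.of_le le_sup_right (sup_le hDD hS.le)).frattini_sup (sup_le hDD hS.le) h4).ge.trans ?_
      exact sup_le_sup_left (le_inf (inf_le_right.trans hDK) (inf_le_inf_left _ (hDK.trans hKH))) _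
    have h5 : K ≤ D ⊔ (K ⊓ H₁) := by
      conv_lhs => rw [← hS.frattini_sup hDK (hKH.trans hHD)]
      exact sup_le_sup_left (le_inf inf_le_right (inf_le_inf_left _ hKH)) _
    have h6 : C = C₁ ⊓ centralizer ((K ⊓ H₁ : Subgroup Γ) : Set Γ) := by
      refine le_antisymm (le_inf (le_inf hCB ?_) ?_) ?_
      · exact (hC.le.trans inf_le_right).trans (centralizer_le hSK)
      · exact (hC.le.trans inf_le_right).trans (centralizer_le (inf_le_left : K ⊓ H₁ ≤ K))
      · rw [hC]
        refine le_inf (inf_le_left.trans h1) (le_centralizer_iff.1 (h5.trans (sup_le (h3.trans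
          (sup_le (sup_le ?_ ?_) ?_)) ?_)))
        · exact hD'.trans (centralizer_le (inf_le_left.trans h1))
        · exact le_centralizer_iff.1 (inf_le_left.trans inf_le_right)
        · exact le_centralizer_iff.1 inf_le_right
        · exact le_centralizer_iff.1 inf_le_right
    have h7 : C ≤ C₁ := h6.le.trans inf_le_left
    obtain ⟨ψ, hψ, H', hH', h8, h9⟩ := ih (B := C₁) (K := K ⊓ H₁) (H := H₁)
      (Nat.le_of_lt_succ ((card_lt_of_lt hlt).trans_le hn)) inf_le_right
      (le_normalizer_inf (inf_le_right.trans hHK) le_normalizer)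
      (le_normalizer_inf (inf_le_right.trans hHB) (le_normalizer_centralizer inf_le_left))
      (fun q hq hd T hT hTq => (hcop q hq (hd.trans (card_dvd_of_le h1)) T (hT.trans inf_le_left)
        hTq).trans hcc)
      (fun T hT e => (hsol T (hT.trans inf_le_left) e).trans hcc) h2 h6 h7
    refine ⟨ψ, LiesOverLe.trans (irr_isCharacter θ) (irr_isCharacter ψ)
      (hφ.ip_ne_zero hp ((irr_isCharacter θ).resLe h1)) hψ, H', hH'.trans inf_le_right, ?_, h9⟩
    rw [← hS.frattini_sup (hDK.trans hKH) hHD]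
    exact sup_le (hDK.trans le_sup_left) (h8.trans (sup_le_sup_right inf_le_left _))

end Iter

theorem eq_of_ip_ne_zero_of_mul {C : Type*} [Group C] [Finite C] {α β : C → ℂ} {z : C} {a b : ℂ}
    (hα : ∀ y, α (z * y) = a * α y) (hβ : ∀ y, β (z * y) = b * β y) (hb : b * conj b = 1)
    (h : ip α β ≠ 0) : a = b := by
  haveI := Fintype.ofFinite C
  have h1 : ip α β = a * conj b * ip α β := by
    rw [ip_def, mul_left_comm, Finset.mul_sum _ _ (a * conj b)]
    congr 1
    refine (Fintype.sum_equiv (Equiv.mulLeft z) _ _ fun y => ?_).symm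
    rw [Equiv.coe_mulLeft, hα, hβ, map_mul]; ring
  have h2 : a * conj b = 1 := by
    refine mul_right_cancel₀ h ?_
    rw [one_mul, ← h1]
  calc a = a * (b * conj b) := by rw [hb, mul_one]
    _ = b * (a * conj b) := by ring
    _ = b := by rw [h2, mul_one]

universe u

/-- An invariant character of a normal `p`-subgroup with a complement `H` extends, provided `H` has
a solvable normal `p'`-subgroup whose fixed points are abelian. -/
theorem exists_extension_of_abelian_fixed {G : Type u} [Group G] [Finite G] {E H K : Subgroup G}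
    [E.Normal] {p : ℕ} [hp : Fact p.Prime] (hE : IsPGroup p E) (hd : E ⊓ H = ⊥) (hs : E ⊔ H = ⊤)
    (hKH : K ≤ H) (hHK : H ≤ normalizer (K : Set G)) (hK : ¬ p ∣ Nat.card K)
    (hsol : Group.IsSolvable K)
    (hab : ∀ x ∈ E ⊓ centralizer (K : Set G), ∀ y ∈ E ⊓ centralizer (K : Set G), x * y = y * x)
    (θ : IrrCharacter E) (hinv : ∀ (x : G) (n : E), θ.1 (MulAut.conjNormal x n) = θ.1 n) :
    ∃ χ : IrrCharacter G, res E χ.1 = θ.1 := by
  obtain ⟨X⟩ := nonempty_centralExt E θ hinv
  obtain ⟨k, hk⟩ := IsPGroup.iff_card.1 hE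
  have hdv : charDegree θ.1 * detOrder θ.1 ∣ p ^ (k + k) := by
    rw [pow_add, ← hk]; exact mul_dvd_mul (irr_degree_dvd_card θ) (detOrder_dvd_card _)
  have hker : IsPGroup p X.π.ker := by
    obtain ⟨j, -, hj⟩ := (Nat.dvd_prime_pow hp.out).1 (X.card_ker_dvd.trans hdv)
    exact IsPGroup.of_card hj
  have hB : IsPGroup p (E.comap X.π) := hE.comap_of_ker_isPGroup _ hker
  have hZ : ∀ L : Subgroup X.Γ, X.π.ker ≤ centralizer (L : Set X.Γ) := fun L =>
    X.ker_le.trans (center_le_centralizer _)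
  have hι : X.ι.range ≤ E.comap X.π := X.range_sup_ker ▸ le_sup_left
  have hirr : IsIrrCharacter (E.comap X.π) (res (E.comap X.π) X.τ.1) := by
    have h1 : IsIrrCharacter X.ι.range (res X.ι.range X.τ.1) := by
      rw [X.res_range_τ]
      exact IsIrrCharacter.comp_of_surjective θ.2
        (MonoidHom.ofInjective X.ι_injective).symm.toMonoidHom
        (MonoidHom.ofInjective X.ι_injective).symm.surjective
    exact isIrr_of_resLe_eq hι ((irr_isCharacter X.τ).res _) (θ := ⟨_, h1⟩) rfl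
  have hnK : H.comap X.π ≤ normalizer ((K.comap X.π : Subgroup X.Γ) : Set X.Γ) :=
    (comap_mono hHK).trans (le_normalizer_comap _)
  set C := E.comap X.π ⊓ centralizer ((K.comap X.π : Subgroup X.Γ) : Set X.Γ) with hC
  obtain ⟨φ, hφ, H', hH', h1, hW, η, hη, h2⟩ := dade_iter _ (B := E.comap X.π) (K := K.comap X.π)
    (H := H.comap X.π) le_rfl (comap_mono hKH) hnK (le_normalizer_of_normal)
    (fun q hq hqd S hS hSq => by
      obtain ⟨j, hj⟩ := IsPGroup.iff_card.1 hB
      obtain rfl := (Nat.prime_dvd_prime_iff_eq hq hp.out).1 (hq.dvd_of_dvd_pow (hj ▸ hqd))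
      refine ((Subgroup.map_eq_bot_iff _).1 ?_).trans (hZ _)
      exact eq_bot_of_isPGroup_of_not_dvd (hSq.map _) fun h =>
        hK (h.trans (card_dvd_of_le (map_le_iff_le_comap.2 hS))))
    (fun D hD e => by
      refine ((Subgroup.map_eq_bot_iff _).1 ?_).trans (hZ _)
      by_contra h
      have h0 : D.map X.π ≤ K := map_le_iff_le_comap.2 hD
      have h3 := Group.IsSolvable.commutator_lt_of_ne_bot (H := (D.map X.π).subgroupOf K)
        fun e' => h (by rw [← map_subgroupOf_eq_of_le h0, e', Subgroup.map_bot])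
      have h4 := (map_lt_map_iff_of_injective K.subtype_injective).2 h3
      rw [map_commutator, map_subgroupOf_eq_of_le h0, ← map_commutator, e] at h4
      exact h4.ne rfl)
    (θ := ⟨_, hirr⟩) ⟨le_sup_left, res _ X.τ.1, (irr_isCharacter X.τ).res _, rfl⟩ hC inf_le_left
  -- `C` is abelian
  have hCπ : ∀ x ∈ C, X.π x ∈ E ⊓ centralizer (K : Set G) := fun x hx => ⟨hx.1, fun g hg => by
    obtain ⟨y, rfl⟩ := X.surj g
    rw [← map_mul, ← map_mul, hx.2 y hg]⟩
  haveI : IsMulCommutative C := ⟨⟨fun x y => Subtype.ext (by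
    obtain ⟨z, n, e⟩ := X.exists_eq_mul (x := x) x.2.1
    obtain ⟨z', n', e'⟩ := X.exists_eq_mul (x := y) y.2.1
    have h3 := hab _ (hCπ _ x.2) _ (hCπ _ y.2)
    have h4 : ∀ (w : X.π.ker) (m : E), X.π (w * X.ι m) = m := fun w m => by
      rw [map_mul, MonoidHom.mem_ker.1 w.2, one_mul, X.π_ι]
    rw [e, e', h4, h4] at h3
    have h5 : Commute (X.ι n) (X.ι n') := by
      rw [Commute, SemiconjBy, ← map_mul, ← map_mul, show n * n' = n' * n from Subtype.ext h3]
    have h6 : ∀ (w : X.π.ker) (g : X.Γ), Commute (w : X.Γ) g := fun w g =>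
      (mem_center_iff.1 (X.ker_le w.2) g).symm
    rw [coe_mul, coe_mul, e, e']
    exact (h6 z _).mul_left ((h6 z' _).symm.mul_right h5))⟩⟩
  have hdeg : charDegree η = 1 := by
    rw [← charDegree_resLe hW, h2]; exact irr_degree_eq_one_of_isMulCommutative φ
  obtain ⟨f, rfl⟩ := hη.exists_monoidHom_of_degree_one hdeg
  have hkC : X.π.ker ≤ C := le_inf (X.range_sup_ker ▸ le_sup_right) (hZ _)
  have hf : ∀ z : X.π.ker, f ⟨z, hW (hkC z.2)⟩ = X.lam z := fun z => by
    refine (eq_of_ip_ne_zero_of_mul (C := C) (α := fun y => X.τ.1 y) (β := φ.1) (z := ⟨z, hkC z.2⟩)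
      (fun y => X.τ_ker_mul z y) (fun y => ?_) ?_ hφ).symm
    · rw [← h2]
      exact map_mul f ⟨z, hW (hkC z.2)⟩ (inclusion hW y)
    · rw [Complex.mul_conj, Complex.normSq_eq_norm_sq, monoidHom_norm_eq_one]; simp
  -- transfer
  set W := H' ⊔ X.π.ker with hW₀
  have hkH : X.π.ker ≤ H.comap X.π := ker_le_comap _ _
  have hWH : W ≤ H.comap X.π := sup_le hH' hkH
  have hWC : W ≤ C ⊔ H' := sup_le le_sup_right (hkC.trans le_sup_left)
  let f₀ : W.subgroupOf (H.comap X.π) →* ℂˣ :=
    (f.toHomUnits.comp (inclusion hWC)).comp (subgroupOfEquivOfLe hWH).toMonoidHom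
  have hV : ∀ z : X.π.ker, MonoidHom.transfer f₀ ⟨z, hkH z.2⟩ =
      X.lam z ^ W.relIndex (H.comap X.π) := fun z => by
    refine transfer_eq_pow_of_forall f₀ _ _ fun j g₀ hj => Units.ext ?_
    rw [← map_pow, ← hf]
    refine congrArg f (Subtype.ext ?_)
    have := mem_center_iff.1 (X.ker_le (pow_mem z.2 j)) (g₀ : X.Γ)⁻¹
    change (g₀ : X.Γ)⁻¹ * z ^ j * g₀ = z ^ j
    rw [this, inv_mul_cancel_right]
  have hm : ¬ p ∣ W.relIndex (H.comap X.π) := fun h => hK (h.trans (by
    haveI := normal_subgroupOf_of_le_normalizer hnK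
    have h3 : W.subgroupOf (H.comap X.π) ⊔ (K.comap X.π).subgroupOf (H.comap X.π) = ⊤ := by
      rw [← subgroupOf_sup hWH (comap_mono hKH), subgroupOf_eq_top]
      exact h1.trans (sup_le le_sup_right (le_sup_left.trans le_sup_left))
    rw [relIndex, index_eq_relIndex_of_sup_eq_top' h3, relIndex_subgroupOf (comap_mono hKH),
      ← relIndex_bot_left, ← relIndex_comap_comap_of_surjective X.surj]
    exact relIndex_dvd_of_le_left _ le_sup_right))
  have hc : (H.comap X.π).IsComplement' X.ι.range := by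
    refine (isComplement'_of_disjoint_of_sup_eq_top ?_ ?_).symm
    · rw [disjoint_def]
      rintro _ ⟨n, rfl⟩ hn
      have : (n : G) ∈ E ⊓ H := ⟨n.2, X.π_ι n ▸ hn⟩
      rw [hd, mem_bot] at this
      rw [show n = 1 from Subtype.ext this, map_one]
    · rw [← sup_eq_right.2 hkH, ← sup_assoc, X.range_sup_ker, comap_sup_eq X.π _ _ X.surj, hs,
        comap_top]
  refine X.exists_extension_of_one_mem ?_
  have h3 : ((W.relIndex (H.comap X.π) : ℕ) : ℤ) ∈ X.expIdeal := by
    refine ⟨(MonoidHom.transfer f₀).comp (hc.QuotientMulEquiv.toMonoidHom.comp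
      (QuotientGroup.mk' _)), fun n => ?_, fun z => ?_⟩
    · rw [MonoidHom.comp_apply, MonoidHom.comp_apply, QuotientGroup.mk'_apply,
        (QuotientGroup.eq_one_iff _).2 (⟨n, rfl⟩ : X.ι n ∈ X.ι.range), map_one, map_one]
    · rw [zpow_natCast, ← hV, MonoidHom.comp_apply]
      congr 1
      exact hc.QuotientMulEquiv.apply_symm_apply ⟨z, hkH z.2⟩
  have h4 : ((p ^ (k + k) : ℕ) : ℤ) ∈ X.expIdeal := by
    refine ⟨1, fun _ => rfl, fun z => ?_⟩
    obtain ⟨c, hc⟩ := hdv
    rw [zpow_natCast, hc, pow_mul, X.lam_pow, one_pow, MonoidHom.one_apply]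
  obtain ⟨a, b, hab⟩ := Nat.isCoprime_iff_coprime.2
    (((Nat.Prime.coprime_iff_not_dvd hp.out).2 hm).pow_left (k + k))
  rw [← hab]
  exact add_mem (X.expIdeal.mul_mem_left _ h4) (X.expIdeal.mul_mem_left _ h3)

/-- The faithful irreducible character of an extraspecial `2`-group extends over a complement
having a normal subgroup of odd order acting without further fixed points. -/
theorem exists_extension_extraspecial_two {G : Type u} [Group G] [Finite G] (E H : Subgroup G)
    [E.Normal] (hE : IsExtraspecial 2 E) (hd : E ⊓ H = ⊥) (hs : E ⊔ H = ⊤) (K : Subgroup G)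
    (hKH : K ≤ H) (hKn : ∀ h ∈ H, ∀ k ∈ K, h * k * h⁻¹ ∈ K) (hK : Odd (Nat.card K))
    (hEK : ⁅E, K⁆ = E) (θ : IrrCharacter E) (hθ : ∀ e : E, θ.1 e = θ.1 1 → e = 1) :
    ∃ χ : IrrCharacter G, res E χ.1 = θ.1 := by
  -- the centre of `E` is centralised by `G`
  have hZ : ∀ (x : G) (n : E), n ∈ Subgroup.center E → MulAut.conjNormal x n = n := by
    intro x n hn
    by_cases h1 : n = 1
    · rw [h1, map_one]
    have h2 : MulAut.conjNormal x n ∈ Subgroup.center E :=
      (characteristic_iff_map_le.1 inferInstance (MulAut.conjNormal x)) ⟨n, hn, rfl⟩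
    obtain ⟨y, -, hy⟩ := (Nat.card_eq_two_iff' (1 : Subgroup.center E)).1 hE.2
    have h3 := (hy ⟨_, h2⟩ fun e => h1 ((map_eq_one_iff _ (MulEquiv.injective _)).1
      (congrArg Subtype.val e))).trans (hy ⟨n, hn⟩ fun e => h1 (congrArg Subtype.val e)).symm
    exact congrArg Subtype.val h3
  have hker : ker θ.1 = ⊥ := eq_bot_iff.2 fun e he => hθ e ((irr_mem_ker_iff θ).1 he)
  have hc := irr_center_eq_of_faithful θ hker
  have hvan : ∀ n ∉ Subgroup.center E, θ.1 n = 0 := fun n hn =>
    irr_apply_eq_zero_of_commutator_le_center θ (hc ▸ hE.1.2.2.le) (hc ▸ hn)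
  refine exists_extension_of_abelian_fixed (p := 2) hE.1.1 hd hs hKH
    (fun h hh => mem_normalizer_fintype (hKn h hh)) (Odd.not_two_dvd_nat hK)
    (FT.feit_thompson K hK) ?_ θ fun x n => ?_
  · have h1 : ⁅E, E ⊓ centralizer (K : Set G)⁆ ≤ centralizer (K : Set G) := by
      refine commutator_le.2 fun a ha b hb g hg => ?_
      have h2 : ⁅(⟨a, ha⟩ : E), (⟨b, hb.1⟩ : E)⁆ ∈ Subgroup.center E :=
        hE.1.2.2.le (commutator_mem_commutator (mem_top _) (mem_top _))
      have h3 := congrArg Subtype.val (hZ g _ h2)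
      rw [MulAut.conjNormal_apply, mul_inv_eq_iff_eq_mul] at h3
      exact h3
    have h2 : ⁅E ⊓ centralizer (K : Set G), K⁆ ≤ centralizer (E : Set G) := by
      rw [commutator_eq_bot_iff_le_centralizer.2 inf_le_right]; exact bot_le
    have h3 := commutator_le_centralizer_of_rotate h1 h2
    rw [commutator_comm, hEK] at h3
    exact fun x hx y hy => (h3 hx.1 y hy).symm
  · by_cases hn : n ∈ Subgroup.center E
    · rw [hZ x n hn]
    · rw [hvan n hn, hvan _ fun h => hn ?_]
      have := hZ x⁻¹ _ h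
      rw [← MulAut.mul_apply, ← map_mul, inv_mul_cancel, map_one, MulAut.one_apply] at this
      rwa [this]

end CT
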