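import Cfsg.Agent.Lib.Char.ModRep
import Cfsg.Agent.Lib.Char.OkuWaj
import Cfsg.Agent.Lib.Char.Extend
import Cfsg.Agent.Lib.Lin.GenJordan
import Cfsg.Agent.Lib.Block.Fong

/-!
# Dade's theorem: extendibility passes to the Glauberman correspondent
-/

set_option autoImplicit false
set_option linter.unusedSectionVars false
set_option linter.style.haveILetI false

namespace CT

open Cfsg BT GT Matrix Subgroup
open scoped commutatorElement

section Sec

variable {F C d e : Type*} [Field F] [Group C] [Fintype C] [Fintype d] [DecidableEq d] [Fintype e]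
  [DecidableEq e]

/-- The Fourier section of `τ` followed by `ρ`. -/
noncomputable def fsec (τ : C →* Matrix e e F) (ρ : C →* Matrix d d F) :
    Matrix e e F →ₗ[F] Matrix d d F where
  toFun s := ∑ c, ((Fintype.card e : F) / Nat.card C * (τ c⁻¹ * s).trace) • ρ c
  map_add' s t := by
    simp only [Matrix.mul_add, trace_add, mul_add, add_smul, Finset.sum_add_distrib]
  map_smul' a s := by
    simp only [Matrix.mul_smul, trace_smul, smul_eq_mul, RingHom.id_apply, Finset.smul_sum,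
      smul_smul, mul_left_comm]

variable {τ : C →* Matrix e e F} {ρ : C →* Matrix d d F}

theorem fsec_apply (s : Matrix e e F) : fsec τ ρ s =
    ∑ c, ((Fintype.card e : F) / Nat.card C * (τ c⁻¹ * s).trace) • ρ c := rfl

theorem fsec_mul_rep (s : Matrix e e F) (c : C) : fsec τ ρ s * ρ c = fsec τ ρ (s * τ c) := by
  rw [fsec_apply, fsec_apply, Finset.sum_mul]
  refine Fintype.sum_equiv (Equiv.mulRight c) _ _ fun x => ?_
  rw [Equiv.coe_mulRight, Matrix.smul_mul, ← map_mul, ← Matrix.mul_assoc, trace_mul_comm _ (τ c),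
    ← Matrix.mul_assoc, ← map_mul, _root_.mul_inv_rev, mul_inv_cancel_left]

theorem rep_mul_fsec (s : Matrix e e F) (c : C) : ρ c * fsec τ ρ s = fsec τ ρ (τ c * s) := by
  rw [fsec_apply, fsec_apply, Finset.mul_sum]
  refine Fintype.sum_equiv (Equiv.mulLeft c) _ _ fun x => ?_
  rw [Equiv.coe_mulLeft, Matrix.mul_smul, ← map_mul, ← Matrix.mul_assoc, ← map_mul,
    _root_.mul_inv_rev, inv_mul_cancel_right]

theorem fsec_mul (h : IsSchurRep τ) (hC : (Nat.card C : F) ≠ 0) (s t : Matrix e e F) :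
    fsec τ ρ s * fsec τ ρ t = fsec τ ρ (s * t) := by
  conv_rhs => rw [← h.fourier hC t]
  rw [fsec_apply t, Finset.mul_sum, Finset.mul_sum, map_sum]
  refine Finset.sum_congr rfl fun x _ => ?_
  rw [Matrix.mul_smul, Matrix.mul_smul, map_smul, fsec_mul_rep]

theorem mul_fsec {U : Matrix d d F} {V V' : Matrix e e F} (f : C ≃* C) (hV : V' * V = 1)
    (h1 : ∀ c, U * ρ c = ρ (f c) * U) (h2 : ∀ c, V * τ c = τ (f c) * V) (s : Matrix e e F) :
    U * fsec τ ρ s = fsec τ ρ (V * s * V') * U := by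
  rw [fsec_apply, fsec_apply, Finset.mul_sum, Finset.sum_mul]
  refine Fintype.sum_equiv f.toEquiv _ _ fun x => ?_
  rw [Matrix.mul_smul, Matrix.smul_mul, h1, MulEquiv.toEquiv_eq_coe, EquivLike.coe_coe, ← map_inv,
    ← Matrix.mul_assoc, trace_mul_comm _ V', ← Matrix.mul_assoc, ← Matrix.mul_assoc,
    Matrix.mul_assoc V', ← h2, ← Matrix.mul_assoc, hV, Matrix.one_mul]

theorem card_mul_trace_fsec (h : IsSchurRep τ) (hC : (Nat.card C : F) ≠ 0) (i : e) :
    (Fintype.card e : F) * (fsec τ ρ (single i i 1)).trace = (fsec τ ρ 1).trace := by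
  have h1 : ∀ j, (fsec τ ρ (single j j 1)).trace = (fsec τ ρ (single i i 1)).trace := fun j => by
    have e1 : (single j j 1 : Matrix e e F) = single j i 1 * single i j 1 := by
      rw [single_mul_single_same, mul_one]
    have e2 : (single i i 1 : Matrix e e F) = single i j 1 * single j i 1 := by
      rw [single_mul_single_same, mul_one]
    rw [e1, e2, ← fsec_mul h hC, ← fsec_mul h hC, trace_mul_comm]
  have h2 : (1 : Matrix e e F) = ∑ j, single j j 1 := by
    ext a b
    simp [Matrix.sum_apply, Matrix.single_apply, Matrix.one_apply, ite_and]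
  rw [h2, map_sum, trace_sum]
  simp [h1]

theorem exists_factor_of_idem {E : Matrix d d F} (h : E * E = E) :
    ∃ (r : ℕ) (X : Matrix d (Fin r) F) (Y : Matrix (Fin r) d F), X * Y = E ∧ Y * X = 1 := by
  obtain ⟨X, Y, h1, h2, D, h3⟩ := LG.exists_rank_factorization E rfl
  refine ⟨_, X, Y, h1.symm, ?_⟩
  have h4 : X * (Y * X) = X * (1 : Matrix (Fin E.rank) (Fin E.rank) F) := by
    rw [← Matrix.mul_assoc, ← h1, Matrix.mul_one]
    conv_lhs => rw [h3, ← Matrix.mul_assoc, h, ← h3]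
  have h5 := Matrix.mulVec_injective_iff.2 h2
  ext i j
  have h6 : X *ᵥ (fun a => (Y * X) a j) =
      X *ᵥ (fun a => (1 : Matrix (Fin E.rank) (Fin E.rank) F) a j) :=
    funext fun a => congrFun (congrFun h4 a) j
  exact congrFun (h5 h6) i

end Sec

variable {p : ℕ} [hp : Fact p.Prime] {M : Ideal AlgInt} (hM : IsPModular p M)
variable {Γ : Type*} [Group Γ] [Finite Γ]

attribute [local irreducible] instFieldResF

theorem ext_mul_rep {k d : Type*} [Field k] [Fintype d] [DecidableEq d] {B V : Subgroup Γ}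
    (h : B ≤ V) {ρ : B →* Matrix d d k} {r : V →* Matrix d d k}
    (hr : ∀ b, r (inclusion h b) = ρ b) (v : V) (hv : (v : Γ) ∈ normalizer (B : Set Γ)) (b : B) :
    r v * ρ b = ρ (B.normalizerMonoidHom ⟨v, hv⟩ b) * r v := by
  rw [← hr, ← hr, ← map_mul, ← map_mul]
  congr 1
  apply Subtype.ext
  simp

theorem extTo_sup_of_isPGroup {B S : Subgroup Γ} (hS : IsPGroup p S)
    (hSB : S ≤ normalizer (B : Set Γ)) (hB : ¬ p ∣ Nat.card B) {θ : IrrCharacter B}
    (hθ : InvBy S θ.1) : ExtTo θ.1 (S ⊔ B) := by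
  have hn : S ⊔ B ≤ normalizer (B : Set Γ) := sup_le hSB le_normalizer
  haveI := normal_subgroupOf_of_le_normalizer hn
  have hinv := hθ.sup (invBy_self (irr_isClassFunction θ)) hSB le_normalizer
  obtain ⟨η, hη⟩ := exists_extension_of_coprime (B.subgroupOf (S ⊔ B)) (irrOf le_sup_right θ)
    (forall_smul_iff.1 fun t => (smul_irrOf_eq_iff le_sup_right).2 (hinv t t.2)) (by
      obtain ⟨a, ha⟩ := hS.exists_relIndex_eq_pow B
      rw [Nat.card_congr (subgroupOfEquivOfLe le_sup_right).toEquiv, ← relIndex,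
        relIndex_sup_of_le_normalizer hSB, ha]
      exact ((hp.out.coprime_iff_not_dvd.2 hB).symm.pow_right a))
  exact extTo_of_irr le_sup_right ((res_subgroupOf_eq_irrOf_iff le_sup_right).1 hη)

include hM in
theorem dade_base {B C A S : Subgroup Γ} (hS : IsPGroup p S) (hSB : S ≤ normalizer (B : Set Γ))
    (hB : ¬ p ∣ Nat.card B) (hAB : A ≤ normalizer (B : Set Γ)) (hAS : A ≤ normalizer (S : Set Γ))
    (hC : C = B ⊓ centralizer (S : Set Γ)) (hCB : C ≤ B) (hCA : C ≤ A)
    (hpow : ∀ x ∈ S, x ^ p ∈ centralizer (B : Set Γ)) (hcomm : ⁅S, S⁆ ≤ centralizer (B : Set Γ))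
    {θ : IrrCharacter B} (hθS : InvBy S θ.1) {φ : IrrCharacter C}
    (hφ : ¬ p ∣ mult (resLe hCB θ.1) φ.1) (hφA : InvBy A φ.1) (h : ExtTo θ.1 (B ⊔ A)) :
    ExtTo φ.1 A := by
  classical
  haveI := Fintype.ofFinite B
  haveI := Fintype.ofFinite S
  obtain ⟨ρ, hρ, htr⟩ := exists_modRep hM hB θ
  haveI : Nonempty (Fin (charDegree θ.1)) := ⟨⟨0, irr_degree_pos θ⟩⟩
  have hBk := natCast_resF_ne_zero hM hB
  obtain ⟨hBA, η, hη, hηθ⟩ := h
  obtain ⟨R, hR, -⟩ := exists_modRep_ext hM hB hρ htr (inclusion hBA) hη (congrFun hηθ)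
  obtain ⟨hBS, ξ, hξ, hξθ⟩ := extTo_sup_of_isPGroup hS hSB hB hθS
  obtain ⟨σ₀, hσ₀, -⟩ := exists_modRep_ext hM hB hρ htr (inclusion hBS) hξ (congrFun hξθ)
  let σ : S →* Matrix _ _ (ResF hM) := σ₀.comp (inclusion le_sup_left)
  let β : S →* MulAut B := B.normalizerMonoidHom.comp (inclusion hSB)
  have hβ : ∀ (x : S) (b : B), (β x b : Γ) = x * b * (x : Γ)⁻¹ := fun x b => rfl
  have hσ : ∀ x b, σ x * ρ b = ρ (β x b) * σ x := fun x b =>
    ext_mul_rep hBS hσ₀ (inclusion le_sup_left x) (hSB x.2) b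
  obtain ⟨a, ha⟩ := hS.exists_card_eq
  have hσa : ∀ x, σ x ^ p ^ a = 1 := fun x => by rw [← map_pow, ← ha, pow_card_eq_one', map_one]
  have hβ1 : ∀ x : S, (x : Γ) ∈ centralizer (B : Set Γ) → β x = 1 := fun x hx => by
    ext b
    rw [hβ, ← mem_centralizer_iff.1 hx b b.2, mul_inv_cancel_right]; rfl
  have hσ1 : ∀ x : S, (x : Γ) ∈ centralizer (B : Set Γ) → σ x = 1 := fun x hx =>
    hρ.eq_of_pow_eq_one (V' := 1) (mul_one 1) (hσ x) (fun b => by rw [hβ1 x hx]; simp) (hσa x)
      (one_pow _)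
  have hcs : ∀ x y : S, ((⁅x, y⁆ : S) : Γ) ∈ centralizer (B : Set Γ) := fun x y =>
    hcomm (commutator_mem_commutator x.2 y.2)
  have hσc : ∀ x y, Commute (σ x) (σ y) := fun x y => by
    have h1 : x * y = ⁅x, y⁆ * (y * x) := by rw [commutatorElement_def]; group
    rw [Commute, SemiconjBy, ← map_mul, h1, map_mul, hσ1 _ (hcs x y), one_mul, map_mul]
  have hβc : ∀ x y, Commute (β x) (β y) := fun x y => by
    have h1 : x * y = ⁅x, y⁆ * (y * x) := by rw [commutatorElement_def]; group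
    rw [Commute, SemiconjBy, ← map_mul, h1, map_mul, hβ1 _ (hcs x y), one_mul, map_mul]
  have hCS : C ≤ centralizer (S : Set Γ) := hC ▸ inf_le_right
  have hCS' : ∀ (c : C.subgroupOf A) (x : S), (x : Γ) * (c : A) = (c : A) * x := fun c x =>
    mem_centralizer_iff.1 (hCS c.2) x x.2
  have hAC : A ≤ normalizer (C : Set Γ) :=
    hC ▸ le_normalizer_inf hAB (le_normalizer_centralizer hAS)
  haveI := normal_subgroupOf_of_le_normalizer hAC
  haveI := Fintype.ofFinite (C.subgroupOf A)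
  have hcard : Nat.card (C.subgroupOf A) = Nat.card C :=
    Nat.card_congr (subgroupOfEquivOfLe hCA).toEquiv
  have hCp : ¬ p ∣ Nat.card (C.subgroupOf A) := fun h =>
    hB (h.trans (hcard ▸ card_dvd_of_le hCB))
  have hCk := natCast_resF_ne_zero hM hCp
  obtain ⟨E⟩ := nonempty_centralExt (C.subgroupOf A) (irrOf hCA φ)
    (forall_smul_iff.1 fun t => (smul_irrOf_eq_iff hCA).2 (hφA t t.2))
  obtain ⟨τ, hτ, htrτ⟩ := exists_modRep hM hCp (irrOf hCA φ)
  haveI : NeZero (charDegree (irrOf hCA φ).1) := ⟨(irr_degree_pos _).ne'⟩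
  have hdeg : ¬ p ∣ charDegree (irrOf hCA φ).1 := fun h => hCp (h.trans (irr_degree_dvd_card _))
  have hlamp : ¬ p ∣ charDegree (irrOf hCA φ).1 * detOrder (irrOf hCA φ).1 := fun h =>
    (hp.out.dvd_mul.1 h).elim hdeg fun h => hCp (h.trans (detOrder_dvd_card _))
  have hlam : ∀ z : E.π.ker, (E.lam z : ℂ) ^ (charDegree (irrOf hCA φ).1 *
      detOrder (irrOf hCA φ).1) = 1 := fun z => by
    rw [← Units.val_pow_eq_pow_val, E.lam_pow, Units.val_one]
  have hlamm : ∀ z : E.π.ker, (E.lam z : ℂ) ∈ locRing hM := fun z =>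
    mem_locRing_of_isIntegral hM (isIntegral_of_pow_eq_one
      (fun h0 => hlamp (by rw [h0]; exact dvd_zero p)) (hlam z))
  obtain ⟨t, ht, htz⟩ := exists_modRep_ext hM hCp hτ htrτ E.ι (irr_isCharacter E.τ) E.τ_ι
  have htz' : ∀ z : E.π.ker, t z = red hM (E.lam z) • 1 := fun z => htz z _ (hlamm z) fun g => by
    rw [mem_center_iff.1 (E.ker_le z.2) g, E.τ_ker_mul]
  let jC : C.subgroupOf A →* B := (inclusion hCB).comp (subgroupOfEquivOfLe hCA).toMonoidHom
  have hjC : ∀ c, (jC c : Γ) = (c : A) := fun c => rfl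
  let T := fsec τ (ρ.comp jC)
  have hT : ∀ s s', T s * T s' = T (s * s') := fsec_mul hτ hCk
  let R' : A →* Matrix _ _ (ResF hM) := R.comp (inclusion le_sup_right)
  let α : A →* MulAut B := B.normalizerMonoidHom.comp (inclusion hAB)
  have hα : ∀ (x : A) (b : B), (α x b : Γ) = x * b * (x : Γ)⁻¹ := fun x b => rfl
  have hR' : ∀ x b, R' x * ρ b = ρ (α x b) * R' x := fun x b =>
    ext_mul_rep hBA hR (inclusion le_sup_right x) (hAB x.2) b
  have hRT : ∀ (g : E.Γ) s, R' (E.π g) * T s = T (t g * s * t g⁻¹) * R' (E.π g) := fun g s =>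
    mul_fsec (MulAut.conjNormal (E.π g)) (by rw [← map_mul, inv_mul_cancel, map_one])
      (fun c => hR' _ (jC c))
      (fun c => by rw [← ht, ← ht, ← map_mul, ← map_mul, ← E.conj_ι, inv_mul_cancel_right]) s
  have hσT : ∀ x s, σ x * T s = T s * σ x := fun x s => by
    have := mul_fsec (τ := τ) (ρ := ρ.comp jC) (U := σ x) (V := 1) (V' := 1) (MulEquiv.refl _)
      (mul_one 1) (fun c => (hσ x (jC c)).trans (by
        rw [show β x (jC c) = jC c from Subtype.ext (by
          rw [hβ, hjC, hCS' c x, mul_inv_cancel_right])]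
        rfl)) (fun c => by rw [one_mul, mul_one]; rfl) s
    rwa [one_mul, mul_one] at this
  let γ : A →* MulAut S := S.normalizerMonoidHom.comp (inclusion hAS)
  have hγ : ∀ (g : A) (x : S), (γ g x : Γ) = g * x * (g : Γ)⁻¹ := fun g x => rfl
  have hRσ : ∀ g x, R' g * σ x = σ (γ g x) * R' g := fun g x => by
    have hi : R' g⁻¹ * R' g = 1 := by rw [← map_mul, inv_mul_cancel, map_one]
    have hi' : R' g * R' g⁻¹ = 1 := by rw [← map_mul, mul_inv_cancel, map_one]
    have h1 : R' g * σ x * R' g⁻¹ = σ (γ g x) := by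
      refine hρ.eq_of_pow_eq_one (V' := σ (γ g x)⁻¹) (by rw [← map_mul, inv_mul_cancel, map_one])
        (fun b => ?_) (hσ _) ?_ (hσa _)
      · rw [mul_assoc, hR', ← mul_assoc, mul_assoc (R' g), hσ, ← mul_assoc, hR']
        simp only [mul_assoc]
        congr 2
        apply Subtype.ext
        rw [hα, hβ, hα, hβ, hγ]
        simp [mul_assoc]
      · have h2 : ∀ n : ℕ, (R' g * σ x * R' g⁻¹) ^ n = R' g * σ x ^ n * R' g⁻¹ := fun n => by
          induction n with
          | zero => rw [pow_zero, pow_zero, mul_one, hi']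
          | succ n ih =>
            rw [pow_succ, ih, pow_succ]
            simp only [mul_assoc]
            rw [← mul_assoc (R' g⁻¹), hi, one_mul]
        rw [h2, hσa, mul_one, hi']
    rw [← h1, mul_assoc, hi, mul_one]
  obtain ⟨r, X, Y, hXY, hYX⟩ := exists_factor_of_idem (E := T (single 0 0 1)) (by
    rw [hT, single_mul_single_same, mul_one])
  set F := T (single 0 0 1) with hF
  have hFX : F * X = X := by rw [← hXY, Matrix.mul_assoc, hYX, Matrix.mul_one]
  have hYF : Y * F = Y := by rw [← hXY, ← Matrix.mul_assoc, hYX, Matrix.one_mul]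
  have cutL : ∀ {U : Matrix _ _ (ResF hM)} (V : Matrix _ _ (ResF hM)), U * F = F * U →
      Y * U * X * (Y * V * X) = Y * (U * V) * X := fun {U} V h => by
    calc Y * U * X * (Y * V * X) = Y * (U * (X * Y)) * V * X := by simp only [Matrix.mul_assoc]
      _ = _ := by rw [hXY, h, ← Matrix.mul_assoc Y, hYF, Matrix.mul_assoc Y]
  have cutR : ∀ (U : Matrix _ _ (ResF hM)) {V : Matrix _ _ (ResF hM)}, V * F = F * V →
      Y * U * X * (Y * V * X) = Y * (U * V) * X := fun U {V} h => by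
    calc Y * U * X * (Y * V * X) = Y * U * ((X * Y) * V * X) := by simp only [Matrix.mul_assoc]
      _ = _ := by rw [hXY, ← h, Matrix.mul_assoc V, hFX]; simp only [Matrix.mul_assoc]
  have hσF : ∀ x, σ x * F = F * σ x := fun x => hσT x _
  have hr : ¬ p ∣ Fintype.card (Fin r) := by
    intro h0
    have h1 : F.trace = 0 := by
      rw [← hXY, trace_mul_comm, hYX, trace_one]
      exact (CharP.cast_eq_zero_iff _ p _).2 h0
    have h2 := card_mul_trace_fsec (ρ := ρ.comp jC) hτ hCk 0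
    rw [show (fsec τ (ρ.comp jC) (single 0 0 1)).trace = 0 from h1, mul_zero, fsec_apply,
      trace_sum] at h2
    simp only [trace_smul, mul_one, htrτ, MonoidHom.comp_apply, htr, smul_eq_mul, mul_assoc,
      ← Finset.mul_sum] at h2
    have hm1 := character_mem_locRing hM (irr_isCharacter (irrOf hCA φ))
    have hm2 := character_mem_locRing hM (irr_isCharacter θ)
    have hch : IsCharacter _ (fun c => θ.1 (jC c)) := (irr_isCharacter θ).comp jC
    have h3 := ip_eq_sum_inv (fun c => θ.1 (jC c)) (irr_isCharacter (irrOf hCA φ))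
    rw [hch.ip_eq_mult (irr_isCharacter _), eq_inv_mul_iff_mul_eq₀ card_cast_ne_zero] at h3
    have h4 := congrArg (red hM) h3
    rw [red_mul hM (natCast_mem _ _) (natCast_mem _ _), red_natCast, red_natCast,
      red_sum hM _ _ fun c _ => mul_mem (hm2 _) (hm1 _),
      Finset.sum_congr rfl fun c _ => (red_mul hM (hm2 _) (hm1 _)).trans (mul_comm _ _)] at h4
    rw [← h4, eq_comm, mul_eq_zero, div_eq_zero_iff, mul_eq_zero, Fintype.card_fin] at h2
    have h5 : mult (fun c => θ.1 (jC c)) (irrOf hCA φ).1 = mult (resLe hCB θ.1) φ.1 := by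
      unfold mult
      congr 2
      exact ip_comp_mulEquiv (subgroupOfEquivOfLe hCA) (resLe hCB θ.1) φ.1
    rcases h2 with (h2 | h2) | h2 | h2
    · exact natCast_resF_ne_zero hM hdeg h2
    · exact hCk h2
    · exact hCk h2
    · exact natCast_resF_ne_zero hM (h5 ▸ hφ) h2
  let Φ : Matrix (Fin r) (Fin r) (ResF hM) →ₗ[ResF hM] B → ResF hM :=
    { toFun := fun Z b => (Fintype.card (Fin (charDegree θ.1)) : ResF hM) / Nat.card B *
        (ρ b⁻¹ * (X * Z * Y)).trace
      map_add' := fun Z Z' => funext fun b => by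
        simp only [Matrix.mul_add, Matrix.add_mul, trace_add, mul_add, Pi.add_apply]
      map_smul' := fun c Z => funext fun b => by
        simp only [Matrix.mul_smul, Matrix.smul_mul, trace_smul, smul_eq_mul, RingHom.id_apply,
          Pi.smul_apply, mul_left_comm] }
  have hΦ : ∀ Z b, Φ Z b = (Fintype.card (Fin (charDegree θ.1)) : ResF hM) / Nat.card B *
      (ρ b⁻¹ * (X * Z * Y)).trace := fun Z b => rfl
  have hσi : ∀ x, σ x⁻¹ * σ x = 1 := fun x => by rw [← map_mul, inv_mul_cancel, map_one]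
  have hσi' : ∀ x, σ x * σ x⁻¹ = 1 := fun x => by rw [← map_mul, mul_inv_cancel, map_one]
  have hEP : LG.EndoPerm p (fun x : S => Y * σ x * X) (fun x => Y * σ x⁻¹ * X)
      (fun x => (β x).toEquiv) (fun b => Y * ρ b * X) Φ :=
    { comm := fun x y => by
        rw [Commute, SemiconjBy, cutL _ (hσF x), cutL _ (hσF y), (hσc x y).eq]
      pow := fun x => by
        have h1 : ∀ n : ℕ, (Y * σ x * X) ^ n = Y * σ (x ^ n) * X := fun n => by
          induction n with
          | zero => rw [pow_zero, pow_zero, map_one, Matrix.mul_one, hYX]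
          | succ n ih => rw [pow_succ, ih, cutR _ (hσF x), ← map_mul, pow_succ]
        rw [h1, hσ1 _ (hpow x x.2), Matrix.mul_one, hYX]
      inv := fun x => by rw [cutR _ (hσF x), hσi, Matrix.mul_one, hYX]
      commτ := fun x y => (hβc x y).map (MulAut.toPerm B)
      powτ := fun x => by
        change MulAut.toPerm B (β x) ^ p = 1
        rw [← map_pow, ← map_pow, hβ1 _ (hpow x x.2), map_one]
      equiv := fun x b => by
        rw [cutL _ (hσF x), cutR _ (hσF x⁻¹), hσ, mul_assoc, hσi', mul_one]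
        rfl
      equiv' := fun x Z b => by
        rw [hΦ, hΦ]
        congr 1
        have h1 : X * (Y * σ x * X * Z * (Y * σ x⁻¹ * X)) * Y = σ x * (X * Z * Y) * σ x⁻¹ := by
          calc X * (Y * σ x * X * Z * (Y * σ x⁻¹ * X)) * Y
              = (X * Y) * σ x * X * Z * (Y * (σ x⁻¹ * (X * Y))) := by
                simp only [Matrix.mul_assoc]
            _ = _ := by
                rw [hXY, ← hσF, hσF x⁻¹, ← Matrix.mul_assoc Y, hYF, Matrix.mul_assoc (σ x), hFX]
                simp only [Matrix.mul_assoc]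
        rw [h1, MulEquiv.toEquiv_eq_coe, EquivLike.coe_coe, ← map_inv, ← mul_assoc, ← mul_assoc,
          ← hσ, trace_mul_comm, ← mul_assoc, ← mul_assoc, hσi, one_mul]
      sec := fun Z => by
        have h1 := congrArg (fun U => Y * U * X) (hρ.fourier hBk (X * Z * Y))
        simp only [Matrix.mul_sum, Matrix.sum_mul, Matrix.mul_smul, Matrix.smul_mul] at h1
        refine h1.trans ?_
        calc Y * (X * Z * Y) * X = (Y * X) * Z * (Y * X) := by simp only [Matrix.mul_assoc]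
          _ = Z := by rw [hYX, Matrix.one_mul, Matrix.mul_one]
      fix := fun b hb => by
        have hbC : (b : Γ) ∈ C := by
          rw [hC]
          refine ⟨b.2, mem_centralizer_iff.2 fun x hx => ?_⟩
          have h1 : (β ⟨x, hx⟩ b : Γ) = b := congrArg Subtype.val (hb ⟨x, hx⟩)
          rw [hβ] at h1
          exact mul_inv_eq_iff_eq_mul.1 h1
        let c : C.subgroupOf A := ⟨⟨b, hCA hbC⟩, hbC⟩
        refine ⟨τ c 0 0, ?_⟩
        have h1 : F * ρ b * F = τ c 0 0 • F := by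
          rw [show ρ b = (ρ.comp jC) c from rfl, hF, fsec_mul_rep, hT, ← map_smul,
            single_mul_mul_single, one_mul, mul_one, smul_single, smul_eq_mul, mul_one]
        calc Y * ρ b * X = Y * (F * ρ b * F) * X := by
              rw [← Matrix.mul_assoc, ← Matrix.mul_assoc, hYF, Matrix.mul_assoc _ F, hFX]
          _ = _ := by rw [h1, Matrix.mul_smul, Matrix.smul_mul, hYF, hYX] }
  let μ : E.Γ → Matrix _ _ (ResF hM) := fun g => R' (E.π g) * T (t g⁻¹)
  have hti : ∀ g, t g⁻¹ * t g = 1 := fun g => by rw [← map_mul, inv_mul_cancel, map_one]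
  have hti' : ∀ g, t g * t g⁻¹ = 1 := fun g => by rw [← map_mul, mul_inv_cancel, map_one]
  have hμT : ∀ g s, μ g * T s = T s * μ g := fun g s => by
    simp only [μ]
    rw [mul_assoc, hT, hRT, hRT, ← mul_assoc (t g), hti', one_mul, one_mul, ← mul_assoc, hT]
  have hT1 : Y * T 1 * X = 1 := by
    rw [← hFX, Matrix.mul_assoc, ← Matrix.mul_assoc (T 1), hF, hT, one_mul, ← hF, hFX, hYX]
  let ψ : E.Γ →* Matrix (Fin r) (Fin r) (ResF hM) :=
    { toFun := fun g => Y * μ g * X
      map_one' := by simp only [μ, inv_one, map_one, one_mul, hT1]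
      map_mul' := fun g h => by
        rw [cutR _ (hμT h _)]
        congr 2
        change R' (E.π (g * h)) * T (t (g * h)⁻¹) = R' (E.π g) * T (t g⁻¹) * μ h
        rw [mul_assoc, ← hμT, _root_.mul_inv_rev, map_mul t, ← hT, map_mul, map_mul]
        simp only [μ, mul_assoc] }
  have hψ : ∀ g, ψ g = Y * μ g * X := fun g => rfl
  letI : MulAction E.Γ S := MulAction.compHom S (γ.comp E.π)
  obtain ⟨ν, hν⟩ := hEP.exists_hom hr ψ fun g x => by
    rw [hψ, cutR _ (hσF _), cutL _ (hσF _)]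
    congr 2
    change R' (E.π g) * T (t g⁻¹) * σ x = σ (γ (E.π g) x) * (R' (E.π g) * T (t g⁻¹))
    rw [mul_assoc, ← hσT, ← mul_assoc, hRσ, mul_assoc]
  obtain ⟨L, m, hm, hL⟩ := exists_lift_units_hom hM ν⁻¹
  have hL1 : ∀ g, (L g : ℂ) ^ m = 1 := fun g => by
    rw [← Units.val_pow_eq_pow_val, (hL g).1, Units.val_one]
  refine (E.exists_extension_of_hom L (fun c => ?_) (fun z => ?_)).elim fun χ hχ =>
    extTo_of_irr hCA ((res_subgroupOf_eq_irrOf_iff hCA).1 hχ.1)
  · have h1 : ν (E.ι c) = 1 := hν _ 1 (fun x => ?_) ?_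
    · apply Units.ext
      refine eq_of_red_eq_of_pow_eq_one hM hm hm (hL1 _) (one_pow m) ?_
      rw [(hL _).2, MonoidHom.inv_apply, h1, inv_one, Units.val_one, Units.val_one, red_one]
    · apply Subtype.ext
      change (γ (E.π (E.ι c)) x : Γ) = x
      rw [hγ, E.π_ι, ← hCS' c x, mul_inv_cancel_right]
    · rw [hψ, Units.val_one, one_smul, ← hT1]
      congr 2
      change R' (E.π (E.ι c)) * T (t (E.ι c)⁻¹) = T 1
      rw [E.π_ι, show R' c = (ρ.comp jC) c from hR (jC c), rep_mul_fsec, ← map_inv, ht,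
        ← map_mul, mul_inv_cancel, map_one]
  · have h0 : red hM (E.lam z⁻¹) * red hM (E.lam z) = 1 := by
      rw [← red_mul hM (hlamm _) (hlamm _), ← Units.val_mul, ← map_mul, inv_mul_cancel, map_one,
        Units.val_one, red_one]
    have hz : E.π z = 1 := z.2
    have h1 : ν z = Units.mk0 _ (left_ne_zero_of_mul_eq_one h0) := hν _ _ (fun x => ?_) ?_
    · apply Units.ext
      refine eq_of_red_eq_of_pow_eq_one hM hm hlamp (hL1 _) (hlam z) ?_
      rw [(hL _).2, MonoidHom.inv_apply, h1, Units.val_inv_eq_inv_val, Units.val_mk0]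
      exact inv_eq_of_mul_eq_one_right h0
    · change γ (E.π z) x = x
      rw [hz, map_one]; rfl
    · rw [hψ, Units.val_mk0, ← hT1, ← Matrix.smul_mul, ← Matrix.mul_smul, ← map_smul]
      congr 2
      change R' (E.π z) * T (t (z : E.Γ)⁻¹) = _
      rw [hz, map_one, one_mul, ← htz' z⁻¹]
      rfl

/-- Dade's theorem: if `θ` extends to `B A`, its Glauberman correspondent extends to `A`. -/
theorem dade_ext (S : Subgroup Γ) : ∀ {B C A : Subgroup Γ},
    IsPGroup p S → S ≤ normalizer (B : Set Γ) → ¬ p ∣ Nat.card B →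
    A ≤ normalizer (B : Set Γ) → A ≤ normalizer (S : Set Γ) →
    C = B ⊓ centralizer (S : Set Γ) → ∀ (hCB : C ≤ B), C ≤ A →
    ∀ {θ : IrrCharacter B}, InvBy S θ.1 → ∀ {φ : IrrCharacter C},
    ModCorr p (resLe hCB θ.1) φ → ExtTo θ.1 (B ⊔ A) → ExtTo φ.1 A := by
  obtain ⟨M, hM⟩ := exists_isPModular hp.out
  induction S using (wellFounded_lt (α := Subgroup Γ)).induction with
  | _ S ih =>
  intro B C A hS hSB hB hAB hAS hC hCB hCA θ hθS φ hφ hext
  by_cases hS1 : S = ⊥
  · have e : C = B := by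
      rw [hC, hS1, (centralizer_eq_top_iff_subset.2 (by simp) :
        centralizer ((⊥ : Subgroup Γ) : Set Γ) = ⊤), inf_top_eq]
    subst e
    rwa [sup_eq_right.2 hCA, ← (modCorr_self p θ).unique hp.out hφ] at hext
  set R := (frattini S).map S.subtype with hR
  have hRS : R < S := by
    refine lt_of_le_of_ne (map_subtype_le _) fun e => ?_
    haveI := (nontrivial_iff_ne_bot S).2 hS1
    have h1 : frattini S = ⊤ := map_injective S.subtype_injective (by
      rw [← hR, e, ← MonoidHom.range_eq_map, range_subtype])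
    exact top_ne_bot (frattini_nongenerating (G := S) (K := ⊥) (by rw [h1, bot_sup_eq])).symm
  have hnorm : ∀ {D : Subgroup Γ}, D ≤ normalizer (S : Set Γ) → D ≤ normalizer (R : Set Γ) :=
    fun h => h.trans (normalizer_le_normalizer_map_subtype S _)
  obtain ⟨B₁, hB₁⟩ : ∃ B₁, B₁ = B ⊓ centralizer (R : Set Γ) := ⟨_, rfl⟩
  have hB₁B : B₁ ≤ B := hB₁ ▸ inf_le_left
  have hAB₁ : A ≤ normalizer (B₁ : Set Γ) :=
    hB₁ ▸ le_normalizer_inf hAB (le_normalizer_centralizer (hnorm hAS))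
  have hSB₁ : S ≤ normalizer (B₁ : Set Γ) :=
    hB₁ ▸ le_normalizer_inf hSB (le_normalizer_centralizer (hnorm le_normalizer))
  have hB₁p : ¬ p ∣ Nat.card B₁ := fun h => hB (h.trans (card_dvd_of_le hB₁B))
  have hC₁ : C = B₁ ⊓ centralizer (S : Set Γ) := by
    rw [hC, hB₁, inf_assoc, ← centralizer_sup, sup_eq_right.2 hRS.le]
  have hCB₁ : C ≤ B₁ := hC₁ ▸ inf_le_left
  have hRp : IsPGroup p R := hS.to_le hRS.le
  have hRB : R ≤ normalizer (B : Set Γ) := hRS.le.trans hSB
  obtain ⟨θ₁, hθ₁⟩ := (glaubP_of_isPGroup hp.out hRp hRB hB hB₁ hB₁B).ex θ (hθS.mono hRS.le)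
  have hθ₁S : InvBy S θ₁.1 := hθ₁.invBy hp.out hSB₁ (hθS.resLe hB₁B)
  obtain ⟨φ₁, hφ₁⟩ := (glaubP_of_isPGroup hp.out hS hSB₁ hB₁p hC₁ hCB₁).ex θ₁ hθ₁S
  have e : φ₁ = φ :=
    hφ.unique hp.out (hθ₁.comp ((irr_isCharacter θ).resLe hB₁B) (inclusion hCB₁) hφ₁)
  subst e
  have h1 := ih R hRS hRp hRB hB (sup_le (hB₁B.trans le_normalizer) hAB)
    (sup_le (le_normalizer_of_le_centralizer (hB₁ ▸ inf_le_right)) (hnorm hAS)) hB₁ hB₁B
    le_sup_left (hθS.mono hRS.le) hθ₁ (by rwa [← sup_assoc, sup_eq_left.2 hB₁B])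
  have hRB₁ : R ≤ centralizer (B₁ : Set Γ) := le_centralizer_iff.1 (hB₁ ▸ inf_le_right)
  have hθA : InvBy A θ.1 := by
    obtain ⟨h, η, hη, e⟩ := hext
    exact e ▸ ((invBy_self hη.isClassFunction).mono le_sup_right).resLe h
  have hAC : A ≤ normalizer (C : Set Γ) :=
    hC ▸ le_normalizer_inf hAB (le_normalizer_centralizer hAS)
  refine dade_base hM hS hSB₁ hB₁p hAB₁ hAS hC₁ hCB₁ hCA
    (fun x hx => hRB₁ ⟨⟨x, hx⟩ ^ p, pow_mem_frattini hS _, rfl⟩) (le_trans ?_ hRB₁) hθ₁S
    (hφ₁.not_dvd hp.out) (hφ.invBy hp.out hAC (hθA.resLe hCB)) h1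
  rw [← map_subtype_commutator]
  exact map_mono ((frattini_le_iff hS).1 le_rfl).1

/-- The Brauer map on idempotents of characters of a `p'`-group is the Glauberman
correspondence. -/
theorem modCorr_of_br_sidem {N C P : Subgroup Γ} (hP : IsPGroup p P)
    (hPN : P ≤ normalizer (N : Set Γ)) (hN : ¬ p ∣ Nat.card N)
    (hC : C = N ⊓ centralizer (P : Set Γ)) (hCN : C ≤ N) {θ : IrrCharacter N} (hθ : InvBy P θ.1)
    {φ : IrrCharacter C} (hbr : br P (sidem hM N {θ}) = sidem hM C {φ}) :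
    ModCorr p (resLe hCN θ.1) φ := by
  classical
  obtain ⟨φ', h⟩ := (glaubP_of_isPGroup hp.out hP hPN hN hC hCN).ex θ hθ
  by_contra hne
  have hne' : φ' ≠ φ := fun e => hne (e ▸ h)
  haveI := Fintype.ofFinite C
  have hCp : ¬ p ∣ Nat.card C := fun h => hN (h.trans (card_dvd_of_le hCN))
  have hch := (irr_isCharacter θ).resLe hCN
  have h1 : ∀ c : C, red hM ((Nat.card N : ℂ)⁻¹ * (θ.1 1 * resLe hCN θ.1 c⁻¹)) =
      red hM ((Nat.card C : ℂ)⁻¹ * (φ.1 1 * φ.1 c⁻¹)) := fun c => by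
    have h2 := congrArg (fun a => a.coeff (c : Γ)) hbr
    rw [coeff_br_of_mem _ ((hC ▸ inf_le_right : C ≤ _) c.2), coeff_sidem, coeff_sidem] at h2
    unfold subgroupBlockCoeff at h2
    rw [dif_pos (hCN c.2), dif_pos c.2, blockCoeff_singleton, blockCoeff_singleton] at h2
    rw [hch.apply_inv, (irr_isCharacter φ).apply_inv]
    exact h2
  have hm := character_mem_locRing hM hch
  have hm1 := character_mem_locRing hM (irr_isCharacter φ)
  have hm2 := character_mem_locRing hM (irr_isCharacter φ')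
  have hm3 := character_mem_locRing hM (irr_isCharacter θ) 1
  have hi1 := inv_natCast_mem_locRing hM hN
  have hi2 := inv_natCast_mem_locRing hM hCp
  have h3 : red hM (∑ c, φ'.1 c * ((Nat.card N : ℂ)⁻¹ * (θ.1 1 * resLe hCN θ.1 c⁻¹))) =
      red hM (∑ c, φ'.1 c * ((Nat.card C : ℂ)⁻¹ * (φ.1 1 * φ.1 c⁻¹))) := by
    rw [red_sum hM _ _ fun c _ => mul_mem (hm2 _) (mul_mem hi1 (mul_mem hm3 (hm _))),
      red_sum hM _ _ fun c _ => mul_mem (hm2 _) (mul_mem hi2 (mul_mem (hm1 _) (hm1 _)))]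
    refine Finset.sum_congr rfl fun c _ => ?_
    rw [red_mul hM (hm2 _) (mul_mem hi1 (mul_mem hm3 (hm _))),
      red_mul hM (hm2 _) (mul_mem hi2 (mul_mem (hm1 _) (hm1 _))), h1]
  have h4 : ∑ c, φ'.1 c * ((Nat.card C : ℂ)⁻¹ * (φ.1 1 * φ.1 c⁻¹)) = 0 := by
    have h5 := ip_eq_sum_inv φ'.1 (irr_isCharacter φ)
    rw [ip_irr_ne hne'] at h5
    rw [← mul_zero (φ.1 1), h5, Finset.mul_sum, Finset.mul_sum]
    exact Finset.sum_congr rfl fun c _ => by ring
  have h5 : ∑ c, φ'.1 c * ((Nat.card N : ℂ)⁻¹ * (θ.1 1 * resLe hCN θ.1 c⁻¹)) =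
      ((charDegree θ.1 * (Nat.card C * mult (resLe hCN θ.1) φ'.1) : ℕ) : ℂ) / Nat.card N := by
    have h5 := ip_eq_sum_inv φ'.1 hch
    rw [← conj_ip, hch.ip_eq_mult (irr_isCharacter _), map_natCast,
      eq_inv_mul_iff_mul_eq₀ card_cast_ne_zero] at h5
    rw [Nat.cast_mul, Nat.cast_mul, h5, ← irr_apply_one, Finset.mul_sum, Finset.sum_div]
    exact Finset.sum_congr rfl fun c _ => by ring
  rw [h4, h5, red_zero, red_div_natCast hM (natCast_mem _ _) hN, red_natCast, div_eq_zero_iff] at h3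
  refine h3.elim (natCast_resF_ne_zero hM fun h6 => ?_) (natCast_resF_ne_zero hM hN)
  rcases hp.out.dvd_mul.1 h6 with h7 | h7
  · exact hN (h7.trans (irr_degree_dvd_card θ))
  · exact (hp.out.dvd_mul.1 h7).elim hCp (h.not_dvd hp.out)

/-- Dade's theorem, with the correspondence expressed by the Brauer map. -/
theorem dade_ext_br {N C H P : Subgroup Γ} (hP : IsPGroup p P) (hN : ¬ p ∣ Nat.card N)
    (hPH : P ≤ H) (hHN : H ≤ normalizer (N : Set Γ)) (hHP : H ≤ normalizer (P : Set Γ))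
    (hC : C = N ⊓ centralizer (P : Set Γ)) (hCH : C ≤ H) {θ : IrrCharacter N}
    {φ : IrrCharacter C} (hbr : br P (sidem hM N {θ}) = sidem hM C {φ})
    (h : ExtTo θ.1 (N ⊔ H)) : ExtTo φ.1 H := by
  have hθ : InvBy P θ.1 := by
    obtain ⟨h, η, hη, e⟩ := h
    exact e ▸ ((invBy_self hη.isClassFunction).mono (hPH.trans le_sup_right)).resLe h
  have hCN : C ≤ N := hC ▸ inf_le_left
  exact dade_ext P hP (hPH.trans hHN) hN hHN hHP hC hCN hCH hθ
    (modCorr_of_br_sidem hM hP (hPH.trans hHN) hN hC hCN hθ hbr) h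

end CT
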