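import Cfsg.Agent.Lib.Char.Values
import Cfsg.Agent.Lib.Char.Quot
import Cfsg.Agent.Lib.Char.Omega
import Cfsg.Agent.Lib.Char.Clifford
import Cfsg.Agent.Lib.Grp.PPart
import Cfsg.Agent.Lib.Grp.SylowIn
import Cfsg.Agent.Lib.Grp.Core
import Cfsg.Agent.Lib.Grp.MinNormal
import Cfsg.Agent.Lib.Grp.BaerSuzuki

/-!
# Characters vanishing on all but two conjugacy classes (Gagola)
-/

set_option autoImplicit false
set_option linter.unusedSectionVars false
set_option linter.style.haveILetI false

namespace CT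

open Cfsg
open scoped ComplexConjugate Pointwise

variable {G : Type*} [Group G] [Finite G]

/-- The basic configuration of a Gagola character. -/
structure IsGagola (χ : IrrCharacter G) (N : Subgroup G) : Prop where
  two_lt : 2 < Nat.card G
  normal : N.Normal
  ne_bot : N ≠ ⊥
  mem_iff : ∀ g, g ∈ N ↔ χ.1 g ≠ 0
  isConj : ∀ x ∈ N, ∀ y ∈ N, x ≠ 1 → y ≠ 1 → IsConj x y
  le_ker : ∀ ψ : IrrCharacter G, ψ ≠ χ → N ≤ ker ψ.1
  not_le_ker : ¬ N ≤ ker χ.1

theorem exists_of_card_classes_eq_two (χ : IrrCharacter G)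
    (hχ : Nat.card {C : ConjClasses G // ∃ g ∈ C.carrier, χ.1 g ≠ 0} = 2) :
    ∃ x : G, x ≠ 1 ∧ ∀ g, χ.1 g ≠ 0 ↔ g = 1 ∨ IsConj x g := by
  let c1 : {C : ConjClasses G // ∃ g ∈ C.carrier, χ.1 g ≠ 0} :=
    ⟨ConjClasses.mk 1, 1, ConjClasses.mem_carrier_mk, irr_apply_one_ne_zero χ⟩
  obtain ⟨⟨C, x, hxC, hx⟩, hne, huniq⟩ := (Nat.card_eq_two_iff' c1).1 hχ
  have hCx : C = ConjClasses.mk x := (ConjClasses.mem_carrier_iff_mk_eq.1 hxC).symm
  subst hCx
  refine ⟨x, ?_, fun g => ⟨fun hg => ?_, ?_⟩⟩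
  · rintro rfl
    exact hne rfl
  · by_cases h1 : g = 1
    · exact Or.inl h1
    · right
      have := huniq ⟨ConjClasses.mk g, g, ConjClasses.mem_carrier_mk, hg⟩ (by
        intro h
        have h2 : ConjClasses.mk g = ConjClasses.mk 1 := congrArg Subtype.val h
        exact h1 (isConj_one_left.1 (ConjClasses.mk_eq_mk_iff_isConj.1 h2)))
      have h2 : ConjClasses.mk g = ConjClasses.mk x := congrArg Subtype.val this
      exact ConjClasses.mk_eq_mk_iff_isConj.1 h2.symm
  · rintro (rfl | h)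
    · exact irr_apply_one_ne_zero χ
    · rwa [← (irr_isClassFunction χ).of_isConj h]

theorem exists_isGagola (hG : 2 < Nat.card G) (χ : IrrCharacter G)
    (hχ : Nat.card {C : ConjClasses G // ∃ g ∈ C.carrier, χ.1 g ≠ 0} = 2) :
    ∃ N, IsGagola χ N := by
  classical
  obtain ⟨x, hx1, hx⟩ := exists_of_card_classes_eq_two χ hχ
  haveI := Fintype.ofFinite G
  set K : Finset G := Finset.univ.filter (fun g => IsConj x g) with hK
  have h1K : (1 : G) ∉ K := by
    simp only [hK, Finset.mem_filter, Finset.mem_univ, true_and]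
    exact fun h => hx1 (isConj_one_left.1 h)
  have hsum : ∀ θ : G → ℂ, IsClassFunction G θ →
      ∑ g : G, θ g * conj (χ.1 g) = θ 1 * conj (χ.1 1) + K.card * (θ x * conj (χ.1 x)) := by
    intro θ hθ
    rw [← Finset.sum_subset (Finset.subset_univ (insert 1 K))]
    · rw [Finset.sum_insert h1K, Finset.sum_congr rfl (g := fun _ => θ x * conj (χ.1 x))]
      · simp
      · intro g hg
        have hg' : IsConj x g := by simpa [hK] using hg
        rw [hθ.of_isConj hg', (irr_isClassFunction χ).of_isConj hg']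
    · intro g _ hg
      have : χ.1 g = 0 := by
        by_contra h
        rcases (hx g).1 h with rfl | h'
        · exact hg (Finset.mem_insert_self _ _)
        · exact hg (Finset.mem_insert_of_mem (by simpa [hK] using h'))
      simp [this]
  have hKcard : K.card = (Subgroup.centralizer ({x} : Set G)).index := by
    rw [← card_conj_eq_index, Nat.card_eq_fintype_card, Fintype.card_subtype]
  have hne1 : irrOne G ≠ χ := by
    intro h
    have hall : ∀ g : G, g ∈ insert 1 K := by
      intro g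
      rcases (hx g).1 (by rw [← h]; simp) with rfl | h'
      · exact Finset.mem_insert_self _ _
      · exact Finset.mem_insert_of_mem (by simpa [hK] using h')
    have hc : K.card + 1 = Nat.card G := by
      rw [← Finset.card_insert_of_notMem h1K, Nat.card_eq_fintype_card, ← Finset.card_univ]
      congr 1
      exact Finset.eq_univ_iff_forall.2 hall
    have hd : K.card ∣ Nat.card G := hKcard ▸ Subgroup.index_dvd_card _
    rw [← hc] at hd hG
    have := Nat.le_of_dvd one_pos ((Nat.dvd_add_right dvd_rfl).1 hd)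
    omega
  have horth : ∀ ψ : IrrCharacter G, ψ ≠ χ →
      ψ.1 1 * conj (χ.1 1) + K.card * (ψ.1 x * conj (χ.1 x)) = 0 := by
    intro ψ hψ
    have h := ip_irr_ne hψ
    rw [ip_def, hsum _ (irr_isClassFunction ψ)] at h
    exact (mul_eq_zero.1 h).resolve_left (inv_ne_zero card_cast_ne_zero)
  have hxker : ∀ ψ : IrrCharacter G, ψ ≠ χ → ψ.1 x = ψ.1 1 := by
    intro ψ hψ
    have h1 := horth _ hne1
    have h2 := horth _ hψ
    simp only [irrOne_apply, one_mul] at h1
    have h3 : conj (χ.1 1) ≠ 0 := by simpa using irr_apply_one_ne_zero χ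
    apply mul_right_cancel₀ h3
    linear_combination ψ.1 x * h1 - h2
  let N : Subgroup G := ⨅ ψ : {ψ : IrrCharacter G // ψ ≠ χ}, ker ψ.1.1
  have hNmem : ∀ g, g ∈ N ↔ ∀ ψ : IrrCharacter G, ψ ≠ χ → ψ.1 g = ψ.1 1 := by
    intro g
    simp only [N, Subgroup.mem_iInf, Subtype.forall, irr_mem_ker_iff]
  have hNn : N.Normal := Subgroup.normal_iInf_normal fun ψ => inferInstance
  have hmem : ∀ g, g ∈ N ↔ χ.1 g ≠ 0 := by
    intro g
    constructor
    · intro hg h0
      have hg1 : g ≠ 1 := by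
        rintro rfl
        exact irr_apply_one_ne_zero χ h0
      have h := sum_irr_degree_mul g
      rw [if_neg hg1, ← Finset.add_sum_erase _ _ (Finset.mem_univ χ), h0, mul_zero, zero_add,
        Finset.sum_congr rfl (g := fun ψ => ((charDegree ψ.1 ^ 2 : ℕ) : ℂ))] at h
      · rw [← Nat.cast_sum, Nat.cast_eq_zero, Finset.sum_eq_zero_iff] at h
        have := h (irrOne G) (Finset.mem_erase.2 ⟨hne1, Finset.mem_univ _⟩)
        exact (irr_degree_pos (irrOne G)).ne' (pow_eq_zero_iff two_ne_zero |>.1 this)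
      · intro ψ hψ
        rw [(hNmem g).1 hg ψ (Finset.mem_erase.1 hψ).1, irr_apply_one]
        push_cast
        ring
    · intro hg
      rcases (hx g).1 hg with rfl | h
      · exact N.one_mem
      · refine (hNmem g).2 fun ψ hψ => ?_
        rw [← (irr_isClassFunction ψ).of_isConj h, hxker ψ hψ]
  have hxN : x ∈ N := (hNmem x).2 hxker
  refine ⟨N, hG, hNn, ?_, hmem, ?_, ?_, ?_⟩
  · intro h
    rw [h] at hxN
    exact hx1 (Subgroup.mem_bot.1 hxN)
  · intro a ha b hb ha1 hb1
    have h1 := ((hx a).1 ((hmem a).1 ha)).resolve_left ha1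
    have h2 := ((hx b).1 ((hmem b).1 hb)).resolve_left hb1
    exact h1.symm.trans h2
  · intro ψ hψ g hg
    exact (irr_mem_ker_iff ψ).2 ((hNmem g).1 hg ψ hψ)
  · intro h
    apply hx1
    apply eq_one_of_forall_irr
    intro ψ
    by_cases hψ : ψ = χ
    · rw [hψ]
      exact (irr_mem_ker_iff χ).1 (h hxN)
    · exact hxker ψ hψ

theorem isGagola_of_mem_iff (hG : 2 < Nat.card G) (χ : IrrCharacter G)
    (hχ : Nat.card {C : ConjClasses G // ∃ g ∈ C.carrier, χ.1 g ≠ 0} = 2) {N : Subgroup G}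
    (hN : ∀ g : G, g ∈ N ↔ χ.1 g ≠ 0) : IsGagola χ N := by
  obtain ⟨M, hM⟩ := exists_isGagola hG χ hχ
  have : N = M := by
    ext g
    rw [hN, hM.mem_iff]
  rwa [this]

namespace IsGagola

variable {χ : IrrCharacter G} {N : Subgroup G} (h : IsGagola χ N)
include h

theorem apply_eq_zero {g : G} (hg : g ∉ N) : χ.1 g = 0 := by
  by_contra h0
  exact hg ((h.mem_iff g).2 h0)

theorem le_of_normal (K : Subgroup G) [K.Normal] (hK : K ≠ ⊥) : N ≤ K := by
  have hχK : ¬ K ≤ ker χ.1 := by
    intro hle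
    obtain ⟨⟨k, hk⟩, hk1⟩ := Subgroup.ne_bot_iff_exists_ne_one.1 hK
    have hk1' : k ≠ 1 := fun e => hk1 (Subtype.ext e)
    have hkN : k ∈ N := (h.mem_iff k).2 (by
      rw [(irr_mem_ker_iff χ).1 (hle hk)]
      exact irr_apply_one_ne_zero χ)
    apply h.not_le_ker
    intro n hn
    by_cases hn1 : n = 1
    · rw [hn1]; exact one_mem _
    · obtain ⟨c, hc⟩ := isConj_iff.1 (h.isConj k hkN n hn hk1' hn1)
      rw [← hc]
      exact (irr_ker_normal χ).conj_mem _ (hle hk) c
  intro n hn
  refine (mem_normal_iff_forall_irr K).2 fun ψ hψ => ?_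
  have : ψ ≠ χ := by
    rintro rfl
    exact hχK hψ
  exact h.le_ker ψ this hn

theorem isMinNormal : GT.IsMinNormal N :=
  ⟨h.normal, h.ne_bot, fun K _ hKN hK1 => le_antisymm hKN (h.le_of_normal K hK1)⟩

theorem exists_mem_ne_one : ∃ x ∈ N, x ≠ 1 := by
  obtain ⟨⟨k, hk⟩, hk1⟩ := Subgroup.ne_bot_iff_exists_ne_one.1 h.ne_bot
  exact ⟨k, hk, fun e => hk1 (Subtype.ext e)⟩

theorem exists_isPGroup : ∃ p : ℕ, p.Prime ∧ IsPGroup p N := by
  obtain ⟨x, hx, hx1⟩ := h.exists_mem_ne_one
  have ho : orderOf x ≠ 1 := fun e => hx1 (orderOf_eq_one_iff.1 e)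
  obtain ⟨p, hp, hpd⟩ := Nat.exists_prime_and_dvd ho
  haveI : Fact p.Prime := ⟨hp⟩
  refine ⟨p, hp, GT.isPGroup_iff_forall_isPElt.2 fun g hg => ?_⟩
  by_cases hg1 : g = 1
  · rw [hg1]; exact GT.isPElt_one
  · have h1 : GT.pPart p x ≠ 1 := GT.pPart_ne_one_iff.2 hpd
    exact (GT.isPElt_pPart p x).of_isConj (h.isConj _ (GT.pPart_mem p hx) g hg h1 hg1)

theorem ker_eq_bot : ker χ.1 = ⊥ := by
  by_contra hk
  exact h.not_le_ker (h.le_of_normal _ hk)

theorem eq_of_ker_eq_bot {ψ : IrrCharacter G} (hψ : ker ψ.1 = ⊥) : ψ = χ := by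
  by_contra hne
  exact h.ne_bot (le_bot_iff.1 (hψ ▸ h.le_ker ψ hne))

theorem isMulCommutative : IsMulCommutative N := by
  obtain ⟨p, hp, hN⟩ := h.exists_isPGroup
  haveI : Fact p.Prime := ⟨hp⟩
  exact (h.isMinNormal.isElementaryAbelian_of_isPGroup hN).1

theorem mul_comm {a b : G} (ha : a ∈ N) (hb : b ∈ N) : a * b = b * a :=
  GT.isMulCommutative_iff_forall.1 h.isMulCommutative a ha b hb

/-- Camina property. -/
theorem isConj_mul {y n : G} (hy : y ∉ N) (hn : n ∈ N) : IsConj y (y * n) := by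
  refine isConj_iff_forall_irr.2 fun ψ => ?_
  by_cases hψ : ψ = χ
  · rw [hψ, h.apply_eq_zero hy, h.apply_eq_zero]
    intro hyn
    exact hy (by simpa using N.mul_mem hyn (N.inv_mem hn))
  · exact (ker_apply_mul_right (irr_isClassFunction ψ) (h.le_ker ψ hψ hn) y).symm

theorem card_centralizer_eq [N.Normal] {x : G} (hx : x ∉ N) :
    Nat.card (Subgroup.centralizer ({x} : Set G)) =
      Nat.card (Subgroup.centralizer ({(x : G ⧸ N)} : Set (G ⧸ N))) := by
  classical
  have h1 := sum_irr_mul_conj x x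
  have h2 := sum_le_ker_mul_conj N x x
  rw [if_pos (IsConj.refl _)] at h1 h2
  have : ∑ ψ : IrrCharacter G with N ≤ ker ψ.1, ψ.1 x * conj (ψ.1 x) =
      ∑ ψ : IrrCharacter G, ψ.1 x * conj (ψ.1 x) := by
    apply Finset.sum_subset (Finset.subset_univ _)
    intro ψ _ hψ
    have : ψ = χ := by
      by_contra hne
      exact hψ (Finset.mem_filter.2 ⟨Finset.mem_univ _, h.le_ker ψ hne⟩)
    rw [this, h.apply_eq_zero hx, zero_mul]
  rw [this, h1] at h2
  exact_mod_cast h2

theorem index_centralizer {x : G} (hx : x ∈ N) (hx1 : x ≠ 1) :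
    (Subgroup.centralizer ({x} : Set G)).index + 1 = Nat.card N := by
  classical
  rw [← card_conj_eq_index]
  have e : {y : G // IsConj x y} ≃ {n : N // n ≠ 1} :=
    { toFun := fun y => ⟨⟨y.1, by
          obtain ⟨c, hc⟩ := isConj_iff.1 y.2
          rw [← hc]
          exact h.normal.conj_mem _ hx c⟩, fun e => by
          have e' : y.1 = 1 := congrArg Subtype.val e
          have := y.2
          rw [e'] at this
          exact hx1 (isConj_one_left.1 this)⟩
      invFun := fun n => ⟨n.1.1, h.isConj x hx _ n.1.2 hx1 fun e => n.2 (Subtype.ext e)⟩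
      left_inv := fun _ => rfl
      right_inv := fun _ => rfl }
  rw [Nat.card_congr e]
  haveI := Fintype.ofFinite N
  rw [Nat.card_eq_fintype_card, Nat.card_eq_fintype_card, Fintype.card_subtype_compl,
    Fintype.card_subtype_eq]
  have : 0 < Fintype.card N := Fintype.card_pos
  omega

variable {p : ℕ} [hp : Fact p.Prime] (hN : IsPGroup p N)
include hN

theorem eq_one_of_isPRegular_of_commute {x y : G} (hx : x ∈ N) (hx1 : x ≠ 1)
    (hy : IsPRegular p y) (hxy : Commute x y) : y = 1 := by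
  by_contra hy1
  have hyN : y ∉ N := fun hyN => hy1 ((GT.isPElt_of_mem hN hyN).eq_one_of_isPRegular hy)
  have hc := h.isConj_mul hyN hx
  have hreg : IsPRegular p (y * x) := hy.of_isConj hc
  have h1 := GT.pPart_mul_eq' hxy (GT.isPElt_of_mem hN hx) hy
  rw [hreg.pPart_eq] at h1
  exact hx1 h1.symm

theorem isPGroup_centralizer {x : G} (hx : x ∈ N) (hx1 : x ≠ 1) :
    IsPGroup p (Subgroup.centralizer ({x} : Set G)) := by
  refine GT.isPGroup_iff_forall_isPElt.2 fun g hg => ?_
  rw [← GT.pRegPart_eq_one_iff]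
  have hc : Commute g x := (Subgroup.mem_centralizer_singleton_iff.1 hg)
  exact h.eq_one_of_isPRegular_of_commute hN hx hx1 (GT.isPRegular_pRegPart p g)
    (GT.commute_pRegPart_left p hc).symm

theorem dvd_card : p ∣ Nat.card N := GT.dvd_card_of_isPGroup_of_ne_bot hN h.ne_bot

theorem not_dvd_index_centralizer {x : G} (hx : x ∈ N) (hx1 : x ≠ 1) :
    ¬ p ∣ (Subgroup.centralizer ({x} : Set G)).index := by
  intro hd
  have h1 := h.dvd_card hN
  rw [← h.index_centralizer hx hx1] at h1
  exact hp.out.one_lt.ne' (Nat.dvd_one.1 ((Nat.dvd_add_right hd).1 h1))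

theorem isSylowIn_centralizer {x : G} (hx : x ∈ N) (hx1 : x ≠ 1) :
    GT.IsSylowIn p (Subgroup.centralizer ({x} : Set G)) ⊤ :=
  GT.isSylowIn_top_iff'.2 ⟨h.isPGroup_centralizer hN hx hx1, h.not_dvd_index_centralizer hN hx hx1⟩

/-- A nontrivial `p`-regular element acts on `N` without fixed points, so `n ↦ [y, n]` is onto. -/
theorem exists_commutator_eq {y : G} (hy : IsPRegular p y) (hy1 : y ≠ 1) {n : G} (hn : n ∈ N) :
    ∃ m ∈ N, y * m * y⁻¹ * m⁻¹ = n := by
  let f : N → N := fun m => ⟨y * m * y⁻¹ * (m : G)⁻¹,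
    N.mul_mem (h.normal.conj_mem _ m.2 y) (N.inv_mem m.2)⟩
  have hf : Function.Injective f := by
    intro a b hab
    have hab' : y * a * y⁻¹ * (a : G)⁻¹ = y * b * y⁻¹ * (b : G)⁻¹ := congrArg Subtype.val hab
    by_contra hne
    have hx1 : (b : G)⁻¹ * a ≠ 1 := fun e => hne (Subtype.ext (inv_mul_eq_one.1 e).symm)
    apply hy1
    refine h.eq_one_of_isPRegular_of_commute hN (N.mul_mem (N.inv_mem b.2) a.2) hx1 hy ?_
    have : y * ((b : G)⁻¹ * a) * y⁻¹ = (b : G)⁻¹ * a := by
      calc y * ((b : G)⁻¹ * a) * y⁻¹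
          = (y * b * y⁻¹)⁻¹ * (y * a * y⁻¹ * (a : G)⁻¹) * a := by group
        _ = (y * b * y⁻¹)⁻¹ * (y * b * y⁻¹ * (b : G)⁻¹) * a := by rw [hab']
        _ = (b : G)⁻¹ * a := by group
    show (b : G)⁻¹ * a * y = y * ((b : G)⁻¹ * a)
    conv_lhs => rw [← this]
    group
  obtain ⟨m, hm⟩ := (Finite.injective_iff_surjective.1 hf) ⟨n, hn⟩
  exact ⟨m, m.2, congrArg Subtype.val hm⟩

theorem isSylowIn_stabilizer [N.Normal] (μ : IrrCharacter N) (hμ : μ ≠ irrOne N) :
    GT.IsSylowIn p (MulAction.stabilizer G μ) ⊤ := by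
  classical
  have hdeg : charDegree μ.1 = 1 :=
    irr_charDegree_eq_one_of_comm (fun a b => Subtype.ext (h.mul_comm a.2 b.2)) μ
  have hP : IsPGroup p (MulAction.stabilizer G μ) := by
    refine GT.isPGroup_iff_forall_isPElt.2 fun g hg => ?_
    rw [← GT.pRegPart_eq_one_iff]
    by_contra hy1
    have hy := GT.pRegPart_mem p hg
    set y := GT.pRegPart p g
    apply hμ
    apply Subtype.ext
    funext n
    obtain ⟨m, hm, hmn⟩ := h.exists_commutator_eq hN (GT.isPRegular_pRegPart p g) hy1 n.2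
    have h1 : μ.1 ⟨y * m * y⁻¹, h.normal.conj_mem _ hm y⟩ = μ.1 ⟨m, hm⟩ :=
      mem_inertia_iff.1 hy _ _ rfl
    have h2 : (⟨y * m * y⁻¹, h.normal.conj_mem _ hm y⟩ : N) = n * ⟨m, hm⟩ := by
      apply Subtype.ext
      simp only [Subgroup.coe_mul, ← hmn, y]
      group
    rw [h2, (irr_isCharacter μ).map_mul_of_degree_one hdeg] at h1
    have h3 : μ.1 ⟨m, hm⟩ ≠ 0 := by
      intro h0
      have := (irr_isCharacter μ).norm_eq_one_of_degree_one hdeg ⟨m, hm⟩
      rw [h0] at this
      simp at this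
    simpa [h3] using h1
  obtain ⟨x, hx, hx1⟩ := h.exists_mem_ne_one
  refine (h.isSylowIn_centralizer hN hx hx1).of_card_ge hP le_top ?_
  have h1 : (MulAction.stabilizer G μ).index + 1 ≤ Nat.card N := by
    rw [← card_conjOrbit]
    have h2 : irrOne N ∉ conjOrbit G μ := by
      intro h3
      obtain ⟨g, hg⟩ := mem_conjOrbit.1 h3
      apply hμ
      have hg' : g • μ = irrOne N := hg
      rw [← inv_smul_smul g μ, hg', conjSmul_irrOne]
    rw [← Finset.card_insert_of_notMem h2, ← sum_irr_degree_sq (G := N)]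
    calc (insert (irrOne N) (conjOrbit G μ)).card ≤ (Finset.univ : Finset (IrrCharacter N)).card :=
          Finset.card_le_univ _
      _ = ∑ _ψ : IrrCharacter N, 1 := by simp
      _ ≤ _ := Finset.sum_le_sum fun ψ _ => Nat.one_le_pow _ _ (irr_degree_pos ψ)
  have h2 := h.index_centralizer hx hx1
  have h3 := (MulAction.stabilizer G μ).card_mul_index
  have h4 := (Subgroup.centralizer ({x} : Set G)).card_mul_index
  have h5 : 0 < (Subgroup.centralizer ({x} : Set G)).index := GT.index_pos _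
  have h6 : (MulAction.stabilizer G μ).index ≤ (Subgroup.centralizer ({x} : Set G)).index := by
    omega
  by_contra hlt
  push Not at hlt
  have := Nat.mul_lt_mul_of_lt_of_le hlt h6 h5
  omega

theorem le_sylow (P : Sylow p G) : N ≤ (P : Subgroup G) :=
  haveI := h.normal
  (GT.le_pCore hN).trans (GT.pCore_le_sylow P)

theorem relIndex_centralizer [N.Normal] {y : G} (hy : y ∉ N) :
    (Subgroup.centralizer ({y} : Set G)).relIndex
      ((Subgroup.centralizer ({(y : G ⧸ N)} : Set (G ⧸ N))).comap (QuotientGroup.mk' N)) =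
        Nat.card N := by
  have hle : Subgroup.centralizer ({y} : Set G) ≤
      (Subgroup.centralizer ({(y : G ⧸ N)} : Set (G ⧸ N))).comap (QuotientGroup.mk' N) := by
    intro c hc
    rw [Subgroup.mem_comap, Subgroup.mem_centralizer_singleton_iff]
    have := Subgroup.mem_centralizer_singleton_iff.1 hc
    simp only [QuotientGroup.mk'_apply, ← QuotientGroup.mk_mul, this]
  have h1 := GT.card_mul_relIndex hle
  rw [GT.card_comap_mk', ← h.card_centralizer_eq hy] at h1
  exact Nat.eq_of_mul_eq_mul_left Nat.card_pos h1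

theorem center_sylow_le (P : Sylow p G) :
    (Subgroup.center (P : Subgroup G)).map (P : Subgroup G).subtype ≤ N := by
  haveI := h.normal
  rintro _ ⟨z, hz, rfl⟩
  by_contra hzN
  have hP : (P : Subgroup G) ≤ Subgroup.centralizer ({(z : G)} : Set G) := by
    intro a ha
    rw [Subgroup.mem_centralizer_singleton_iff]
    exact congrArg Subtype.val (Subgroup.mem_center_iff.1 hz ⟨a, ha⟩)
  apply GT.not_dvd_index_of_sylow_le P hP
  refine (h.dvd_card hN).trans ?_
  rw [← h.relIndex_centralizer hN hzN]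
  apply Subgroup.relIndex_dvd_index_of_le
  intro c hc
  rw [Subgroup.mem_comap, Subgroup.mem_centralizer_singleton_iff]
  have := Subgroup.mem_centralizer_singleton_iff.1 hc
  simp only [QuotientGroup.mk'_apply, ← QuotientGroup.mk_mul, this]

theorem isPGroup_centralizer_self : IsPGroup p (Subgroup.centralizer (N : Set G)) := by
  obtain ⟨x, hx, hx1⟩ := h.exists_mem_ne_one
  exact (h.isPGroup_centralizer hN hx hx1).to_le
    (Subgroup.centralizer_le (Set.singleton_subset_iff.2 hx))

theorem center_sylow_eq_iff (P : Sylow p G) :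
    (Subgroup.center (P : Subgroup G)).map (P : Subgroup G).subtype = N ↔
      (P : Subgroup G).Normal := by
  haveI := h.normal
  constructor
  · intro he
    have hP : (P : Subgroup G) ≤ Subgroup.centralizer (N : Set G) := by
      intro a ha
      rw [Subgroup.mem_centralizer_iff]
      intro n hn
      rw [← he] at hn
      obtain ⟨z, hz, rfl⟩ := hn
      exact (congrArg Subtype.val (Subgroup.mem_center_iff.1 hz ⟨a, ha⟩)).symm
    rw [← (GT.isSylowIn_sylow P).eq_of_le (h.isPGroup_centralizer_self hN) le_top hP]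
    infer_instance
  · intro hP
    refine le_antisymm (h.center_sylow_le hN P) ?_
    haveI := GT.normal_map_subtype_of_characteristic (P : Subgroup G)
      (Subgroup.center (P : Subgroup G))
    apply h.le_of_normal
    have h1 : (⊤ : Subgroup (P : Subgroup G)) ≠ ⊥ := by
      obtain ⟨x, hx, hx1⟩ := h.exists_mem_ne_one
      intro e
      have : (⟨x, h.le_sylow hN P hx⟩ : (P : Subgroup G)) ∈ (⊤ : Subgroup (P : Subgroup G)) :=
        Subgroup.mem_top _
      rw [e, Subgroup.mem_bot] at this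
      exact hx1 (congrArg Subtype.val this)
    have h2 := GT.inf_center_ne_bot_of_isPGroup P.isPGroup' h1
    rw [top_inf_eq] at h2
    rwa [Ne, Subgroup.map_eq_bot_iff_of_injective _ (P : Subgroup G).subtype_injective]

theorem exists_upperCentralSeries_eq (P : Sylow p G) :
    ∃ i : ℕ, Subgroup.upperCentralSeries (P : Subgroup G) i = N.subgroupOf (P : Subgroup G) := by
  classical
  haveI := h.normal
  haveI : Group.IsNilpotent (P : Subgroup G) := P.isPGroup'.isNilpotent
  obtain ⟨c, hc⟩ := Group.IsNilpotent.nilpotent (P : Subgroup G)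
  by_cases htop : N.subgroupOf (P : Subgroup G) = ⊤
  · exact ⟨c, hc.trans htop.symm⟩
  have hex : ∃ i, ¬ Subgroup.upperCentralSeries (P : Subgroup G) i ≤
      N.subgroupOf (P : Subgroup G) := ⟨c, by rw [hc]; exact fun e => htop (top_le_iff.1 e)⟩
  have h0 : Nat.find hex ≠ 0 := by
    intro e
    have := Nat.find_spec hex
    rw [e] at this
    exact this (by simp)
  obtain ⟨i, hi⟩ := Nat.exists_eq_succ_of_ne_zero h0
  have hle : Subgroup.upperCentralSeries (P : Subgroup G) i ≤ N.subgroupOf (P : Subgroup G) := by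
    by_contra hc
    exact Nat.find_min hex (by omega) hc
  have hnle := Nat.find_spec hex
  rw [hi] at hnle
  refine ⟨i, le_antisymm hle ?_⟩
  obtain ⟨y, hy, hyN⟩ := SetLike.not_le_iff_exists.1 hnle
  have hy' := Subgroup.mem_upperCentralSeries_succ_iff.1 (Subgroup.inv_mem _ hy)
  have hyN' : (y : G) ∉ N := hyN
  set C := (Subgroup.centralizer ({((y : G) : G ⧸ N)} : Set (G ⧸ N))).comap (QuotientGroup.mk' N)
    with hC
  have hmemC : ∀ g : G, g ∈ C ↔ (y : G)⁻¹ * g * y * g⁻¹ ∈ N := by
    intro g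
    rw [hC, Subgroup.mem_comap, Subgroup.mem_centralizer_singleton_iff, ← QuotientGroup.eq_one_iff]
    simp only [QuotientGroup.mk'_apply, QuotientGroup.mk_mul, QuotientGroup.mk_inv]
    constructor
    · intro e
      rw [mul_assoc _ (g : G ⧸ N), e]
      group
    · intro e
      calc (g : G ⧸ N) * ((y : G) : G ⧸ N) = ((y : G) : G ⧸ N) *
          ((((y : G) : G ⧸ N))⁻¹ * g * ((y : G) : G ⧸ N) * (g : G ⧸ N)⁻¹) * g := by group
        _ = _ := by rw [e, mul_one]
  have hPC : (P : Subgroup G) ≤ C := by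
    intro a ha
    rw [hmemC]
    have := hle (hy' ⟨a, ha⟩)
    simpa [Subgroup.mem_subgroupOf, commutatorElement_def] using this
  have hcop : ((P : Subgroup G).subgroupOf C).index.Coprime
      ((Subgroup.centralizer ({(y : G)} : Set G)).subgroupOf C).index := by
    change ((P : Subgroup G).relIndex C).Coprime
      ((Subgroup.centralizer ({(y : G)} : Set G)).relIndex C)
    rw [hC, h.relIndex_centralizer hN hyN', ← hC]
    exact (hN.coprime_card (GT.isSylowIn_sylow_of_le P hPC).not_dvd).symm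
  intro n hn
  have hn' : (n : G) ∈ N := hn
  obtain ⟨g, hg⟩ := isConj_iff.1 (h.isConj_mul hyN' hn')
  have hgC : g ∈ C := by
    rw [hmemC]
    have : (y : G)⁻¹ * g * y * g⁻¹ = n := by
      calc (y : G)⁻¹ * g * y * g⁻¹ = (y : G)⁻¹ * (g * y * g⁻¹) := by group
        _ = n := by rw [hg]; group
    rwa [this]
  obtain ⟨a, ha, c, hc, hac⟩ := GT.exists_mul_eq_of_coprime_index hcop ⟨g, hgC⟩
  have hac' : (a : G) * c = g := congrArg Subtype.val hac
  have hc' : (c : G) * y = y * c := Subgroup.mem_centralizer_singleton_iff.1 hc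
  have ha' : (a : G) ∈ (P : Subgroup G) := ha
  have : n = y⁻¹ * ⟨a, ha'⟩ * y⁻¹⁻¹ * (⟨a, ha'⟩ : (P : Subgroup G))⁻¹ := by
    apply Subtype.ext
    simp only [Subgroup.coe_mul, Subgroup.coe_inv, inv_inv]
    calc (n : G) = (y : G)⁻¹ * (g * y * g⁻¹) := by rw [hg]; group
      _ = (y : G)⁻¹ * (a * (c * y) * (c : G)⁻¹ * (a : G)⁻¹) := by rw [← hac']; group
      _ = _ := by rw [hc']; group
  rw [this]
  exact hy' _

/-- If `N` has a complement, then `G` is a doubly transitive Frobenius group. -/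
theorem frobenius_of_complement {H : Subgroup G} (hd : Disjoint N H) (hs : N ⊔ H = ⊤) :
    IsFrobeniusComplement H ∧ frobeniusKernel H = (N : Set G) ∧ Nat.card H + 1 = Nat.card N := by
  haveI := h.normal
  have hdec : ∀ g : G, ∃ n ∈ N, ∃ y ∈ H, n * y = g := fun g =>
    (GT.mem_sup_of_le_normalizer_left (by rw [Subgroup.normalizer_eq_top]; exact le_top)).1
      (hs ▸ Subgroup.mem_top g)
  have hd' : ∀ g, g ∈ N → g ∈ H → g = 1 := fun g h1 h2 => Subgroup.disjoint_def.1 hd h1 h2
  -- `H` acts without fixed points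
  have hfpf : ∀ y ∈ H, ∀ n ∈ N, y * n = n * y → y = 1 ∨ n = 1 := by
    intro y hy n hn hyn
    by_contra hne
    push Not at hne
    obtain ⟨hy1, hn1⟩ := hne
    have hyN : y ∉ N := fun e => hy1 (hd' y e hy)
    have h1 := h.card_centralizer_eq hyN
    have hlift : ∀ q : G ⧸ N, ∃ w ∈ H, (w : G ⧸ N) = q := by
      intro q
      obtain ⟨g, rfl⟩ := QuotientGroup.mk_surjective q
      obtain ⟨m, hm, w, hw, rfl⟩ := hdec g
      exact ⟨w, hw, by rw [QuotientGroup.mk_mul, (QuotientGroup.eq_one_iff m).2 hm, one_mul]⟩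
    choose s hs1 hs2 using hlift
    let f : Subgroup.centralizer ({(y : G ⧸ N)} : Set (G ⧸ N)) →
        Subgroup.centralizer ({y} : Set G) := fun c =>
      ⟨s c, by
        rw [Subgroup.mem_centralizer_singleton_iff]
        have h2 := Subgroup.mem_centralizer_singleton_iff.1 c.2
        rw [← hs2 c, ← QuotientGroup.mk_mul, ← QuotientGroup.mk_mul, QuotientGroup.eq] at h2
        exact inv_mul_eq_one.1 (hd' _ h2 (H.mul_mem (H.inv_mem (H.mul_mem (hs1 c) hy))
          (H.mul_mem hy (hs1 c))))⟩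
    have hf1 : ∀ c, ((f c : G) : G ⧸ N) = c.1 := fun c => hs2 c
    have hf2 : ∀ c, (f c : G) ∈ H := fun c => hs1 c
    have hfi : Function.Injective f := by
      intro a b hab
      apply Subtype.ext
      rw [← hf1 a, ← hf1 b, hab]
    have hfs : Function.Surjective f :=
      ((Nat.bijective_iff_injective_and_card f).2 ⟨hfi, h1.symm⟩).2
    obtain ⟨c, hc⟩ := hfs ⟨n, Subgroup.mem_centralizer_singleton_iff.2 hyn.symm⟩
    have := hf2 c
    rw [hc] at this
    exact hn1 (hd' n hn this)
  have hcard : Nat.card H + 1 = Nat.card N := by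
    obtain ⟨x, hx, hx1⟩ := h.exists_mem_ne_one
    have : Subgroup.centralizer ({x} : Set G) = N := by
      apply le_antisymm
      · intro g hg
        obtain ⟨n, hn, y, hy, rfl⟩ := hdec g
        have h1 := Subgroup.mem_centralizer_singleton_iff.1 hg
        have h2 : y * x = x * y := by
          apply mul_left_cancel (a := n)
          rw [← mul_assoc, h1, ← mul_assoc, ← mul_assoc, h.mul_comm hx hn]
        rcases hfpf y hy x hx h2 with rfl | h3
        · simpa using hn
        · exact absurd h3 hx1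
      · intro n hn
        exact Subgroup.mem_centralizer_singleton_iff.2 (h.mul_comm hn hx)
    rw [← h.index_centralizer hx hx1, this, GT.index_eq_card_of_disjoint_of_sup_eq_top hd hs]
  refine ⟨⟨?_, ?_, ?_⟩, ?_, hcard⟩
  · rintro rfl
    have h1 := h.two_lt
    rw [sup_bot_eq] at hs
    rw [hs, Subgroup.card_bot, Subgroup.card_top] at hcard
    omega
  · rintro rfl
    exact h.ne_bot (disjoint_top.1 hd)
  · intro g hg
    obtain ⟨n, hn, y, hy, rfl⟩ := hdec g
    rw [eq_bot_iff]
    rintro a ⟨ha1, ha2⟩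
    obtain ⟨b, hb, hab⟩ := GT.mem_conj_smul'.1 ha2
    have hb' : y * b * y⁻¹ ∈ H := H.mul_mem (H.mul_mem hy hb) (H.inv_mem hy)
    have h1 : a * (y * b * y⁻¹)⁻¹ = 1 := by
      apply hd'
      · have : a * (y * b * y⁻¹)⁻¹ = n * ((y * b * y⁻¹) * n⁻¹ * (y * b * y⁻¹)⁻¹) := by
          rw [← hab]; group
        rw [this]
        exact N.mul_mem hn (h.normal.conj_mem _ (N.inv_mem hn) _)
      · exact H.mul_mem ha1 (H.inv_mem hb')
    have h2 : a = y * b * y⁻¹ := mul_inv_eq_one.1 h1
    have h3 : a * n = n * a := by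
      conv_lhs => rw [← hab]
      rw [h2]
      group
    rcases hfpf a ha1 n hn h3 with h4 | h4
    · exact Subgroup.mem_bot.2 h4
    · exact absurd (by rw [h4, one_mul]; exact hy) hg
  · ext x
    constructor
    · rintro (rfl | hx)
      · exact N.one_mem
      · by_contra hxN
        obtain ⟨n, hn, y, hy, rfl⟩ := hdec x
        have hyN : y ∉ N := fun e => hxN (N.mul_mem hn e)
        obtain ⟨c, hc⟩ := isConj_iff.1 (h.isConj_mul hyN (h.normal.conj_mem _ hn y⁻¹))
        apply hx c
        refine GT.mem_conj_smul'.2 ⟨y, hy, ?_⟩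
        rw [hc]
        group
    · intro hx
      by_cases hx1 : x = 1
      · exact Or.inl hx1
      · refine Or.inr fun g hg => hx1 ?_
        have h1 := hd' _ (by simpa using h.normal.conj_mem x hx g⁻¹) (GT.mem_conj_smul.1 hg)
        calc x = g * (g⁻¹ * x * g) * g⁻¹ := by group
          _ = 1 := by rw [h1]; group

theorem exists_complement (hO : N = pCore p G) : ∃ H : Subgroup G, Disjoint N H ∧ N ⊔ H = ⊤ := by
  haveI := h.normal
  have hC : Subgroup.centralizer (N : Set G) ≤ N := by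
    conv_rhs => rw [hO]
    exact GT.le_pCore (h.isPGroup_centralizer_self hN)
  by_cases hp2 : p = 2
  · subst hp2
    have hinv : ∀ w : G, w ^ 2 = 1 → w ∈ N := by
      intro w hw
      by_contra hwN
      apply hwN
      apply hC
      rw [Subgroup.mem_centralizer_iff]
      intro n hn
      obtain ⟨c, hc⟩ := isConj_iff.1 (h.isConj_mul hwN hn)
      have h1 : (w * n) ^ 2 = 1 := by rw [← hc, conj_pow, hw]; group
      have h2 : n ^ 2 = 1 := (h.isMinNormal.isElementaryAbelian_of_isPGroup hN).2 n hn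
      calc n * w = w⁻¹ * (w * n) ^ 2 * n⁻¹ := by rw [sq]; group
        _ = w⁻¹ * w ^ 2 * (n ^ 2 * n⁻¹) := by rw [h1, hw, h2]; group
        _ = w * n := by group
    have hodd : ¬ 2 ∣ N.index := by
      intro hd
      obtain ⟨t, ht⟩ := exists_prime_orderOf_dvd_card' (G := G ⧸ N) 2 hd
      have ht1 : t ≠ 1 := by
        rintro rfl
        simp at ht
      have ht2 : t ^ 2 = 1 := by rw [← ht, pow_orderOf_eq_one]
      have hcore : pCore 2 (G ⧸ N) = ⊥ := by
        rw [← GT.map_mk'_pCore N hN, GT.map_mk'_eq_bot_iff, ← hO]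
      obtain ⟨d', hd1, hd2, hd3⟩ := GT.exists_odd_inverted ht2 (by
        rw [hcore, Subgroup.mem_bot]; exact ht1)
      obtain ⟨u, rfl⟩ := QuotientGroup.mk_surjective t
      obtain ⟨d0, rfl⟩ := QuotientGroup.mk_surjective d'
      set d := GT.pRegPart 2 d0 with hdd
      have hdreg : IsPRegular 2 d := GT.isPRegular_pRegPart 2 d0
      have hdq : (d : G ⧸ N) = d0 := by rw [hdd, GT.mk_pRegPart, hd2.pRegPart_eq]
      rw [← hdq] at hd1 hd3
      have hd1' : d ≠ 1 := by
        intro e
        rw [e] at hd1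
        exact hd1 rfl
      have hm : d * (u * d * u⁻¹) ∈ N := by
        rw [← QuotientGroup.eq_one_iff]
        simp only [QuotientGroup.mk_mul, QuotientGroup.mk_inv, hd3, mul_inv_cancel]
      obtain ⟨k, hk, hkm⟩ := h.exists_commutator_eq hN hdreg hd1' (N.inv_mem hm)
      have hw : (k * u) * d * (k * u)⁻¹ = d⁻¹ := by
        calc (k * u) * d * (k * u)⁻¹
            = d⁻¹ * ((d * k * d⁻¹) * ((d * (u * d * u⁻¹)) * k⁻¹)) := by group
          _ = d⁻¹ * ((d * k * d⁻¹ * k⁻¹) * (d * (u * d * u⁻¹))) := by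
            rw [h.mul_comm hm (N.inv_mem hk)]; group
          _ = d⁻¹ := by rw [hkm]; group
      have hwq : ((k * u : G) : G ⧸ N) = u := by
        rw [QuotientGroup.mk_mul, (QuotientGroup.eq_one_iff k).2 hk, one_mul]
      have hw2N : (k * u) ^ 2 ∈ N := by
        rw [← QuotientGroup.eq_one_iff, QuotientGroup.mk_pow, hwq, ht2]
      have hw2 : (k * u) ^ 2 = 1 := by
        by_contra hne
        apply hd1'
        refine h.eq_one_of_isPRegular_of_commute hN hw2N hne hdreg ?_
        show (k * u) ^ 2 * d = d * (k * u) ^ 2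
        set w := k * u
        calc w ^ 2 * d = w * (w * d * w⁻¹) * w := by rw [sq]; group
          _ = w * d⁻¹ * w := by rw [hw]
          _ = (w * d * w⁻¹)⁻¹ * w ^ 2 := by rw [sq]; group
          _ = _ := by rw [hw, inv_inv]
      apply ht1
      rw [← hwq, QuotientGroup.eq_one_iff]
      exact hinv _ hw2
    obtain ⟨H, hH⟩ := Subgroup.exists_right_complement'_of_coprime (hN.coprime_card hodd)
    exact ⟨H, hH.disjoint, hH.sup_eq_top⟩
  · obtain ⟨x, hx, hx1⟩ := h.exists_mem_ne_one
    have h2N : ¬ 2 ∣ Nat.card N := by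
      intro h2
      obtain ⟨k, hk⟩ := IsPGroup.iff_card.1 hN
      rw [hk] at h2
      exact hp2 ((Nat.prime_dvd_prime_iff_eq Nat.prime_two hp.out).1
        (Nat.prime_two.dvd_of_dvd_pow h2)).symm
    have h2G : 2 ∣ Nat.card G := by
      refine Dvd.dvd.trans ?_ (Subgroup.centralizer ({x} : Set G)).index_dvd_card
      have := h.index_centralizer hx hx1
      omega
    obtain ⟨t, ht⟩ := exists_prime_orderOf_dvd_card' (G := G) 2 h2G
    have hinv : ∀ s : G, orderOf s = 2 → ∀ n ∈ N, s * n * s⁻¹ = n⁻¹ := by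
      intro s hs n hn
      have hs2 : s * s = 1 := by rw [← sq, ← hs, pow_orderOf_eq_one]
      have hs1 : s ≠ 1 := by
        rintro rfl
        simp at hs
      have hsreg : IsPRegular p s := by
        rw [GT.isPRegular_iff, hs]
        exact fun e => hp2 ((Nat.prime_dvd_prime_iff_eq hp.out Nat.prime_two).1 e)
      have hn' := h.normal.conj_mem n hn s
      by_contra hne
      have hne' : n * (s * n * s⁻¹) ≠ 1 := fun e => hne (eq_inv_of_mul_eq_one_right e)
      apply hs1
      refine h.eq_one_of_isPRegular_of_commute hN (N.mul_mem hn hn') hne' hsreg ?_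
      show n * (s * n * s⁻¹) * s = s * (n * (s * n * s⁻¹))
      calc n * (s * n * s⁻¹) * s = (s * n * s⁻¹) * n * s := by rw [h.mul_comm hn hn']
        _ = s * n * s⁻¹ * (s * s) * n * s * (s * s)⁻¹ := by rw [hs2]; group
        _ = _ := by group
    have ht1 : t ≠ 1 := by
      rintro rfl
      simp at ht
    have htreg : IsPRegular p t := by
      rw [GT.isPRegular_iff, ht]
      exact fun e => hp2 ((Nat.prime_dvd_prime_iff_eq hp.out Nat.prime_two).1 e)
    have htN : t ∉ N := fun e => ht1 ((GT.isPElt_of_mem hN e).eq_one_of_isPRegular htreg)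
    have hcent : Subgroup.centralizer ({(t : G ⧸ N)} : Set (G ⧸ N)) = ⊤ := by
      rw [eq_top_iff]
      intro q _
      obtain ⟨g, rfl⟩ := QuotientGroup.mk_surjective q
      rw [Subgroup.mem_centralizer_singleton_iff]
      have h1 : t⁻¹ * (g * t * g⁻¹) ∈ N := by
        apply hC
        rw [Subgroup.mem_centralizer_iff]
        intro n hn
        have h2 := hinv (g * t * g⁻¹) (by rw [GT.orderOf_conj', ht]) n hn
        have h3 := hinv t ht n hn
        set s := g * t * g⁻¹
        calc n * (t⁻¹ * s) = t⁻¹ * (t * n * t⁻¹) * s := by group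
          _ = t⁻¹ * (s * n * s⁻¹) * s := by rw [h2, h3]
          _ = _ := by group
      rw [← QuotientGroup.eq_one_iff] at h1
      simp only [QuotientGroup.mk_mul, QuotientGroup.mk_inv] at h1
      calc (g : G ⧸ N) * t = t * ((t : G ⧸ N)⁻¹ * (g * t * (g : G ⧸ N)⁻¹)) * g := by group
        _ = _ := by rw [h1, mul_one]
    have hd : Disjoint N (Subgroup.centralizer ({t} : Set G)) := by
      rw [Subgroup.disjoint_def]
      intro n hn hnt
      by_contra hn1
      exact ht1 (h.eq_one_of_isPRegular_of_commute hN hn hn1 htreg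
        (Subgroup.mem_centralizer_singleton_iff.1 hnt))
    refine ⟨Subgroup.centralizer ({t} : Set G), hd, ?_⟩
    rw [sup_comm, ← Subgroup.card_eq_iff_eq_top, GT.card_sup_of_disjoint hd.symm,
      h.card_centralizer_eq htN, hcent, Subgroup.card_top, ← Subgroup.card_eq_card_quotient_mul_card_subgroup]

theorem eq_pCore_iff : N = pCore p G ↔ ∃ H : Subgroup G, IsFrobeniusComplement H ∧
    frobeniusKernel H = (N : Set G) ∧ Nat.card H + 1 = Nat.card N := by
  haveI := h.normal
  constructor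
  · intro hO
    obtain ⟨H, hd, hs⟩ := h.exists_complement hN hO
    exact ⟨H, h.frobenius_of_complement hN hd hs⟩
  · rintro ⟨H, -, hK, hc⟩
    refine le_antisymm (GT.le_pCore hN) fun g hg => ?_
    rw [← SetLike.mem_coe, ← hK]
    by_contra hne
    simp only [frobeniusKernel, Set.mem_ofPred_eq, not_or, not_forall, not_not] at hne
    obtain ⟨hg1, c, hc'⟩ := hne
    apply hg1
    refine (GT.isPElt_of_mem (GT.isPGroup_pCore p G) hg).eq_one_of_isPRegular
      (GT.isPRegular_of_mem ?_ hc')
    rw [GT.card_conj_smul]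
    intro hd
    have h1 := h.dvd_card hN
    rw [← hc] at h1
    exact hp.out.one_lt.ne' (Nat.dvd_one.1 ((Nat.dvd_add_right hd).1 h1))

end IsGagola

end CT
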