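import Cfsg.Agent.Lib.Char.NdadB

/-!
# Linear characters of sections, as total functions
-/

set_option autoImplicit false
set_option linter.unusedSectionVars false
set_option linter.style.haveILetI false

namespace CT

open Cfsg GT Subgroup MulAction
open scoped commutatorElement Pointwise

attribute [local instance] linAct

variable {G : Type*} [Group G] [Finite G]

section Module

variable {V : Type*} [CommGroup V] [Finite V] [MulDistribMulAction G V]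

theorem exists_smul_div_eq_of_fpf {U : Subgroup V} {e : G} (hU : ∀ u ∈ U, e • u ∈ U)
    (hf : ∀ v ∈ U, e • v = v → v = 1) {u : V} (hu : u ∈ U) : ∃ w ∈ U, e • w / w = u := by
  obtain ⟨w, hw⟩ := (Finite.injective_iff_surjective (f := fun u : U => (⟨e • u.1 / u.1,
    div_mem (hU u u.2) u.2⟩ : U))).1 (fun a b e1 => Subtype.ext (div_eq_one.1
      (hf _ (div_mem a.2 b.2) (by
        rw [smul_div', div_eq_div_iff_div_eq_div]
        exact congrArg Subtype.val e1)))) ⟨u, hu⟩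
  exact ⟨w, w.2, congrArg Subtype.val hw⟩

theorem smul_eq_of_smul_div_fixed {g : G} {v : V} {m n : ℕ} (hc : m.Coprime n) (hm : g ^ m • v = v)
    (hn : (g • v / v) ^ n = 1) (h : g • (g • v / v) = g • v / v) : g • v = v := by
  have h1 : ∀ k : ℕ, g ^ k • v = v * (g • v / v) ^ k := fun k => by
    induction k with
    | zero => simp
    | succ k ih => rw [pow_succ', mul_smul, ih, smul_mul', smul_pow', h, pow_succ', ← mul_assoc,
        mul_div_cancel]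
  rw [h1, mul_eq_left] at hm
  exact div_eq_one.1 (orderOf_eq_one_iff.1 (Nat.eq_one_of_dvd_coprimes hc
    (orderOf_dvd_of_pow_eq_one hm) (orderOf_dvd_of_pow_eq_one hn)))

end Module

open Classical in
/-- A linear character of a subgroup, extended by `1`. -/
noncomputable def tot {D : Subgroup G} (κ : D →* ℂˣ) (g : G) : ℂˣ :=
  if h : g ∈ D then κ ⟨g, h⟩ else 1

section Tot

variable {A B D P : Subgroup G} {κ ν : D →* ℂˣ} {a b c d g : G}

theorem tot_of_mem (h : g ∈ D) : tot κ g = κ ⟨g, h⟩ := dif_pos h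

theorem tot_mul (ha : a ∈ D) (hb : b ∈ D) : tot κ (a * b) = tot κ a * tot κ b := by
  rw [tot_of_mem ha, tot_of_mem hb, tot_of_mem (mul_mem ha hb), ← map_mul]
  rfl

theorem tot_inv (ha : a ∈ D) : tot κ a⁻¹ = (tot κ a)⁻¹ := by
  rw [tot_of_mem ha, tot_of_mem (inv_mem ha), ← map_inv]
  rfl

theorem tot_pow (ha : a ∈ D) (n : ℕ) : tot κ (a ^ n) = tot κ a ^ n := by
  rw [tot_of_mem ha, tot_of_mem (pow_mem ha n), ← map_pow]
  rfl

theorem tot_one : tot κ 1 = 1 := (tot_of_mem (one_mem D)).trans (map_one κ)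

theorem tot_mul_hom : tot (κ * ν) g = tot κ g * tot ν g := by
  unfold tot
  split_ifs
  · rfl
  · exact (mul_one 1).symm

theorem tot_div_hom : tot (κ / ν) g = tot κ g / tot ν g := by
  unfold tot
  split_ifs
  · rfl
  · exact (div_one 1).symm

theorem lin_eq_one_iff : κ = 1 ↔ ∀ d ∈ D, tot κ d = 1 :=
  ⟨fun e d hd => by rw [tot_of_mem hd, e]; rfl,
    fun h => MonoidHom.ext fun d => (tot_of_mem d.2).symm.trans (h d d.2)⟩

variable (D B) in
/-- The linear characters of `D` that are trivial on `B`. -/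
def linK : Subgroup (D →* ℂˣ) where
  carrier := {κ | ∀ b ∈ B, b ∈ D → tot κ b = 1}
  mul_mem' h1 h2 b hb hd := tot_mul_hom.trans (by rw [h1 b hb hd, h2 b hb hd, mul_one])
  one_mem' b _ hd := lin_eq_one_iff.1 rfl b hd
  inv_mem' h1 b hb hd := (tot_of_mem hd).trans (inv_eq_one.2 ((tot_of_mem hd).symm.trans (h1 b hb hd)))

theorem tot_eq_one (h : κ ∈ linK B D) (hb : b ∈ B) : tot κ b = 1 := by
  by_cases hd : b ∈ D
  · exact h b hb hd
  · exact dif_neg hd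

theorem exists_tot_ne_one (hB : ⁅D, D⁆ ≤ B) (hd : d ∈ D) (h : d ∉ B) :
    ∃ κ ∈ linK B D, tot κ d ≠ 1 := by
  haveI : (B.subgroupOf D).Normal := ⟨fun x hx g => by
    rw [show g * x * g⁻¹ = ⁅g, x⁆ * x by group]
    exact mul_mem (hB (commutator_mem_commutator g.2 x.2)) hx⟩
  obtain ⟨f, h1, h2⟩ := exists_units_hom_apply_ne_one (commutator_le_subgroupOf hB) (g := ⟨d, hd⟩) h
  exact ⟨f, fun b hb hd => (tot_of_mem hd).trans (h1 hb), tot_of_mem hd ▸ h2⟩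

theorem exists_tot_extend (hDA : D ≤ A) (h : κ ∈ linK (lc2 A) D) :
    ∃ ν : A →* ℂˣ, ∀ d ∈ D, tot ν d = tot κ d := by
  obtain ⟨ν, hν⟩ := exists_units_hom_extend (D.subgroupOf A)
    (κ.comp (subgroupOfEquivOfLe hDA).toMonoidHom) fun k hk => (tot_of_mem k.2).symm.trans
      (tot_eq_one (b := k.1.1) h ((map_subtype_commutator A).le ⟨_, hk, rfl⟩))
  exact ⟨ν, fun d hd => by
    rw [tot_of_mem hd, tot_of_mem (hDA hd)]
    exact hν ⟨⟨d, hDA hd⟩, hd⟩⟩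

theorem lin_pow_card (κ : D →* ℂˣ) : κ ^ Nat.card D = 1 :=
  MonoidHom.ext fun d => (map_pow κ d _).symm.trans (by rw [pow_card_eq_one', map_one]; rfl)

variable [hD : D.Normal]

theorem tot_smul (hd : d ∈ D) : tot (g • κ) d = tot κ (g⁻¹ * d * g) := by
  rw [tot_of_mem hd, tot_of_mem (hD.conj_mem' d hd g)]
  exact congrArg κ (Subtype.ext (by simp))

theorem tot_conj (e : c • κ = κ) (hd : d ∈ D) : tot κ (c * d * c⁻¹) = tot κ d := by
  conv_lhs => rw [← e, tot_smul (hD.conj_mem d hd c)]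
  congr 1
  group

theorem smul_eq_iff_tot : c • κ = κ ↔ ∀ d ∈ D, tot κ ⁅d, c⁆ = 1 :=
  smul_lin_eq_iff.trans (forall₂_congr fun _ hd =>
    have := commutator_le_left D ⊤ (commutator_mem_commutator hd (mem_top c))
    ⟨fun e => (tot_of_mem this).trans (e _), fun e _ => (tot_of_mem this).symm.trans e⟩)

theorem tot_inv_smul_div (hd : d ∈ D) : tot (g⁻¹ • κ / κ) d = (tot κ ⁅d, g⁆)⁻¹ := by
  rw [tot_of_mem hd, inv_smul_div_apply, ← tot_of_mem]

theorem tot_eq_one_of_forall_smul (h : ∀ g ∈ P, g • κ = κ) (ha : a ∈ ⁅D, P⁆) : tot κ a = 1 := by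
  obtain ⟨z, hz, rfl⟩ := commutator_le_of_le_stabilizer
    (fun g hg => mem_stabilizer_linChar.2 (h g hg)) ha
  exact (tot_of_mem z.2).trans hz

theorem tot_eq_one_of_mem_lc2 (ha : a ∈ lc2 D) : tot κ a = 1 :=
  tot_eq_one_of_forall_smul (fun _ hg => conjLin_of_mem hg κ) ha

theorem smul_mem_linK [hB : B.Normal] (g : G) (h : κ ∈ linK B D) : g • κ ∈ linK B D :=
  fun b hb hd => (tot_smul hd).trans (tot_eq_one h (hB.conj_mem' b hb g))

theorem smul_eq_of_mem_linK (h : κ ∈ linK B D) (hc : ∀ d ∈ D, ⁅d, c⁆ ∈ B) : c • κ = κ :=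
  smul_eq_iff_tot.2 fun d hd => tot_eq_one h (hc d hd)

theorem commutator_mem_of_forall_linK [B.Normal] (hB : ⁅D, D⁆ ≤ B)
    (h : ∀ κ ∈ linK B D, c • κ = κ) : ∀ d ∈ D, ⁅d, c⁆ ∈ B := fun d hd => by_contra fun hn => by
  obtain ⟨κ, h1, h2⟩ := exists_tot_ne_one hB
    (commutator_le_left D ⊤ (commutator_mem_commutator hd (mem_top c))) hn
  exact h2 (smul_eq_iff_tot.1 (h κ h1) d hd)

theorem fpf_of_forall_linK [B.Normal] (hB : ⁅D, D⁆ ≤ B)
    (h : ∀ κ ∈ linK B D, c • κ = κ → κ = 1) : ∀ d ∈ D, ⁅d, c⁆ ∈ B → d ∈ B := fun d hd e =>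
  by_contra fun hn => by
  obtain ⟨κ, h1, h2⟩ := exists_tot_ne_one hB hd hn
  obtain ⟨ν, h3, rfl⟩ := exists_smul_div_eq_of_fpf (fun _ => smul_mem_linK c⁻¹)
    (fun ν hν e => h ν hν (inv_smul_eq_iff.1 e).symm) h1
  exact h2 ((tot_inv_smul_div hd).trans (inv_eq_one.2 (tot_eq_one h3 e)))

theorem linK_eq_one_of_fpf [B.Normal] (hc : ∀ d ∈ D, ⁅d, c⁆ ∈ B → d ∈ B) (h : κ ∈ linK B D)
    (e : c • κ = κ) : κ = 1 :=
  lin_eq_one_of_fpf hc (fun x hx => (tot_of_mem x.2).symm.trans (tot_eq_one h hx)) e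

theorem tot_commutator_mul_left (e : a • κ = κ) (ha : ⁅a, g⁆ ∈ D) (hb : ⁅b, g⁆ ∈ D) :
    tot κ ⁅a * b, g⁆ = tot κ ⁅b, g⁆ * tot κ ⁅a, g⁆ := by
  rw [show ⁅a * b, g⁆ = a * ⁅b, g⁆ * a⁻¹ * ⁅a, g⁆ by group, tot_mul (hD.conj_mem _ hb a) ha,
    tot_conj e hb]

theorem tot_commutator_mul_right (e : a • κ = κ) (ha : ⁅g, a⁆ ∈ D) (hb : ⁅g, b⁆ ∈ D) :
    tot κ ⁅g, a * b⁆ = tot κ ⁅g, a⁆ * tot κ ⁅g, b⁆ := by
  rw [show ⁅g, a * b⁆ = ⁅g, a⁆ * (a * ⁅g, b⁆ * a⁻¹) by group, tot_mul ha (hD.conj_mem _ hb a),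
    tot_conj e hb]

theorem exists_rad (hP : ∀ y ∈ A, y • κ = κ) (hA : ⁅A, P⁆ ≤ D) :
    ∃ R : Subgroup G, ∀ a, a ∈ R ↔ a ∈ A ∧ ∀ y ∈ P, tot κ ⁅a, y⁆ = 1 :=
  have m : ∀ {a y}, a ∈ A → y ∈ P → ⁅a, y⁆ ∈ D := fun ha hy =>
    hA (commutator_mem_commutator ha hy)
  ⟨{ carrier := {a | a ∈ A ∧ ∀ y ∈ P, tot κ ⁅a, y⁆ = 1}
     mul_mem' := fun ha hb => ⟨mul_mem ha.1 hb.1, fun y hy => by
       rw [tot_commutator_mul_left (hP _ ha.1) (m ha.1 hy) (m hb.1 hy), ha.2 y hy, hb.2 y hy, mul_one]⟩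
     one_mem' := ⟨one_mem _, fun y _ => by rw [commutatorElement_one_left, tot_one]⟩
     inv_mem' := fun {a} ha => ⟨inv_mem ha.1, fun y hy => by
       have := tot_commutator_mul_left (hP _ ha.1) (m ha.1 hy) (m (inv_mem ha.1) hy)
       rwa [mul_inv_cancel, commutatorElement_one_left, tot_one, ha.2 y hy, mul_one, eq_comm] at this⟩ },
    fun _ => Iff.rfl⟩

theorem exists_formChar (hP : ∀ y ∈ P, y • κ = κ) (ha : ∀ y ∈ P, ⁅a, y⁆ ∈ D) :
    ∃ μ : P →* ℂˣ, ∀ y ∈ P, tot μ y = tot κ ⁅a, y⁆ :=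
  ⟨MonoidHom.mk' (fun y => tot κ ⁅a, y.1⁆) fun x y =>
    tot_commutator_mul_right (hP x x.2) (ha x x.2) (ha y y.2), fun _ hy => tot_of_mem hy⟩

end Tot

/-- `θ` restricts to a multiple of the linear character `μ`. -/
def Over {A P : Subgroup G} (θ : IrrCharacter P) (μ : A →* ℂˣ) : Prop :=
  ∀ a : P, a.1 ∈ A → θ.1 a = θ.1 1 * tot μ a

section Over

variable {A B W P : Subgroup G} {θ : IrrCharacter P} {μ : A →* ℂˣ}

theorem exists_over [A.Normal] (hA : A ≤ P) (hμ : ∀ y ∈ P, y • μ = μ) :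
    ∃ θ : IrrCharacter P, Over θ μ := by
  obtain ⟨θ, hθ⟩ := exists_irr_liesOverLe hA (linChar μ)
  have h1 := clifford_invariant_le' (fun t ht => mem_stabilizer_linChar.2 (hμ t ht)) hθ
  refine ⟨θ, fun a ha => ?_⟩
  have h2 := congrFun h1 1
  rw [tot_of_mem ha]
  refine (congrFun h1 ⟨a, ha⟩).trans (congrArg (· * _) (h2.trans ?_).symm)
  simp

theorem exists_under (hA : A ≤ P) (h : A.subgroupOf P ≤ center θ.1) :
    ∃ μ : A →* ℂˣ, Over θ μ := by
  obtain ⟨f, h1, -⟩ := (irr_isCharacter θ).exists_monoidHom_of_le_center h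
  refine ⟨f.toHomUnits.comp (subgroupOfEquivOfLe hA).symm.toMonoidHom, fun a ha => ?_⟩
  rw [tot_of_mem ha, mul_comm]
  exact (congrArg θ.1 (mul_one a).symm).trans (h1 ⟨a, ha⟩ 1)

theorem Over.mem_ker_iff (h : Over θ μ) {a : P} (ha : a.1 ∈ A) : a ∈ ker θ.1 ↔ tot μ a = 1 := by
  rw [(irr_isCharacter θ).mem_ker_iff, h a ha, mul_eq_left₀ (irr_apply_one_ne_zero θ),
    Units.val_eq_one]

theorem exists_under_linK (hA : A ≤ P) (h1 : ⁅A, P⁆ ≤ B) (h2 : B.subgroupOf P ≤ ker θ.1) :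
    ∃ μ ∈ linK B A, Over θ μ := by
  obtain ⟨μ, hμ⟩ := exists_under (θ := θ) hA fun a ha => (irr_mem_center_iff_commutator θ).2
    fun y => h2 (h1 (commutator_mem_commutator ha y.2))
  exact ⟨μ, fun b hb ha => (hμ.mem_ker_iff (a := ⟨b, hA ha⟩) ha).1 (h2 hb), hμ⟩

theorem Over.smul_eq [hA : A.Normal] [P.Normal] (h : Over θ μ) (hAP : A ≤ P) {g : G}
    (e : g • θ = θ) : g • μ = μ := MonoidHom.ext fun a => by
  have h1 := h (MulAut.conjNormal g⁻¹ ⟨a, hAP a.2⟩) (by simpa using hA.conj_mem' _ a.2 g)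
  rw [← conjSmul_apply, e, h _ a.2, mul_right_inj' (irr_apply_one_ne_zero θ), Units.val_inj] at h1
  rw [← tot_of_mem a.2, ← tot_of_mem a.2, tot_smul a.2, h1]
  simp

theorem Over.smul_eq_of_vanish [hA : A.Normal] [W.Normal] [P.Normal] (h : Over θ μ) (hAW : A ≤ W)
    (hWP : W ≤ P) (h1 : ⁅W, ⊤⁆ ≤ A) (h2 : W.subgroupOf P ≤ center θ.1)
    (h3 : ∀ x : P, x.1 ∉ W → θ.1 x = 0) {g : G} {m : ℕ} (hc : m.Coprime (Nat.card W))
    (hm : g ^ m • θ = θ) (e : g • μ = μ) : g • θ = θ := by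
  obtain ⟨ζ, hζ⟩ := exists_under hWP h2
  have h4 : ∀ a ∈ A, tot ζ a = tot μ a := fun a ha => Units.val_inj.1 (mul_left_cancel₀
    (irr_apply_one_ne_zero θ) ((hζ ⟨a, hWP (hAW ha)⟩ (hAW ha)).symm.trans (h _ ha)))
  have h5 : g • ζ = ζ := smul_eq_of_smul_div_fixed hc (hζ.smul_eq hWP hm) (lin_pow_card _)
    (smul_eq_of_mem_linK (B := A) (fun a ha hw => by
      rw [tot_div_hom, tot_smul hw, h4 _ (hA.conj_mem' a ha g), ← tot_smul ha, e, h4 a ha, div_self'])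
      fun w hw => h1 (commutator_mem_commutator hw trivial))
  refine Subtype.ext (funext fun x => ?_)
  rw [conjSmul_apply]
  by_cases hx : x.1 ∈ W
  · rw [hζ x hx, hζ _ (by simpa using Normal.conj_mem' inferInstance _ hx g), ← h5, tot_smul hx, h5]
    simp
  · rw [h3 x hx, h3 _ fun h6 => hx (by simpa [mul_assoc] using Normal.conj_mem inferInstance _ h6 g)]

end Over

end CT
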