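import Cfsg.Agent.Lib.Char.RelDeg
import Cfsg.Agent.Lib.Char.Glauberman
import Cfsg.Agent.Lib.Grp.Hall

/-!
# The Navarro–Wolf theorem: `Irr_{p'}(G) ⊆ Irr_{q'}(G)` for `{p, q}`-solvable groups
-/

set_option autoImplicit false
set_option linter.unusedSectionVars false
set_option linter.style.haveILetI false

namespace CT

open Cfsg GT Subgroup MulAction
open scoped ComplexConjugate Pointwise commutatorElement

universe u

variable {p q : ℕ} [hp : Fact p.Prime] [hq : Fact q.Prime]
variable {G : Type*} [Group G] [Finite G]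

theorem le_of_not_dvd_index_of_normalizer_le (hps : IsPSolvable p G) (hqs : IsPSolvable q G)
    {P Q T : Subgroup G} (hP : IsSylowIn p P ⊤) (hQ : IsSylowIn q Q ⊤)
    (hN : normalizer (P : Set G) ≤ normalizer (Q : Set G)) (hPT : P ≤ T) (hT : ¬ q ∣ T.index) :
    Q ≤ T := by
  have hall : HallOK {p, q} G := Or.inl fun r _ hr => by
    rcases hr with rfl | rfl
    exacts [hps, hqs]
  have hP' := isSylowIn_top_iff'.1 hP
  have hQ' := isSylowIn_top_iff'.1 hQ
  have hPQ : P ≤ normalizer (Q : Set G) := le_normalizer.trans hN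
  have idx : ∀ U : Subgroup G, P ≤ U → ¬ q ∣ U.index → IsPiNat ({p, q} : Set ℕ)ᶜ U.index := by
    intro U h1 h2
    refine isPiNat_compl_iff.2 fun r _ hr => ?_
    rcases hr with rfl | rfl
    exacts [fun h => hP'.2 (h.trans (index_dvd_of_le h1)), h2]
  have hPπ : IsPiNat {p, q} (Nat.card P) := hP'.1.isPiNat (Set.mem_insert _ _)
  have hH : IsPiHall {p, q} (P ⊔ Q) := isPiHall_iff.2
    ⟨(hPπ.mul (hQ'.1.isPiNat (Set.mem_insert_of_mem _ rfl))).of_dvd
      (card_sup_dvd_of_le_normalizer hPQ),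
      idx _ le_sup_left fun h => hQ'.2 (h.trans (index_dvd_of_le le_sup_right))⟩
  obtain ⟨H, hH1, hPH⟩ := (hall.subgroup T).exists_isPiHallOf_ge hPπ hPT
  obtain ⟨g, hg⟩ := hall.exists_conj_eq hH (isPiHall_of_isPiHallOf hH1 (idx T hPT hT))
  have h1 : IsSylowIn p (MulAut.conj g⁻¹ • P) (P ⊔ Q) :=
    (hP.conj_of_mem (mem_top g⁻¹)).of_le (by
      rw [← conj_inv_smul_conj_smul g (P ⊔ Q), hg]; exact conj_smul_mono _ hPH) le_top
  obtain ⟨h, hh, e⟩ := (hP.of_le le_sup_left le_top).exists_conj_eq h1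
  have h2 : g * h ∈ normalizer (P : Set G) := by
    rw [← conj_smul_eq_iff_mem_normalizer, ← conj_smul_conj_smul, e, conj_smul_conj_inv_smul]
  have h3 : g * h ∈ normalizer ((P ⊔ Q : Subgroup G) : Set G) :=
    le_normalizer_sup le_rfl hN h2
  rw [← conj_smul_eq_iff_mem_normalizer, ← conj_smul_conj_smul,
    conj_smul_eq_of_mem_normalizer (le_normalizer hh), hg] at h3
  exact le_sup_right.trans (h3.ge.trans (isPiHallOf_iff.1 hH1).1)

theorem exists_linear_ne_one_of_isComplement' {S : Type*} [Group S] [Finite S]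
    (hS : IsPGroup p S) {V H : Subgroup S} [V.Normal] (hV : V ≠ ⊥) (hc : V.IsComplement' H) :
    ∃ μ : S →* ℂ, ∃ v ∈ V, μ v ≠ 1 := by
  have h1 := commutator_lt_of_isPGroup (P := ⊤) (G := V) (isPGroup_top_iff.2 hS)
    (hS.to_subgroup V) le_normalizer_of_normal hV
  obtain ⟨v, hv, hv'⟩ := SetLike.exists_of_lt h1
  obtain ⟨f, hf, hf'⟩ := exists_units_hom_apply_ne_one (G := V) (N := (⁅V, (⊤ : Subgroup S)⁆ : Subgroup S).subgroupOf V) (by
    rw [_root_.commutator_def, commutator_le]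
    intro a _ b _
    exact commutator_mem_commutator a.2 (mem_top (b : S))) (g := ⟨v, hv⟩) hv'
  obtain ⟨μ, hμ, -⟩ := exists_extension_linear_of_complement V H hc ((Units.coeHom ℂ).comp f)
    fun x n => by
      have h2 : n * (MulAut.conjNormal x n)⁻¹ ∈ f.ker := hf (by
        have : ((n * (MulAut.conjNormal x n)⁻¹ : V) : S) = ⁅(n : S), x⁆ := by
          simp [commutatorElement_def, mul_assoc]
        rw [mem_subgroupOf, this]
        exact commutator_mem_commutator n.2 (mem_top x))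
      rw [MonoidHom.mem_ker, map_mul, map_inv, mul_inv_eq_one] at h2
      simp [h2]
  refine ⟨μ, v, hv, fun h => hf' ?_⟩
  rw [hμ ⟨v, hv⟩] at h
  exact Units.ext h

/-- If every `P`-invariant irreducible character of `M` is `S`-invariant, then
`C_M(P) = C_M(S)`. -/
theorem inf_centralizer_le_of_forall_invBy {M P S : Subgroup G} [Group.IsSolvable S]
    (H : CoprimeAct S M) (hPS : P ≤ S) (h : ∀ θ : IrrCharacter M, InvBy P θ.1 → InvBy S θ.1) :
    M ⊓ centralizer (P : Set G) ≤ centralizer (S : Set G) := by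
  have H' := H.of_le_left hPS
  haveI := isSolvable_of_le hPS
  have h1 := card_invBy_eq H.norm H.cop rfl
  have h2 := card_invBy_eq H'.norm H'.cop rfl
  rw [card_irr_eq_card_conjClasses, ← card_invariant_conjClasses H rfl] at h1
  rw [card_irr_eq_card_conjClasses, ← card_invariant_conjClasses H' rfl] at h2
  have h3 := h1.symm.trans ((Nat.card_congr (Equiv.subtypeEquivRight fun θ =>
    (⟨fun h' => h'.mono hPS, h θ⟩ : InvBy S θ.1 ↔ InvBy P θ.1))).trans h2)
  have h4 := Set.eq_of_subset_of_ncard_le (s := {K : ConjClasses M | ∀ s ∈ S, ∀ g g' : M,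
      (g' : G) = s * g * s⁻¹ → ConjClasses.mk g = K → ConjClasses.mk g' = K})
    (t := {K : ConjClasses M | ∀ s ∈ P, ∀ g g' : M,
      (g' : G) = s * g * s⁻¹ → ConjClasses.mk g = K → ConjClasses.mk g' = K})
    (fun K hK s hs => hK s (hPS hs)) h3.ge
  set C := M ⊓ centralizer (P : Set G) with hC
  have h5 : (centralizer (S : Set G)).subgroupOf C = ⊤ := by
    refine eq_top_of_forall_conj_mem _ fun c => ?_
    have h6 : ConjClasses.mk (⟨c, c.2.1⟩ : M) ∈ {K : ConjClasses M | ∀ s ∈ P, ∀ g g' : M,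
        (g' : G) = s * g * s⁻¹ → ConjClasses.mk g = K → ConjClasses.mk g' = K} := by
      intro s hs g g' hg hK
      rw [ConjClasses.mk_eq_mk_iff_isConj] at hK ⊢
      obtain ⟨y, hy⟩ := isConj_iff.1 hK
      refine isConj_iff.2 ⟨⟨_, conj_mem_of_mem_normalizer (H'.norm hs) y.2⟩, Subtype.ext ?_⟩
      have e1 : (y : G) * g * (y : G)⁻¹ = c := congrArg Subtype.val hy
      have e2 : s * c * s⁻¹ = c := by rw [c.2.2 s hs, mul_inv_cancel_right]
      change s * y * s⁻¹ * g' * (s * y * s⁻¹)⁻¹ = c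
      rw [hg, ← e2, ← e1]; group
    rw [← h4] at h6
    obtain ⟨y, hy, e⟩ := H.exists_conj_mem_centralizer (x := c) fun a ha => by
      obtain ⟨z, hz⟩ := isConj_iff.1 (ConjClasses.mk_eq_mk_iff_isConj.1
        (h6 a ha ⟨c, c.2.1⟩ ⟨_, conj_mem_of_mem_normalizer (H.norm ha) c.2.1⟩ rfl rfl)).symm
      exact ⟨z, z.2, (congrArg Subtype.val hz).symm⟩
    obtain ⟨z, hz, e'⟩ := H'.exists_mem_centralizer_conj hy c.2.2 (centralizer_anti hPS e)
    refine ⟨(⟨z, hz⟩ : C)⁻¹, ?_⟩
    rw [mem_subgroupOf, inv_inv]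
    change z * c * z⁻¹ ∈ _
    rwa [e']
  exact subgroupOf_eq_top.1 h5

/-- **Navarro–Wolf**. -/
theorem exists_normalizer_le_of_forall_degree (hpq : p ≠ q) (G : Type u) [Group G] [Finite G] :
    IsPSolvable p G → IsPSolvable q G →
    (∀ χ : IrrCharacter G, ¬ p ∣ charDegree χ.1 → ¬ q ∣ charDegree χ.1) →
    ∀ P : Subgroup G, IsSylowIn p P ⊤ →
      ∃ Q : Subgroup G, IsSylowIn q Q ⊤ ∧ normalizer (P : Set G) ≤ normalizer (Q : Set G) := by
  refine induction_on_card (P := fun G _ _ => IsPSolvable p G → IsPSolvable q G →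
    (∀ χ : IrrCharacter G, ¬ p ∣ charDegree χ.1 → ¬ q ∣ charDegree χ.1) →
    ∀ P : Subgroup G, IsSylowIn p P ⊤ →
      ∃ Q : Subgroup G, IsSylowIn q Q ⊤ ∧ normalizer (P : Set G) ≤ normalizer (Q : Set G))
    (fun G _ _ ih => ?_) G
  intro hps hqs h P hP
  rcases subsingleton_or_nontrivial G with hG | hG
  · obtain ⟨Q, hQ⟩ := exists_isSylowIn q (⊤ : Subgroup G)
    exact ⟨Q, hQ, fun x _ => Subsingleton.elim 1 x ▸ one_mem _⟩
  obtain ⟨M, hM⟩ := exists_isMinNormal G
  haveI := hM.normal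
  have hs := QuotientGroup.mk'_surjective M
  have hP1 := hP.map_top_of_surjective hs
  have hP' := isSylowIn_top_iff'.1 hP
  obtain ⟨Q₁, hQ₁, hN⟩ := ih (G ⧸ M) (card_quotient_lt hM.ne_bot) (isPSolvable_quotient hps M)
    (isPSolvable_quotient hqs M) (fun ψ hψ => h (inflate M ψ) hψ) _ hP1
  set R := Q₁.comap (QuotientGroup.mk' M) with hR
  have hMR : M ≤ R := le_comap_mk' M Q₁
  have hNR : normalizer (P : Set G) ≤ normalizer (R : Set G) := fun n hn =>
    le_normalizer_comap _ (hN (map_normalizer_le P _ (mem_map_of_mem _ hn)))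
  have hPR : P ≤ normalizer (R : Set G) := le_normalizer.trans hNR
  have hRi : ¬ q ∣ R.index := by rw [hR, index_comap_mk']; exact (isSylowIn_top_iff'.1 hQ₁).2
  obtain ⟨k, hk⟩ := IsPGroup.iff_card.1 hQ₁.isPGroup
  have hk' : M.relIndex R = q ^ k := by rw [hR, relIndex_comap_mk', hk]
  have key : ∀ (θ : IrrCharacter M) (χ : IrrCharacter G), LiesOver M χ.1 θ.1 →
      ¬ p ∣ charDegree χ.1 → P ≤ stabilizer G θ → R ≤ stabilizer G θ := by
    intro θ χ h1 h2 h3
    have h4 := le_of_not_dvd_index_of_normalizer_le (isPSolvable_quotient hps M)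
      (isPSolvable_quotient hqs M) hP1 hQ₁ hN (map_mono h3) (by
        rw [index_map_mk', sup_eq_left.2 (le_inertia θ)]
        exact fun hd => h χ h2 (hd.trans h1.index_inertia_dvd))
    rw [← comap_map_mk'_of_le (le_inertia θ)]
    exact comap_mono h4
  have top : ∀ Q : Subgroup G, IsSylowIn q Q R → IsSylowIn q Q ⊤ := fun Q hQ =>
    hQ.trans le_top (by rwa [relIndex_top_right])
  by_cases hq1 : IsPGroup q M
  · exact ⟨R, top R (isSylowIn_self (isPGroup_of_relIndex hMR hq1 hk')), hNR⟩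
  have hq2 := (hM.isPGroup_or_not_dvd_of_isPSolvable hqs).resolve_left hq1
  rcases hM.isPGroup_or_not_dvd_of_isPSolvable hps with hp1 | hp2
  · obtain ⟨Q, hQ⟩ := exists_isSylowIn q R
    have hsup := hQ.sup_eq_of_relIndex_eq_pow hMR hk'
    have H : CoprimeAct Q M := coprimeAct_of_isPGroup_left le_normalizer_of_normal hQ.isPGroup hq2
    have hMP : M ≤ P := hP.le_of_normalizes hp1 le_top le_normalizer_of_normal
    haveI := IsPGroup.isSolvable' hp1
    haveI := hM.isMulCommutative_of_isSolvable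
    refine ⟨Q, top Q hQ, hNR.trans (hQ.normalizer_le_normalizer ?_)⟩
    rw [← hsup]
    refine sup_le (le_trans ?_ (centralizer_le_normalizer _)) le_normalizer
    rw [← commutator_eq_bot_iff_le_centralizer]
    by_contra hV
    set V := ⁅M, Q⁆ with hVdef
    have hVM : V ≤ M := H.commutator_le
    have dec : ∀ x ∈ P, ∃ v ∈ V, ∃ z ∈ normalizer (Q : Set G), v * z = x := by
      intro x hx
      obtain ⟨r, hr, y, hy, rfl⟩ := hQ.frattini (hPR hx)
      rw [← hsup, mem_sup_of_le_normalizer_left le_normalizer_of_normal] at hr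
      obtain ⟨m, hm, u, hu, rfl⟩ := hr
      obtain ⟨v, hv, c, hc, rfl⟩ := H.exists_commutator_mul_centralizer hm
      exact ⟨v, hv, c * u * y, mul_mem (mul_mem (centralizer_le_normalizer _ hc.2)
        (le_normalizer hu)) hy, by group⟩
    have hPV : P ≤ normalizer (V : Set G) := by
      intro x hx
      obtain ⟨v, hv, z, hz, rfl⟩ := dec x hx
      exact mul_mem (le_normalizer hv) (normalizer_inf_normalizer_le_normalizer_commutator M Q
        ⟨le_normalizer_of_normal (mem_top z), hz⟩)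
    haveI := normal_subgroupOf_of_le_normalizer hPV
    obtain ⟨μ, v, hv, hμ⟩ := exists_linear_ne_one_of_isComplement' hP.isPGroup
      (V := V.subgroupOf P) (H := (normalizer (Q : Set G)).subgroupOf P)
      (fun e => hV (eq_bot_of_subgroupOf_eq_bot (hVM.trans hMP) e))
      (isComplement'_of_disjoint_of_sup_eq_top (by
        rw [disjoint_def]
        intro x h1 h2
        have h3 : (x : G) ∈ M ⊓ normalizer (Q : Set G) := ⟨hVM h1, h2⟩
        rw [H.inf_normalizer_eq] at h3
        exact Subtype.ext (disjoint_def.1 H.disjoint_commutator_centralizer h1 h3.2)) (by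
        rw [eq_top_iff]
        rintro ⟨x, hx⟩ -
        obtain ⟨v, hv, z, hz, rfl⟩ := dec x hx
        have hvP := hMP (hVM hv)
        exact mul_mem_sup (x := (⟨v, hvP⟩ : P))
          (y := (⟨z, (mul_mem_cancel_left hvP).1 hx⟩ : P)) hv hz))
    let μ' : IrrCharacter P := ⟨fun x => μ x, isIrrCharacter_of_monoidHom μ⟩
    let θ : IrrCharacter M := ⟨fun x => μ.comp (inclusion hMP) x, isIrrCharacter_of_monoidHom _⟩
    obtain ⟨χ, h1, h2⟩ := exists_liesOver_not_dvd (irr_isCharacter μ') (d := p) (by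
      rw [show charDegree μ'.1 = 1 from charDegree_linChar μ.toHomUnits, mul_one]; exact hP'.2)
    have h3 : LiesOver M χ.1 θ.1 := h1.trans_le hMP (irr_isCharacter χ) (irr_isCharacter θ) (by
      change ip θ.1 θ.1 ≠ 0
      rw [ip_irr_self]; exact one_ne_zero)
    have h4 := key θ χ h3 h2 fun x hx => conjSmul_eq_iff_mk.2 fun n =>
      irr_isClassFunction μ' ⟨n, hMP n.2⟩ ⟨x, hx⟩
    have h5 : V ≤ (μ.toHomUnits.ker).map P.subtype := by
      rw [hVdef, commutator_le]
      intro m hm y hy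
      have h6 := conjSmul_eq_iff_mk.1 (h4 (hQ.le hy)) ⟨m, hm⟩
      have hm' : y * m * y⁻¹ ∈ M := hM.normal.conj_mem m hm y
      refine ⟨⟨m, hMP hm⟩ * (⟨y * m * y⁻¹, hMP hm'⟩ : P)⁻¹, ?_, by
        simp [commutatorElement_def, mul_assoc]⟩
      rw [SetLike.mem_coe, MonoidHom.mem_ker, map_mul, map_inv, mul_inv_eq_one]
      exact Units.ext h6.symm
    obtain ⟨w, hw, e⟩ := h5 hv
    rw [Subtype.ext e] at hw
    exact hμ (congrArg Units.val hw)
  · have hRp : ¬ p ∣ Nat.card R := by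
      rw [← card_mul_relIndex hMR, hk', hp.out.dvd_mul]
      rintro (h1 | h1)
      exacts [hp2 h1, hpq ((Nat.prime_dvd_prime_iff_eq hp.out hq.out).1 (hp.out.dvd_of_dvd_pow h1))]
    have HR : CoprimeAct P R := coprimeAct_of_isPGroup_left hPR hP.isPGroup hRp
    obtain ⟨Q, hQ, hPQ⟩ := HR.exists_isSylowIn q
    have hπ : IsPiNat {p, q} (Nat.card (P ⊔ Q : Subgroup G)) :=
      ((hP'.1.isPiNat (π := {p, q}) (Set.mem_insert _ _)).mul
        (hQ.isPGroup.isPiNat (Set.mem_insert_of_mem _ rfl))).of_dvd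
        (card_sup_dvd_of_le_normalizer hPQ)
    haveI : Group.IsSolvable (P ⊔ Q : Subgroup G) := by
      haveI := IsPGroup.isSolvable' hP'.1
      haveI := IsPGroup.isSolvable' hQ.isPGroup
      exact isSolvable_sup_of_le_normalizer hPQ
    have HS : CoprimeAct (P ⊔ Q) M := ⟨le_normalizer_of_normal,
      IsPiNat.coprime' (isPiNat_compl_iff.2 fun r _ hr => by
        rcases hr with rfl | rfl
        exacts [hp2, hq2]) hπ, Or.inr inferInstance⟩
    have hC := inf_centralizer_le_of_forall_invBy HS le_sup_left fun θ hθ => by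
      have h1 : M ⊔ P ≤ stabilizer G θ := sup_le (le_inertia θ) (invBy_iff_smul.1 hθ)
      have h2 : (Nat.card M).Coprime (M.relIndex (M ⊔ P)) := by
        rw [relIndex_sup_left]
        exact Nat.Coprime.coprime_dvd_right (relIndex_dvd_card M P) (hP'.1.coprime_card hp2).symm
      obtain ⟨φ, hφ⟩ := exists_extension_le_of_coprime_card le_sup_left h1 h2
      obtain ⟨χ, h3, h4⟩ := exists_liesOver_not_dvd (irr_isCharacter φ) (d := p) (by
        rw [hp.out.dvd_mul, ← charDegree_resLe le_sup_left, hφ]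
        rintro (h3 | h3)
        exacts [hP'.2 (h3.trans (index_dvd_of_le le_sup_right)),
          hp2 (h3.trans (irr_degree_dvd_card θ))])
      have h5 := key θ χ (h3.trans_le le_sup_left (irr_isCharacter χ) (irr_isCharacter θ) (by
        change ip _ θ.1 ≠ 0
        rw [hφ, ip_irr_self]; exact one_ne_zero)) h4 (le_sup_right.trans h1)
      exact invBy_iff_smul.2 (sup_le (le_sup_right.trans h1) (hQ.le.trans h5))
    refine ⟨Q, top Q hQ, fun n hn => ?_⟩
    obtain ⟨c, hc, e⟩ := HR.exists_mem_centralizer_conj_eq_of_isSylowIn hQ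
      (hQ.conj_of_mem_normalizer (hNR hn)) hPQ (by
        rw [← conj_smul_normalizer, ← conj_smul_eq_of_mem_normalizer hn]
        exact conj_smul_mono n hPQ)
    rw [← conj_smul_eq_iff_mem_normalizer, ← e, conj_smul_eq_iff_mem_normalizer]
    have hsup := hQ.sup_eq_of_relIndex_eq_pow hMR hk'
    have h1 : QuotientGroup.mk' M c ∈ (Q ⊓ centralizer (P : Set G)).map (QuotientGroup.mk' M) := by
      rw [(HR.of_le hQ.le hPQ).map_inf_centralizer]
      refine ⟨?_, map_centralizer_le P _ (mem_map_of_mem _ hc.2)⟩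
      have : c ∈ (Q.map (QuotientGroup.mk' M)).comap (QuotientGroup.mk' M) := by
        rw [comap_map_mk'_eq, sup_comm, hsup]; exact hc.1
      exact this
    obtain ⟨u, hu, e'⟩ := h1
    have h2 : u⁻¹ * c ∈ M := QuotientGroup.eq.1 e'
    have h3 := hC (mem_inf.2 ⟨h2, mul_mem (inv_mem (mem_inf.1 hu).2) (mem_inf.1 hc).2⟩)
    have h4 := mul_mem (le_normalizer hu.1)
      (centralizer_le_normalizer _ (centralizer_anti le_sup_right h3))
    rwa [mul_inv_cancel_left] at h4

theorem not_dvd_index_pPrimeCore_of_forall_degree (hpq : p ≠ q) (hps : IsPSolvable p G)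
    (hqs : IsPSolvable q G) (h : ∀ χ : IrrCharacter G, pPrimeCore p G ≤ ker χ.1 →
      ¬ p ∣ charDegree χ.1 → ¬ q ∣ charDegree χ.1) : ¬ q ∣ (pPrimeCore p G).index := by
  obtain ⟨P, hP⟩ := exists_isSylowIn p (⊤ : Subgroup (G ⧸ pPrimeCore p G))
  obtain ⟨Q, hQ, hN⟩ := exists_normalizer_le_of_forall_degree hpq _
    (isPSolvable_quotient hps (pPrimeCore p G)) (isPSolvable_quotient hqs _)
    (fun ψ => h (inflate _ ψ) (le_ker_inflate _ ψ)) P hP
  have h0 : ∀ U : Subgroup (G ⧸ pPrimeCore p G), IsPGroup p U → Disjoint Q U := fun U hU =>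
    (disjoint_of_isPGroup_of_not_dvd hU (by
      obtain ⟨k, hk⟩ := IsPGroup.iff_card.1 hQ.isPGroup
      rw [hk]
      exact fun h1 => hpq ((Nat.prime_dvd_prime_iff_eq hp.out hq.out).1
        (hp.out.dvd_of_dvd_pow h1)))).symm
  have h1 : Q ≤ pCore p _ := (commute_of_normal_of_disjoint'
    ((hP.le_of_normalizes (isPGroup_pCore p _) le_top le_normalizer_of_normal).trans
      (le_normalizer.trans hN)) le_normalizer_of_normal (h0 _ (isPGroup_pCore p _))).trans
    (centralizer_pCore_le (isPSolvable_quotient hps _) (pPrimeCore_quotient_pPrimeCore p G))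
  have h2 : Q = ⊥ := (h0 _ (isPGroup_pCore p _)).eq_bot_of_le h1
  have h3 := hQ.eq_bot_iff.1 h2
  rwa [card_top, ← index_eq_card] at h3

end CT
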