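import Cfsg.Agent.Lib.Char.NqExt
import Cfsg.Agent.Lib.Char.FullyRam
import Cfsg.Agent.Lib.Char.RelDeg2
import Cfsg.Agent.Lib.Char.RelGraph
import Cfsg.Agent.Lib.Grp.Coord
import Cfsg.Agent.Lib.Grp.NdadCore

/-!
# Groups with no divisibility among character degrees: the Frobenius section
-/

set_option autoImplicit false
set_option linter.unusedSectionVars false
set_option linter.style.haveILetI false

namespace CT

open Cfsg GT Subgroup MulAction
open scoped commutatorElement Pointwise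

attribute [local instance] linAct

variable {G : Type*} [Group G] [Finite G]

/-- No nonlinear degree properly divides another one. -/
def NDAD (G : Type*) [Group G] : Prop :=
  ∀ a ∈ charDegrees G, ∀ b ∈ charDegrees G, 1 < a → a < b → ¬ a ∣ b

theorem exists_degree_eq_of_extends {A : Subgroup G} [A.Normal] {θ : IrrCharacter A}
    {ψ : IrrCharacter (stabilizer G θ)} (hψ : resLe (le_inertia θ) ψ.1 = θ.1)
    {β : IrrCharacter (stabilizer G θ)} (h4 : A.subgroupOf _ ≤ ker β.1) :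
    ∃ χ : IrrCharacter G, LiesOver A χ.1 θ.1 ∧
      charDegree χ.1 = (stabilizer G θ).index * charDegree θ.1 * charDegree β.1 := by
  have h5 := gallagher_isIrr_le (irr_isCharacter ψ) hψ h4
  have h6 : LiesOverLe (le_inertia θ) (⟨_, h5⟩ : IrrCharacter _).1 θ.1 := by
    rw [← liesOver_irrOf_iff]
    refine liesOver_of_res_eq_smul (irr_apply_one_ne_zero β) ?_
    rw [res_mul_of_le_ker h4, (res_subgroupOf_eq_irrOf_iff _).2 hψ]
  refine ⟨⟨_, cliffordCorr_isIrr le_rfl h6⟩, cliffordCorr_liesOver le_rfl h6, ?_⟩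
  rw [charDegree_ind h5.isCharacter, (irr_isCharacter _).charDegree_mul (irr_isCharacter ψ),
    ← hψ, charDegree_resLe]
  ring

theorem apply_eq_zero_of_forall_commutator {χ : IrrCharacter G} {A : Subgroup G} [A.Normal]
    (hA : ¬ A ≤ ker χ.1) {x : G} (h : ∀ z ∈ A, ∃ y, ⁅x, y⁆⁻¹ * z ∈ ker χ.1) : χ.1 x = 0 := by
  letI := Fintype.ofFinite A
  have h1 := sum_normal_irr_eq_zero A hA x⁻¹
  rw [Finset.sum_congr rfl fun z _ => (?_ : _ = χ.1 x⁻¹), Finset.sum_const, Finset.card_univ,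
    nsmul_eq_mul, mul_eq_zero, (irr_isCharacter χ).apply_inv] at h1
  · exact (map_eq_zero _).1 (h1.resolve_left (Nat.cast_ne_zero.2 Fintype.card_ne_zero))
  obtain ⟨y, hy⟩ := h z z.2
  have h2 := (irr_isClassFunction χ).ker_normal.conj_mem _ hy (x⁻¹ * ⁅x, y⁆)
  rw [← irr_isClassFunction χ x⁻¹ y, ← h2 (y * x⁻¹ * y⁻¹)]
  group

theorem exists_smul_div_eq {V : Type*} [CommGroup V] [Finite V] [MulDistribMulAction G V]
    {N : Subgroup G} [N.Normal] [IsCyclic (G ⧸ N)] (hN : ∀ n ∈ N, ∀ v : V, n • v = v)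
    (h : ∀ c, c ∉ N → ∀ v : V, c • v = v → ∀ g : G, g • v = v) {c : G} (hc : c ∉ N) (g : G)
    (v : V) : ∃ w : V, c • w / w = g • v / v := by
  let φ : G → V →* V := fun g => MulDistribMulAction.toMonoidHom _ g / MonoidHom.id _
  have hφ : ∀ g ν, φ g ν = g • ν / ν := fun _ _ => rfl
  have h1 : ∀ c, c ∉ N → ∀ g, (φ c).ker ≤ (φ g).ker := fun c hc g ν hν =>
    div_eq_one.2 (h c hc ν (div_eq_one.1 hν) g)
  obtain ⟨a, ha⟩ := IsCyclic.exists_generator (α := G ⧸ N)
  obtain ⟨a, rfl⟩ := QuotientGroup.mk_surjective a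
  have ha' : a ∉ N := fun e => hc ((QuotientGroup.eq_one_iff c).1 (by
    have := ha c
    rwa [(QuotientGroup.eq_one_iff a).2 e, zpowers_one_eq_bot] at this))
  let S : Subgroup G :=
    { carrier := {g | (φ g).range ≤ (φ a).range}
      mul_mem' := by
        rintro u v hu hv _ ⟨ν, rfl⟩
        have := mul_mem (hu ⟨v • ν, rfl⟩) (hv ⟨ν, rfl⟩)
        rwa [hφ, hφ, div_mul_div_cancel, smul_smul] at this
      one_mem' := by
        rintro _ ⟨ν, rfl⟩
        rw [hφ, one_smul, div_self']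
        exact one_mem _
      inv_mem' := by
        rintro u hu _ ⟨ν, rfl⟩
        have := inv_mem (hu ⟨u⁻¹ • ν, rfl⟩)
        rwa [hφ, inv_div, smul_inv_smul] at this }
  have h2 : ∀ g, g ∈ S := fun g => by
    obtain ⟨k, hk⟩ := ha g
    rw [← mul_inv_cancel_left (a ^ k) g]
    refine mul_mem (zpow_mem (le_refl (φ a).range :) k) ?_
    rintro _ ⟨ν, rfl⟩
    rw [hφ, hN _ (QuotientGroup.eq.1 hk) ν, div_self']
    exact one_mem _
  exact (eq_of_le_of_card_ge (h2 c) (by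
    rw [← index_ker, ← index_ker, le_antisymm (h1 a ha' c) (h1 _ hc a)])).ge (h2 g ⟨v, rfl⟩)

omit [Finite G] in
theorem inv_smul_div_apply {N : Subgroup G} [N.Normal] (g : G) (ν : N →* ℂˣ) {x : G} (hx : x ∈ N) :
    (g⁻¹ • ν / ν) ⟨x, hx⟩ =
      (ν ⟨_, commutator_le_left N ⊤ (commutator_mem_commutator hx (mem_top g))⟩)⁻¹ := by
  rw [MonoidHom.div_apply, ← map_inv]
  refine ((map_div ν _ _).symm.trans (congrArg ν (Subtype.ext ?_)))
  simp [commutatorElement_def, div_eq_mul_inv, mul_assoc]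

namespace NDAD

variable (h : NDAD G)
include h

omit [Finite G] in
theorem eq_of_dvd {a b : ℕ} (ha : a ∈ charDegrees G) (hb : b ∈ charDegrees G) (h1 : a ≠ 1)
    (hd : a ∣ b) : a = b :=
  (Nat.le_of_dvd (pos_of_mem_charDegrees hb) hd).eq_or_lt.resolve_right fun h2 =>
    h a ha b hb (lt_of_le_of_ne (pos_of_mem_charDegrees ha) h1.symm) h2 hd

omit [Finite G] in
theorem of_surjective {H : Type*} [Group H] {f : G →* H} (hf : Function.Surjective f) : NDAD H :=
  fun a ha b hb => h a (charDegrees_subset_of_surjective f hf ha) b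
    (charDegrees_subset_of_surjective f hf hb)

section Ext

variable {A : Subgroup G} [A.Normal] {θ : IrrCharacter A} {ψ : IrrCharacter (stabilizer G θ)}
  (hψ : resLe (le_inertia θ) ψ.1 = θ.1) (h1 : (stabilizer G θ).index * charDegree θ.1 ≠ 1)
include hψ h1

theorem degree_eq {χ : IrrCharacter G} (hχ : LiesOver A χ.1 θ.1) :
    charDegree χ.1 = (stabilizer G θ).index * charDegree θ.1 := by
  obtain ⟨χ₀, -, h2⟩ := exists_degree_eq_of_extends hψ (β := irrOne _) (le_top.trans ker_irrOne.ge)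
  rw [charDegree_irrOne, mul_one] at h2
  exact (h.eq_of_dvd (h2 ▸ mem_charDegrees χ₀) (mem_charDegrees χ) h1 hχ.index_mul_degree_dvd).symm

theorem commutator_le : ⁅stabilizer G θ, stabilizer G θ⁆ ≤ A := by
  rw [← map_subtype_commutator, map_le_iff_le_comap]
  refine fun x hx => (mem_normal_iff_forall_irr (A.subgroupOf _)).2 fun β hβ => ?_
  obtain ⟨χ, h2, h3⟩ := exists_degree_eq_of_extends hψ hβ
  rw [h.degree_eq hψ h1 h2, left_eq_mul₀ (mul_ne_zero index_ne_zero_of_finite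
    (irr_degree_pos θ).ne')] at h3
  exact (irr_degree_eq_one_iff_commutator_le_ker β).1 h3 hx

end Ext

theorem eq_of_pow {p a b : ℕ} (ha : p ^ a ∈ charDegrees G) (hb : p ^ b ∈ charDegrees G)
    (h1 : p ^ a ≠ 1) (h2 : p ^ b ≠ 1) : p ^ a = p ^ b :=
  (le_total a b).elim (fun e => h.eq_of_dvd ha hb h1 (pow_dvd_pow p e))
    fun e => (h.eq_of_dvd hb ha h2 (pow_dvd_pow p e)).symm

theorem ncard_le_two {p : ℕ} [hp : Fact p.Prime] {K : Subgroup G} [K.Normal]
    (hK : IsPGroup p (G ⧸ K)) (hne : ¬ commutator G ≤ K) : (charDegrees G).ncard ≤ 2 := by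
  obtain ⟨ξ, h1, h2⟩ := exists_irr_le_ker_not_le K hne
  rw [← irr_degree_eq_one_iff_commutator_le_ker] at h2
  obtain ⟨L, _, hL, k, hk⟩ := hasNormalPComplement_iff_exists.1
    (hasNormalPComplement_of_degrees (p := p) fun χ hχ => by_contra fun hn => h2 (by
      have h3 := gallagher_isIrr' (irr_isCharacter χ)
        (θ := ⟨_, isIrr_res_of_isPGroup_quotient hp.out hK hn⟩) rfl h1
      have h4 := (irr_isCharacter ξ).charDegree_mul (irr_isCharacter χ)
      have h5 := h.eq_of_dvd (mem_charDegrees χ) (mem_charDegrees ⟨_, h3⟩) hχ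
        (h4 ▸ dvd_mul_left _ _)
      exact (Nat.mul_eq_right (irr_degree_pos χ).ne').1 (h4.symm.trans h5.symm)))
  obtain ⟨j, hj⟩ := hK.exists_card_eq
  have hLK : L ≤ ker ξ.1 := (le_of_coprime_card_index (by
    rw [index, hj]
    exact ((hp.out.coprime_iff_not_dvd.2 hL).symm.pow_right j))).trans h1
  obtain ⟨a, -, ha⟩ := (Nat.dvd_prime_pow hp.out).1 (hk ▸ irr_degree_dvd_index_of_le_ker ξ hLK)
  refine ncard_charDegrees_le_two (m := charDegree ξ.1) fun χ => or_iff_not_imp_left.2 fun hχ => ?_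
  obtain ⟨θ, hθ⟩ := exists_irr_liesUnder L χ
  by_cases h3 : (stabilizer G θ).index * charDegree θ.1 = 1
  · have h4 := hθ.degree_dvd_index_mul
    rw [Nat.eq_one_of_mul_eq_one_left h3, mul_one, hk] at h4
    obtain ⟨b, -, hb⟩ := (Nat.dvd_prime_pow hp.out).1 h4
    exact hb.trans ((h.eq_of_pow (hb ▸ mem_charDegrees χ) (ha ▸ mem_charDegrees ξ) (hb ▸ hχ)
      (ha ▸ h2)).trans ha.symm)
  obtain ⟨ψ, hψ⟩ := exists_extension_le_of_coprime_card (le_inertia θ) le_rfl
    (((hp.out.coprime_iff_not_dvd.2 hL).symm.pow_right k).coprime_dvd_right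
      (hk ▸ relIndex_dvd_index_of_le (le_inertia θ)))
  obtain ⟨φ, hφ⟩ := exists_irr_liesUnder (stabilizer G θ) ξ
  have h4 := hφ.degree_le_index_mul (irr_isCharacter φ)
  obtain ⟨c, -, hc⟩ := (Nat.dvd_prime_pow hp.out).1 (hk ▸ index_dvd_of_le (le_inertia θ))
  rw [hφ.degree_eq_one_of_commutator_le_ker (irr_isClassFunction ξ)
    ((h.commutator_le hψ h3).trans hLK), mul_one, ha, hc] at h4
  refine (h.eq_of_dvd (mem_charDegrees ξ) (mem_charDegrees χ) h2 ?_).symm
  rw [h.degree_eq hψ h3 hθ, ha, hc]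
  exact (pow_dvd_pow p ((pow_le_pow_iff_right₀ hp.out.one_lt).1 h4)).mul_right _

theorem commutator_mem {N : Subgroup G} [N.Normal] [IsCyclic (G ⧸ N)]
    (hf : N.index ∈ charDegrees G) {x c : G} (hx : x ∈ N) (hc : c ∉ N) (e : ⁅x, c⁆ ∈ ⁅N, N⁆)
    (g : G) : ⁅x, g⁆ ∈ ⁅N, N⁆ := by
  have h1 : ∀ c, c ∉ N → ∀ ν : N →* ℂˣ, c • ν = ν → ∀ g : G, g • ν = ν := fun c hc ν hν => by
    obtain ⟨χ, hχ⟩ := exists_irr_liesOver (linChar ν)
    have h2 := clifford_degree hχ
    rw [hχ.mult_eq_one_of_isCyclic, one_mul, charDegree_linChar, mul_one] at h2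
    refine index_stabilizer_linChar_eq_one.1 (by_contra fun hn => hc ?_)
    have h3 := h.eq_of_dvd (h2 ▸ mem_charDegrees χ) hf hn (index_dvd_of_le (le_inertia _))
    rw [← relIndex_mul_index (le_inertia (linChar ν)),
      right_eq_mul₀ index_ne_zero_of_finite, relIndex_eq_one] at h3
    exact h3 (mem_stabilizer_linChar.2 hν)
  rw [← map_subtype_commutator] at e ⊢
  refine ⟨⟨_, commutator_le_left N ⊤ (commutator_mem_commutator hx (mem_top g))⟩,
    mem_commutator_iff_forall_units_hom.2 fun ν => ?_, rfl⟩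
  obtain ⟨μ, hμ⟩ := exists_smul_div_eq (fun n => conjLin_of_mem) h1 (mt inv_mem_iff.1 hc) g⁻¹ ν
  obtain ⟨z, hz, e⟩ := e
  rw [← inv_eq_one, ← inv_smul_div_apply _ _ hx, ← hμ, inv_smul_div_apply, inv_eq_one]
  exact (congrArg μ (Subtype.ext e.symm)).trans (mem_commutator_iff_forall_units_hom.1 hz μ)

end NDAD

theorem FrobSec.isCyclic {K N : Subgroup G} [N.Normal] (h : FrobSec K N) (hne : K ≠ N)
    (hc : commutator G ≤ N) : IsCyclic (G ⧸ N) := by
  haveI := h.normalK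
  obtain ⟨H, h1, h2⟩ := exists_frobAct_of_centralizer_le (N := N.map (QuotientGroup.mk' K)) (by
    rintro _ ⟨n, hn, rfl⟩ h1 g hg
    obtain ⟨g, rfl⟩ := QuotientGroup.mk_surjective g
    refine by_contra fun h2 => h1 ((QuotientGroup.eq_one_iff n).2 (h.frob n hn g
      (fun h3 => h2 ⟨g, h3, rfl⟩) ((QuotientGroup.eq_one_iff _).1 ?_)))
    exact commutatorElement_eq_one_iff_mul_comm.2 (mem_centralizer_singleton_iff.1 hg).symm)
  haveI : IsMulCommutative H := ⟨⟨fun a b => Subtype.ext (commutatorElement_eq_one_iff_mul_comm.1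
    (disjoint_def.1 h1.disjoint (map_mono hc ((map_mk'_commutator K).ge
      (commutator_mem_commutator trivial trivial)))
      (mul_mem (mul_mem (mul_mem a.2 b.2) (inv_mem a.2)) (inv_mem b.2))))⟩⟩
  obtain ⟨a, ha⟩ := (Subgroup.isCyclic_iff_exists_zpowers_eq_top H).1 (h1.isCyclic_of_isMulCommutative
    (fun e => hne (h.le.antisymm (map_mk'_eq_bot_iff.1 e))) le_rfl)
  obtain ⟨a, rfl⟩ := QuotientGroup.mk_surjective a
  refine isCyclic_quotient_of_sup_zpowers_eq_top (g := a) ?_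
  rw [← ha, ← QuotientGroup.mk'_apply, ← MonoidHom.map_zpowers, ← Subgroup.map_sup,
    map_mk'_eq_top_iff, sup_right_comm, sup_eq_left.2 h.le] at h2
  exact h2

omit [Finite G] in
theorem commute_commutator_of_central {x y g : G} (h1 : ∀ w, w * ⁅x, g⁆ = ⁅x, g⁆ * w)
    (h2 : Commute x ⁅g⁻¹, y⁻¹⁆) (h3 : Commute x (y * x * y⁻¹)) : Commute ⁅x, y⁆ g := by
  have h4 : y * x * y⁻¹ * g * (y * x * y⁻¹)⁻¹ = x * g * x⁻¹ :=
    calc _ = y * (x * g * x⁻¹) * (x * ⁅g⁻¹, y⁻¹⁆) * x⁻¹ * y⁻¹ := by group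
      _ = y * ⁅x, g⁆ * y⁻¹ * g := by rw [h2.eq]; group
      _ = _ := by rw [h1 y]; group
  rw [show ⁅x, y⁆ = x * (y * x * y⁻¹)⁻¹ by group, h3.inv_right.eq, commute_iff_eq]
  calc _ = (y * x * y⁻¹)⁻¹ * (x * g * x⁻¹) * x := by group
    _ = _ := by rw [← h4]; group

/-- The basic configuration: `G/N` cyclic acting Frobeniusly on `N/M`, with `M/N'` central. -/
structure NdSetup (N M : Subgroup G) [N.Normal] : Prop where
  nd : NDAD G
  frob : FrobSec M N
  cyc : IsCyclic (G ⧸ N)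
  ne_top : N ≠ ⊤
  ne : M ≠ N
  cent : ⁅M, ⊤⁆ ≤ ⁅N, N⁆

theorem NDAD.exists_setup [Group.IsSolvable G] (h : NDAD G) (hab : ¬ IsMulCommutative G)
    (hq : ∀ (p : ℕ) [Fact p.Prime] (K : Subgroup G) [K.Normal], IsPGroup p (G ⧸ K) →
      commutator G ≤ K) : ∃ (N M : Subgroup G) (_ : N.Normal), NdSetup N M := by
  obtain ⟨K, hK⟩ := exists_isMaxNonab hab
  haveI := hK.normal
  have hF := hK.dichotomy_of_isSolvable.resolve_left fun ⟨p, hp, h1, _⟩ =>
    haveI := Fact.mk hp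
    hK.not_le (hq p K h1)
  set N := commutator G ⊔ K
  have hne : K ≠ N := fun e => hK.not_le (le_sup_left.trans e.ge)
  haveI := hF.isCyclic hne le_sup_left
  have hf := hF.index_mem_charDegrees hne
  have hN : N ≠ ⊤ := fun e => hK.not_le (by
    have := hF.comm
    rwa [e] at this)
  let π := QuotientGroup.mk' ⁅N, N⁆
  let M := N ⊓ (Subgroup.center _).comap π
  have hM : ∀ x, x ∈ M ↔ x ∈ N ∧ ∀ g, ⁅x, g⁆ ∈ ⁅N, N⁆ := fun x => and_congr_right fun _ => by
    refine Subgroup.mem_center_iff.trans (QuotientGroup.mk_surjective.forall.trans ?_)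
    exact forall_congr' fun g => by
      rw [← QuotientGroup.eq_one_iff, eq_comm, ← commutatorElement_eq_one_iff_mul_comm]
      rfl
  have hNM : ⁅N, N⁆ ≤ M := fun x hx => (hM x).2 ⟨commutator_le_left N N hx, fun g =>
    commutator_le_left _ ⊤ (commutator_mem_commutator hx trivial)⟩
  obtain ⟨c, -, hc⟩ := SetLike.exists_of_lt hN.lt_top
  refine ⟨N, M, inferInstance, h, ⟨inferInstance, inferInstance, inf_le_left, hNM,
    fun x hx g hg e => by_contra fun hn => ?_⟩, ‹_›, hN, fun e => hne (hF.le.antisymm fun x hx =>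
      hF.frob x hx c hc (hF.comm (((hM x).1 (e.ge hx)).2 c))),
    Subgroup.commutator_le.2 fun x hx g _ => ((hM x).1 hx).2 g⟩
  have hA : ∀ a ∈ N, ∀ b ∈ N, Commute (π a) (π b) := fun a ha b hb =>
    commutatorElement_eq_one_iff_commute.1
      ((QuotientGroup.eq_one_iff _).2 (commutator_mem_commutator ha hb))
  have h1 : ∀ y, ⁅x, y⁆ ∈ M := fun y => by
    have h1 : ⁅x, y⁆ ∈ N := commutator_le_left N ⊤ (commutator_mem_commutator hx trivial)
    refine (hM _).2 ⟨h1, h.commutator_mem hf h1 hg ((QuotientGroup.eq_one_iff _).1 ?_)⟩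
    exact commutatorElement_eq_one_iff_commute.2 (commute_commutator_of_central (x := π x)
      (y := π y) (g := π g) (Subgroup.mem_center_iff.1 e.2) (hA x hx ⁅g⁻¹, y⁻¹⁆ (le_sup_left (α := Subgroup G)
        (commutator_mem_commutator trivial trivial)))
      (hA x hx _ (Normal.conj_mem inferInstance x hx y)))
  obtain ⟨a, ha⟩ := IsCyclic.exists_generator (α := G ⧸ N)
  obtain ⟨a, rfl⟩ := QuotientGroup.mk_surjective a
  have ha' : a ∉ N := fun e => hc ((QuotientGroup.eq_one_iff c).1 (by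
    have := ha c
    rwa [(QuotientGroup.eq_one_iff a).2 e, zpowers_one_eq_bot] at this))
  have h2 : orderOf (π ⁅x, a⁆) ≠ 1 := fun e => hn ((hM x).2 ⟨hx, h.commutator_mem hf hx ha'
    ((QuotientGroup.eq_one_iff _).1 (orderOf_eq_one_iff.1 e))⟩)
  obtain ⟨l, hl, k, hk⟩ := Nat.exists_prime_and_dvd h2
  haveI := Fact.mk hl
  have h3 : ∀ y, Commute (π ⁅x, a⁆) y := fun y => (Subgroup.mem_center_iff.1 (h1 a).2 y).symm
  have h4 : π ⁅x ^ k, a⁆ = π ⁅x, a⁆ ^ k := by
    rw [map_commutatorElement, map_pow, ← commutatorElement_inv, commutatorElement_pow_right,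
      ← inv_pow, commutatorElement_inv, map_commutatorElement]
    rw [← commutatorElement_inv, ← map_commutatorElement]
    exact (h3 _).inv_left
  have h5 : orderOf (π ⁅x ^ k, a⁆) = l := by
    have : k ≠ 0 := fun e => (orderOf_pos _).ne' (by rw [hk, e, mul_zero])
    rw [h4, orderOf_pow_of_dvd this ⟨l, by rw [hk, mul_comm]⟩, hk, Nat.mul_div_cancel _ this.pos]
  have h6 : a ^ l ∈ N := by_contra fun h6 => hl.ne_one (by
    rw [← h5, orderOf_eq_one_iff]
    refine (QuotientGroup.eq_one_iff _).2 (h.commutator_mem hf (pow_mem hx k) h6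
      ((QuotientGroup.eq_one_iff _).1 ?_) a)
    change π _ = 1
    rw [map_commutatorElement, map_pow π a, commutatorElement_pow_right, ← map_commutatorElement,
      ← h5, pow_orderOf_eq_one]
    rw [← map_commutatorElement, h4]
    exact (h3 _).pow_left k)
  let O : Subgroup G :=
    { carrier := {y | y ∈ N ∧ π y ^ ordCompl[l] (Nat.card G) = 1}
      mul_mem' := fun hu hv => ⟨mul_mem hu.1 hv.1, by
        rw [map_mul, (hA _ hu.1 _ hv.1).mul_pow, hu.2, hv.2, one_mul]⟩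
      one_mem' := ⟨one_mem _, by rw [map_one, one_pow]⟩
      inv_mem' := fun hu => ⟨inv_mem hu.1, by rw [map_inv, inv_pow, hu.2, inv_one]⟩ }
  haveI : O.Normal := ⟨fun y hy g => ⟨Normal.conj_mem inferInstance y hy.1 g, by
    rw [map_mul, map_mul, map_inv, conj_pow, hy.2, mul_one, mul_inv_cancel]⟩⟩
  have h7 := (hq l O (fun y => ?_) (commutator_mem_commutator (mem_top (x ^ k)) (mem_top a))).2
  · exact Nat.not_dvd_ordCompl hl Nat.card_pos.ne' (h5 ▸ orderOf_dvd_of_pow_eq_one h7)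
  obtain ⟨y, rfl⟩ := QuotientGroup.mk_surjective y
  refine ⟨1 + (Nat.card G).factorization l, (QuotientGroup.eq_one_iff (y ^ _)).2 ⟨?_, ?_⟩⟩
  · obtain ⟨j, hj⟩ := ha y
    rw [pow_add, pow_mul, pow_one]
    refine pow_mem ((QuotientGroup.eq_one_iff _).1 ?_) _
    rw [QuotientGroup.mk_pow, ← hj, ← zpow_natCast, ← zpow_mul, mul_comm, zpow_mul, zpow_natCast,
      ← QuotientGroup.mk_pow, (QuotientGroup.eq_one_iff _).2 h6, one_zpow]
  · rw [← map_pow, ← pow_mul, pow_add, mul_assoc, Nat.ordProj_mul_ordCompl_eq_self, mul_comm,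
      pow_mul, pow_card_eq_one', one_pow, map_one]

theorem LiesOver.subgroupOf_le_ker {A B : Subgroup G} {χ : IrrCharacter G} {θ : IrrCharacter A}
    (h : LiesOver A χ.1 θ.1) (hB : B ≤ ker χ.1) : B.subgroupOf A ≤ ker θ.1 := fun _ hx =>
  ker_le_ker_of_ip_ne_zero ((irr_isCharacter χ).res A).isClassFunction h fun y => hB hx y

theorem exists_commutator_eq_of_vanish {N M : Subgroup G} (hM : ⁅N, N⁆ ≤ M)
    (hv : ∀ ψ : IrrCharacter N, charDegree ψ.1 ≠ 1 → ∀ x : N, (x : G) ∉ M → ψ.1 x = 0) {x z : G}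
    (hx : x ∈ N) (hxM : x ∉ M) (hz : z ∈ ⁅N, N⁆) : ∃ y ∈ N, ⁅x, y⁆ = z := by
  have hz' := commutator_le_self N hz
  have key : IsConj (⟨x, hx⟩ : N)⁻¹ ((⟨x, hx⟩ : N)⁻¹ * ⟨z, hz'⟩) := by
    refine isConj_iff_forall_irr.2 fun ψ => ?_
    by_cases h1 : charDegree ψ.1 = 1
    · rw [← map_subtype_commutator] at hz
      obtain ⟨w, hw, rfl⟩ := hz
      exact (apply_mul_of_le_ker ((irr_degree_eq_one_iff_commutator_le_ker ψ).1 h1) _ w hw).symm
    · rw [hv ψ h1 _ (mt inv_mem_iff.1 hxM), hv ψ h1]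
      exact fun e => hxM (inv_mem_iff.1 ((mul_mem_cancel_right (hM hz)).1 e))
  obtain ⟨y, hy⟩ := isConj_iff.1 key
  refine ⟨y, y.2, ?_⟩
  rw [← mul_inv_cancel_left x z, show x⁻¹ * z = y * x⁻¹ * y⁻¹ from (congrArg Subtype.val hy).symm]
  simp [commutatorElement_def, mul_assoc]

omit [Finite G] in
theorem smul_lin_eq_iff {A : Subgroup G} [A.Normal] {c : G} {μ : A →* ℂˣ} :
    c • μ = μ ↔ ∀ a ∈ A, ∀ h : ⁅a, c⁆ ∈ A, μ ⟨_, h⟩ = 1 := by
  rw [eq_comm, ← inv_smul_eq_iff, MonoidHom.ext_iff, Subtype.forall]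
  refine forall₂_congr fun a ha => ?_
  rw [← div_eq_one, ← MonoidHom.div_apply, inv_smul_div_apply, inv_eq_one]
  exact ⟨fun e _ => e, fun e => e _⟩

theorem lin_eq_one_of_fpf {A B : Subgroup G} [A.Normal] [B.Normal] {c : G}
    (hc : ∀ a ∈ A, ⁅a, c⁆ ∈ B → a ∈ B) {μ : A →* ℂˣ} (hB : B.subgroupOf A ≤ μ.ker)
    (e : c • μ = μ) : μ = 1 := by
  ext1 ⟨a, ha⟩
  obtain ⟨x, hx, h1⟩ := exists_commutator_mem_of_fpf (R := A) (by rw [normalizer_eq_top]; trivial) hc ha
  have h2 : ⁅x, c⁆ ∈ A := commutator_le_left A ⊤ (commutator_mem_commutator hx trivial)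
  have h3 := hB (x := ⟨_, h2⟩⁻¹ * ⟨a, ha⟩) h1
  rwa [MonoidHom.mem_ker, map_mul, map_inv, smul_lin_eq_iff.1 e x hx, inv_one, one_mul] at h3

namespace NdSetup

variable {N M : Subgroup G} [hN : N.Normal] (h : NdSetup N M)
include h

theorem index_mem : N.index ∈ charDegrees G := h.frob.index_mem_charDegrees h.ne

theorem index_ne_one : N.index ≠ 1 := mt index_eq_one.1 h.ne_top

theorem commutator_le : commutator G ≤ N :=
  haveI := h.cyc
  commutator_le_of_isCyclic_quotient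

theorem vanish {ψ : IrrCharacter N} (h1 : charDegree ψ.1 ≠ 1) :
    (∀ x : N, (x : G) ∉ M → ψ.1 x = 0) ∧ M.relIndex N ∣ charDegree ψ.1 ^ 2 :=
  (h.frob.exists_irr_or_dvd ψ).resolve_left fun ⟨_, χ, _, _, e⟩ => h1
    ((Nat.mul_eq_left index_ne_zero_of_finite).1 (e.symm.trans (h.nd.eq_of_dvd h.index_mem
      (mem_charDegrees χ) h.index_ne_one (e ▸ dvd_mul_right _ _)).symm))

theorem degree_eq_or {χ : IrrCharacter G} (hχ : ⁅N, N⁆ ≤ ker χ.1) :
    charDegree χ.1 = 1 ∨ charDegree χ.1 = N.index :=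
  or_iff_not_imp_left.2 fun h1 => h.nd.eq_of_dvd (mem_charDegrees χ) h.index_mem h1
    (irr_degree_dvd_index_of_commutator_le_ker χ N hχ)

theorem not_dvd {χ : IrrCharacter G} (hχ : ¬ ⁅N, N⁆ ≤ ker χ.1) : ¬ N.index ∣ charDegree χ.1 := by
  intro h1
  obtain ⟨ψ, hψ⟩ := exists_irr_liesUnder N χ
  have h2 := (h.vanish (mt hψ.commutator_le_ker_iff.2 hχ)).2.trans (pow_dvd_pow_of_dvd
    (h.nd.eq_of_dvd h.index_mem (mem_charDegrees χ) h.index_ne_one h1 ▸ hψ.degree_dvd) 2)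
  exact h.ne (h.frob.le.antisymm (relIndex_eq_one.1
    ((h.frob.coprime.pow_right 2).eq_one_of_dvd h2)))

theorem exists_fix {A : Subgroup G} [A.Normal] {θ : IrrCharacter A}
    (hθ : ¬ ⁅N, N⁆.subgroupOf A ≤ ker θ.1) : ∃ c, c ∉ N ∧ c • θ = θ := by
  obtain ⟨χ, hχ⟩ := exists_irr_liesOver θ
  by_contra hn
  push Not at hn
  exact h.not_dvd (mt hχ.subgroupOf_le_ker hθ) ((index_dvd_of_le fun c hc =>
    by_contra fun h1 => hn c h1 hc).trans hχ.index_inertia_dvd)

theorem camina {x z : G} (hx : x ∈ N) (hM : x ∉ M) (hz : z ∈ ⁅N, N⁆) : ∃ y ∈ N, ⁅x, y⁆ = z :=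
  exists_commutator_eq_of_vanish h.frob.comm (fun _ h1 => (h.vanish h1).1) hx hM hz

theorem exists_compl {p : ℕ} [hp : Fact p.Prime] (hd : p ∣ M.relIndex N) :
    ∃ L : Subgroup G, L.Normal ∧ L ≤ N ∧ ¬ p ∣ Nat.card L ∧ ∃ k, L.relIndex N = p ^ k := by
  obtain ⟨k, hk⟩ := hasNormalPComplement_iff_index_pPrimeCore.1
    (hasNormalPComplement_of_degrees (G := N) fun ψ h1 =>
      hp.out.dvd_of_dvd_pow (hd.trans (h.vanish h1).2))
  refine ⟨(pPrimeCore p N).map N.subtype, inferInstance, map_subtype_le _,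
    not_dvd_card_map_pPrimeCore N, k, ?_⟩
  rw [← hk, relIndex, subgroupOf, comap_map_eq_self_of_injective N.subtype_injective]

theorem map {H : Type*} [Group H] {f : G →* H} (hf : Function.Surjective f) (hk : f.ker ≤ M)
    [(N.map f).Normal] : NdSetup (N.map f) (M.map f) := by
  have m : ∀ {K : Subgroup G}, f.ker ≤ K → ∀ x, f x ∈ K.map f ↔ x ∈ K := fun hK x => by
    rw [← mem_comap, comap_map_eq_self hK]
  haveI := h.cyc
  refine ⟨h.nd.of_surjective hf, ⟨h.frob.normalK.map f hf, ‹_›, map_mono h.frob.le,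
    map_commutator N N f ▸ map_mono h.frob.comm, ?_⟩,
    isCyclic_of_surjective (QuotientGroup.map N _ f (le_comap_map _ _))
      (QuotientGroup.map_surjective_of_surjective _ _ _ (QuotientGroup.mk_surjective.comp hf) _),
    fun e => h.ne_top (eq_top_iff.2 fun x _ => (m (hk.trans h.frob.le) x).1 (e.ge trivial)),
    fun e => h.ne (h.frob.le.antisymm fun x hx => (m hk x).1 (e.ge ⟨x, hx, rfl⟩)), ?_⟩
  · rintro _ ⟨x, hx, rfl⟩ g hg e
    obtain ⟨g, rfl⟩ := hf g
    exact ⟨x, h.frob.frob x hx g (fun h1 => hg ⟨g, h1, rfl⟩) ((m hk _).1 (by simpa using e)), rfl⟩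
  · rw [← map_top_of_surjective f hf, ← map_commutator, ← map_commutator]
    exact map_mono h.cent

end NdSetup

end CT
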