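import Cfsg.Agent.Lib.Char.LinTot

/-!
# Groups with no divisibility among character degrees: a normal Sylow subgroup
-/

set_option autoImplicit false
set_option linter.unusedSectionVars false
set_option linter.style.haveILetI false

namespace CT

open Cfsg GT Subgroup MulAction
open scoped commutatorElement Pointwise

attribute [local instance] linAct

variable {G : Type*} [Group G] [Finite G]

/-- The subgroup `[P, G]`. -/
abbrev pst (P : Subgroup G) : Subgroup G := ⁅P, ⊤⁆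

omit [Finite G] in
theorem commutatorElement_commutator_mem {P A B : Subgroup G} [P.Normal] [B.Normal] (hA : A ≤ P)
    (h1 : ⁅A, P⁆ ≤ B) {a b g : G} (ha : a ∈ P) (hb : b ∈ P) (h2 : ⁅g, a⁆ ∈ A) (h3 : ⁅g, b⁆ ∈ A) :
    ⁅⁅a, b⁆, g⁆ ∈ B := by
  let π := QuotientGroup.mk' B
  have h4 : ∀ t ∈ A, ∀ y ∈ P, π t * π y = π y * π t := fun t ht y hy =>
    commutatorElement_eq_one_iff_mul_comm.1
      ((QuotientGroup.eq_one_iff _).2 (h1 (commutator_mem_commutator ht hy)))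
  refine (QuotientGroup.eq_one_iff _).1 (commutatorElement_eq_one_iff_mul_comm.2
    (?_ : π ⁅a, b⁆ * π g = π g * π ⁅a, b⁆))
  have h5 := h4 _ h2 (a * (⁅g, b⁆ * b) * a⁻¹) (mul_mem (mul_mem ha (mul_mem (hA h3) hb)) (inv_mem ha))
  have h6 := h4 _ h3 (a * b * a⁻¹ * b⁻¹) (mul_mem (mul_mem (mul_mem ha hb) (inv_mem ha)) (inv_mem hb))
  have h7 := h4 _ h3 a ha
  simp only [map_mul, map_inv] at h5 h6
  rw [map_commutatorElement]
  calc _ = (π ⁅g, b⁆ * (π a * π b * (π a)⁻¹ * (π b)⁻¹)) * (π ⁅g, b⁆)⁻¹ * π g := by rw [h6]; group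
    _ = π ⁅g, a⁆ * (π a * (π ⁅g, b⁆ * π b) * (π a)⁻¹) * (π ⁅g, a⁆)⁻¹ * (π ⁅g, b⁆ * π b)⁻¹ * π g := by
      rw [h5, ← mul_assoc (π a), ← h7]; group
    _ = _ := by simp only [map_commutatorElement]; group

/-- The configuration `N = P × L` with `P` a normal Sylow subgroup of `G`. -/
structure CaseA (p : ℕ) (N M P : Subgroup G) [N.Normal] : Prop extends NdSetup N M where
  pgrp : IsPGroup p P
  le : P ≤ N
  ndvd : ¬ p ∣ P.index
  dec : ∀ y ∈ N, ∃ u ∈ P, ∃ l ∈ M, l ∈ centralizer (P : Set G) ∧ u * l = y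
  lc : lc2 N = lc2 P
  ne_bot : lc2 P ≠ ⊥

namespace CaseA

variable {p : ℕ} [hp : Fact p.Prime] {N M P : Subgroup G} [hN : N.Normal] [hM : M.Normal]
  [hP : P.Normal] (h : CaseA p N M P) {A B D : Subgroup G} {a c g x : G}
include h

theorem exists_commutator_eq (ha : a ∈ P) {n : G} (hn : n ∈ N) : ∃ u ∈ P, ⁅a, u⁆ = ⁅a, n⁆ := by
  obtain ⟨u, hu, l, -, hl, rfl⟩ := h.dec n hn
  refine ⟨u, hu, ?_⟩
  calc _ = a * u * (a⁻¹ * l) * l⁻¹ * u⁻¹ := by group
    _ = _ := by rw [hl _ (inv_mem ha)]; group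

theorem cam (hx : x ∈ P) (hxM : x ∉ M) {z : G} (hz : z ∈ lc2 P) : ∃ y ∈ P, ⁅x, y⁆ = z := by
  obtain ⟨y, hy, rfl⟩ := h.camina (h.le hx) hxM (h.lc.ge hz)
  exact h.exists_commutator_eq hx hy

theorem cent' : ⁅M, ⊤⁆ ≤ lc2 P := h.cent.trans h.lc.le

theorem lc2_le : lc2 P ≤ M ⊓ P := le_inf (h.lc.ge.trans h.frob.comm) (commutator_le_self P)

theorem not_le : ¬ P ≤ M := fun e => h.ne (h.frob.le.antisymm fun y hy => by
  obtain ⟨u, hu, l, hl, -, rfl⟩ := h.dec y hy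
  exact mul_mem (e hu) hl)

theorem smul_of_mem [A.Normal] (hA : A ≤ P) {μ : A →* ℂˣ} (hμ : ∀ y ∈ P, y • μ = μ) {n : G}
    (hn : n ∈ N) : n • μ = μ := smul_eq_iff_tot.2 fun d hd => by
  obtain ⟨u, hu, e⟩ := h.exists_commutator_eq (hA hd) hn
  exact e ▸ smul_eq_iff_tot.1 (hμ u hu) d hd

theorem irr_smul_of_mem (θ : IrrCharacter P) {n : G} (hn : n ∈ N) : n • θ = θ := by
  obtain ⟨u, hu, l, -, hl, rfl⟩ := h.dec n hn
  rw [mul_smul, conjSmul_of_mem_centralizer hl, conjSmul_of_mem hu]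

theorem coprime (hA : A ≤ P) : N.index.Coprime (Nat.card A) :=
  ((h.pgrp.to_le hA).coprime_card fun e => h.ndvd (e.trans (index_dvd_of_le h.le))).symm

theorem exists_gen : ∃ c, c ∉ N ∧ ∀ S : Subgroup G, N ≤ S → c ∈ S → ∀ g, g ∈ S := by
  haveI := h.cyc
  obtain ⟨a, ha⟩ := IsCyclic.exists_generator (α := G ⧸ N)
  obtain ⟨a, rfl⟩ := QuotientGroup.mk_surjective a
  have key : ∀ S : Subgroup G, N ≤ S → a ∈ S → ∀ g, g ∈ S := fun S hS ha' g => by
    obtain ⟨k, hk⟩ := ha g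
    exact (mul_mem_cancel_left (inv_mem (zpow_mem ha' k))).1 (hS (QuotientGroup.eq.1 hk))
  exact ⟨a, fun e => h.ne_top (eq_top_iff.2 fun g _ => key N le_rfl e g), key⟩

theorem exists_fix_lin [D.Normal] (hD : D ≤ lc2 P) {κ : D →* ℂˣ} (hκ : κ ≠ 1) :
    ∃ c, c ∉ N ∧ c • κ = κ := by
  obtain ⟨c, h1, h2⟩ := h.exists_fix (θ := linChar κ) fun e => hκ (MonoidHom.ext fun d =>
    (ker_linChar κ).le (e (h.lc.ge (hD d.2))))
  exact ⟨c, h1, mem_stabilizer_linChar.1 h2⟩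

theorem commutator_lt [D.Normal] (hD : D ≤ P) (h0 : D ≠ ⊥) : ⁅D, P⁆ < D :=
  commutator_lt_of_isPGroup h.pgrp (h.pgrp.to_le hD) le_normalizer_of_normal h0

theorem exists_commutator_mem (hc : c ∉ N) (ha : a ∈ P) : ∃ w ∈ P, ⁅w, c⁆⁻¹ * a ∈ M :=
  exists_commutator_mem_of_fpf (le_normalizer_of_normal (mem_top c))
    (fun x hx => h.frob.frob x (h.le hx) c hc) ha

theorem lin_smul_of_mem (κ : P →* ℂˣ) {n : G} (hn : n ∈ N) : n • κ = κ :=
  h.smul_of_mem le_rfl (fun _ hy => conjLin_of_mem hy κ) hn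

theorem star_inf (ha : a ∈ pst P) (haM : a ∈ M) : a ∈ lc2 P := by_contra fun hn => by
  have haP := commutator_le_left P ⊤ ha
  obtain ⟨c, hc, hS⟩ := h.exists_gen
  obtain ⟨κ, -, h1⟩ := exists_tot_ne_one le_rfl haP hn
  obtain ⟨ν, h2, e⟩ := exists_smul_div_eq_of_fpf (U := linK M P) (fun _ => smul_mem_linK c)
    (fun ν => linK_eq_one_of_fpf fun x hx => h.frob.frob x (h.le hx) c hc) (u := c • κ / κ)
    fun m hm hmP => by
      have := tot_inv_smul_div (g := c⁻¹) (κ := κ) hmP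
      rw [inv_inv] at this
      rw [this, tot_eq_one_of_mem_lc2 (h.cent' (commutator_mem_commutator hm trivial)), inv_one]
  have h3 := tot_eq_one_of_forall_smul (fun g _ => hS (stabilizer G (κ / ν))
    (fun _ => h.lin_smul_of_mem _) ((smul_div' c κ ν).trans
      (div_eq_div_iff_div_eq_div.1 e.symm)) g) ha
  rw [tot_div_hom, tot_eq_one h2 haM, div_one] at h3
  exact h1 h3

theorem star_surj (hc : c ∉ N) (ha : a ∈ pst P) : ∃ w ∈ pst P, ⁅w, c⁆⁻¹ * a ∈ lc2 P :=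
  exists_commutator_mem_of_fpf (le_normalizer_of_normal (mem_top c)) (fun x hx e => h.star_inf hx
    (h.frob.frob x (h.le (commutator_le_left P ⊤ hx)) c hc (h.lc2_le e).1)) ha

theorem dec_star (ha : a ∈ P) : ∃ s ∈ pst P, ∃ m ∈ M ⊓ P, s * m = a := by
  obtain ⟨c, hc, -⟩ := h.exists_gen
  obtain ⟨w, hw, e⟩ := h.exists_commutator_mem hc ha
  have h1 := commutator_mem_commutator hw (mem_top c)
  exact ⟨_, h1, _, ⟨e, P.mul_mem (P.inv_mem (commutator_le_left P ⊤ h1)) ha⟩, mul_inv_cancel_left _ _⟩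

theorem le_of_star [B.Normal] (h1 : ⁅A, pst P⁆ ≤ B) (h2 : ⁅A, M ⊓ P⁆ ≤ B) : ⁅A, P⁆ ≤ B :=
  Subgroup.commutator_le.2 fun a ha y hy => by
    obtain ⟨s, hs, m, hm, rfl⟩ := h.dec_star hy
    rw [show ⁅a, s * m⁆ = ⁅a, s⁆ * (s * ⁅a, m⁆ * s⁻¹) by group]
    exact mul_mem (h1 (commutator_mem_commutator ha hs))
      (Normal.conj_mem ‹_› _ (h2 (commutator_mem_commutator ha hm)) s)

theorem tot_star {μ : P →* ℂˣ} (hc : c ∉ N) (e : c • μ = μ) (ha : a ∈ pst P) : tot μ a = 1 := by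
  obtain ⟨w, hw, h1⟩ := h.star_surj hc ha
  have h2 := commutator_le_left P ⊤ hw
  rw [← mul_inv_cancel_left ⁅w, c⁆ a, tot_mul (commutator_le_left P ⊤
    (commutator_mem_commutator h2 trivial)) (commutator_le_self P h1), smul_eq_iff_tot.1 e w h2,
    tot_eq_one_of_mem_lc2 h1, mul_one]

theorem tot_commutator_star [A.Normal] [D.Normal] (hA : A ≤ P) (hD : ⁅A, P⁆ ≤ D) {κ : D →* ℂˣ}
    (h1 : ∀ y ∈ P, y • κ = κ) (hc : c ∉ N) (e : c • κ = κ) (ha : a ∈ A)
    (h2 : ∀ y ∈ P, tot κ ⁅⁅c, a⁆, y⁆ = 1) {s : G} (hs : s ∈ pst P) : tot κ ⁅a, s⁆ = 1 := by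
  have m : ∀ {a y}, a ∈ A → y ∈ P → ⁅a, y⁆ ∈ D := fun ha hy => hD (commutator_mem_commutator ha hy)
  obtain ⟨μ, hμ⟩ := exists_formChar h1 fun y hy => m ha hy
  rw [← hμ s (commutator_le_left P ⊤ hs)]
  refine h.tot_star hc (MonoidHom.ext fun y => ?_) hs
  have h3 : ⁅c, a⁆ ∈ A := commutator_le_right ⊤ A (commutator_mem_commutator trivial ha)
  have h4 := hP.conj_mem' _ y.2 c
  rw [← tot_of_mem y.2, ← tot_of_mem y.2, tot_smul y.2, hμ _ h4, hμ _ y.2, ← tot_conj e (m ha h4),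
    show c * ⁅a, c⁻¹ * y * c⁆ * c⁻¹ = ⁅⁅c, a⁆ * a, y.1⁆ by group,
    tot_commutator_mul_left (h1 _ (hA h3)) (m h3 y.2) (m ha y.2), h2 _ y.2, mul_one]

theorem commutator_star_le [A.Normal] [D.Normal] [B.Normal] (hA : A ≤ P) (hD : ⁅A, P⁆ ≤ D)
    (h1 : D ≤ lc2 P) (h2 : ⁅D, P⁆ ≤ B) (h3 : ⁅pst A, P⁆ ≤ B) : ⁅A, pst P⁆ ≤ B :=
  Subgroup.commutator_le.2 fun a ha s hs => by_contra fun hn => by
    obtain ⟨κ, h4, h5⟩ := exists_tot_ne_one ((commutator_mono le_rfl (h1.trans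
      (commutator_le_self P))).trans h2) (hD (commutator_mem_commutator ha
      (commutator_le_left P ⊤ hs))) hn
    obtain ⟨c, hc, e⟩ := h.exists_fix_lin h1 fun e => h5 (lin_eq_one_iff.1 e _
      (hD (commutator_mem_commutator ha (commutator_le_left P ⊤ hs))))
    exact h5 (h.tot_commutator_star hA hD (fun y hy => smul_eq_of_mem_linK h4 fun d hd =>
      h2 (commutator_mem_commutator hd hy)) hc e ha (fun y hy => tot_eq_one h4 (h3
        (commutator_mem_commutator ((commutator_comm _ _).le (commutator_mem_commutator trivial ha))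
        hy))) hs)

theorem comm_star : ⁅M ⊓ P, pst P⁆ ≤ lc3 P :=
  h.commutator_star_le inf_le_right (commutator_mono inf_le_right le_rfl) le_rfl le_rfl
    (commutator_mono ((commutator_mono inf_le_left le_rfl).trans h.cent') le_rfl)

theorem lc3_lt : lc3 P < lc2 P := h.commutator_lt (commutator_le_self P) h.ne_bot

theorem pow_mem (hx : x ∈ P) : x ^ p ∈ M := by_contra fun hn => by
  let π := QuotientGroup.mk' (lc3 P)
  have h1 : ∀ k, ∀ z ∈ lc2 P, ∃ w ∈ lc2 P, π z = π w ^ p ^ k := fun k => by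
    induction k with
    | zero => exact fun z hz => ⟨z, hz, by simp⟩
    | succ k ih =>
      intro z hz
      obtain ⟨w, hw, e⟩ := ih z hz
      obtain ⟨y, hy, rfl⟩ := h.cam (P.pow_mem hx p) hn (inv_mem hw) |>.imp fun y hy =>
        And.intro hy.1 (inv_eq_iff_eq_inv.2 hy.2)
      refine ⟨⁅y, x⁆, commutator_mem_commutator hy hx, ?_⟩
      rw [e, commutatorElement_inv, map_commutatorElement, map_pow, commutatorElement_pow_right,
        ← pow_mul, pow_succ', map_commutatorElement]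
      exact commutatorElement_eq_one_iff_commute.1 ((QuotientGroup.eq_one_iff _).2
        (commutator_mem_commutator (commutator_mem_commutator hy hx) hx))
  refine h.lc3_lt.not_ge fun z hz => ?_
  obtain ⟨k, hk⟩ := h.pgrp.exists_card_eq
  obtain ⟨w, hw, e⟩ := h1 k z hz
  rw [← map_pow, ← hk, show w ^ Nat.card P = 1 from congrArg Subtype.val
    (pow_card_eq_one' (x := (⟨w, commutator_le_self P hw⟩ : P))), map_one] at e
  exact (QuotientGroup.eq_one_iff z).1 e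

theorem star_pow (hx : x ∈ pst P) : x ^ p ∈ lc2 P :=
  h.star_inf (Subgroup.pow_mem _ hx p) (h.pow_mem (commutator_le_left P ⊤ hx))

theorem degree_eq {θ : IrrCharacter P} (hθ : charDegree θ.1 ≠ 1) {χ : IrrCharacter G}
    (hχ : LiesOver P χ.1 θ.1) : charDegree χ.1 = (stabilizer G θ).index * charDegree θ.1 := by
  obtain ⟨ψ, hψ⟩ := exists_extension_le_of_coprime_card (le_inertia θ) le_rfl (h.pgrp.coprime_card
    fun e => h.ndvd (e.trans (relIndex_dvd_index_of_le (le_inertia θ))))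
  exact h.nd.degree_eq hψ (fun e => hθ (Nat.eq_one_of_mul_eq_one_left e)) hχ

theorem mem_cd {θ : IrrCharacter P} (hθ : charDegree θ.1 ≠ 1) :
    (stabilizer G θ).index * charDegree θ.1 ∈ charDegrees G := by
  obtain ⟨χ, hχ⟩ := exists_irr_liesOver θ
  exact h.degree_eq hθ hχ ▸ mem_charDegrees χ

section Two

variable {θ : IrrCharacter P} {μ : lc2 P →* ℂˣ} (h1 : μ ∈ linK (lc3 P) (lc2 P)) (h2 : μ ≠ 1)
  (h3 : Over θ μ)
include h1 h2 h3

theorem degree_ne_one : charDegree θ.1 ≠ 1 := fun e => h2 (lin_eq_one_iff.2 fun d hd => by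
  obtain ⟨z, hz, rfl⟩ := (map_subtype_commutator P).ge hd
  exact (h3.mem_ker_iff hd).1 ((irr_degree_eq_one_iff_commutator_le_ker θ).1 e hz))

theorem mem_center_iff {a : P} :
    a ∈ center θ.1 ↔ a.1 ∈ M ∧ ∀ m ∈ M ⊓ P, tot μ ⁅a.1, m⁆ = 1 := by
  have h4 : a ∈ center θ.1 ↔ ∀ y ∈ P, tot μ ⁅a.1, y⁆ = 1 := by
    rw [irr_mem_center_iff_commutator, Subtype.forall]
    exact forall₂_congr fun y hy => h3.mem_ker_iff (commutator_mem_commutator a.2 hy)
  refine h4.trans ⟨fun e => ⟨by_contra fun hn => h2 (lin_eq_one_iff.2 fun z hz => ?_),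
    fun m hm => e m hm.2⟩, fun e y hy => ?_⟩
  · obtain ⟨y, hy, rfl⟩ := h.cam a.2 hn hz
    exact e y hy
  · obtain ⟨s, hs, m, hm, rfl⟩ := h.dec_star hy
    have h5 := commutator_le_left P ⊤ hs
    rw [tot_commutator_mul_right (smul_eq_of_mem_linK h1 fun d hd => commutator_mem_commutator hd h5)
      (commutator_mem_commutator a.2 h5) (commutator_mem_commutator a.2 hm.2), e.2 m hm,
      tot_eq_one h1 (h.comm_star (commutator_mem_commutator ⟨e.1, a.2⟩ hs)), mul_one]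

theorem commutator_le_center : commutator P ≤ center θ.1 := fun z hz =>
  have h4 : z.1 ∈ lc2 P := (map_subtype_commutator P).le ⟨z, hz, rfl⟩
  (h.mem_center_iff h1 h2 h3).2 ⟨(h.lc2_le h4).1, fun _ hm =>
    tot_eq_one h1 (commutator_mem_commutator h4 hm.2)⟩

theorem smul_eq_of_invariant (h4 : ∀ g : G, g • μ = μ) (g : G) : g • θ = θ := by
  have h5 : ∀ a : P, a.1 ∈ (center θ.1).map P.subtype ↔ a ∈ center θ.1 := fun a =>
    mem_map_iff_mem (subtype_injective _)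
  haveI : ((center θ.1).map P.subtype).Normal := ⟨by
    rintro _ ⟨a, ha, rfl⟩ g
    rw [SetLike.mem_coe, h.mem_center_iff h1 h2 h3] at ha
    refine (h5 ⟨_, hP.conj_mem _ a.2 g⟩).2 ((h.mem_center_iff h1 h2 h3).2
      ⟨hM.conj_mem _ ha.1 g, fun m hm => ?_⟩)
    have h6 := Normal.conj_mem' inferInstance m hm g
    rw [← ha.2 _ h6, ← tot_conj (h4 g) (commutator_mem_commutator a.2 h6.2)]
    congr 1
    simp only [coe_subtype]
    group⟩
  refine h3.smul_eq_of_vanish ((map_subtype_commutator P).ge.trans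
    (map_mono (h.commutator_le_center h1 h2 h3))) (map_subtype_le _) ((commutator_mono ?_ le_rfl).trans
    h.cent') (fun a ha => (h5 a).1 ha) (fun x hx => irr_apply_eq_zero_of_commutator_le_center θ
      (h.commutator_le_center h1 h2 h3) (mt (h5 x).2 hx)) (h.coprime (map_subtype_le _))
    (h.irr_smul_of_mem θ (N.pow_index_mem g)) (h4 g)
  rintro _ ⟨a, ha, rfl⟩
  exact ((h.mem_center_iff h1 h2 h3).1 ha).1

end Two

theorem exists_over_lc2 {μ : lc2 P →* ℂˣ} (h1 : μ ∈ linK (lc3 P) (lc2 P)) :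
    ∃ θ : IrrCharacter P, Over θ μ :=
  exists_over (commutator_le_self P) fun _ hy => smul_eq_of_mem_linK h1 fun _ hd =>
    commutator_mem_commutator hd hy

theorem alpha_or : ⁅lc2 P, ⊤⁆ ≤ lc3 P ∨
    ∀ μ ∈ linK (lc3 P) (lc2 P), (∀ g : G, g • μ = μ) → μ = 1 := by
  refine or_iff_not_imp_left.2 fun hn μ h1 h2 => by_contra fun h3 => hn ?_
  refine Subgroup.commutator_le.2 fun d hd g _ => commutator_mem_of_forall_linK
    (commutator_mono le_rfl (commutator_le_self P)) (fun ν h4 => by_contra fun h5 => ?_) d hd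
  have h6 : g • ν / ν ∈ linK (lc3 P) (lc2 P) := div_mem (smul_mem_linK g h4) h4
  have h7 : g • (μ * (g • ν / ν)) ≠ μ * (g • ν / ν) := fun e => h5 (smul_eq_of_smul_div_fixed
    (h.coprime (commutator_le_self P)) (h.smul_of_mem (commutator_le_self P) (fun y hy =>
      smul_eq_of_mem_linK h4 fun d hd => commutator_mem_commutator hd hy) (N.pow_index_mem g))
    (lin_pow_card _) (mul_left_cancel (a := μ) (((congrArg (· * g • (g • ν / ν)) (h2 g)).symm.trans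
      (smul_mul' g μ _).symm).trans e)))
  have h8 : μ * (g • ν / ν) ≠ 1 := fun e => h7 (by rw [e]; rfl)
  obtain ⟨θ, h9⟩ := h.exists_over_lc2 h1
  obtain ⟨φ, h10⟩ := h.exists_over_lc2 (mul_mem h1 h6)
  have h11 : center φ.1 = center θ.1 := Subgroup.ext fun a => by
    rw [h.mem_center_iff h1 h3 h9, h.mem_center_iff (mul_mem h1 h6) h8 h10]
    refine and_congr_right fun ha => forall₂_congr fun m hm => ?_
    have := tot_inv_smul_div (g := g⁻¹) (κ := ν) (commutator_mem_commutator a.2 hm.2)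
    rw [inv_inv, tot_eq_one h4 (commutatorElement_commutator_mem (commutator_le_self P) le_rfl a.2 hm.2
      (h.cent' ((commutator_comm _ _).le (commutator_mem_commutator trivial ha)))
      (h.cent' ((commutator_comm _ _).le (commutator_mem_commutator trivial hm.1))))] at this
    rw [tot_mul_hom, this, inv_one, mul_one]
  have h12 := irr_degree_sq_eq_index_center_of_commutator_le φ
    (h.commutator_le_center (mul_mem h1 h6) h8 h10)
  rw [h11, ← irr_degree_sq_eq_index_center_of_commutator_le θ (h.commutator_le_center h1 h3 h9),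
    pow_left_inj₀ (Nat.zero_le _) (Nat.zero_le _) two_ne_zero] at h12
  have h13 := h.mem_cd (h.degree_ne_one h1 h3 h9)
  rw [forall_smul_iff_inertia_eq_top.1 (h.smul_eq_of_invariant h1 h3 h9 h2), index_top, one_mul] at h13
  have h14 := h.nd.eq_of_dvd h13 (h.mem_cd (h.degree_ne_one (mul_mem h1 h6) h8 h10))
    (h.degree_ne_one h1 h3 h9) (h12 ▸ dvd_mul_left _ _)
  rw [h12, right_eq_mul₀ (irr_degree_pos θ).ne', index_eq_one] at h14
  exact h7 (h10.smul_eq (commutator_le_self P) (h14.ge (mem_top g)))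

theorem lc3_eq_bot (hα : ⁅lc2 P, ⊤⁆ ≤ lc3 P) : lc3 P = ⊥ := by_contra fun hn => by
  refine (h.commutator_lt (h.lc3_lt.le.trans (commutator_le_self P)) hn).not_ge (h.le_of_star
    (h.commutator_star_le (commutator_le_self P) le_rfl h.lc3_lt.le le_rfl
      (commutator_mono hα le_rfl)) (Subgroup.commutator_le.2 fun z hz m hm => ?_))
  obtain ⟨x, hx, hxM⟩ := SetLike.not_le_iff_exists.1 h.not_le
  obtain ⟨s, hs, n, hn, rfl⟩ := h.dec_star hx
  obtain ⟨y, hy, rfl⟩ := h.cam (commutator_le_left P ⊤ hs) (fun e => hxM (mul_mem e hn.1)) hz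
  obtain ⟨t, ht, k, hk, rfl⟩ := h.dec_star hy
  have h1 : ⁅pst P, M ⊓ P⁆ ≤ lc3 P := (commutator_comm _ _).le.trans h.comm_star
  have h2 : ⁅⁅pst P, pst P⁆, M ⊓ P⁆ ≤ lc4 P := commutator_commutator_le_of_rotate
    (commutator_mono h1 (commutator_le_left P ⊤)) (commutator_mono h.comm_star (commutator_le_left P ⊤))
  have h3 := Normal.conj_mem inferInstance _ (h1 (commutator_mem_commutator hs hk)) t
  rw [show ⁅⁅s, t * k⁆, m⁆ = ⁅s, t⁆ * ⁅t * ⁅s, k⁆ * t⁻¹, m⁆ * ⁅s, t⁆⁻¹ * ⁅⁅s, t⁆, m⁆ by group]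
  exact mul_mem (Normal.conj_mem inferInstance _ (commutator_mem_commutator h3 hm.2) _)
    (h2 (commutator_mem_commutator (commutator_mem_commutator hs ht) hm))

theorem exists_over_of_ker {θ : IrrCharacter P} (h1 : (lc3 P).subgroupOf P ≤ ker θ.1)
    (h2 : charDegree θ.1 ≠ 1) : ∃ μ ∈ linK (lc3 P) (lc2 P), μ ≠ 1 ∧ Over θ μ := by
  obtain ⟨μ, h3, h4⟩ := exists_under_linK (commutator_le_self P) le_rfl h1
  refine ⟨μ, h3, fun e => h2 ((irr_degree_eq_one_iff_commutator_le_ker θ).2 fun z hz => ?_), h4⟩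
  have h5 : z.1 ∈ lc2 P := (map_subtype_commutator P).le ⟨z, hz, rfl⟩
  exact (h4.mem_ker_iff h5).2 (lin_eq_one_iff.1 e _ h5)

theorem degree_mem_of_alpha (hα : ⁅lc2 P, ⊤⁆ ≤ lc3 P) {θ : IrrCharacter P}
    (hθ : charDegree θ.1 ≠ 1) : stabilizer G θ = ⊤ := by
  obtain ⟨μ, h1, h2, h3⟩ := h.exists_over_of_ker (by rw [h.lc3_eq_bot hα, bot_subgroupOf]; exact bot_le) hθ
  exact forall_smul_iff_inertia_eq_top.1 (h.smul_eq_of_invariant h1 h2 h3 fun g =>
    smul_eq_of_mem_linK h1 fun d hd => hα (commutator_mem_commutator hd trivial))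

theorem exists_under_ne_one {χ : IrrCharacter G} (hχ : ¬ lc2 P ≤ ker χ.1) :
    ∃ θ : IrrCharacter P, charDegree θ.1 ≠ 1 ∧ LiesOver P χ.1 θ.1 := by
  obtain ⟨θ, hθ⟩ := exists_irr_liesUnder P χ
  exact ⟨θ, mt hθ.commutator_le_ker_iff.2 hχ, hθ⟩

theorem ncard_le_of_alpha (hα : ⁅lc2 P, ⊤⁆ ≤ lc3 P) : (charDegrees G).ncard ≤ 3 := by
  have key : ∀ χ : IrrCharacter G, ¬ lc2 P ≤ ker χ.1 →
      charDegree χ.1 ≠ 1 ∧ ∃ a, charDegree χ.1 = p ^ a := fun χ hχ => by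
    obtain ⟨θ, h1, h2⟩ := h.exists_under_ne_one hχ
    rw [h.degree_eq h1 h2, h.degree_mem_of_alpha hα h1, index_top, one_mul]
    exact ⟨h1, exists_degree_eq_pow_of_isPGroup h.pgrp θ⟩
  obtain ⟨ξ, hξ⟩ := exists_irr_not_le_ker h.ne_bot
  obtain ⟨h1, a, h2⟩ := key ξ hξ
  refine ncard_charDegrees_le_three (m := N.index) (n := p ^ a) fun χ => ?_
  by_cases h3 : lc2 P ≤ ker χ.1
  · exact (h.degree_eq_or (h.lc.le.trans h3)).imp_right .inl
  obtain ⟨h4, b, h5⟩ := key χ h3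
  exact .inr (.inr (h5.trans (h.nd.eq_of_pow (h5 ▸ mem_charDegrees χ) (h2 ▸ mem_charDegrees ξ)
    (h5 ▸ h4) (h2 ▸ h1))))

end CaseA

end CT
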