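import Cfsg.Agent.Lib.Char.NdadA

/-!
# Groups with no divisibility among character degrees: the normal Sylow subgroup has class `≤ 3`
-/

set_option autoImplicit false
set_option linter.unusedSectionVars false
set_option linter.style.haveILetI false

namespace CT

open Cfsg GT Subgroup MulAction
open scoped commutatorElement Pointwise

attribute [local instance] linAct

variable {G : Type*} [Group G] [Finite G]

/-- The characters of `P` over the section `A / B` are fully ramified over `W`. -/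
structure Level (P A B W : Subgroup G) : Prop where
  le : B ≤ A
  le2 : A ≤ lc2 P
  leW : A ≤ W
  leP : W ≤ P
  comm : ⁅W, P⁆ ≤ B
  star : pst W ≤ A
  nondeg : ∀ x ∈ P, x ∉ W → ∀ μ ∈ linK B A, μ ≠ 1 → ∃ y ∈ P, ⁅x, y⁆ ∈ A ∧ tot μ ⁅x, y⁆ ≠ 1

theorem Level.smul_eq {P A B W : Subgroup G} [A.Normal] (l : Level P A B W) {μ : A →* ℂˣ}
    (h : μ ∈ linK B A) : ∀ y ∈ P, y • μ = μ := fun _ hy => smul_eq_of_mem_linK h fun _ hd =>
  l.comm (commutator_mem_commutator (l.leW hd) hy)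

/-- The conclusion of the analysis. -/
def NdRes (G : Type*) [Group G] : Prop := (charDegrees G).ncard ≤ 3 ∨ ∃ f a b : ℕ,
  (∀ χ : IrrCharacter G, charDegree χ.1 = 1 ∨ charDegree χ.1 = f ∨ charDegree χ.1 = a ∨
    charDegree χ.1 = b) ∧ a ∈ charDegrees G ∧ ¬ f.Coprime a ∧ ¬ b.Coprime a ∧ derivedSeries G 3 = ⊥

namespace CaseA

variable {p : ℕ} [hp : Fact p.Prime] {N M P : Subgroup G} [hN : N.Normal] [hM : M.Normal]
  [hP : P.Normal] (h : CaseA p N M P) {a c g x : G}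
include h

section Level

variable {A B W : Subgroup G} [A.Normal] [B.Normal] [W.Normal] (l : Level P A B W)
include l

theorem level_stab {θ : IrrCharacter P} {μ : A →* ℂˣ} (h1 : μ ∈ linK B A) (h2 : μ ≠ 1)
    (h3 : Over θ μ) : stabilizer G θ = stabilizer G μ ∧ charDegree θ.1 ^ 2 = W.relIndex P ∧
      charDegree θ.1 ≠ 1 := by
  have h4 : ∀ {A' : Subgroup G}, A' ≤ W → A'.subgroupOf P ≤ center θ.1 := fun hA a ha =>
    (irr_mem_center_iff_commutator θ).2 fun y =>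
      have := l.comm (commutator_mem_commutator (hA ha) y.2)
      (h3.mem_ker_iff (l.le this)).2 (tot_eq_one h1 this)
  have h5 : ∀ x : P, x.1 ∉ W → θ.1 x = 0 := fun x hx => by
    obtain ⟨y, hy, h5, h6⟩ := l.nondeg x x.2 hx μ h1 h2
    refine (irr_isCharacter θ).apply_eq_zero_of_commutator (x := ⟨y, hy⟩) ?_ ?_ <;>
      rw [← commutatorElement_inv, inv_mem_iff]
    · exact h4 l.leW h5
    · exact mt (h3.mem_ker_iff h5).1 h6
  refine ⟨Subgroup.ext fun g => ⟨h3.smul_eq (l.leW.trans l.leP), h3.smul_eq_of_vanish l.leW l.leP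
    l.star (h4 le_rfl) h5 (h.coprime l.leP) (h.irr_smul_of_mem θ (N.pow_index_mem g))⟩,
    (irr_degree_sq_eq_index_iff θ (h4 le_rfl)).2 h5, fun e => h2 (lin_eq_one_iff.2 fun d hd => ?_)⟩
  obtain ⟨z, hz, rfl⟩ := (map_subtype_commutator P).ge (l.le2 hd)
  exact (h3.mem_ker_iff hd).1 ((irr_degree_eq_one_iff_commutator_le_ker θ).1 e hz)

theorem level_reg {μ : A →* ℂˣ} (h1 : μ ∈ linK B A) (h2 : μ ≠ 1) (e : g • μ = μ) :
    ∀ ν ∈ linK B A, g • ν = ν := by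
  have hAP := l.leW.trans l.leP
  have h3 : ∀ n ∈ N, ∀ ν ∈ linK B A, n • ν = ν := fun n hn ν hν =>
    h.smul_of_mem hAP (l.smul_eq hν) hn
  obtain ⟨u, hu, hu1, h4⟩ := exists_regular (H := G) (U := linK B A) (U₁ := ⊥)
    (fun g _ _ => smul_mem_linK g) (invS_bot _) (fun e => h2 (e h1)) (m := N.index)
    (((h.coprime hAP).coprime_dvd_right ((card_subgroup_dvd_card _).trans
      ((dvd_of_eq card_units_hom).trans (index_dvd_card _)))).symm)
    (fun g => h3 _ (N.pow_index_mem g)) fun a b ν hν => by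
      rw [smul_smul, smul_smul, show a * b = ⁅a, b⁆ * (b * a) by group, mul_smul,
        h3 _ (h.commutator_le (commutator_mem_commutator trivial trivial)) _ (smul_mem_linK _ hν)]
  obtain ⟨θ, h5⟩ := exists_over hAP (l.smul_eq h1)
  obtain ⟨φ, h6⟩ := exists_over hAP (l.smul_eq hu)
  obtain ⟨h7, h8, h9⟩ := h.level_stab l h1 h2 h5
  obtain ⟨h10, h11, h12⟩ := h.level_stab l hu hu1 h6
  rw [← h8, pow_left_inj₀ (Nat.zero_le _) (Nat.zero_le _) two_ne_zero] at h11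
  have h13 : stabilizer G u ≤ stabilizer G μ := fun g hg => h4 g hg μ h1
  have h14 := h.nd.eq_of_dvd (h.mem_cd h9) (h.mem_cd h12)
    (fun e => h9 (Nat.eq_one_of_mul_eq_one_left e))
    (by rw [h7, h10, h11]; exact mul_dvd_mul_right (index_dvd_of_le h13) _)
  rw [h7, h10, h11, mul_left_inj' (irr_degree_pos θ).ne', ← relIndex_mul_index h13,
    right_eq_mul₀ index_ne_zero_of_finite, relIndex_eq_one] at h14
  exact h4 g (h14 e)

theorem level_or (c : G) : (∀ a ∈ A, ⁅a, c⁆ ∈ B) ∨ ∀ a ∈ A, ⁅a, c⁆ ∈ B → a ∈ B := by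
  have h1 : ⁅A, A⁆ ≤ B := (commutator_mono l.leW (l.leW.trans l.leP)).trans l.comm
  by_cases h2 : ∀ μ ∈ linK B A, c • μ = μ → μ = 1
  · exact .inr (fpf_of_forall_linK h1 h2)
  push Not at h2
  obtain ⟨μ, h2, h3, h4⟩ := h2
  exact .inl (commutator_mem_of_forall_linK h1 (h.level_reg l h2 h4 h3))

theorem level_degree {χ : IrrCharacter G} (h1 : B ≤ ker χ.1) (h2 : ¬ A ≤ ker χ.1) :
    ∃ μ ∈ linK B A, μ ≠ 1 ∧ ∃ e, e ^ 2 = W.relIndex P ∧ p ∣ e ∧
      charDegree χ.1 = (stabilizer G μ).index * e := by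
  obtain ⟨θ, hθ⟩ := exists_irr_liesUnder P χ
  have hAP := l.leW.trans l.leP
  obtain ⟨μ, h3, h4⟩ := exists_under_linK hAP ((commutator_mono l.leW le_rfl).trans l.comm)
    (hθ.subgroupOf_le_ker h1)
  have h5 : μ ≠ 1 := fun e => h2 ((hθ.le_ker_iff hAP).2 fun a ha =>
    (h4.mem_ker_iff ha).2 (lin_eq_one_iff.1 e _ ha))
  obtain ⟨h6, h7, h8⟩ := h.level_stab l h3 h5 h4
  obtain ⟨k, hk⟩ := exists_degree_eq_pow_of_isPGroup h.pgrp θ
  exact ⟨μ, h3, h5, _, h7, hk ▸ dvd_pow_self p fun e => h8 (by rw [hk, e, pow_zero]),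
    h6 ▸ h.degree_eq h8 hθ⟩

theorem level_degree_eq {χ ψ : IrrCharacter G} (h1 : B ≤ ker χ.1) (h2 : ¬ A ≤ ker χ.1)
    (h3 : B ≤ ker ψ.1) (h4 : ¬ A ≤ ker ψ.1) : charDegree χ.1 = charDegree ψ.1 := by
  obtain ⟨μ, h5, h6, e, h7, -, h8⟩ := h.level_degree l h1 h2
  obtain ⟨ν, h9, h10, e', h11, -, h12⟩ := h.level_degree l h3 h4
  rw [h8, h12, (pow_left_inj₀ (Nat.zero_le _) (Nat.zero_le _) two_ne_zero).1 (h7.trans h11.symm),
    le_antisymm (a := stabilizer G μ) (b := stabilizer G ν) (fun g hg => h.level_reg l h5 h6 hg ν h9)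
      fun g hg => h.level_reg l h9 h10 hg μ h5]

end Level

section Step

variable {A : Subgroup G} [A.Normal]

theorem cen_next (hA : A ≤ P) (h1 : ⁅A, M ⊓ P⁆ ≤ ⁅⁅A, P⁆, P⁆) (hc : c ∉ N)
    (h2 : ∀ a ∈ A, ⁅a, c⁆ ∈ ⁅A, P⁆) {κ : (⁅A, P⁆ : Subgroup G) →* ℂˣ}
    (h3 : κ ∈ linK ⁅⁅A, P⁆, P⁆ ⁅A, P⁆) (e : c • κ = κ) : κ = 1 := by
  have h4 : ∀ y ∈ P, y • κ = κ := fun y hy => smul_eq_of_mem_linK h3 fun d hd =>
    commutator_mem_commutator hd hy
  have h5 : ⁅A, P⁆ ≤ κ.ker.map (Subgroup.subtype _) := Subgroup.commutator_le.2 fun a ha y hy => by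
    refine ⟨⟨_, commutator_mem_commutator ha hy⟩, (tot_of_mem _).symm.trans ?_, rfl⟩
    obtain ⟨s, hs, m, hm, rfl⟩ := h.dec_star hy
    have h5 := commutator_le_left P ⊤ hs
    rw [tot_commutator_mul_right (h4 s h5) (commutator_mem_commutator ha h5)
      (commutator_mem_commutator ha hm.2), tot_eq_one h3 (h1 (commutator_mem_commutator ha hm)),
      h.tot_commutator_star hA le_rfl h4 hc e ha (fun y hy => tot_eq_one h3
        (commutator_mem_commutator (commutatorElement_inv a c ▸ inv_mem (h2 a ha)) hy)) hs, mul_one]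
  ext1 d
  obtain ⟨z, hz, e⟩ := h5 d.2
  exact Subtype.ext e ▸ hz

variable (hA : A ≤ lc2 P) (h1 : ⁅A, A⁆ ≤ ⁅⁅A, P⁆, P⁆)
  (h2 : ∀ κ ∈ linK ⁅⁅A, P⁆, P⁆ ⁅A, P⁆, κ ≠ 1 → ∀ c, c ∉ N → c • κ = κ →
    ∀ a ∈ A, ⁅a, c⁆ ∈ ⁅A, P⁆ → a ∈ ⁅A, P⁆)
include hA h1 h2

theorem surj_dual {κ : (⁅A, P⁆ : Subgroup G) →* ℂˣ} (h3 : κ ∈ linK ⁅⁅A, P⁆, P⁆ ⁅A, P⁆) (h4 : κ ≠ 1)
    {z : G} (hz : z ∈ A) (hzD : z ∉ ⁅A, P⁆) : ∃ y ∈ P, tot κ ⁅z, y⁆ ≠ 1 := by
  by_contra hn
  push Not at hn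
  have hAP := hA.trans (commutator_le_self P)
  have hD := commutator_le_left A P
  have m : ∀ {a}, a ∈ A → ∀ g, ⁅a, g⁆ ∈ A := fun ha g =>
    commutator_le_left A ⊤ (commutator_mem_commutator ha trivial)
  obtain ⟨R, hR⟩ := exists_rad (A := A) (P := P) (κ := κ) (fun y hy => smul_eq_of_mem_linK h3
    fun d hd => commutator_mem_commutator hd (hAP hy)) le_rfl
  have h5 : ∀ c, c • κ = κ → ∀ r ∈ R, c * r * c⁻¹ ∈ R := fun c hc r hr => (hR _).2
    ⟨Normal.conj_mem inferInstance r ((hR r).1 hr).1 c, fun y hy => by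
      have h5 := hP.conj_mem' y hy c
      rw [← ((hR r).1 hr).2 _ h5, ← tot_conj hc (commutator_mem_commutator ((hR r).1 hr).1 h5)]
      congr 1
      group⟩
  have h6 : ∀ c, c ∉ N → c • κ = κ → ∀ δ ∈ linK ⁅A, P⁆ A, (∀ r ∈ R, tot δ ⁅r, c⁆ = 1) →
      ∀ r ∈ R, tot δ r = 1 := fun c hc e δ hδ h6 r hr => by
    obtain ⟨x, hx, h7⟩ := exists_commutator_mem_of_fpf (mem_normalizer_of_conj_mem (h5 c e))
      (fun x hx => h2 κ h3 h4 c hc e x ((hR x).1 hx).1) hr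
    rw [← mul_inv_cancel_left ⁅x, c⁆ r, tot_mul (m ((hR x).1 hx).1 c) (hD h7), h6 x hx,
      tot_eq_one hδ h7, mul_one]
  have h7 : ∀ ν : A →* ℂˣ, (∀ d ∈ ⁅A, P⁆, tot ν d = tot κ d) →
      ∃ c, c ∉ N ∧ c • ν = ν ∧ c • κ = κ := fun ν hν => by
    obtain ⟨c, hc, e⟩ := h.exists_fix_lin hA (κ := ν) fun e => h4 (lin_eq_one_iff.2 fun d hd =>
      (hν d hd).symm.trans (lin_eq_one_iff.1 e d (hD hd)))
    exact ⟨c, hc, e, smul_eq_iff_tot.2 fun d hd => (hν _ (commutator_le_left _ ⊤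
      (commutator_mem_commutator hd trivial))).symm.trans (smul_eq_iff_tot.1 e d (hD hd))⟩
  obtain ⟨ν, hν⟩ := exists_tot_extend hD (κ := κ) fun b hb _ => tot_eq_one h3 (h1 hb)
  obtain ⟨μ, hμ, h8⟩ := exists_tot_ne_one (commutator_mono le_rfl hAP) hz hzD
  obtain ⟨c, hc, e1, e2⟩ := h7 ν hν
  obtain ⟨c', hc', e3, e4⟩ := h7 (ν * μ) fun d hd => by
    rw [tot_mul_hom, tot_eq_one hμ hd, mul_one, hν d hd]
  have h9 := h6 c hc e2 (c'⁻¹ • ν / ν) (fun d hd _ => by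
    rw [tot_inv_smul_div (hD hd), hν _ (commutator_le_left _ ⊤ (commutator_mem_commutator hd trivial)),
      smul_eq_iff_tot.1 e4 d hd, inv_one]) fun r hr => by
    have h9 := (hR r).1 hr
    have h10 := (hR _).1 (h5 c' e4 r hr)
    obtain ⟨u, hu, e⟩ := h.exists_commutator_eq (hAP h10.1) (h.commutator_le
      (commutator_mem_commutator (mem_top c⁻¹) (mem_top c')))
    rw [tot_inv_smul_div (m h9.1 c), inv_eq_one, show ⁅⁅r, c⁆, c'⁆ = ⁅r, c⁆ *
      ⁅c' * r * c'⁻¹, c * ⁅c⁻¹, c'⁆⁆⁻¹ by group, tot_mul (m h9.1 c) (inv_mem (m h10.1 _)),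
      tot_inv (m h10.1 _), tot_commutator_mul_right e1 (m h10.1 _) (m h10.1 _),
      smul_eq_iff_tot.1 e1 _ h9.1, smul_eq_iff_tot.1 e1 _ h10.1, ← e,
      hν _ (commutator_mem_commutator h10.1 hu), h10.2 u hu]
    simp
  refine h8 (h6 c' hc' e4 μ hμ (fun r hr => ?_) z ((hR z).2 ⟨hz, hn⟩))
  have h10 := smul_eq_iff_tot.1 e3 r ((hR r).1 hr).1
  have h11 := h9 r hr
  rw [tot_inv_smul_div ((hR r).1 hr).1, inv_eq_one] at h11
  rwa [tot_mul_hom, h11, one_mul] at h10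

theorem surj : ∀ z ∈ A, z ∉ ⁅A, P⁆ → ∀ w ∈ ⁅A, P⁆, ∃ y ∈ P, ⁅z, y⁆⁻¹ * w ∈ ⁅⁅A, P⁆, P⁆ := by
  intro z hz hzD w hw
  let π := QuotientGroup.mk' ⁅⁅A, P⁆, P⁆
  have h3 : ∀ d ∈ ⁅A, P⁆, ∀ y ∈ P, π d * π y = π y * π d := fun d hd y hy =>
    commutatorElement_eq_one_iff_mul_comm.1
      ((QuotientGroup.eq_one_iff _).2 (commutator_mem_commutator hd hy))
  let I : Subgroup G :=
    { carrier := {w | ∃ y ∈ P, π ⁅z, y⁆ = π w}
      mul_mem' := by
        rintro a b ⟨x, hx, e⟩ ⟨y, hy, e'⟩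
        refine ⟨x * y, mul_mem hx hy, ?_⟩
        rw [show ⁅z, x * y⁆ = ⁅z, x⁆ * (x * ⁅z, y⁆ * x⁻¹) by group, map_mul, map_mul, map_mul,
          ← h3 _ (commutator_mem_commutator hz hy) x hx, map_inv, mul_inv_cancel_right, e, e', map_mul]
      one_mem' := ⟨1, one_mem _, by rw [commutatorElement_one_right]⟩
      inv_mem' := by
        rintro a ⟨x, hx, e⟩
        refine ⟨x⁻¹, inv_mem hx, ?_⟩
        rw [show ⁅z, x⁻¹⁆ = x⁻¹ * ⁅z, x⁆⁻¹ * x by group, map_mul, map_mul, ← h3 _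
          (inv_mem (commutator_mem_commutator hz hx)) _ (inv_mem hx), map_inv π x,
          inv_mul_cancel_right, map_inv, map_inv, e] }
  have h4 : ⁅⁅A, P⁆, P⁆ ≤ I := fun b hb => ⟨1, one_mem _, by
    rw [commutatorElement_one_right, map_one]
    exact ((QuotientGroup.eq_one_iff b).2 hb).symm⟩
  by_contra hn
  obtain ⟨κ, h5, h6⟩ := exists_tot_ne_one ((commutator_mono le_rfl (commutator_le_right A P)).trans h4)
    hw fun ⟨y, hy, e⟩ => hn ⟨y, hy, QuotientGroup.eq.1 e⟩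
  obtain ⟨y, hy, h7⟩ := h.surj_dual hA h1 h2 (fun b hb _ => tot_eq_one h5 (h4 hb))
    (fun e => h6 (lin_eq_one_iff.1 e w hw)) hz hzD
  exact h7 (tot_eq_one h5 ⟨y, hy, rfl⟩)

end Step

section Beta

variable (hβ : ∀ μ ∈ linK (lc3 P) (lc2 P), (∀ g : G, g • μ = μ) → μ = 1)
include hβ

theorem exists_gen_fpf : ∃ c, (∀ S : Subgroup G, N ≤ S → c ∈ S → ∀ g, g ∈ S) ∧
    ∀ a ∈ lc2 P, ⁅a, c⁆ ∈ lc3 P → a ∈ lc3 P := by
  obtain ⟨c, -, hc⟩ := h.exists_gen
  exact ⟨c, hc, fpf_of_forall_linK (commutator_mono le_rfl (commutator_le_self P)) fun μ h1 e =>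
    hβ μ h1 (hc (stabilizer G μ) (fun _ => h.smul_of_mem (commutator_le_self P) fun y hy =>
      smul_eq_of_mem_linK h1 fun d hd => commutator_mem_commutator hd hy) e)⟩

theorem isCam : Cam p P (M ⊓ P) := by
  obtain ⟨c, -, hc⟩ := h.exists_gen_fpf hβ
  exact ⟨inf_le_right, h.lc2_le, h.le_of_star h.comm_star (Subgroup.commutator_le.2
    fun a ha b hb => hc _ (commutator_mem_commutator ha.2 hb.2)
      (commutatorElement_commutator_mem (commutator_le_self P) le_rfl ha.2 hb.2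
        (h.cent' ((commutator_comm _ _).le (commutator_mem_commutator trivial ha.1)))
        (h.cent' ((commutator_comm _ _).le (commutator_mem_commutator trivial hb.1))))),
    fun x hx => ⟨h.pow_mem hx, P.pow_mem hx p⟩, fun x hx hxM _ => h.cam hx fun e => hxM ⟨e, hx⟩⟩

theorem level_two : Level P (lc2 P) (lc3 P) (M ⊓ P) :=
  ⟨h.lc3_lt.le, le_rfl, h.lc2_le, inf_le_right, (h.isCam hβ).comm,
    (commutator_mono inf_le_left le_rfl).trans h.cent', fun x hx hxM μ _ h2 => by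
      obtain ⟨z, hz⟩ := not_forall.1 (mt lin_eq_one_iff.2 h2)
      obtain ⟨hz, e⟩ := Classical.not_imp.1 hz
      obtain ⟨y, hy, rfl⟩ := (h.isCam hβ).cam x hx hxM z hz
      exact ⟨y, hy, hz, e⟩⟩

theorem exists_cen : ∃ c, c ∉ N ∧ (∀ a ∈ lc2 P, ⁅a, c⁆ ∈ lc3 P) ∧
    ∀ a ∈ lc3 P, ⁅a, c⁆ ∈ lc4 P → a ∈ lc4 P := by
  obtain ⟨z, hz, hz3⟩ := SetLike.exists_of_lt h.lc3_lt
  have h1 : ⁅lc2 P, lc2 P⁆ ≤ lc3 P := commutator_mono le_rfl (commutator_le_self P)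
  obtain ⟨μ, h2, h3⟩ := exists_tot_ne_one h1 hz hz3
  have h4 : μ ≠ 1 := fun e => h3 (lin_eq_one_iff.1 e z hz)
  obtain ⟨c, hc, e⟩ := h.exists_fix_lin le_rfl h4
  have h5 := commutator_mem_of_forall_linK h1 (h.level_reg (h.level_two hβ) h2 h4 e)
  exact ⟨c, hc, h5, fpf_of_forall_linK (commutator_mono le_rfl (h.lc3_lt.le.trans
    (commutator_le_self P))) fun κ => h.cen_next (commutator_le_self P) (h.isCam hβ).comm2 hc h5⟩

theorem fpf_two {κ : lc3 P →* ℂˣ} (h1 : κ ∈ linK (lc4 P) (lc3 P)) (h2 : κ ≠ 1) (c : G) (hc : c ∉ N)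
    (e : c • κ = κ) : ∀ a ∈ lc2 P, ⁅a, c⁆ ∈ lc3 P → a ∈ lc3 P :=
  (h.level_or (h.level_two hβ) c).resolve_left fun h3 =>
    h2 (h.cen_next (commutator_le_self P) (h.isCam hβ).comm2 hc h3 h1 e)

theorem exists_level_three : ∃ (W : Subgroup G) (_ : W.Normal), Level P (lc3 P) (lc4 P) W ∧
    ∀ m ∈ M ⊓ P, ∃ z ∈ lc2 P, m * z⁻¹ ∈ W := by
  have hc := h.isCam hβ
  let π := QuotientGroup.mk' (lc3 P)
  have m : ∀ x g, π x * π g = π g * π x ↔ ⁅x, g⁆ ∈ lc3 P := fun x g => by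
    rw [← QuotientGroup.eq_one_iff, ← commutatorElement_eq_one_iff_mul_comm]
    rfl
  let W := (M ⊓ P) ⊓ (Subgroup.center _).comap π
  have hW : ∀ x, x ∈ W ↔ x ∈ M ⊓ P ∧ ∀ g, ⁅x, g⁆ ∈ lc3 P := fun x => and_congr_right fun _ =>
    Subgroup.mem_center_iff.trans (QuotientGroup.mk_surjective.forall.trans
      (forall_congr' fun g => eq_comm.trans (m x g)))
  have h1 : ∀ x ∈ M ⊓ P, ∃ z ∈ lc2 P, x * z⁻¹ ∈ W := fun x hx => by
    obtain ⟨c, h1, h2⟩ := h.exists_gen_fpf hβ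
    obtain ⟨z, hz, e⟩ := exists_commutator_mem_of_fpf (le_normalizer_of_normal (mem_top c)) h2
      (h.cent' (commutator_mem_commutator hx.1 (mem_top c)))
    have h3 := mul_mem (inv_mem (h.lc2_le hz)) hx
    refine ⟨z, hz, ?_⟩
    rw [show x * z⁻¹ = z * (z⁻¹ * x) * z⁻¹ by group]
    refine Normal.conj_mem inferInstance _ ((hW _).2 ⟨h3, fun g => (m _ g).1
      (mem_centralizer_singleton_iff.1 (h1 ((centralizer {π (z⁻¹ * x)}).comap π) (fun n hn => ?_)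
        ?_ g)).symm⟩) z
    · obtain ⟨u, hu, e⟩ := h.exists_commutator_eq h3.2 hn
      exact mem_centralizer_singleton_iff.2 ((m _ n).2
        (e ▸ hc.comm (commutator_mem_commutator h3 hu))).symm
    · refine mem_centralizer_singleton_iff.2 ((m _ c).2 ?_).symm
      convert Normal.conj_mem' inferInstance _ e (c * z * c⁻¹) using 1
      group
  have h2 : pst W ≤ lc3 P := Subgroup.commutator_le.2 fun x hx g _ => ((hW x).1 hx).2 g
  have h3 : ⁅W, P⁆ ≤ lc4 P := by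
    obtain ⟨c, -, h3, h4⟩ := h.exists_cen hβ
    have h5 : ∀ x ∈ M ⊓ P, ⁅c, x⁆ ∈ lc3 P := fun x hx => by
      obtain ⟨z, hz, e⟩ := h1 x hx
      rw [show ⁅c, x⁆ = ⁅x * z⁻¹, c⁆⁻¹ * (x * z⁻¹ * ⁅z, c⁆⁻¹ * (x * z⁻¹)⁻¹) by group]
      exact mul_mem (inv_mem (((hW _).1 e).2 c)) (Normal.conj_mem inferInstance _ (inv_mem (h3 z hz)) _)
    exact h.le_of_star (h.commutator_star_le (inf_le_left.trans inf_le_right)
      ((commutator_mono inf_le_left le_rfl).trans hc.comm) h.lc3_lt.le le_rfl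
      (commutator_mono h2 le_rfl)) (Subgroup.commutator_le.2 fun a ha b hb =>
        h4 _ (hc.comm (commutator_mem_commutator ha.1 hb.2)) (commutatorElement_commutator_mem
          (h.lc3_lt.le.trans (commutator_le_self P)) le_rfl ha.1.2 hb.2 (h5 a ha.1) (h5 b hb)))
  have h4 : lc3 P ≤ W := fun x hx => (hW x).2 ⟨h.lc2_le (h.lc3_lt.le hx), fun g =>
    commutator_le_left _ ⊤ (commutator_mem_commutator hx trivial)⟩
  refine ⟨W, inferInstance, ⟨commutator_le_left _ _, h.lc3_lt.le, h4, inf_le_left.trans inf_le_right,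
    h3, h2, fun x hx hxW κ h5 h6 => ?_⟩, h1⟩
  by_cases h7 : x ∈ M ⊓ P
  · obtain ⟨z, hz, e⟩ := h1 x h7
    obtain ⟨y, hy, h8⟩ := h.surj_dual le_rfl hc.comm22 (fun _ => h.fpf_two hβ) h5 h6 hz
      fun h8 => hxW (by simpa using mul_mem e (h4 h8))
    refine ⟨y, hy, hc.comm (commutator_mem_commutator h7 hy), ?_⟩
    have h9 := h3 (commutator_mem_commutator e hy)
    rwa [← inv_mul_cancel_right x z, tot_commutator_mul_left (smul_eq_of_mem_linK h5 fun d hd =>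
      commutator_mem_commutator hd e.1.2) (commutator_le_left _ _ h9)
      (commutator_mem_commutator hz hy), tot_eq_one h5 h9, mul_one]
  · obtain ⟨z, hz⟩ := not_forall.1 (mt lin_eq_one_iff.2 h6)
    obtain ⟨hz, e⟩ := Classical.not_imp.1 hz
    obtain ⟨y, hy, rfl⟩ := hc.cam x hx h7 z (h.lc3_lt.le hz)
    exact ⟨y, hy, hz, e⟩

theorem surj_two : ∀ z ∈ lc2 P, z ∉ lc3 P → ∀ w ∈ lc3 P, ∃ y ∈ P, ⁅z, y⁆⁻¹ * w ∈ lc4 P :=
  h.surj le_rfl (h.isCam hβ).comm22 fun _ => h.fpf_two hβ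

theorem pow_two_mem : ∀ z ∈ lc2 P, z ^ p ∈ lc4 P := fun z hz => by
  obtain ⟨c, -, h1, h2⟩ := h.exists_cen hβ
  refine h2 _ ((h.isCam hβ).pow2 z hz) ((QuotientGroup.eq_one_iff _).1 ?_)
  let π := QuotientGroup.mk' (lc4 P)
  have h3 : Commute (π ⁅z, c⁆) (π z) := commutatorElement_eq_one_iff_commute.1
    ((QuotientGroup.eq_one_iff _).2 (commutator_mem_commutator (h1 z hz) (commutator_le_self P hz)))
  change π _ = 1
  rw [← commutatorElement_inv, map_inv, inv_eq_one, map_commutatorElement, map_pow,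
    commutatorElement_pow_right, ← commutatorElement_inv, inv_pow, inv_eq_one,
    ← map_commutatorElement, ← map_pow]
  · exact (QuotientGroup.eq_one_iff _).2 ((h.isCam hβ).pow3 _ (h1 z hz))
  · rw [← commutatorElement_inv, ← map_commutatorElement]
    exact h3.inv_left

theorem lc4_eq_bot : lc4 P = ⊥ := by_contra fun hn => by
  have hc := h.isCam hβ
  obtain ⟨W, _, l, h1⟩ := h.exists_level_three hβ
  have h2 := h.lc3_lt.le.trans (commutator_le_self P)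
  refine (h.commutator_lt ((commutator_le_left _ _).trans h2) hn).not_ge (hc.lc4_le (fun m hm => ?_)
    (h.surj_two hβ) (h.surj h.lc3_lt.le ((commutator_mono le_rfl (h.lc3_lt.le.trans h.lc2_le)).trans
      hc.comm3) fun κ h3 h4 c h5 e => (h.level_or l c).resolve_left fun h6 =>
        h4 (h.cen_next h2 hc.comm3 h5 h6 h3 e)) (h.pow_two_mem hβ))
  obtain ⟨z, hz, e⟩ := h1 m hm
  exact ⟨z, hz, fun y hy => l.comm ((commutator_comm _ _).le (commutator_mem_commutator hy e))⟩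

omit hβ in
theorem commutator_le_sylow : commutator G ≤ P := by
  haveI := h.cyc
  refine Normal.quotient_commutative_iff_commutator_le.1
    ((QuotientGroup.map P N (MonoidHom.id G) h.le).isMulCommutative_of_isCyclic_of_ker_le_center
      fun x hx => Subgroup.mem_center_iff.2 fun g => ?_)
  obtain ⟨x, rfl⟩ := QuotientGroup.mk_surjective x
  obtain ⟨g, rfl⟩ := QuotientGroup.mk_surjective g
  obtain ⟨u, hu, l, hl, -, rfl⟩ := h.dec x ((QuotientGroup.eq_one_iff x).1 hx)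
  rw [QuotientGroup.mk_mul, (QuotientGroup.eq_one_iff u).2 hu, one_mul, eq_comm]
  exact commutatorElement_eq_one_iff_mul_comm.1 ((QuotientGroup.eq_one_iff _).2
    (commutator_le_self P (h.cent' (commutator_mem_commutator hl trivial))))

theorem ndRes_of_beta : NdRes G := by
  obtain ⟨W, _, l, -⟩ := h.exists_level_three hβ
  obtain ⟨ξ, h1, h2⟩ := exists_irr_le_ker_not_le (lc3 P) h.lc3_lt.not_ge
  obtain ⟨μ, h3, h4, e, -, h5, h6⟩ := h.level_degree (h.level_two hβ) h1 h2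
  have h7 : ∀ χ : IrrCharacter G, lc4 P ≤ ker χ.1 := fun χ => (h.lc4_eq_bot hβ).le.trans bot_le
  obtain ⟨b, hb, h8⟩ : ∃ b, p ∣ b ∧ ∀ χ : IrrCharacter G, ¬ lc3 P ≤ ker χ.1 → charDegree χ.1 = b := by
    by_cases h8 : ∀ χ : IrrCharacter G, lc3 P ≤ ker χ.1
    · exact ⟨0, dvd_zero p, fun χ e => (e (h8 χ)).elim⟩
    obtain ⟨ψ, h8⟩ := not_forall.1 h8
    obtain ⟨_, -, -, e, -, h9, h10⟩ := h.level_degree l (h7 ψ) h8
    exact ⟨_, h10 ▸ h9.mul_left _, fun χ h11 => h.level_degree_eq l (h7 χ) h11 (h7 ψ) h8⟩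
  have h9 : p ∣ charDegree ξ.1 := h6 ▸ h5.mul_left _
  refine .inr ⟨N.index, charDegree ξ.1, b, fun χ => ?_, mem_charDegrees ξ,
    not_coprime_of_dvd_of_dvd (d := (stabilizer G μ).index)
      (fun e => h4 (hβ μ h3 fun g => (index_eq_one.1 e).ge (mem_top g)))
      (index_dvd_of_le fun _ => h.smul_of_mem (commutator_le_self P) ((h.level_two hβ).smul_eq h3))
      (h6 ▸ dvd_mul_right _ _), not_coprime_of_dvd_of_dvd hp.out.ne_one hb h9,
    eq_bot_iff.2 ((commutator_mono ?_ ?_).trans ((h.isCam hβ).comm22.trans (h.lc4_eq_bot hβ).le))⟩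
  · by_cases h10 : lc2 P ≤ ker χ.1
    · exact (h.degree_eq_or (h.lc.le.trans h10)).imp_right .inl
    by_cases h11 : lc3 P ≤ ker χ.1
    · exact .inr (.inr (.inl (h.level_degree_eq (h.level_two hβ) h11 h10 h1 h2)))
    · exact .inr (.inr (.inr (h8 χ h11)))
  all_goals exact commutator_mono h.commutator_le_sylow h.commutator_le_sylow

end Beta

theorem ndRes : NdRes G :=
  h.alpha_or.elim (fun hα => .inl (h.ncard_le_of_alpha hα)) h.ndRes_of_beta

end CaseA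

end CT
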