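import Cfsg.Agent.Lib.Char.NdadA2
import Cfsg.Agent.Lib.Grp.CycAb

/-!
# Groups with no divisibility among character degrees: the Sylow subgroup is normal
-/

set_option autoImplicit false
set_option linter.unusedSectionVars false
set_option linter.style.haveILetI false

namespace CT

open Cfsg GT Subgroup MulAction
open scoped commutatorElement Pointwise

attribute [local instance] linAct

universe u

variable {G : Type u} [Group G] [Finite G]

omit [Finite G] in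
theorem mem_of_pow_mem_of_lt {K : Subgroup G} {b : G} {i p : ℕ} (hp : p.Prime) (h0 : 0 < i)
    (hi : i < p) (h1 : b ^ i ∈ K) (h2 : b ^ p ∈ K) : b ∈ K := by
  have := Nat.gcd_eq_gcd_ab i p
  rw [(Nat.coprime_of_lt_prime h0.ne' hi hp).symm.gcd_eq_one, Nat.cast_one] at this
  rw [← zpow_one b, this, zpow_add, zpow_mul, zpow_mul, zpow_natCast, zpow_natCast]
  exact mul_mem (zpow_mem h1 _) (zpow_mem h2 _)

section Act

variable {V : Type*} [CommGroup V] [Finite V] [MulDistribMulAction G V] {p : ℕ} [hp : Fact p.Prime]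

/-- `K` is a maximal point stabilizer in `B`. -/
structure MaxStab (V : Type*) [CommGroup V] [MulDistribMulAction G V] (p : ℕ) (P B K : Subgroup G) :
    Prop where
  le : K ≤ B
  ne_bot : fixS V K ≠ ⊥
  inv : InvS P (fixS V K)
  comm : ⁅B, P⁆ ≤ K
  pow : ∀ b ∈ B, b ^ p ∈ K
  fpf : ∀ b ∈ B, b ∉ K → ∀ u ∈ fixS V K, b • u = u → u = 1
  index : K.relIndex B = p

theorem exists_maxStab [Nontrivial V] (hc : (Nat.card V).Coprime p) {P B : Subgroup G} [B.Normal]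
    (hB : B ≤ P) (h1 : ∀ d ∈ ⁅B, P⁆, ∀ v : V, d • v = v) (h2 : ∀ b ∈ B, ∀ v : V, b ^ p • v = v)
    (h3 : ∀ v : V, (∀ b ∈ B, b • v = v) → v = 1) : ∃ K, MaxStab V p P B K := by
  obtain ⟨v, hv, hmax⟩ := (Set.toFinite {v : V | v ≠ 1}).exists_maximalFor
    (fun v => B ⊓ stabilizer G v) _ (exists_ne 1)
  set K := B ⊓ stabilizer G v
  have h4 : fixS V K ≠ ⊥ := fun e => hv (e.le (mem_fixS.2 inf_le_right))
  have h5 : ⁅B, P⁆ ≤ K := fun d hd => ⟨commutator_le_left B P hd, h1 d hd v⟩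
  have h6 : InvS P (fixS V K) := invS_fixS (le_normalizer_iff_commutator_le_left.2
    ((commutator_mono inf_le_left le_rfl).trans h5))
  have h7 : ∀ b ∈ B, b ∉ K → ∀ u ∈ fixS V K, b • u = u → u = 1 := fun b hb h7 u hu e =>
    by_contra fun h8 => h7 (hmax h8 (le_inf inf_le_left hu) ⟨hb, e⟩)
  have h8 : ∀ b ∈ B, b ^ p ∈ K := fun b hb => ⟨B.pow_mem hb p, h2 b hb v⟩
  refine ⟨K, inf_le_left, h4, h6, h5, h8, h7, ?_⟩
  obtain ⟨b, hb, h9⟩ := SetLike.not_le_iff_exists.1 fun e : B ≤ K => hv (h3 v fun b hb => (e hb).2)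
  haveI : (K.subgroupOf B).Normal := normal_subgroupOf_of_le_normalizer
    (le_normalizer_iff_commutator_le_left.2 ((commutator_mono inf_le_left hB).trans h5))
  refine (orderOf_eq_card_of_forall_mem_zpowers (g := ((⟨b, hb⟩ : B) : B ⧸ K.subgroupOf B))
    fun x => ?_).symm.trans (orderOf_eq_prime ((QuotientGroup.eq_one_iff _).2 (h8 b hb))
      fun e => h9 ((QuotientGroup.eq_one_iff (N := K.subgroupOf B) _).1 e))
  obtain ⟨x, rfl⟩ := QuotientGroup.mk_surjective x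
  obtain ⟨u, hu, hu1, ⟨j, e⟩ | ⟨i, h0, hi, e⟩⟩ := exists_fixed_smul_pair h6 h4 (hB x.2) (hB hb)
    hp.out.pos hc (fun u _ => h1 _ (commutator_mem_commutator x.2 (hB hb)) u)
    (fun u _ => h2 _ x.2 u) fun u _ => h2 b hb u
  · have h10 : x.1 * b ^ j ∈ K := by_contra fun h10 =>
      hu1 (h7 _ (mul_mem x.2 (B.pow_mem hb j)) h10 u hu e)
    have h11 := (QuotientGroup.eq_one_iff (N := K.subgroupOf B) (x * ⟨b, hb⟩ ^ j)).2 h10
    rw [QuotientGroup.mk_mul, QuotientGroup.mk_pow] at h11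
    rw [eq_inv_of_mul_eq_one_left h11]
    exact inv_mem (Subgroup.pow_mem _ (mem_zpowers _) j)
  · exact (hu1 (h7 _ (B.pow_mem hb i) (fun h10 => h9 (mem_of_pow_mem_of_lt hp.out h0 hi h10
      (h8 b hb))) u hu e)).elim

theorem MaxStab.exists_fix (hc : (Nat.card V).Coprime p) {P B K T : Subgroup G} (k : MaxStab V p P B K)
    {U : Subgroup V} (hU : InvS T U) (h0 : U ≠ ⊥) (hUK : U ≤ fixS V K) {x b : G} (hx : x ∈ T)
    (hxP : x ∈ P) (hb : b ∈ T) (h1 : b ∈ B) (h2 : b ∉ K) (h3 : ∀ u ∈ U, x ^ p • u = u) :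
    ∃ u ∈ U, u ≠ 1 ∧ ∃ j : ℕ, (x * b ^ j) • u = u := by
  obtain ⟨u, hu, hu1, e | ⟨i, h0, hi, e⟩⟩ := exists_fixed_smul_pair hU h0 hx hb hp.out.pos hc
    (fun u hu => hUK hu (k.comm ((commutator_comm _ _).le (commutator_mem_commutator hxP h1)))) h3
    fun u hu => hUK hu (k.pow b h1)
  · exact ⟨u, hu, hu1, e⟩
  · exact (hu1 (k.fpf _ (B.pow_mem h1 i) (fun h10 => h2 (mem_of_pow_mem_of_lt hp.out h0 hi h10
      (k.pow b h1))) u (hUK hu) e)).elim

theorem MaxStab.exists_notMem {P B K : Subgroup G} (k : MaxStab V p P B K) : ∃ b ∈ B, b ∉ K :=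
  SetLike.not_le_iff_exists.1 fun e => hp.out.ne_one (k.index.symm.trans (relIndex_eq_one.2 e))

omit [Finite G] in
theorem commutator_pow_mem {P K : Subgroup G} [hP : P.Normal] (hK : P ≤ normalizer (K : Set G))
    (h2 : p ≠ 2) {w c : G} (hw : w ∈ P) (h3 : ⁅⁅c * w⁻¹ * c⁻¹, w⁆, w⁆ ∈ K)
    (h4 : ⁅⁅c * w⁻¹ * c⁻¹, w⁆, c * w⁻¹ * c⁻¹⁆ ∈ K) (h5 : ⁅c * w⁻¹ * c⁻¹, w⁆ ^ p ∈ K)
    (h6 : ⁅w ^ p, c⁆ ∈ K) : ⁅w, c⁆ ^ p ∈ K := by
  haveI := normal_subgroupOf_of_le_normalizer hK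
  let π := QuotientGroup.mk' (K.subgroupOf P)
  let x : P := ⟨w, hw⟩
  let y : P := ⟨_, hP.conj_mem _ (inv_mem hw) c⟩
  have m : ∀ a : P, a.1 ∈ K ↔ π a = 1 := fun a => (QuotientGroup.eq_one_iff (N := K.subgroupOf P) a).symm
  obtain ⟨k, hk⟩ := hp.out.dvd_choose_self two_ne_zero (lt_of_le_of_ne hp.out.two_le h2.symm)
  have h7 := mul_pow_eq_commutator_pow (x := π x) (y := π y)
    (commutatorElement_eq_one_iff_commute.1 ((m ⁅⁅y, x⁆, x⁆).1 h3))
    (commutatorElement_eq_one_iff_commute.1 ((m ⁅⁅y, x⁆, y⁆).1 h4)) p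
  rw [hk, pow_mul, show ⁅π y, π x⁆ ^ p = 1 from (m (⁅y, x⁆ ^ p)).1 h5, one_pow, one_mul,
    show π x ^ p * π y ^ p = 1 from (m (x ^ p * y ^ p)).1 (by
      convert h6 using 1
      simp only [coe_mul, SubmonoidClass.coe_pow, x, y, conj_pow]
      group)] at h7
  convert (m ((x * y) ^ p)).2 h7 using 1
  simp only [coe_mul, SubmonoidClass.coe_pow, x, y]
  group

end Act

namespace CaseA

variable {p : ℕ} [hp : Fact p.Prime] {N M P : Subgroup G} [hN : N.Normal] [hM : M.Normal]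
  [hP : P.Normal] (h : CaseA p N M P)
include h

theorem exists_star : ∃ s ∈ pst P, s ∉ M := by
  obtain ⟨x, hx, hxM⟩ := SetLike.not_le_iff_exists.1 h.not_le
  obtain ⟨s, hs, n, hn, rfl⟩ := h.dec_star hx
  exact ⟨s, hs, fun e => hxM (mul_mem e hn.1)⟩

theorem star_cam {s z : G} (hs : s ∈ pst P) (hsM : s ∉ M) (hz : z ∈ lc2 P) :
    ∃ t ∈ pst P, ⁅s, t⁆⁻¹ * z ∈ lc3 P := by
  obtain ⟨y, hy, rfl⟩ := h.cam (commutator_le_left P ⊤ hs) hsM hz
  obtain ⟨t, ht, m, hm, rfl⟩ := h.dec_star hy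
  refine ⟨t, ht, ?_⟩
  rw [show ⁅s, t⁆⁻¹ * ⁅s, t * m⁆ = t * ⁅s, m⁆ * t⁻¹ by group]
  exact Normal.conj_mem inferInstance _ (h.comm_star ((commutator_comm _ _).le
    (commutator_mem_commutator hs hm))) t

theorem mul_pow_notMem {s t : G} (hs : s ∈ pst P) (ht : t ∈ pst P) (h1 : ⁅s, t⁆ ∉ lc3 P) (j : ℕ) :
    t * s ^ j ∉ M := fun e => h1 (by
  rw [show ⁅s, t⁆ = ⁅s, t * s ^ j⁆ by group]
  exact h.comm_star ((commutator_comm _ _).le (commutator_mem_commutator hs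
    ⟨e, commutator_le_left P ⊤ (mul_mem ht (Subgroup.pow_mem _ hs j))⟩)))

variable {V : Type*} [CommGroup V] [Finite V] [MulDistribMulAction G V]
  (hc : (Nat.card V).Coprime p) (hf : ∀ x ∈ P, x ∉ M → ∀ v : V, x • v = v → v = 1)
include hc hf

theorem false_of_lc2 [Nontrivial V] (h1 : ∀ d ∈ lc2 P, ∀ v : V, d • v = v) : False := by
  obtain ⟨s, hs, hsM⟩ := h.exists_star
  obtain ⟨z, hz, hz3⟩ := SetLike.exists_of_lt h.lc3_lt
  obtain ⟨t, ht, e⟩ := h.star_cam hs hsM hz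
  have h2 := commutator_le_left P ⊤ hs
  have h3 := commutator_le_left P ⊤ ht
  obtain ⟨u, -, hu1, ⟨j, e1⟩ | ⟨i, h0, hi, e1⟩⟩ := exists_fixed_smul_pair (invS_top ⊤) top_ne_bot
    (mem_top t) (mem_top s) hp.out.pos hc (fun u _ => h1 _ (commutator_mem_commutator h3 h2) u)
    (fun u _ => h1 _ (h.star_pow ht) u) fun u _ => h1 _ (h.star_pow hs) u
  · exact hu1 (hf _ (mul_mem h3 (P.pow_mem h2 j)) (h.mul_pow_notMem hs ht
      (fun e2 => hz3 ((mul_mem_cancel_left (inv_mem e2)).1 e)) j) u e1)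
  · exact hu1 (hf _ (P.pow_mem h2 i) (fun e2 => hsM (mem_of_pow_mem_of_lt hp.out h0 hi e2
      (h.pow_mem h2))) u e1)

theorem not_pow_fix {B K T : Subgroup G} (hB : B ≤ M ⊓ P) (k : MaxStab V p P B K) {U : Subgroup V}
    (hU : InvS T U) (h0 : U ≠ ⊥) (hUK : U ≤ fixS V K) (hT : B ≤ T) {x : G} (hx : x ∈ T)
    (hxP : x ∈ P) (hxM : x ∉ M) : ¬ ∀ u ∈ U, x ^ p • u = u := fun h1 => by
  obtain ⟨b, h2, h3⟩ := k.exists_notMem
  obtain ⟨u, -, hu1, j, e⟩ := k.exists_fix hc hU h0 hUK hx hxP (hT h2) h2 h3 h1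
  exact hu1 (hf _ (mul_mem hxP (P.pow_mem (hB h2).2 j))
    (mt (mul_mem_cancel_right (M.pow_mem (hB h2).1 j)).1 hxM) u e)

theorem pow_notMem {B K : Subgroup G} (hB : B ≤ M ⊓ P) (k : MaxStab V p P B K) {x : G}
    (hxP : x ∈ P) (hxM : x ∉ M) : x ^ p ∉ K := fun e =>
  h.not_pow_fix hc hf hB k k.inv k.ne_bot le_rfl (hB.trans inf_le_right) hxP hxP hxM fun _ hu => hu e

variable (hβ : ∀ μ ∈ linK (lc3 P) (lc2 P), (∀ g : G, g • μ = μ) → μ = 1)
include hβ

theorem false_of_maxStab_two {K : Subgroup G} (k : MaxStab V p P (lc2 P) K) : False := by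
  obtain ⟨s, hs, hsM⟩ := h.exists_star
  have h1 := commutator_le_left P ⊤ hs
  by_cases h2 : p = 2
  · subst h2
    have m : ∀ {a b}, a ∈ lc2 P → b ∈ lc2 P → a ∉ K → b ∉ K → a * b ∈ K := fun ha hb h3 h4 =>
      (mul_mem_iff_of_index_two k.index (a := ⟨_, ha⟩) (b := ⟨_, hb⟩)).2 (iff_of_false h3 h4)
    obtain ⟨c, -, h3⟩ := h.exists_gen_fpf hβ
    obtain ⟨z, hz, hzK⟩ := k.exists_notMem
    obtain ⟨a, ha, h4⟩ := SetLike.not_le_iff_exists.1 fun e : K ≤ lc3 P => hzK (k.comm (h3 z hz (e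
      (by simpa [commutatorElement_def, mul_assoc] using m hz (Normal.conj_mem inferInstance _
        (inv_mem hz) c) hzK fun e1 => hzK (k.comm (by
          simpa [mul_assoc] using inv_mem (Normal.conj_mem' inferInstance _ (e e1) c)))))))
    obtain ⟨t, ht, e⟩ := h.star_cam hs hsM (k.le ha)
    have h5 := commutator_le_left P ⊤ ht
    have h6 : ⁅s, t⁆ ∉ lc3 P := fun e2 => h4 ((mul_mem_cancel_left (inv_mem e2)).1 e)
    have h7 : ⁅s, t⁆ ∈ K := by simpa using inv_mem (mul_mem (k.comm e) (inv_mem ha))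
    refine h.pow_notMem hc hf h.lc2_le k (mul_mem h5 h1) (pow_one s ▸ h.mul_pow_notMem hs ht h6 1) ?_
    have h8 := k.comm (commutator_mem_commutator (k.le h7) (inv_mem h5))
    rw [show (t * s) ^ 2 = t ^ 2 * ((⁅⁅s, t⁆, t⁻¹⁆⁻¹ * ⁅s, t⁆) * s ^ 2) by simp only [sq]; group]
    refine m (h.star_pow ht) (mul_mem (k.le (mul_mem (inv_mem h8) h7)) (h.star_pow hs))
      (h.pow_notMem hc hf h.lc2_le k h5 (by simpa using h.mul_pow_notMem hs ht h6 0))
      (mt (mul_mem_cancel_left (mul_mem (inv_mem h8) h7)).1 (h.pow_notMem hc hf h.lc2_le k h1 hsM))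
  obtain ⟨c, h3, h4, -⟩ := h.exists_cen hβ
  have h5 := hP.conj_mem _ (inv_mem h1) c
  have h6 := commutator_mem_commutator h5 h1
  exact h.pow_notMem hc hf h.lc2_le k (commutator_le_left P ⊤ (commutator_mem_commutator h1 trivial))
    (fun e => hsM (h.frob.frob s (h.le h1) c h3 e)) (k.comm (commutator_pow_mem
      le_normalizer_of_normal h2 h1 (commutator_mem_commutator h6 h1) (commutator_mem_commutator h6 h5)
      ((h.isCam hβ).pow2 _ h6) (h4 _ (h.star_pow hs))))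

theorem false_of_maxStab_three {K : Subgroup G} (k : MaxStab V p P (lc3 P) K) : False := by
  have h4 := h.lc4_eq_bot hβ
  have hB := h.lc3_lt.le.trans h.lc2_le
  have hZ : ∀ b ∈ lc3 P, ∀ y ∈ P, b * y = y * b := fun b hb y hy =>
    commutatorElement_eq_one_iff_mul_comm.1 (h4.le (commutator_mem_commutator hb hy))
  have h1 : ∀ x ∈ pst P, x ∉ M → x ^ p ∈ lc3 P := fun x hx hxM => by_contra fun hn => by
    have h1 := commutator_le_left P ⊤ hx
    have h2 := h.star_pow hx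
    obtain ⟨b, h5, h6⟩ := k.exists_notMem
    obtain ⟨u, hu, hu1, j, e⟩ := k.exists_fix hc k.inv k.ne_bot le_rfl (P.pow_mem h1 p)
      (P.pow_mem h1 p) (hB h5).2 h5 h6 fun u _ => by
        rw [mem_bot.1 (h4.le (h.pow_two_mem hβ _ h2)), one_smul]
    obtain ⟨y, hy, e1⟩ := h.surj_two hβ _ h2 hn _ (inv_mem (Subgroup.pow_mem _ h5 j))
    have h7 : x ^ p * b ^ j = y * x ^ p * y⁻¹ := by
      rw [← hZ _ (Subgroup.pow_mem _ h5 j) _ (P.pow_mem h1 p), ← inv_inv (b ^ j),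
        ← inv_mul_eq_one.1 (mem_bot.1 (h4.le e1))]
      group
    refine h.not_pow_fix hc hf hB k (T := P ⊓ centralizer {x ^ p})
      (U := fixS V K ⊓ fixS V (zpowers (x ^ p))) ((k.inv.mono inf_le_left).inf (invS_fixS
        (inf_le_right.trans (by
          rw [← centralizer_closure, ← zpowers_eq_closure]
          exact centralizer_le_normalizer _)))) (fun e2 => hu1 ?_) inf_le_left
      (fun b hb => ⟨(hB hb).2, mem_centralizer_singleton_iff.2 (hZ b hb _ (P.pow_mem h1 p))⟩)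
      ⟨h1, mem_centralizer_singleton_iff.2 (Commute.self_pow x p)⟩ h1 hxM
      fun u hu => hu.2 (mem_zpowers _)
    have h8 : y⁻¹ • u ∈ fixS V K ⊓ fixS V (zpowers (x ^ p)) := ⟨k.inv _ (inv_mem hy) u hu,
      zpowers_le.2 (by rwa [h7, mul_smul, mul_smul, smul_eq_iff_eq_inv_smul] at e)⟩
    rw [← smul_inv_smul y u, mem_bot.1 (e2.le h8), smul_one]
  by_cases h2 : p = 2
  · subst h2
    obtain ⟨s, hs, hsM⟩ := h.exists_star
    obtain ⟨z, hz, hz3⟩ := SetLike.exists_of_lt h.lc3_lt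
    obtain ⟨t, ht, e⟩ := h.star_cam hs hsM hz
    have h6 : ⁅s, t⁆ ∉ lc3 P := fun e2 => hz3 ((mul_mem_cancel_left (inv_mem e2)).1 e)
    have h7 := h1 _ (mul_mem ht hs) (pow_one s ▸ h.mul_pow_notMem hs ht h6 1)
    rw [show (t * s) ^ 2 = t ^ 2 * (t⁻¹ * ⁅s, t⁆ * t) * s ^ 2 by simp only [sq]; group,
      mul_mem_cancel_right (h1 s hs hsM), mul_mem_cancel_left
        (h1 t ht (by simpa using h.mul_pow_notMem hs ht h6 0))] at h7
    exact h6 (by simpa [mul_assoc] using Normal.conj_mem inferInstance _ h7 t)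
  obtain ⟨x, hx, hxM, h3⟩ := (h.isCam hβ).exists_commutator_mem (fun e => h.not_le
    (e.trans inf_le_left)) k.comm k.le k.index.le
  obtain ⟨s, hs, m, hm, rfl⟩ := h.dec_star hx
  have h5 := commutator_le_left P ⊤ hs
  have hsM : s ∉ M := fun e => hxM (mul_mem ⟨e, h5⟩ hm)
  have h6 : ∀ z ∈ lc2 P, ⁅z, s⁆ ∈ K := fun z hz => by
    have := h3 z hz
    rwa [show ⁅z, s * m⁆ = ⁅z, s⁆ * (s * ⁅z, m⁆ * s⁻¹) by group, mem_bot.1 (h4.le
      ((h.isCam hβ).comm2 (commutator_mem_commutator hz hm))), mul_one, mul_inv_cancel, mul_one] at this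
  obtain ⟨b, h7, h8⟩ := k.exists_notMem
  obtain ⟨κ, h9, h10⟩ := exists_tot_ne_one ((commutator_mono le_rfl (hB.trans inf_le_right)).trans
    k.comm) h7 h8
  have h11 : ∀ d ∈ lc3 P, tot κ d = 1 → d ∈ K := fun d hd e => by
    have e1 : κ.ker ≠ ⊤ := fun e => h10 ((tot_of_mem h7).trans (e.ge (mem_top _)))
    have e2 : K.subgroupOf (lc3 P) ≤ κ.ker := fun x hx =>
      (tot_of_mem x.2).symm.trans (tot_eq_one h9 hx)
    have e3 := ((isCoatom_of_index_prime (N := K.subgroupOf (lc3 P))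
      (k.index ▸ hp.out :)).le_iff_eq e1).1 e2
    exact e3.le (x := ⟨d, hd⟩) ((tot_of_mem hd).symm.trans e)
  obtain ⟨c, h12, h13⟩ := h.exists_fix_lin h.lc3_lt.le fun e => h10 (lin_eq_one_iff.1 e b h7)
  have h14 := hP.conj_mem _ (inv_mem h5) c
  have h15 := commutator_mem_commutator h14 h5
  have h16 := h1 s hs hsM
  refine h.pow_notMem hc hf hB k (commutator_le_left P ⊤ (commutator_mem_commutator h5 trivial))
    (fun e => hsM (h.frob.frob s (h.le h5) c h12 e)) (commutator_pow_mem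
      (le_normalizer_iff_commutator_le_left.2 ((commutator_mono k.le le_rfl).trans k.comm)) h2 h5
      (h6 _ h15) (h11 _ (commutator_mem_commutator h15 h14) ?_) (k.comm (h.pow_two_mem hβ _ h15))
      (h11 _ (commutator_le_left _ ⊤ (commutator_mem_commutator h16 trivial))
        (smul_eq_iff_tot.1 h13 _ h16)))
  have h17 := Normal.conj_mem' inferInstance _ h15 c
  have h18 := commutator_mem_commutator h17 h5
  rw [show ∀ z, ⁅z, c * s⁻¹ * c⁻¹⁆ = c * (s⁻¹ * ⁅c⁻¹ * z * c, s⁆⁻¹ * s) * c⁻¹ from fun z => by group,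
    ← hZ _ (inv_mem h18) _ (inv_mem h5), inv_mul_cancel_right, tot_conj h13 (inv_mem h18),
    tot_eq_one h9 (inv_mem (h6 _ h17))]

omit hβ in
theorem false_of_act [Nontrivial V] (hi : ∀ B : Subgroup G, B.Normal →
      (∀ b ∈ B, ∀ v : V, b • v = v) ∨ ∀ v : V, (∀ b ∈ B, b • v = v) → v = 1)
    (hα : ⁅lc2 P, ⊤⁆ ≤ lc3 P → ∀ d ∈ lc2 P, ∀ v : V, d • v = v) : False := by
  have h1 := (hi (lc2 P) inferInstance).resolve_left (h.false_of_lc2 hc hf)
  have hβ := h.alpha_or.resolve_left fun e => h.false_of_lc2 hc hf (hα e)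
  rcases hi (lc3 P) inferInstance with h2 | h2
  · obtain ⟨K, k⟩ := exists_maxStab hc (commutator_le_self P) h2
      (fun b hb => h2 _ ((h.isCam hβ).pow2 b hb)) h1
    exact h.false_of_maxStab_two hc hf hβ k
  · have h3 : ∀ d ∈ lc4 P, ∀ v : V, d • v = v := fun d hd v => by
      rw [mem_bot.1 ((h.lc4_eq_bot hβ).le hd), one_smul]
    obtain ⟨K, k⟩ := exists_maxStab hc (h.lc3_lt.le.trans (commutator_le_self P)) h3
      (fun b hb => h3 _ ((h.isCam hβ).pow3 b hb)) h2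
    exact h.false_of_maxStab_three hc hf hβ k

end CaseA

end CT
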