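import Cfsg.Agent.Lib.Char.Ndad

/-!
# Groups with no divisibility among character degrees: `N'` has a complement
-/

set_option autoImplicit false
set_option linter.unusedSectionVars false
set_option linter.style.haveILetI false

namespace CT

open Cfsg GT Subgroup MulAction
open scoped commutatorElement Pointwise

attribute [local instance] linAct

variable {G : Type*} [Group G] [Finite G]

theorem lin_smul_eq_of_fpf {F : Subgroup G} [F.Normal] {e : G}
    (he : ∀ μ : F →* ℂˣ, e • μ = μ → μ = 1) {θ : IrrCharacter F} (h1 : e • θ = θ) {μ : F →* ℂˣ}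
    (h2 : e • μ • θ = μ • θ) : μ • θ = θ := by
  let U : Subgroup (F →* ℂˣ) :=
    { carrier := {ν | ν • θ = θ}
      mul_mem' := fun {a b} ha hb => (lin_smul_smul a b θ).symm.trans (by rw [hb, ha])
      one_mem' := one_lin_smul θ
      inv_mem' := fun {a} ha => by
        have := inv_lin_smul_smul a θ
        rwa [ha] at this }
  refine mem_of_smul_div_mem (U := U) (fun u hu => ?_) he ?_
  · have := conjSmul_lin_smul e u θ
    rw [hu, h1] at this
    exact this.symm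
  · rw [conjSmul_lin_smul, h1, lin_smul_eq_iff] at h2
    exact (div_eq_inv_mul (e • μ) μ ▸ h2 :)

theorem eq_one_of_commute_of_commutator_eq {p : ℕ} [Fact p.Prime] {x y z : G} (hx : IsPElt p x)
    (hz : ¬ p ∣ orderOf z) (e : ⁅x, y⁆ = z) (hc : z * x = x * z) : z = 1 := by
  obtain ⟨k, hk⟩ := hx.exists_pow_eq_one
  have h1 : z = x * (y * x * y⁻¹)⁻¹ := by rw [← e]; group
  have h2 : Commute x (y * x * y⁻¹)⁻¹ := by
    rw [← inv_mul_eq_iff_eq_mul.2 h1]
    exact (Commute.refl x).inv_right.mul_right hc.symm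
  refine orderOf_eq_one_iff.1 ((((Nat.Prime.coprime_iff_not_dvd Fact.out).2 hz).symm.pow_right
    k).eq_one_of_dvd (orderOf_dvd_of_pow_eq_one ?_))
  rw [h1, h2.mul_pow, inv_pow, conj_pow, hk]
  group

theorem mem_of_commutator_mem_of_fpf {B F : Subgroup G} [B.Normal] (hB : B ≤ F) {e w : G}
    (hf : ∀ k ∈ F, k * e = e * k → k = 1) (hw : w ∈ F) (h : ⁅w, e⁆ ∈ B) : w ∈ B := by
  obtain ⟨k, hk, e1⟩ := exists_commutator_eq_of_fpf (le_normalizer_of_normal (mem_top e))
    (fun k hk => hf k (hB hk)) h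
  refine inv_mul_eq_one.1 (hf _ (mul_mem (inv_mem (hB hk)) hw) ?_) ▸ hk
  calc _ = k⁻¹ * ⁅w, e⁆ * e * w := by group
    _ = _ := by rw [← e1]; group

namespace NdSetup

variable {N M : Subgroup G} [hN : N.Normal] (h : NdSetup N M)
include h

theorem eq_one_of_commute {H : Subgroup G} (hd : Disjoint (lc2 N) H)
    (hs : ∀ y ∈ N, ∃ k ∈ lc2 N, ∃ u ∈ H, k * u = y) {e : G} (he : e ∈ H) (heN : e ∈ N)
    (heM : e ∉ M) : ∀ k ∈ lc2 N, k * e = e * k → k = 1 := fun k hk hc => by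
  have h1 : ∀ k : lc2 N, ⁅e, k.1⁆ ∈ lc2 N := fun k =>
    commutator_mem_commutator heN (commutator_le_self N k.2)
  refine congrArg Subtype.val ((Finite.injective_iff_surjective
    (f := fun k : lc2 N => (⟨_, h1 k⟩ : lc2 N))).2 (fun z => ?_) (a₁ := ⟨k, hk⟩) (a₂ := 1)
    (Subtype.ext ?_))
  · obtain ⟨y, hy, e1⟩ := h.camina heN heM z.2
    obtain ⟨k, hk, u, hu, rfl⟩ := hs y hy
    have h2 : ⁅e, u⁆ = 1 := disjoint_def.1 hd (commutator_mem_commutator heN
      ((mul_mem_cancel_left (commutator_le_self N hk)).1 hy))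
      (commutator_le_self H (commutator_mem_commutator he hu))
    refine ⟨⟨k, hk⟩, Subtype.ext (e1 ▸ ?_)⟩
    calc ⁅e, k⁆ = e * k * e⁻¹ * ⁅e, u⁆ * k⁻¹ := by rw [h2]; group
      _ = _ := by group
  · exact (commutatorElement_eq_one_iff_mul_comm.2 hc.symm).trans (commutatorElement_one_right e).symm

theorem exists_isComplement' {p : ℕ} [Fact p.Prime] (h1 : p ∣ M.relIndex N)
    (h2 : ¬ p ∣ Nat.card (lc2 N)) : ∃ H : Subgroup G, (lc2 N).IsComplement' H := by
  haveI := h.frob.normalK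
  obtain ⟨P, hP⟩ := exists_isSylowIn p N
  obtain ⟨x, hx, hxM⟩ := SetLike.not_le_iff_exists.1 fun e => hP.not_dvd_relIndex_of_le e h1
  have hxN := hP.le hx
  have h3 : ∀ z ∈ lc2 N, z * x = x * z → z = 1 := fun z hz e => by
    obtain ⟨y, -, hy⟩ := h.camina hxN hxM hz
    exact eq_one_of_commute_of_commutator_eq (isPElt_of_mem hP.isPGroup hx)
      (fun h3 => h2 (h3.trans (orderOf_dvd_natCard _ hz))) hy e
  set E := N ⊓ centralizer {x}
  have hd : Disjoint (lc2 N) E := disjoint_def.2 fun hz hE =>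
    h3 _ hz (mem_centralizer_singleton_iff.1 hE.2)
  have hs : ∀ y ∈ N, ∃ k ∈ lc2 N, ∃ u ∈ E, k * u = y := fun y hy => by
    obtain ⟨k, hk, e⟩ := exists_commutator_eq_of_fpf (le_normalizer_of_normal (mem_top x)) h3
      (commutator_mem_commutator hy hxN)
    refine ⟨k, hk, k⁻¹ * y, ⟨N.mul_mem (N.inv_mem (commutator_le_self N hk)) hy,
      mem_centralizer_singleton_iff.2 ?_⟩, mul_inv_cancel_left k y⟩
    calc _ = k⁻¹ * ⁅y, x⁆ * x * y := by group
      _ = _ := by rw [← e]; group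
  have hc : ∀ a ∈ E, ∀ b ∈ E, a * b = b * a := fun a ha b hb =>
    commutatorElement_eq_one_iff_mul_comm.1 (disjoint_def.1 hd (commutator_mem_commutator ha.1 hb.1)
      (commutator_le_self E (commutator_mem_commutator ha hb)))
  have hxE : x ∈ E := ⟨hxN, mem_centralizer_singleton_iff.2 rfl⟩
  refine ⟨normalizer E, isComplement'_of_disjoint_of_sup_eq_top (disjoint_def.2 fun {k} hk hn =>
    h3 k hk (commutatorElement_eq_one_iff_mul_comm.1 (disjoint_def.1 hd
      (commutator_mem_commutator (commutator_le_self N hk) hxN)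
      (mul_mem (conj_mem_of_mem_normalizer hn hxE) (inv_mem hxE))))) (eq_top_iff.2 fun g _ => ?_)⟩
  obtain ⟨k, hk, e, he, e1⟩ := hs _ (hN.conj_mem x hxN g)
  have h4 := h.eq_one_of_commute hd hs he he.1 fun h4 => hxM (by
    simpa [e1, mul_assoc] using h.frob.normalK.conj_mem' _ (mul_mem (h.frob.comm hk) h4) g)
  obtain ⟨j, hj, e2⟩ := exists_conj_eq_mul_of_fpf (le_normalizer_of_normal (mem_top e)) h4 hk
  rw [← mul_inv_cancel_left j g]
  refine mul_mem (mem_sup_left hj) (mem_sup_right (mem_normalizer_of_conj_mem fun y hy => ?_))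
  obtain ⟨k', hk', u, hu, e3⟩ := hs _ (hN.conj_mem y hy.1 (j⁻¹ * g))
  have h5 : k' * u * e = e * (k' * u) := by
    rw [e3, show e = j⁻¹ * (g * x * g⁻¹) * j by rw [← e1, ← e2]; group]
    calc _ = j⁻¹ * g * (y * x) * g⁻¹ * j := by group
      _ = _ := by rw [mem_centralizer_singleton_iff.1 hy.2]; group
  rwa [← e3, h4 k' hk' (by rwa [mul_assoc, hc u hu e he, ← mul_assoc, ← mul_assoc,
    mul_left_inj] at h5), one_mul]

section Compl

variable {H : Subgroup G} (hc : (lc2 N).IsComplement' H)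
include hc

theorem fpf_of_compl {e : G} (he : e ∈ H) (heN : e ∈ N) (heM : e ∉ M) :
    ∀ k ∈ lc2 N, k * e = e * k → k = 1 :=
  h.eq_one_of_commute hc.disjoint (fun y _ => by
    obtain ⟨⟨k, u⟩, e⟩ := hc.2 y
    exact ⟨k, k.2, u, u.2, e⟩) he heN heM

theorem frobMod : FrobMod (N.subgroupOf H) (M.subgroupOf H) := by
  haveI := h.cyc
  have h1 : ∀ a b : H, ⁅a.1, b.1⁆ ∈ lc2 N → a * b = b * a := fun a b e =>
    Subtype.ext (commutatorElement_eq_one_iff_mul_comm.1 (disjoint_def.1 hc.disjoint e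
      (commutator_le_self H (commutator_mem_commutator a.2 b.2))))
  refine ⟨⟨⟨fun a b => Subtype.ext (h1 _ _ (commutator_mem_commutator a.2 b.2))⟩⟩,
    isCyclic_quotient_of_eq_ker (f := (QuotientGroup.mk' N).comp H.subtype)
      (by rw [← MonoidHom.comap_ker, QuotientGroup.ker_mk']; rfl),
    (comap_mono h.frob.le).lt_of_ne fun e => h.ne (h.frob.le.antisymm fun y hy => ?_),
    fun m hm => Subgroup.mem_center_iff.2 fun g =>
      (h1 m g (h.cent (commutator_mem_commutator hm trivial))).symm,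
    fun e he g hg e1 => h.frob.frob e he g hg e1⟩
  obtain ⟨⟨k, u⟩, rfl⟩ := hc.2 y
  exact mul_mem (h.frob.comm k.2) (e.ge (x := u) ((mul_mem_cancel_left
    (commutator_le_self N k.2)).1 hy))

theorem lin_fpf {e : H} (heN : e ∈ N.subgroupOf H) (heM : e ∉ M.subgroupOf H)
    (μ : lc2 N →* ℂˣ) (e1 : e • μ = μ) : μ = 1 :=
  lin_eq_one_of_fpf (B := ⊥) (c := e.1) (fun a ha e2 => h.fpf_of_compl hc e.2 heN heM a ha
    (commutatorElement_eq_one_iff_mul_comm.1 e2)) (by rw [bot_subgroupOf]; exact bot_le) e1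

theorem index_ne_one_lin {μ : lc2 N →* ℂˣ} (hμ : μ ≠ 1) : (stabilizer H μ).index ≠ 1 := fun e => by
  obtain ⟨x, hx, hxM⟩ := SetLike.exists_of_lt (h.frobMod hc).lt
  exact hμ (h.lin_fpf hc hx hxM μ ((index_eq_one.1 e).ge trivial))

theorem degree_lin {μ : lc2 N →* ℂˣ} (hμ : μ ≠ 1) {χ : IrrCharacter G}
    (hχ : LiesOver _ χ.1 (linChar μ).1) : charDegree χ.1 = (stabilizer H μ).index := by
  obtain ⟨ψ, hψ⟩ := exists_extension_linChar_of_isComplement' hc μ
  have h1 := index_stabilizer_of_sup_eq_top hc.symm.sup_eq_top (linChar μ)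
  rw [← stabilizer_linAct] at h1
  rw [h.nd.degree_eq hψ (by
    rw [charDegree_linChar, mul_one, ← h1]
    exact h.index_ne_one_lin hc hμ) hχ, charDegree_linChar, mul_one, h1]

theorem index_mem_lin {μ : lc2 N →* ℂˣ} (hμ : μ ≠ 1) :
    (stabilizer H μ).index ∈ charDegrees G := by
  obtain ⟨χ, hχ⟩ := exists_irr_liesOver (linChar μ)
  exact h.degree_lin hc hμ hχ ▸ mem_charDegrees χ

theorem bPre : BPre (lc2 N →* ℂˣ) (N.subgroupOf H) (M.subgroupOf H) := by
  refine ⟨h.frobMod hc, fun e => h.lin_fpf hc, fun μ hμ => ?_, fun μ ν hν e => ?_⟩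
  · obtain ⟨χ, hχ⟩ := exists_irr_liesOver (linChar μ)
    rw [← h.degree_lin hc hμ hχ, ← relIndex, ← index_eq_relIndex_of_sup_eq_top (eq_top_iff.2
      (hc.symm.sup_eq_top.ge.trans (sup_le_sup_left (commutator_le_self N) H)))]
    exact h.not_dvd fun e => hμ (linChar_eq_irrOne_iff.1 (hχ.le_ker_iff_eq_irrOne.1 e))
  · by_cases hμ : μ = 1
    · exact le_top.trans fun g _ => mem_stabilizer_iff.2 (by rw [hμ]; rfl)
    have h1 := h.nd.eq_of_dvd (h.index_mem_lin hc hν) (h.index_mem_lin hc hμ)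
      (h.index_ne_one_lin hc hν) (index_dvd_of_le e)
    rwa [← relIndex_mul_index e, right_eq_mul₀ index_ne_zero_of_finite, relIndex_eq_one] at h1

theorem exists_fpf_fix [Nontrivial (lc2 N →* ℂˣ)] {θ : IrrCharacter (lc2 N)}
    (hθ : charDegree θ.1 ≠ 1) : ∃ e ∈ H ⊓ N, e • θ = θ ∧ ∀ μ : lc2 N →* ℂˣ, e • μ = μ → μ = 1 := by
  by_contra hn
  push Not at hn
  obtain ⟨ν, hν⟩ := exists_ne (1 : lc2 N →* ℂˣ)
  obtain ⟨χ, hχ⟩ := exists_irr_liesOver θ
  have h1 : (stabilizer H ν).index ∣ (stabilizer G θ).index := by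
    rw [(h.bPre hc).index_stabilizer hν, ← index_stabilizer_of_sup_eq_top hc.symm.sup_eq_top]
    refine (Dvd.dvd.trans ?_ (relIndex_dvd_index_of_normal_right _ (N.subgroupOf H)))
    rw [← inf_relIndex_right (stabilizer H θ)]
    refine relIndex_dvd_of_le_left _ fun e he => ?_
    obtain ⟨μ, h1, h2⟩ := hn e ⟨e.2, he.2⟩ he.1
    exact (h.bPre hc).smul_eq he.2 h2 h1 ν
  have h2 := (mul_dvd_mul_right h1 _).trans hχ.index_mul_degree_dvd
  rw [← h.nd.eq_of_dvd (h.index_mem_lin hc hν) (mem_charDegrees χ) (h.index_ne_one_lin hc hν)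
    (dvd_of_mul_right_dvd h2)] at h2
  exact hθ (Nat.eq_one_of_dvd_one (Nat.dvd_of_mul_dvd_mul_left (index_pos _)
    (h2.trans (mul_one _).symm.dvd)))

theorem lin_smul_eq {θ : IrrCharacter (lc2 N)} (hθ : charDegree θ.1 ≠ 1)
    (μ : lc2 N →* ℂˣ) : μ • θ = θ := by
  by_cases hμ : μ = 1
  · rw [hμ, one_lin_smul]
  haveI := nontrivial_of_ne μ 1 hμ
  obtain ⟨e, he, h1, h2⟩ := h.exists_fpf_fix hc hθ
  obtain ⟨e', he', h3, h4⟩ := h.exists_fpf_fix hc (θ := μ • θ) (by rwa [charDegree_lin_smul])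
  have h5 : e' • θ = (conjLin e' μ⁻¹ * μ) • θ := by
    rw [← lin_smul_smul, ← h3, ← conjSmul_lin_smul, inv_lin_smul_smul]
  have h6 : e * e' = e' * e := commutatorElement_eq_one_iff_mul_comm.1 (disjoint_def.1 hc.disjoint
    (commutator_mem_commutator he.2 he'.2) (commutator_le_self H (commutator_mem_commutator he.1 he'.1)))
  exact lin_smul_eq_of_fpf h4 (h5.trans (lin_smul_eq_of_fpf h2 h1
    (by rw [← h5, smul_smul, h6, mul_smul, h1]))) h3

theorem isNilpotent_of_compl [Group.IsSolvable G] : Group.IsNilpotent (lc2 N) := by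
  have hF := h.frobMod hc
  haveI := hF.comm
  obtain ⟨y, hy, hyM⟩ := SetLike.exists_of_lt hF.lt
  obtain ⟨c, hcH, hcN⟩ := SetLike.not_le_iff_exists.1 fun e : H ≤ N => h.ne_top
    (eq_top_iff.2 (hc.sup_eq_top.ge.trans (sup_le (commutator_le_self N) e)))
  lift c to H using hcH
  have h1 : ∀ i : ℤ, ⁅y, c⁆ ^ i = ⁅y ^ i, c⁆ := fun i => by
    rw [commutatorElement_def, mul_assoc, mul_assoc, ← mul_assoc c, Commute.mul_zpow
      (setLike_mul_comm (s := N.subgroupOf H) hy (Normal.conj_mem inferInstance _ (inv_mem hy) c)),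
      conj_zpow]
    group
  refine FrobAct.isNilpotent (H := zpowers (⁅y, c⁆ : H).1) ⟨le_normalizer_of_normal, ?_⟩ fun e => ?_
  · rintro _ ⟨i, rfl⟩ h2
    have h3 : (⁅y, c⁆ : H).1 ^ i = (⁅y ^ i, c⁆ : H).1 := congrArg Subtype.val (h1 i)
    beta_reduce at h2 ⊢
    rw [h3] at h2 ⊢
    refine h.fpf_of_compl hc (Subtype.prop _) (commutator_le_left N ⊤ (commutator_mem_commutator
      (zpow_mem hy i) trivial)) fun h4 => h2 (OneMemClass.coe_eq_one.2 ?_)
    exact commutatorElement_eq_one_iff_mul_comm.2 (Subgroup.mem_center_iff.1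
      (hF.cent (hF.frob _ (zpow_mem hy i) c hcN h4)) c).symm
  · exact hyM (hF.frob y hy c hcN (by
      rw [OneMemClass.coe_eq_one.1 (zpowers_eq_bot.1 e)]
      exact one_mem _))

theorem commutator_eq_bot [Group.IsSolvable G] : lc2 (lc2 N) = ⊥ := by
  by_contra hn
  haveI := h.isNilpotent_of_compl hc
  have h1 : lc3 (lc2 N) < lc2 (lc2 N) :=
    commutator_lt_of_isNilpotent hn (commutator_le_self _) le_normalizer_of_normal
  have h2 : lc2 (lc2 N) < lc2 N := commutator_lt_of_isNilpotent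
    (fun e => hn (eq_bot_iff.2 ((commutator_le_self _).trans e.le))) le_rfl le_normalizer
  have h3 : Nat.card (lc2 N →* ℂˣ) = (lc2 (lc2 N)).relIndex (lc2 N) := by
    rw [card_units_hom, relIndex_commutator_self]
  haveI : Nontrivial (lc2 N →* ℂˣ) := Finite.one_lt_card_iff_nontrivial.1 (h3 ▸
    lt_of_le_of_ne (relIndex_pos _ _) fun e => h2.not_ge (relIndex_eq_one.1 e.symm))
  obtain ⟨s, hs, h4⟩ := (h.bPre hc).exists_pow_eq_one
  haveI := Fact.mk hs
  have h5 : ∀ a : lc2 N, a.1 ∈ lc2 (lc2 N) ↔ a ∈ commutator (lc2 N) := fun a => by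
    rw [lc2, ← map_subtype_commutator]
    exact mem_map_iff_mem (subtype_injective _)
  have h6 : ∀ a ∈ lc2 N, a ^ s ∈ lc2 (lc2 N) := fun a ha => (h5 (⟨a, ha⟩ ^ s)).2
    (mem_commutator_iff_forall_units_hom.2 fun f => (map_pow f _ s).trans (DFunLike.congr_fun (h4 f) _))
  have h7 := sq_relIndex_le (p := s) h2.le h1.le le_rfl h2.not_ge le_rfl le_rfl h6
    (pow_mem_of_mem_commutator h6 (commutator_comm _ _).le le_rfl) fun a ha h7 d hd => by
      obtain ⟨y, hy, e⟩ := exists_commutator_eq_of_vanish le_rfl (fun ψ h8 x hx => by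
        obtain ⟨f, -, hf⟩ := exists_units_hom_apply_ne_one le_rfl (mt (h5 x).2 hx)
        exact (lin_smul_eq_self_iff f ψ).1 (h.lin_smul_eq hc h8 f) x hf) ha h7 hd
      exact ⟨y, hy, by rw [e, inv_mul_cancel]; exact one_mem _⟩
  refine (lt_of_pow_lt_pow_left₀ 2 (Nat.zero_le _) (h7.trans_lt (h3 ▸ (h.bPre hc).main.2.1))).not_ge ?_
  obtain ⟨w, hw, hw3⟩ := SetLike.exists_of_lt h1
  rw [← card_map_mk' (lc3 _)]
  refine Nat.card_le_card_of_injective (fun q => ⟨_, _, Normal.conj_mem inferInstance w hw q.out.1.1,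
    rfl⟩) fun q q' e => ?_
  rw [← q.out_eq, ← q'.out_eq]
  refine Quotient.sound (QuotientGroup.leftRel_apply.2 (by_contra fun h8 => hw3 ?_))
  refine mem_of_commutator_mem_of_fpf (h1.le.trans h2.le) (h.fpf_of_compl hc (q.out⁻¹ * q'.out).1.2
    (q.out⁻¹ * q'.out).2 h8) (h2.le hw) ?_
  have h9 := QuotientGroup.eq.1 (congrArg Subtype.val e).symm
  convert Normal.conj_mem inferInstance _ h9 (w * q.out.1.1⁻¹) using 1
  simp only [coe_mul, coe_inv]
  group

theorem ncard_le_three_of_compl [Group.IsSolvable G] : (charDegrees G).ncard ≤ 3 := by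
  have key : ∀ χ : IrrCharacter G, ¬ lc2 N ≤ ker χ.1 →
      ∃ μ : lc2 N →* ℂˣ, μ ≠ 1 ∧ charDegree χ.1 = (stabilizer H μ).index := fun χ h1 => by
    obtain ⟨θ, hθ⟩ := exists_irr_liesUnder (lc2 N) χ
    obtain ⟨μ, rfl⟩ := (exists_linChar_eq_iff θ).2 (hθ.commutator_le_ker_iff.1
      ((h.commutator_eq_bot hc).le.trans bot_le))
    have hμ : μ ≠ 1 := fun e => h1 (hθ.le_ker_iff_eq_irrOne.2 (linChar_eq_irrOne_iff.2 e))
    exact ⟨μ, hμ, h.degree_lin hc hμ hθ⟩
  by_cases h0 : ∀ χ : IrrCharacter G, lc2 N ≤ ker χ.1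
  · exact (ncard_charDegrees_le_two fun χ => h.degree_eq_or (h0 χ)).trans (by norm_num)
  obtain ⟨ξ, hξ⟩ := not_forall.1 h0
  obtain ⟨ν, hν, -⟩ := key ξ hξ
  refine ncard_charDegrees_le_three (m := N.index) (n := (stabilizer H ν).index) fun χ => ?_
  by_cases h1 : lc2 N ≤ ker χ.1
  · exact (h.degree_eq_or h1).imp_right .inl
  obtain ⟨μ, hμ, e⟩ := key χ h1
  exact .inr (.inr (e.trans ((h.bPre hc).index_stabilizer_eq hμ hν)))

end Compl

end NdSetup

end CT
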