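import Cfsg.Agent.Lib.Char.NdadA3
import Cfsg.Agent.Lib.Char.NqExt
import Cfsg.Agent.Lib.Char.DegGraph

/-!
# Solvable groups with no divisibility among character degrees
-/

set_option autoImplicit false
set_option linter.unusedSectionVars false
set_option linter.style.haveILetI false

namespace CT

open Cfsg GT Subgroup MulAction
open scoped commutatorElement Pointwise

attribute [local instance] linAct

universe u

variable {G : Type u} [Group G] [Finite G]

/-- `L` is a normal `p`-complement of `N` not containing `N'`. -/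
structure NdL (p : ℕ) (N M L : Subgroup G) [N.Normal] : Prop extends NdSetup N M where
  dvd : p ∣ M.relIndex N
  normal : L.Normal
  le : L ≤ M
  ndvd : ¬ p ∣ Nat.card L
  pow : ∃ k, L.relIndex N = p ^ k
  nle : ¬ lc2 N ≤ L

omit [Finite G] in
theorem relIndex_map_map_of_ker_le {H : Type*} [Group H] {f : G →* H} (hf : Function.Surjective f)
    {A B : Subgroup G} (hA : f.ker ≤ A) (hB : f.ker ≤ B) :
    (A.map f).relIndex (B.map f) = A.relIndex B := by
  rw [← relIndex_comap_comap_of_surjective hf, comap_map_eq_self hA, comap_map_eq_self hB]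

theorem NdSetup.ndL {p : ℕ} [hp : Fact p.Prime] {N M L : Subgroup G} [N.Normal] (h : NdSetup N M)
    (h1 : p ∣ M.relIndex N) [hL : L.Normal] (h2 : L ≤ N) (h3 : ¬ p ∣ Nat.card L) {k : ℕ}
    (h4 : L.relIndex N = p ^ k) (h5 : ¬ lc2 N ≤ L) : NdL p N M L := by
  haveI := h.frob.normalK
  refine ⟨h, h1, hL, ?_, h3, ⟨k, h4⟩, h5⟩
  obtain ⟨ψ, h6, h7⟩ := exists_irr_le_ker_not_le (L.subgroupOf N) (K := commutator N) fun e => h5 (by
    rw [lc2, ← map_subtype_commutator]
    exact map_le_iff_le_comap.2 e)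
  have h8 := (h.vanish (mt (irr_degree_eq_one_iff_commutator_le_ker ψ).1 h7)).2.trans
    (pow_dvd_pow_of_dvd (irr_degree_dvd_index_of_le_ker ψ h6) 2)
  rw [← relIndex, h4, ← pow_mul] at h8
  exact le_of_coprime_card_relIndex h2 le_normalizer_of_normal
    ((((hp.out.coprime_iff_not_dvd.2 h3).symm.pow_right _)).of_dvd_right h8)

namespace NdL

variable {p : ℕ} [hp : Fact p.Prime] {N M L : Subgroup G} [hN : N.Normal] (h : NdL p N M L)
include h

theorem map {H : Type*} [Group H] {f : G →* H} (hf : Function.Surjective f) (hk : f.ker ≤ L)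
    [(N.map f).Normal] : NdL p (N.map f) (M.map f) (L.map f) := by
  have h1 := hk.trans h.le
  have h2 := h1.trans h.frob.le
  refine ⟨h.toNdSetup.map hf h1, by rw [relIndex_map_map_of_ker_le hf h1 h2]; exact h.dvd,
    h.normal.map f hf, map_mono h.le, fun e => h.ndvd (e.trans (card_map_dvd L f)),
    by rw [relIndex_map_map_of_ker_le hf hk h2]; exact h.pow, fun e => h.nle ?_⟩
  rw [lc2, ← map_commutator, map_le_iff_le_comap, comap_map_eq_self hk] at e
  exact e

theorem eq_one_of_commute {P : Subgroup G} (hP : IsSylowIn p P N) {x z : G} (hx : x ∈ P)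
    (hxM : x ∉ M) (h1 : z ∈ lc2 N) (h2 : z ∈ L) (e : z * x = x * z) : z = 1 := by
  obtain ⟨y, -, hy⟩ := h.camina (hP.le hx) hxM h1
  exact eq_one_of_commute_of_commutator_eq (isPElt_of_mem hP.isPGroup hx)
    (fun h3 => h.ndvd (h3.trans (orderOf_dvd_natCard _ h2))) hy e

theorem caseA {P : Subgroup G} [P.Normal] (hP : IsSylowIn p P N) : CaseA p N M P := by
  haveI := h.normal
  obtain ⟨k, hk⟩ := h.pow
  have h1 := hP.sup_eq_of_relIndex_eq_pow (h.le.trans h.frob.le) hk
  have h2 : L ≤ centralizer (P : Set G) := commute_of_normal_of_disjoint' le_normalizer_of_normal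
    le_normalizer_of_normal (disjoint_of_isPGroup_of_not_dvd hP.isPGroup h.ndvd).symm
  have h3 : ∀ y ∈ N, ∃ u ∈ P, ∃ l ∈ L, u * l = y := fun y hy => by
    rw [← h1, sup_comm, ← SetLike.mem_coe, mul_normal] at hy
    exact hy
  obtain ⟨x, hx, hxM⟩ := SetLike.not_le_iff_exists.1 fun e => hP.not_dvd_relIndex_of_le e h.dvd
  have h4 : lc2 N = lc2 P := by
    refine le_antisymm (commutator_le.2 fun a ha b hb => ?_) (commutator_mono hP.le hP.le)
    obtain ⟨u, hu, l, hl, rfl⟩ := h3 a ha
    obtain ⟨v, hv, m, hm, rfl⟩ := h3 b hb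
    have h5 := commutator_le_self L (commutator_mem_commutator hl hm)
    have h6 := commutatorElement_eq_one_iff_mul_comm.1 (h.eq_one_of_commute hP hx hxM
      (commutator_mem_commutator (h.frob.le (h.le hl)) (h.frob.le (h.le hm))) h5 (h2 h5 x hx).symm)
    have h7 : ⁅u * l, v * m⁆ = ⁅u, v⁆ := by
      calc _ = u * (l * v) * (m * l⁻¹) * (u⁻¹ * m⁻¹) * v⁻¹ := by group
        _ = u * (v * l) * (l⁻¹ * m) * (m⁻¹ * u⁻¹) * v⁻¹ := by
          rw [← h2 hl v hv, (show Commute l m from h6).inv_left.eq,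
            (show Commute u m from h2 hm u hu).inv_inv.eq]
        _ = _ := by group
    exact h7 ▸ commutator_mem_commutator hu hv
  refine ⟨h.toNdSetup, hP.isPGroup, hP.le, fun e => ?_, fun y hy => ?_, h4,
    fun e => h.nle ((h4.trans e).le.trans bot_le)⟩
  · rw [← relIndex_mul_index hP.le] at e
    exact (hp.out.dvd_mul.1 e).elim hP.not_dvd fun e =>
      hp.out.ne_one (Nat.eq_one_of_dvd_coprimes h.frob.coprime h.dvd e)
  · obtain ⟨u, hu, l, hl, e⟩ := h3 y hy
    exact ⟨u, hu, l, h.le hl, h2 hl, e⟩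

theorem false_of_compl {V P H : Subgroup G} (hV : IsMinNormal V) [IsMulCommutative V] (hVL : V ≤ L)
    (hP : IsSylowIn p P N) (hH : H = normalizer (P : Set G)) (hc : V.IsComplement' H) : False := by
  haveI := hV.normal
  haveI := h.frob.normalK
  have hPH : P ≤ H := hH ▸ le_normalizer
  obtain ⟨f, f1, f2, f3⟩ := exists_hom_of_isComplement' hc
  have hf : Function.Surjective f := fun g => ⟨g, f1 g⟩
  have hk : f.ker ≤ V := fun g hg => (QuotientGroup.eq_one_iff g).1 (by
    rw [← f2, MonoidHom.mem_ker.1 hg]; rfl)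
  have m1 : ∀ K : Subgroup G, V ≤ K → K.map f = K.subgroupOf H := fun K hK => by
    refine le_antisymm (map_le_iff_le_comap.2 fun g hg => ?_) fun x hx => ⟨x, hx, f1 x⟩
    exact (mul_mem_cancel_right hg).1 ((inv_mem_iff (x := (f g).1)).1 ((mul_mem_cancel_right hg).1
      (hK (QuotientGroup.eq.1 (f2 g))))  |> fun e => mul_mem e hg)
  have hVM := hVL.trans h.le
  have hVN := hVM.trans h.frob.le
  have key : ∀ (N' M' L' : Subgroup H) [N'.Normal], N' = N.map f → M' = M.map f → L' = L.map f →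
      NdL p N' M' L' := by
    rintro _ _ _ _ rfl rfl rfl
    exact h.map hf (hk.trans hVL)
  have h' := key _ _ _ (m1 N hVN).symm (m1 M hVM).symm (m1 L hVL).symm
  haveI : (P.subgroupOf H).Normal := normal_subgroupOf_of_le_normalizer hH.le
  have hP' : IsSylowIn p (P.subgroupOf H) (N.subgroupOf H) := by
    have := hP.map f
    rwa [m1 N hVN, show P.map f = P.subgroupOf H from le_antisymm
      (map_le_iff_le_comap.2 fun g hg => by
        rw [mem_comap, show g = ((⟨g, hPH hg⟩ : H) : G) from rfl, f1]; exact hg)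
      fun x hx => ⟨x, hx, f1 x⟩] at this
  have hA := h'.caseA hP'
  have hcm : ∀ a ∈ V, ∀ b ∈ V, a * b = b * a := fun a ha b hb => setLike_mul_comm ha hb
  have h1 : V ≤ lc2 N := by
    refine (hV.eq_of_le ⁅V, N⁆ inferInstance (commutator_le_left V N) fun e => hV.ne_bot
      (hc.disjoint.eq_bot_of_le ?_)).ge.trans (commutator_mono hVN le_rfl)
    exact hH ▸ ((commutator_eq_bot_iff_le_centralizer.1 e).trans (centralizer_le hP.le)).trans
      (centralizer_le_normalizer _)
  have h2 : ∀ x ∈ P.subgroupOf H, x ∉ M.subgroupOf H → ∀ μ : V →* ℂˣ, x • μ = μ → μ = 1 :=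
    fun x hx hxM μ e => lin_eq_one_of_fpf (B := ⊥) (c := x.1) (fun a ha e2 => h.eq_one_of_commute hP
      hx hxM (h1 ha) (hVL ha) (commutatorElement_eq_one_iff_mul_comm.1 e2))
      (by rw [bot_subgroupOf]; exact bot_le) e
  haveI : Nontrivial (V →* ℂˣ) := by
    obtain ⟨d, hd, hd1⟩ := SetLike.exists_of_lt (bot_lt_iff_ne_bot.2 hV.ne_bot)
    obtain ⟨κ, -, e⟩ := exists_tot_ne_one (B := ⊥) (commutator_le.2 fun a ha b hb =>
      commutatorElement_eq_one_iff_mul_comm.2 (hcm a ha b hb)) hd hd1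
    exact nontrivial_of_ne κ 1 fun e1 => e (lin_eq_one_iff.1 e1 d hd)
  refine hA.false_of_act (V := V →* ℂˣ) ((hp.out.coprime_iff_not_dvd.2 fun e => h.ndvd (e.trans
    ((card_units_hom.dvd.trans (index_dvd_card _)).trans (card_dvd_of_le hVL)))).symm) h2
    (fun B hB => ?_) fun hα d hd μ => ?_
  · have h3 : ⁅V, B.map H.subtype⁆.Normal := normal_of_le_normalizer_of_sup_eq_top hc.sup_eq_top
      (((le_centralizer_iff_isMulCommutative.2 inferInstance).trans
        (centralizer_le (commutator_le_left V _))).trans (centralizer_le_normalizer _))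
      (le_normalizer_commutator le_normalizer_of_normal fun g hg =>
        mem_normalizer_of_conj_mem fun _ ⟨b, hb, e⟩ => e ▸ ⟨_, hB.conj_mem b hb ⟨g, hg⟩, rfl⟩)
    by_cases h4 : ⁅V, B.map H.subtype⁆ = ⊥
    · exact .inl fun b hb μ => smul_eq_iff_tot.2 fun d hd => by
        rw [show ⁅d, b.1⁆ = 1 from h4.le (commutator_mem_commutator hd (mem_map_of_mem _ hb)), tot_one]
    · refine .inr fun μ e => lin_eq_one_iff.2 fun d hd => tot_eq_one_of_forall_smul
        (P := B.map H.subtype) ?_ ((hV.eq_of_le _ h3 (commutator_le_left V _) h4).ge hd)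
      rintro _ ⟨b, hb, rfl⟩
      exact e b hb
  by_cases hμ : μ = 1
  · rw [hμ]; rfl
  obtain ⟨ψ, hψ⟩ := exists_extension_linChar_of_isComplement' hc μ
  have h3 := index_stabilizer_of_sup_eq_top hc.symm.sup_eq_top (linChar μ)
  rw [← stabilizer_linAct] at h3
  have h4 : (stabilizer G (linChar μ)).index * charDegree (linChar μ).1 ≠ 1 := by
    rw [charDegree_linChar, mul_one, ← h3]
    obtain ⟨x, hx, hxM⟩ := SetLike.not_le_iff_exists.1 hA.not_le
    exact fun e => hμ (h2 x hx hxM μ ((index_eq_one.1 e).ge trivial))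
  obtain ⟨χ, hχ⟩ := exists_irr_liesOver (linChar μ)
  have h5 := h.nd.degree_eq hψ h4 hχ
  rw [charDegree_linChar, mul_one, ← h3] at h5
  set S := stabilizer H μ
  have h6 : ∀ a ∈ S, ∀ b ∈ S, a * b = b * a := fun a ha b hb => by
    exact Subtype.ext (commutatorElement_eq_one_iff_mul_comm.1 (disjoint_def.1 hc.disjoint
      (h.nd.commutator_le hψ h4 (commutator_mem_commutator ((stabilizer_linAct H μ).le ha)
        ((stabilizer_linAct H μ).le hb))) (commutator_le_self H (commutator_mem_commutator a.2 b.2))))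
  set P' := P.subgroupOf H
  obtain ⟨β, hβ⟩ := exists_irr_not_le_ker (K := commutator P') fun e => hA.ne_bot (by
    rw [lc2, ← map_subtype_commutator, e, Subgroup.map_bot])
  have h7 := mt (irr_degree_eq_one_iff_commutator_le_ker β).1 hβ
  have h8 := hA.mem_cd h7
  rw [hA.degree_mem_of_alpha hα h7, index_top, one_mul] at h8
  have h9 : ∀ z ∈ lc2 P', ∀ y ∈ P', z * y = y * z := fun z hz y hy =>
    commutatorElement_eq_one_iff_mul_comm.1 ((hA.lc3_eq_bot hα).le (commutator_mem_commutator hz hy))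
  haveI : ((S ⊓ P' ⊔ lc2 P').subgroupOf P').Normal := normal_subgroupOf_of_le_normalizer
    (le_normalizer_iff_commutator_le_left.2 ((commutator_mono (sup_le inf_le_right
      (commutator_le_self _)) le_rfl).trans le_sup_right))
  have h10 := irr_degree_dvd_index_of_normal_comm β ((S ⊓ P' ⊔ lc2 P').subgroupOf P') fun a ha b hb => by
    obtain ⟨s, hs, z, hz, e1⟩ := mem_sup_of_normal_right.1 (mem_subgroupOf.1 ha)
    obtain ⟨t, ht, w, hw, e2⟩ := mem_sup_of_normal_right.1 (mem_subgroupOf.1 hb)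
    refine Subtype.ext ?_
    rw [coe_mul, coe_mul, ← e1, ← e2]
    calc _ = s * (z * (t * w)) := by group
      _ = s * t * (w * z) := by rw [h9 z hz _ (mul_mem ht.2 (commutator_le_self _ hw))]; group
      _ = t * (w * (s * z)) := by
        rw [h6 s hs.1 t ht.1, h9 w hw (s * z) (mul_mem hs.2 (commutator_le_self _ hz)),
          h9 w hw z (commutator_le_self _ hz)]
        group
      _ = _ := by group
  have h11 := relIndex_dvd_of_le_left P' (le_sup_left : S ⊓ P' ≤ S ⊓ P' ⊔ lc2 P')
  have h12 := relIndex_dvd_index_of_normal_right S P'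
  rw [← inf_relIndex_right] at h12
  have h13 := h.nd.eq_of_dvd (charDegrees_subset_of_surjective f hf h8) (h5 ▸ mem_charDegrees χ) h7
    (h10.trans (h11.trans h12))
  have h14 := Nat.dvd_antisymm h11 (h12.trans (h13 ▸ h10))
  rw [← relIndex_mul_relIndex (S ⊓ P') _ P' le_sup_left (sup_le inf_le_right (commutator_le_self _)),
    right_eq_mul₀ (relIndex_pos _ _).ne', relIndex_eq_one] at h14
  exact (h14 (mem_sup_right hd)).1

omit h in
theorem exists_normal_sylow [Group.IsSolvable G] (h : NdL p N M L) :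
    ∃ P : Subgroup G, P.Normal ∧ IsSylowIn p P N := by
  revert N M L
  refine induction_on_card (P := fun G _ _ => Group.IsSolvable G → ∀ {N M L : Subgroup G}
    [N.Normal], NdL p N M L → ∃ P : Subgroup G, P.Normal ∧ IsSylowIn p P N) ?_ G inferInstance
  intro G _ _ ih _ N M L hN h
  by_cases hL : L = ⊥
  · obtain ⟨k, hk⟩ := h.pow
    rw [hL, relIndex_bot_left] at hk
    exact ⟨N, hN, isSylowIn_self (IsPGroup.of_card hk)⟩
  obtain ⟨V, hV, hVL⟩ := exists_isMinNormal_le h.normal hL
  haveI := hV.normal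
  haveI := hV.isMulCommutative_of_isSolvable
  have hf := QuotientGroup.mk'_surjective V
  haveI := hN.map _ hf
  obtain ⟨Q, hQ, h1⟩ := ih (G ⧸ V) (card_quotient_lt hV.ne_bot) inferInstance
    (h.map hf ((QuotientGroup.ker_mk' V).le.trans hVL))
  obtain ⟨P, hP, rfl⟩ := h1.exists_map_eq
  haveI := hQ.comap (QuotientGroup.mk' V)
  rw [comap_map_eq, QuotientGroup.ker_mk'] at this
  have h2 := (hP.of_le le_sup_left (sup_le hP.le (hVL.trans (h.le.trans h.frob.le)))).frattini_top
  rw [sup_right_comm, sup_eq_right.2 le_normalizer, sup_comm] at h2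
  by_cases h3 : V ⊓ normalizer (P : Set G) = ⊥
  · exact (h.false_of_compl hV hVL hP rfl
      (isComplement'_of_disjoint_of_sup_eq_top (disjoint_iff.2 h3) h2)).elim
  have h4 := hV.eq_of_le _ (normal_of_le_normalizer_of_sup_eq_top h2
    (((le_centralizer_iff_isMulCommutative.2 inferInstance).trans
      (centralizer_le inf_le_left)).trans (centralizer_le_normalizer _))
    ((le_inf le_normalizer_of_normal le_normalizer).trans inf_normalizer_le_normalizer_inf))
    inf_le_left h3
  rw [sup_eq_right.2 (h4.ge.trans inf_le_right)] at h2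
  exact ⟨P, normalizer_eq_top_iff.1 h2, hP⟩

end NdL

theorem NDAD.ndRes [Group.IsSolvable G] (h : NDAD G) : NdRes G := by
  by_cases hab : IsMulCommutative G
  · exact .inl (by rw [charDegrees_eq_singleton_iff.2 hab]; simp)
  by_cases hq : ∀ (p : ℕ) [Fact p.Prime] (K : Subgroup G) [K.Normal], IsPGroup p (G ⧸ K) →
      commutator G ≤ K
  swap
  · push Not at hq
    obtain ⟨p, _, K, _, h1, h2⟩ := hq
    exact .inl ((h.ncard_le_two h1 h2).trans (by norm_num))
  obtain ⟨N, M, _, s⟩ := h.exists_setup hab hq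
  obtain ⟨p, hp, h1⟩ := Nat.exists_prime_and_dvd fun e : M.relIndex N = 1 =>
    s.ne (s.frob.le.antisymm (relIndex_eq_one.1 e))
  haveI := Fact.mk hp
  obtain ⟨L, _, h2, h3, k, h4⟩ := s.exists_compl h1
  by_cases h5 : lc2 N ≤ L
  · obtain ⟨H, hH⟩ := s.exists_isComplement' h1 fun e => h3 (e.trans (card_dvd_of_le h5))
    exact .inl (s.ncard_le_three_of_compl hH)
  have l := s.ndL h1 h2 h3 h4 h5
  obtain ⟨P, _, hP⟩ := l.exists_normal_sylow
  haveI := s.frob.normalK
  exact (l.caseA hP).ndRes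

theorem NDAD.ncard_le_four [Group.IsSolvable G] (h : NDAD G) :
    (charDegrees G).ncard ≤ 4 ∧ derivedSeries G 3 = ⊥ := by
  rcases h.ndRes with h1 | ⟨f, a, b, h1, -, -, -, h2⟩
  · exact ⟨h1.trans (by norm_num), derivedSeries_eq_bot_of_ncard_le le_rfl h1⟩
  · refine ⟨(Set.ncard_le_ncard (t := {1, f, a, b}) ?_).trans ((Set.ncard_insert_le _ _).trans
      (Nat.succ_le_succ ((Set.ncard_insert_le _ _).trans (Nat.succ_le_succ
        ((Set.ncard_insert_le _ _).trans (by simp)))))), h2⟩
    rintro _ ⟨χ, rfl⟩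
    exact h1 χ

theorem card_connectedComponent_le_one {a : ℕ} (ha : a ∈ charDegrees G)
    (h : ∀ d ∈ charDegrees G, d ≠ 1 → ¬ d.Coprime a) :
    Nat.card ((degreeGraph G).induce (degreePrimes G)).ConnectedComponent ≤ 1 := by
  have h1 : ∀ v : degreePrimes G, ∃ r : degreePrimes G, r.1 ∣ a ∧
      ((degreeGraph G).induce (degreePrimes G)).Reachable v r := fun ⟨v, hv, d, hd, e⟩ => by
    obtain ⟨r, hr, h1, h2⟩ := Nat.Prime.not_coprime_iff_dvd.1 (h d hd fun e1 =>
      hv.ne_one (Nat.eq_one_of_dvd_one (e1 ▸ e)))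
    exact ⟨⟨r, hr, d, hd, h1⟩, h2, reachable_degreeGraph hd e h1⟩
  suffices e : Subsingleton ((degreeGraph G).induce (degreePrimes G)).ConnectedComponent from
    Finite.card_le_one_iff_subsingleton.2 e
  refine ⟨?_⟩
  rintro ⟨v⟩ ⟨w⟩
  obtain ⟨r, h2, h3⟩ := h1 v
  obtain ⟨s, h4, h5⟩ := h1 w
  exact SimpleGraph.ConnectedComponent.sound (h3.trans ((reachable_degreeGraph ha h2 h4).trans h5.symm))

theorem NDAD.ncard_eq_three [Group.IsSolvable G] (h : NDAD G)
    (h2 : Nat.card ((degreeGraph G).induce (degreePrimes G)).ConnectedComponent = 2) :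
    (charDegrees G).ncard = 3 := by
  have h3 := fun a ha e => (h2.ge.trans (card_connectedComponent_le_one (a := a) ha e)).not_gt
    one_lt_two
  rcases h.ndRes with h1 | ⟨f, a, b, h1, h4, h5, h6, -⟩
  · refine h1.antisymm (by_contra fun h4 => ?_)
    by_cases h5 : ∃ a ∈ charDegrees G, a ≠ 1
    · obtain ⟨a, ha, h5⟩ := h5
      refine h3 a ha fun d hd h6 h7 => h4 ?_
      have h8 : d ≠ a := fun e => h6 (by rwa [← e, Nat.coprime_self] at h7)
      refine (Set.ncard_eq_three.2 ⟨1, d, a, h6.symm, h5.symm, h8, rfl⟩).ge.trans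
        (Set.ncard_le_ncard ?_ finite_charDegrees)
      rintro _ (rfl | rfl | rfl)
      exacts [one_mem_charDegrees, hd, ha]
    · exact h3 1 one_mem_charDegrees fun d hd h6 _ => h5 ⟨d, hd, h6⟩
  · refine (h3 a h4 ?_).elim
    rintro _ ⟨χ, rfl⟩ h7
    rcases h1 χ with e | e | e | e
    · exact (h7 e).elim
    · exact e ▸ h5
    · exact fun e1 => h7 (by rwa [← e, Nat.coprime_self] at e1)
    · exact e ▸ h6

end CT
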