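import Cfsg.Agent.Lib.Char.NqExt

/-!
# Pálfy's three primes theorem
-/

set_option autoImplicit false
set_option linter.unusedSectionVars false

namespace CT

open Cfsg GT Subgroup MulAction
open scoped commutatorElement Pointwise

universe u

variable {G : Type u} [Group G] [Finite G]

attribute [local instance] linAct

theorem palfy_class_two [Group.IsSolvable G] {p q r : ℕ} [hp : Fact p.Prime] [hq : Fact q.Prime]
    [hr : Fact r.Prime] (hqr : q ≠ r) {P H : Subgroup G} [P.Normal] (hP : IsPGroup p P)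
    (hc : P.IsComplement' H) (hpH : ¬ p ∣ Nat.card H) (hN1 : ⁅P, P⁆ ≠ ⊥)
    (hNP : ⁅P, P⁆ ≤ centralizer (P : Set G)) (hf : H ⊓ centralizer (P : Set G) = ⊥)
    (hqH : q ∣ Nat.card H) (hrH : r ∣ Nat.card H)
    (hθ : ∀ (θ : IrrCharacter P) (f : (⁅P, P⁆ : Subgroup G) →* ℂˣ), f ≠ 1 →
      LiesOverLe (commutator_le_left P P) θ.1 (linChar f).1 → NSyl q H θ)
    (hfq : ∀ f : (⁅P, P⁆ : Subgroup G) →* ℂˣ, f ≠ 1 → NSyl q H (linChar f))
    (hfr : ∀ f : (⁅P, P⁆ : Subgroup G) →* ℂˣ, f ≠ 1 → NSyl r H (linChar f))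
    (hqC : ¬ q ∣ (centralizer ((⁅P, P⁆ : Subgroup G) : Set G)).relIndex H) :
    ∃ χ : IrrCharacter G, q * r ∣ charDegree χ.1 := by
  by_contra! hno
  set N := ⁅P, P⁆ with hNd
  have hNle : N ≤ P := commutator_le_left P P
  have : IsMulCommutative N :=
    le_centralizer_iff_isMulCommutative.1 (hNP.trans (centralizer_anti hNle))
  have hPN : commutator P = N.subgroupOf P := by
    rw [hNd, ← commutator_subgroupOf_eq le_rfl le_rfl, subgroupOf_self, _root_.commutator_def]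
  obtain ⟨n, hn⟩ := ne_bot_iff_exists_ne_one.1 hN1
  obtain ⟨f₀, hf₀⟩ := exists_units_hom_ne_one_of_comm hn
  obtain ⟨Q, hQ, -, hQ2⟩ := hfq f₀ fun e => hf₀ (by rw [e]; rfl)
  have hQC := le_of_isPGroup_of_not_dvd_index hQ.2 hqC
  have hQn : Q.Normal := normalizer_eq_top_iff.1 (eq_top_iff.2 (le_normalizer_of_normal.trans
    ((hQ.of_le hQC le_top).normalizer_le_normalizer
      (le_trans (fun g hg => centralizer_le_inertia (G := G) _ hg) hQ2))))
  have hQu : ∀ Q' : Subgroup H, IsSylowIn q Q' ⊤ → Q' = Q := fun Q' =>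
    hQ.eq_of_le_normalizer le_normalizer_of_normal
  have hact : ∀ L : Subgroup H, CoprimeAct (L.map H.subtype) P := fun L =>
    coprimeAct_of_isPGroup_right le_normalizer_of_normal hP fun h =>
      hpH (h.trans (card_dvd_of_le (map_subtype_le L)))
  have hcomm : ∀ (x : P) (g : H), (∀ μ : P →* ℂˣ, μ (MulAut.conjNormal g.1⁻¹ x) = μ x) →
      x.1⁻¹ * (g.1⁻¹ * x * g.1⁻¹⁻¹) ∈ N := fun x g h =>
    (hPN ▸ mem_commutator_iff_forall_units_hom.2 fun μ => by rw [map_mul, map_inv, h, inv_mul_cancel] :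
      x⁻¹ * MulAut.conjNormal g.1⁻¹ x ∈ N.subgroupOf P)
  have hfix : ∀ L : Subgroup H, fixS (P →* ℂˣ) L = ⊤ → L = ⊥ := by
    intro L hL
    have := hP.isNilpotent
    rw [← map_eq_bot_iff_of_injective _ H.subtype_injective, eq_bot_iff, ← hf]
    refine le_inf (map_subtype_le L) (le_centralizer_iff.1
      ((hact L).le_centralizer_of_commutator_le_frattini (le_trans (commutator_le.2 ?_)
        ((map_subgroupOf_eq_of_le hNle).ge.trans (map_mono (hPN ▸ commutator_le_frattini))))))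
    rintro x hx _ ⟨g, hg, rfl⟩
    simpa [commutatorElement_def, mul_assoc] using hcomm ⟨x, hx⟩⁻¹ g⁻¹ fun μ =>
      DFunLike.congr_fun (hL.ge (mem_top μ) (inv_mem hg)) _
  have hμ : ∀ μ : P →* ℂˣ, μ ∉ fixS (P →* ℂˣ) Q → NSyl r H μ := by
    intro μ h
    have h1 : q ∣ (stabilizer G (linChar μ)).index := by
      rw [← index_stabilizer_of_sup_eq_top hc.symm.sup_eq_top, ← stabilizer_linAct]
      by_contra h1
      obtain ⟨S, hS⟩ := exists_sylow_le_of_not_dvd_index h1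
      exact h (hQu _ (isSylowIn_sylow S) ▸ hS)
    obtain ⟨ψ, hψ⟩ := exists_extension_linChar_of_isComplement' hc μ
    exact (nSyl_congr (stabilizer_linAct H μ)).2 (nSyl_of_extends hc hψ fun χ hχ h2 => hno χ
      (((Nat.coprime_primes hq.out hr.out).2 hqr).mul_dvd_of_dvd_of_dvd
        (h1.trans hχ.index_inertia_dvd) h2))
  have hQ1 : Q ≠ ⊥ := hQ.ne_bot (by rwa [card_top])
  obtain ⟨R, hR⟩ := exists_isSylowIn r (⊤ : Subgroup H)
  by_cases hRn : (normalizer (R : Set H)).index = 1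
  · obtain ⟨a, -, ha⟩ := SetLike.exists_of_lt (lt_top_iff_ne_top.2 fun e => hQ1 (hfix Q e))
    obtain ⟨b, -, hb⟩ := SetLike.exists_of_lt (lt_top_iff_ne_top.2 fun e =>
      hR.ne_bot (by rwa [card_top]) (hfix R e))
    have h1 : ∀ μ, μ ∉ fixS (P →* ℂˣ) Q → μ ∈ fixS (P →* ℂˣ) R := fun μ h => by
      obtain ⟨R', h1, h2, -⟩ := hμ μ h
      rwa [hR.eq_of_le_normalizer (index_eq_one.1 hRn).ge h1] at h2
    refine hb ((Subgroup.mul_mem_cancel_left _ (h1 a ha)).1 (h1 _ fun h2 => ha ?_))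
    exact (Subgroup.mul_mem_cancel_right _ (by_contra fun h3 => hb (h1 b h3))).1 h2
  set Q' := Q.map H.subtype
  have hNQ : N ≤ centralizer (Q' : Set G) := le_centralizer_iff.1 (map_le_iff_le_comap.2 hQC)
  set U := P ⊓ centralizer (Q' : Set G)
  have hU : commutator P ≤ U.subgroupOf P := hPN ▸ comap_mono (le_inf hNle hNQ)
  have := Subgroup.Normal.of_commutator_le _ hU
  have hHU : H ≤ normalizer (U : Set G) := le_normalizer_inf le_normalizer_of_normal
    (le_normalizer_centralizer (by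
      have := map_le_normalizer_map (le_normalizer_of_normal : ⊤ ≤ normalizer (Q : Set H)) H.subtype
      rwa [← MonoidHom.range_eq_map, range_subtype] at this))
  let X : Subgroup (P →* ℂˣ) :=
    { carrier := {μ | U.subgroupOf P ≤ μ.ker}
      mul_mem' := fun ha hb x hx => by
        rw [MonoidHom.mem_ker, MonoidHom.mul_apply, ha hx, hb hx, mul_one]
      one_mem' := fun _ _ => rfl
      inv_mem' := fun ha x hx => by rw [MonoidHom.mem_ker, MonoidHom.inv_apply, ha hx, inv_one] }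
  have hX : Nat.card X = U.relIndex P := card_units_hom_le_ker hU
  have hUP : ¬ ⁅P, Q'⁆ ≤ U := fun h => hQ1 (by
    rw [← map_eq_bot_iff_of_injective _ H.subtype_injective, eq_bot_iff, ← hf]
    exact le_inf (map_subtype_le Q) (le_centralizer_iff.1
      ((hact Q).le_centralizer_of_commutator_le (h.trans inf_le_right))))
  have h1 := card_add_eq_of_nSyl (U := X) (fun g _ μ h x hx => h (show _ ∈ U from
    conj_mem_of_mem_normalizer (inv_mem (hHU g.2)) hx)) (fun μ h h1 => hμ μ fun h2 => h1 (by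
      have h3 : Q' ≤ stabilizer G (linChar μ) :=
        map_le_iff_le_comap.2 (le_trans h2 (stabilizer_linAct H μ).le)
      have h4 := (hact Q).inf_centralizer_sup_commutator.ge.trans (sup_le
        ((map_subgroupOf_eq_of_le inf_le_left).ge.trans (map_mono h))
        (commutator_le_of_le_stabilizer h3))
      refine MonoidHom.ext fun x => ?_
      obtain ⟨y, hy, e⟩ := h4 x.2
      exact (Subtype.ext e : y = x) ▸ hy)) hR
  have h2 := card_add_eq_of_nSyl (invS_top (V := N →* ℂˣ) ⊤)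
    (fun f _ h => (nSyl_congr (stabilizer_linAct H f)).2 (hfr f h)) hR
  have hcard : ∀ K : Subgroup G, K ≤ P → ∀ W : Subgroup (K →* ℂˣ), ∃ i, Nat.card W = p ^ i :=
    fun K hK W => IsPGroup.iff_card.1 (IsPGroup.to_subgroup (IsPGroup.iff_card.2 (by
      rw [card_units_hom]
      exact (hP.to_le hK).index _)) W)
  have h3 : Nat.card (⊤ : Subgroup (N →* ℂˣ)) = Nat.card N := by
    rw [card_top, card_units_hom, (commutator_eq_bot_iff N).2 inferInstance, index_bot]
  obtain ⟨a, ha⟩ := hcard P le_rfl X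
  obtain ⟨b, hb⟩ := hcard P le_rfl (X ⊓ fixS _ R)
  obtain ⟨c, hc'⟩ := hcard N hNle ⊤
  obtain ⟨d, hd⟩ := hcard N hNle (⊤ ⊓ fixS _ R)
  rw [ha, hb] at h1
  rw [hc', hd] at h2
  have h4 := eq_of_pow_add_eq hp.out hRn (by
    rintro rfl
    exact hUP ((hact Q).commutator_le.trans (relIndex_eq_one.1 (hX.symm.trans ha)))) (by
    rintro rfl
    exact hN1 (eq_bot_of_card_eq _ (h3.symm.trans hc'))) h1 h2
  have h5 : (U.subgroupOf P).index = Nat.card N := by rw [← h3, hc', ← h4, ← ha, hX]; rfl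
  obtain ⟨w, hw, hwU⟩ := SetLike.not_le_iff_exists.1 hUP
  have hwP : w ∈ P := (hact Q).commutator_le hw
  have h6 : ⁅P, Q'⁆ ≤ centralizer (U : Set G) := commutator_le_centralizer_of_rotate
    (by rw [commutator_eq_bot_iff_le_centralizer.2 (le_centralizer_iff.1 inf_le_right)]
        exact bot_le) ((commutator_mono inf_le_left le_rfl).trans hNQ)
  let φ : P →* N :=
    { toFun := fun v => ⟨⁅w, v.1⁆, commutator_mem_commutator hwP v.2⟩
      map_one' := Subtype.ext (commutatorElement_one_right w)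
      map_mul' := fun x y => Subtype.ext (by
        have h7 := hNP (commutator_mem_commutator hwP y.2) x x.2
        calc ⁅w, x.1 * y.1⁆ = ⁅w, x.1⁆ * (x.1 * ⁅w, y.1⁆) * x.1⁻¹ := by group
          _ = ⁅w, x.1⁆ * ⁅w, y.1⁆ := by rw [h7]; group) }
  have h7 : U.subgroupOf P < φ.ker := by
    refine lt_of_le_of_ne (fun u hu => Subtype.ext
      (commutatorElement_eq_one_iff_mul_comm.2 (h6 hw u hu).symm)) fun e => hwU ?_
    exact e.ge (show (⟨w, hwP⟩ : P) ∈ φ.ker from Subtype.ext (commutatorElement_self w))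
  obtain ⟨m, -, hm⟩ := SetLike.exists_of_lt (show φ.range < ⊤ from lt_top_iff_ne_top.2 fun e => by
    have h8 := index_strictAnti h7
    rw [index_ker, e, card_top, h5] at h8
    exact h8.false)
  obtain ⟨f, h8, h9⟩ := exists_units_hom_apply_ne_one
    (((commutator_eq_bot_iff N).2 inferInstance).le.trans bot_le) hm
  have h10 : f ≠ 1 := fun e => h9 (by rw [e]; rfl)
  obtain ⟨θ, h11⟩ := exists_irr_liesOverLe hNle (linChar f)
  have h12 : θ.1 ⟨w, hwP⟩ ≠ 0 := by
    have h12 := clifford_invariant_le' (fun t ht => conjSmul_of_mem_centralizer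
      (le_centralizer_iff.1 hNP ht) _) h11
    have h13 := (irr_mem_center_iff θ).1 ((irr_mem_center_iff_commutator θ (z := ⟨w, hwP⟩)).2
      fun g => (irr_mem_ker_iff θ).2 ((congrFun h12 (φ g)).trans (by
        rw [show θ.1 1 = _ from congrFun h12 1, Pi.smul_apply, Pi.smul_apply, linChar_apply,
          linChar_apply, h8 ⟨g, rfl⟩, map_one])))
    intro e
    rw [e, norm_zero] at h13
    exact (irr_degree_pos θ).ne (by exact_mod_cast h13)
  have h13 : ∀ μ : P →* ℂˣ, Q ≤ stabilizer H (μ • θ) := fun μ => by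
    obtain ⟨Q₁, h13, h14, -⟩ := hθ (μ • θ) f h10 ((liesOver_irrOf_iff _).1
      ((liesOver_lin_smul_iff (hPN ▸ Abelianization.commutator_subset_ker μ) _ _).2
        ((liesOver_irrOf_iff _).2 h11)))
    exact hQu _ h13 ▸ h14
  obtain ⟨g, hg, h14⟩ := ((hact Q).of_le hNle le_normalizer_of_normal).exists_mul_mem_centralizer
    (x := w) (by
      rintro _ ⟨y, hy, rfl⟩
      simpa using hcomm ⟨w, hwP⟩ y⁻¹ fun μ => by
        have h14 : y⁻¹.1 • μ • θ = μ • θ := h13 μ (inv_mem hy)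
        have h15 : y⁻¹.1 • θ = θ := one_lin_smul θ ▸ h13 1 (inv_mem hy)
        rw [conjSmul_lin_smul, h15] at h14
        exact Units.ext (mul_right_cancel₀ h12
          (congrFun (congrArg Subtype.val h14) ⟨w, hwP⟩)))
  exact hwU ⟨hwP, (Subgroup.mul_mem_cancel_right _ (hNQ hg)).1 h14⟩

theorem exists_sylow_of_forall_le_ker [Group.IsSolvable G] {p : ℕ} [hp : Fact p.Prime]
    {N : Subgroup G} [N.Normal] (hN : IsMinNormal N) (h1 : ∃ χ : IrrCharacter G, p ∣ charDegree χ.1)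
    (h2 : ∀ χ : IrrCharacter G, N ≤ ker χ.1 → ¬ p ∣ charDegree χ.1) :
    (∀ χ : IrrCharacter G, ¬ N ≤ ker χ.1 → p ∣ charDegree χ.1) ∧
      ((∃ H, N.IsComplement' H) ∨ ∃ P : Subgroup G, P.Normal ∧ IsSylowIn p P ⊤ ∧ ⁅P, P⁆ = N) := by
  obtain ⟨P⟩ : Nonempty (Sylow p G) := inferInstance
  have := hN.isMulCommutative_of_isSolvable
  obtain ⟨h3, h4⟩ := (ito_sylow_iff isPSolvable_of_isSolvable
    (P.mapSurjective (QuotientGroup.mk'_surjective N))).2 fun ψ =>
      charDegree_inflate N ψ ▸ h2 _ (le_ker_inflate N ψ)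
  rw [Sylow.coe_mapSurjective] at h3 h4
  have h5 : ((P : Subgroup G) ⊔ N).Normal := comap_map_mk'_eq N P ▸ h3.comap _
  have h6 : ⁅(P : Subgroup G), (P : Subgroup G)⁆ ≤ N := by
    rw [← map_mk'_eq_bot_iff, map_commutator, commutator_self_eq_bot_iff]
    exact h4
  have h7 : ¬ ((P : Subgroup G).Normal ∧ IsMulCommutative (P : Subgroup G)) := fun h => by
    obtain ⟨χ, hχ⟩ := h1
    exact (ito_sylow_iff isPSolvable_of_isSolvable P).1 h χ hχ
  rcases hN.isPGroup_or_not_dvd p with h8 | h8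
  · have h9 : (P : Subgroup G) ⊔ N = P := (isSylowIn_sylow P).eq_of_le
      (P.isPGroup'.to_sup_of_normal_right h8) le_top le_sup_left
    rw [h9] at h5
    have h10 := (hN.eq_bot_or_eq inferInstance h6).resolve_left fun e =>
      h7 ⟨h5, commutator_self_eq_bot_iff.1 e⟩
    refine ⟨fun χ hχ => by_contra fun h11 => ?_, Or.inr ⟨P, h5, isSylowIn_sylow P, h10⟩⟩
    obtain ⟨θ, hθ⟩ := exists_irr_liesUnder P χ
    exact hχ (h10 ▸ hθ.commutator_le_ker_iff.2
      (degree_eq_one_of_isPGroup P.isPGroup' fun h12 => h11 (h12.trans hθ.degree_dvd)))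
  · have h9 := disjoint_of_isPGroup_of_not_dvd P.isPGroup' h8
    have h10 := hN.isComplement'_of_sup_eq_top (M := normalizer ((P : Subgroup G) : Set G))
      (fun e => h7 ⟨normalizer_eq_top_iff.1 e, commutator_self_eq_bot_iff.1
        (eq_bot_iff.2 ((le_inf (commutator_le_self _) h6).trans h9.le_bot))⟩) (by
      rw [← ((isSylowIn_sylow P).of_le (le_sup_left (b := N)) le_top).frattini_top, sup_comm _ N,
        sup_assoc, sup_eq_right.2 le_normalizer])
    refine ⟨fun χ hχ => by_contra fun h11 => ?_, Or.inl ⟨_, h10⟩⟩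
    obtain ⟨θ, hθ⟩ := exists_irr_liesUnder N χ
    obtain ⟨f, rfl⟩ := exists_linChar_eq_of_isMulCommutative θ
    obtain ⟨k, hk⟩ := P.isPGroup'.exists_relIndex_eq_pow N
    have h12 := commutator_le_of_le_stabilizer (le_sup_left.trans (le_inertia_of_not_dvd
      (M := P ⊔ N) (by rw [relIndex_sup_right, hk]) fun h12 => h11 (h12.trans hθ.index_inertia_dvd)))
    have h13 := (coprimeAct_of_isPGroup_left le_normalizer_of_normal P.isPGroup'
      h8).inf_centralizer_sup_commutator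
    rw [eq_bot_iff.2 ((inf_le_inf_left N (centralizer_le_normalizer _)).trans h10.disjoint.le_bot),
      bot_sup_eq] at h13
    refine hχ (hθ.le_ker_iff_eq_irrOne.2 (linChar_eq_irrOne_iff.2 (MonoidHom.ext fun x => ?_)))
    obtain ⟨y, hy, e⟩ := h12 (h13.ge x.2)
    exact (Subtype.ext e : y = x) ▸ hy

theorem palfy_core [Group.IsSolvable G] {p q r : ℕ} [hp : Fact p.Prime] [hq : Fact q.Prime]
    [hr : Fact r.Prime] (hpq : p ≠ q) (hpr : p ≠ r) (hqr : q ≠ r) {N : Subgroup G} [N.Normal]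
    (hN : IsMinNormal N) (hu : ∀ M : Subgroup G, M.Normal → M ≠ ⊥ → N ≤ M)
    (h1 : ∃ χ : IrrCharacter G, p ∣ charDegree χ.1)
    (h2 : ∀ χ : IrrCharacter G, N ≤ ker χ.1 → ¬ p ∣ charDegree χ.1)
    (hqd : ∃ χ : IrrCharacter G, q ∣ charDegree χ.1) (hrd : ∃ χ : IrrCharacter G, r ∣ charDegree χ.1)
    (h3 : ∀ χ : IrrCharacter G, ¬ p * q ∣ charDegree χ.1)
    (h4 : ∀ χ : IrrCharacter G, ¬ p * r ∣ charDegree χ.1) :
    ∃ χ : IrrCharacter G, q * r ∣ charDegree χ.1 := by
  obtain ⟨h5, h6⟩ := exists_sylow_of_forall_le_ker hN h1 h2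
  have := hN.isMulCommutative_of_isSolvable
  have h7 : ∀ l : ℕ, l.Prime → p ≠ l → (∀ χ : IrrCharacter G, ¬ p * l ∣ charDegree χ.1) →
      ∀ χ : IrrCharacter G, ¬ N ≤ ker χ.1 → ¬ l ∣ charDegree χ.1 := fun l hl h h' χ hχ h7 =>
    h' χ (((Nat.coprime_primes hp.out hl).2 h).mul_dvd_of_dvd_of_dvd (h5 χ hχ) h7)
  have h8 : ∀ M H : Subgroup G, M.Normal → N ≤ M → M.IsComplement' H →
      H ⊓ centralizer (M : Set G) = ⊥ := fun M H _ hM hc => by_contra fun h8 =>
    hN.ne_bot (eq_bot_iff.2 ((le_inf hM ((hu _ (normal_of_le_normalizer_of_sup_eq_top hc.sup_eq_top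
      (le_normalizer_of_le_centralizer (le_centralizer_iff.1 inf_le_right))
      (le_normalizer_inf le_normalizer le_normalizer_of_normal)) h8).trans inf_le_left)).trans
      hc.disjoint.le_bot))
  have hq' := h7 q hq.out hpq h3
  have hr' := h7 r hr.out hpr h4
  rcases h6 with ⟨H, hH⟩ | ⟨P, _, hP, rfl⟩
  · have h9 : ∀ (l : ℕ) [Fact l.Prime], (∃ χ : IrrCharacter G, l ∣ charDegree χ.1) →
        (∀ χ : IrrCharacter G, ¬ N ≤ ker χ.1 → ¬ l ∣ charDegree χ.1) →
        l ∣ (centralizer (N : Set G)).relIndex H ∧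
          ∀ f : N →* ℂˣ, f ≠ 1 → NSyl l H (linChar f) := by
      rintro l _ ⟨χ, hχ⟩ h
      refine ⟨?_, fun f hf => ?_⟩
      · rw [← inf_relIndex_left, h8 N H ‹_› le_rfl hH, relIndex_bot_left, ← hH.symm.index_eq_card]
        exact hχ.trans (irr_degree_dvd_index_of_le_ker χ (by_contra fun h9 => h χ h9 hχ))
      · obtain ⟨ψ, hψ⟩ := exists_extension_linChar_of_isComplement' hH f
        exact nSyl_of_extends hH hψ fun χ hχ => h χ fun h9 =>
          hf (linChar_eq_irrOne_iff.1 (hχ.le_ker_iff_eq_irrOne.1 h9))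
    obtain ⟨ψ, hψ⟩ := exists_mul_dvd_degree_of_isMinNormal hN
      (le_centralizer_iff_isMulCommutative.2 this) hH.sup_eq_top hqr (h9 q hqd hq').1
      (h9 r hrd hr').1 (h9 q hqd hq').2 (h9 r hrd hr').2
    obtain ⟨χ, -, hχ⟩ := exists_degree_eq_of_isComplement' hH ψ
    exact ⟨χ, hχ ▸ hψ⟩
  · have hc : (Nat.card P).Coprime P.index := relIndex_top_right P ▸ hP.coprime_card_relIndex
    obtain ⟨H, hH⟩ := exists_right_complement'_of_coprime hc
    have := hP.2.isNilpotent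
    have hNP := hN.le_centralizer_of_isNilpotent P
    have hpH : ¬ p ∣ Nat.card H := by
      rw [← hH.symm.index_eq_card, ← relIndex_top_right]
      exact hP.3
    have h9 : ∀ (l : ℕ) [Fact l.Prime], p ≠ l → (∃ χ : IrrCharacter G, l ∣ charDegree χ.1) →
        (∀ χ : IrrCharacter G, ¬ ⁅P, P⁆ ≤ ker χ.1 → ¬ l ∣ charDegree χ.1) →
        l ∣ Nat.card H ∧ (∀ (θ : IrrCharacter P) (f : (⁅P, P⁆ : Subgroup G) →* ℂˣ), f ≠ 1 →
          LiesOverLe (commutator_le_left P P) θ.1 (linChar f).1 → NSyl l H θ) ∧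
          ∀ f : (⁅P, P⁆ : Subgroup G) →* ℂˣ, f ≠ 1 → NSyl l H (linChar f) := by
      rintro l hl hpl ⟨χ, hχ⟩ h
      have h9 : ∀ (θ : IrrCharacter P) (f : (⁅P, P⁆ : Subgroup G) →* ℂˣ), f ≠ 1 →
          LiesOverLe (commutator_le_left P P) θ.1 (linChar f).1 → NSyl l H θ := by
        intro θ f hf hθ
        obtain ⟨ψ, hψ⟩ := exists_extension_le_of_coprime_card (le_inertia θ) le_rfl
          (hc.coprime_dvd_right (relIndex_dvd_index_of_normal _ _))
        exact nSyl_of_extends hH hψ fun χ hχ => h χ fun h9 => hf (linChar_eq_irrOne_iff.1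
          ((hχ.trans_le _ (irr_isCharacter χ) (irr_isCharacter _) hθ).le_ker_iff_eq_irrOne.1 h9))
      refine ⟨?_, h9, fun f hf => ?_⟩
      · have h10 := hχ.trans (irr_degree_dvd_card χ)
        rw [← hH.card_mul_card] at h10
        exact ((Nat.Prime.dvd_mul hl.out).1 h10).resolve_left fun h11 =>
          hpl (eq_of_prime_dvd_card_of_isPGroup hP.2 hl.out h11).symm
      · obtain ⟨θ, hθ, h10⟩ := exists_invBy_liesOver_of_commutator_le (commutator_le_left P P)
          le_rfl (S := H ⊓ stabilizer G (linChar f)) le_normalizer_of_normal le_normalizer_of_normal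
          (((hP.2.coprime_card hpH).coprime_dvd_left (relIndex_dvd_card _ _)).coprime_dvd_right
            (card_dvd_of_le inf_le_left)) (invBy_iff_smul.2 fun s hs => hs.2)
        refine (nSyl_congr (H := H) (x := θ) (y := linChar f) (Subgroup.ext fun g => ⟨fun hg => ?_, fun hg =>
          invBy_iff_smul.1 h10 g.1 ⟨g.2, hg⟩⟩)).1 (h9 θ f hf hθ)
        have h11 := (liesOverLe_smul_iff _ g.1 _ _).2 hθ
        rw [show g.1 • θ = θ from hg] at h11
        obtain ⟨t, ht, e⟩ := hθ.exists_smul h11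
        exact e.symm.trans (conjSmul_of_mem_centralizer (le_centralizer_iff.1 hNP ht) _)
    obtain ⟨q1, q2, q3⟩ := h9 q hpq hqd hq'
    obtain ⟨r1, r2, r3⟩ := h9 r hpr hrd hr'
    have h10 := h8 P H ‹_› (commutator_le_left P P) hH
    by_cases h11 : q ∣ (centralizer ((⁅P, P⁆ : Subgroup G) : Set G)).relIndex H
    · by_cases h12 : r ∣ (centralizer ((⁅P, P⁆ : Subgroup G) : Set G)).relIndex H
      · obtain ⟨ψ, hψ⟩ := exists_mul_dvd_degree_of_isMinNormal hN (le_centralizer_iff.1 hNP)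
          hH.sup_eq_top hqr h11 h12 q3 r3
        obtain ⟨χ, -, hχ⟩ := exists_degree_eq_of_isComplement' hH ψ
        exact ⟨χ, hχ ▸ hψ⟩
      · rw [mul_comm]
        exact palfy_class_two hqr.symm hP.2 hH hpH hN.ne_bot hNP h10 r1 q1 r2 r3 q3 h12
    · exact palfy_class_two hqr hP.2 hH hpH hN.ne_bot hNP h10 q1 r1 q2 q3 r3 h11

theorem palfy (G : Type u) [Group G] [Finite G] : Group.IsSolvable G → ∀ p q r : ℕ, p.Prime →
    q.Prime → r.Prime → p ≠ q → q ≠ r → p ≠ r → (∃ χ : IrrCharacter G, p ∣ charDegree χ.1) →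
    (∃ χ : IrrCharacter G, q ∣ charDegree χ.1) → (∃ χ : IrrCharacter G, r ∣ charDegree χ.1) →
    (∃ χ : IrrCharacter G, p * q ∣ charDegree χ.1) ∨ (∃ χ : IrrCharacter G, q * r ∣ charDegree χ.1) ∨
      ∃ χ : IrrCharacter G, p * r ∣ charDegree χ.1 := by
  refine induction_on_card (P := fun G _ _ => Group.IsSolvable G → ∀ p q r : ℕ, p.Prime →
    q.Prime → r.Prime → p ≠ q → q ≠ r → p ≠ r → (∃ χ : IrrCharacter G, p ∣ charDegree χ.1) →
    (∃ χ : IrrCharacter G, q ∣ charDegree χ.1) → (∃ χ : IrrCharacter G, r ∣ charDegree χ.1) →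
    (∃ χ : IrrCharacter G, p * q ∣ charDegree χ.1) ∨ (∃ χ : IrrCharacter G, q * r ∣ charDegree χ.1) ∨
      ∃ χ : IrrCharacter G, p * r ∣ charDegree χ.1) (fun G _ _ ih => ?_) G
  intro _ p q r hp hq hr hpq hqr hpr h1 h2 h3
  by_contra! h
  obtain ⟨h4, h5, h6⟩ := h
  have := Fact.mk hp
  have := Fact.mk hq
  have := Fact.mk hr
  have key : ∀ N : Subgroup G, IsMinNormal N → ∃ l, (l = p ∨ l = q ∨ l = r) ∧
      ∀ χ : IrrCharacter G, ¬ N ≤ ker χ.1 ↔ l ∣ charDegree χ.1 := by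
    intro N hN
    have := hN.normal
    have h7 : ∀ l : ℕ, ∀ [Fact l.Prime], (∃ χ : IrrCharacter G, l ∣ charDegree χ.1) →
        (¬ ∃ χ : IrrCharacter (G ⧸ N), l ∣ charDegree χ.1) →
        ∀ χ : IrrCharacter G, ¬ N ≤ ker χ.1 ↔ l ∣ charDegree χ.1 := fun l _ h7 h8 => by
      have h9 : ∀ χ : IrrCharacter G, N ≤ ker χ.1 → ¬ l ∣ charDegree χ.1 := fun χ h9 h10 => by
        obtain ⟨ψ, rfl⟩ := (exists_inflate_eq_iff N χ).2 h9
        exact h8 ⟨ψ, charDegree_inflate N ψ ▸ h10⟩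
      exact fun χ => ⟨(exists_sylow_of_forall_le_ker hN h7 h9).1 χ, fun h10 h11 => h9 χ h11 h10⟩
    by_contra! h8
    rcases ih (G ⧸ N) (card_quotient_lt hN.ne_bot) inferInstance p q r hp hq hr hpq hqr hpr
      (by_contra fun h => (h8 p (by simp)).elim fun χ hχ => by have := h7 p h1 h χ; tauto)
      (by_contra fun h => (h8 q (by simp)).elim fun χ hχ => by have := h7 q h2 h χ; tauto)
      (by_contra fun h => (h8 r (by simp)).elim fun χ hχ => by have := h7 r h3 h χ; tauto) with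
      ⟨χ, h⟩ | ⟨χ, h⟩ | ⟨χ, h⟩
    exacts [h4 (inflate N χ) (by simpa), h5 (inflate N χ) (by simpa), h6 (inflate N χ) (by simpa)]
  have : Nontrivial G := by
    obtain ⟨χ, hχ⟩ := h1
    exact Finite.one_lt_card_iff_nontrivial.1
      (hp.one_lt.trans_le (Nat.le_of_dvd Nat.card_pos (hχ.trans (irr_degree_dvd_card χ))))
  obtain ⟨N, hN⟩ := exists_isMinNormal G
  have := hN.normal
  obtain ⟨l, hl, h7⟩ := key N hN
  have hu : ∀ M : Subgroup G, M.Normal → M ≠ ⊥ → N ≤ M := by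
    intro M hM h8
    obtain ⟨K, hK, h9⟩ := exists_isMinNormal_le hM h8
    refine le_trans (le_of_eq (by_contra fun h10 => ?_)) h9
    obtain ⟨l', hl', h11⟩ := key K hK
    obtain ⟨χ, h12, h13⟩ := exists_irr_not_le_ker_of_disjoint hN.ne_bot hK.ne_bot
      (hN.disjoint_of_ne hK h10)
    obtain ⟨ψ, h14, h15⟩ := exists_irr_le_ker_not_le N (K := K) fun h =>
      h10 (hN.eq_of_le K hK.normal h hK.ne_bot).symm
    have h16 : l ≠ l' := fun e => (h7 ψ).2 (e ▸ (h11 ψ).1 h15) h14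
    have h17 : l.Coprime l' := (Nat.coprime_primes (by rcases hl with rfl | rfl | rfl <;> assumption)
      (by rcases hl' with rfl | rfl | rfl <;> assumption)).2 h16
    have h18 := h17.mul_dvd_of_dvd_of_dvd ((h7 χ).1 h12) ((h11 χ).1 h13)
    have h19 := mul_comm l l' ▸ h18
    rcases hl with rfl | rfl | rfl <;> rcases hl' with rfl | rfl | rfl <;>
      first | exact h16 rfl | exact h4 χ ‹_› | exact h5 χ ‹_› | exact h6 χ ‹_›
  have h8 : ∀ χ : IrrCharacter G, N ≤ ker χ.1 → ¬ l ∣ charDegree χ.1 :=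
    fun χ h8 h9 => (h7 χ).2 h9 h8
  rcases hl with rfl | rfl | rfl
  · obtain ⟨χ, h⟩ := palfy_core hpq hpr hqr hN hu h1 h8 h2 h3 h4 h6
    exact h5 χ h
  · obtain ⟨χ, h⟩ := palfy_core hpq.symm hqr hpr hN hu h2 h8 h1 h3 (mul_comm p l ▸ h4) h5
    exact h6 χ h
  · obtain ⟨χ, h⟩ := palfy_core hpr.symm hqr.symm hpq hN hu h3 h8 h1 h2 (mul_comm p l ▸ h6)
      (mul_comm q l ▸ h5)
    exact h4 χ h

end CT
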