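import Cfsg.Agent.Lib.Char.GallCount
import Cfsg.Agent.Lib.Char.RealOdd
import Cfsg.Agent.Lib.Char.FullyRam
import Cfsg.Agent.Lib.Block.AlperinExt

/-!
# The relative McKay equality for `p`-solvable groups
-/

set_option autoImplicit false
set_option linter.unusedSectionVars false
set_option linter.style.haveILetI false

namespace CT

open Cfsg GT Subgroup MulAction
open scoped ComplexConjugate Pointwise commutatorElement

universe u

open Classical in
theorem sum_card_inf_stabilizer {G X : Type*} [Group G] [Finite G] [MulAction G X] [Fintype X]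
    (N : Subgroup G) (O : X → Prop) [DecidablePred O] {x₀ : X} (h : ∀ x, O x ↔ ∃ n ∈ N, n • x = x₀) :
    ∑ x, (if O x then Nat.card ↥(N ⊓ stabilizer G x) else 0) = Nat.card N := by
  haveI := Fintype.ofFinite N
  have h1 : ∀ x, (if O x then Nat.card ↥(N ⊓ stabilizer G x) else 0) =
      ∑ n : N, if n • x = x₀ then (1 : ℕ) else 0 := fun x => by
    rw [Finset.sum_boole, Nat.cast_id]
    split_ifs with hx
    · obtain ⟨n, hn, e⟩ := (h x).1 hx
      rw [card_filter_smul_eq (A := N) ⟨⟨n, hn⟩, e⟩, inf_comm, ← card_subgroupOf]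
      rfl
    · exact (Finset.card_eq_zero.2 (Finset.filter_eq_empty_iff.2 fun (n : N) _ e =>
        hx ((h x).2 ⟨n, n.2, e⟩))).symm
  simp_rw [h1]
  rw [Finset.sum_comm]
  simp_rw [smul_eq_iff_eq_inv_smul, Finset.sum_ite_eq', Finset.mem_univ, if_true]
  rw [Finset.sum_const, Finset.card_univ, smul_eq_mul, mul_one, Nat.card_eq_fintype_card]

variable {p : ℕ} [hp : Fact p.Prime]

open Classical in
theorem sum_card_under_top {G : Type*} [Group G] [Finite G] {K S : Subgroup G} [K.Normal]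
    (hS : IsSylowIn p S ⊤) {χ : IrrCharacter G} (hχ : ¬ p ∣ charDegree χ.1) :
    ∑ θ : IrrCharacter K, (if InvBy S θ.1 ∧ LiesOver K χ.1 θ.1 then
      Nat.card ↥(normalizer (S : Set G) ⊓ stabilizer G θ) else 0) =
      Nat.card (normalizer (S : Set G)) := by
  obtain ⟨θ₁, h1⟩ := exists_irr_liesUnder K χ
  obtain ⟨g, hg⟩ := hS.exists_le_stabilizer fun h => hχ (h.trans h1.index_inertia_dvd)
  have h2 : LiesOver K χ.1 (g • θ₁).1 := (liesOver_conjSmul_iff (irr_isClassFunction χ) g θ₁).2 h1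
  refine sum_card_inf_stabilizer (G := G) _ _ (x₀ := g • θ₁) fun (θ : IrrCharacter K) => ⟨fun h => ?_, ?_⟩
  · obtain ⟨x, hx⟩ := h.2.mem_orbit h2
    have hx' : x • θ = g • θ₁ := hx
    obtain ⟨n, hn, e⟩ := hS.exists_mem_normalizer_smul_eq (x := θ) (g := x)
      (invBy_iff_smul.1 h.1) (hx' ▸ hg)
    exact ⟨n, hn, e.trans hx'⟩
  · rintro ⟨n, hn, e⟩
    rw [smul_eq_iff_eq_inv_smul] at e
    refine ⟨invBy_iff_smul.2 fun s hs => ?_,
      e ▸ (liesOver_conjSmul_iff (irr_isClassFunction χ) _ _).2 h2⟩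
    have h3 : (n * s * n⁻¹) • g • θ₁ = g • θ₁ := hg (conj_mem_of_mem_normalizer hn hs)
    rw [e, smul_smul s, eq_inv_smul_iff, smul_smul n, ← mul_assoc, h3]

variable {Γ : Type u} [Group Γ] [Finite Γ] {K L H T S M V N : Subgroup Γ}

open Classical in
theorem sum_card_under (h : K ≤ H) (hn : H ≤ normalizer (K : Set Γ)) (hS : IsSylowIn p S H)
    {χ : IrrCharacter H} (hχ : ¬ p ∣ charDegree χ.1) :
    ∑ θ : IrrCharacter K, (if InvBy S θ.1 ∧ LiesOverLe h χ.1 θ.1 then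
      Nat.card ↥(H ⊓ normalizer (S : Set Γ) ⊓ charStab θ.1) else 0) =
      Nat.card ↥(H ⊓ normalizer (S : Set Γ)) := by
  haveI := normal_subgroupOf_of_le_normalizer hn
  have h1 := sum_card_under_top (K := K.subgroupOf H) ((isSylowIn_subgroupOf_top_iff hS.le).2 hS) hχ
  rw [← (irrOf h).sum_comp, ← subgroupOf_normalizer_eq hS.le, card_subgroupOf, inf_comm] at h1
  rw [← h1]
  refine Finset.sum_congr rfl fun θ _ => ?_
  rw [stabilizer_irrOf_eq, show (normalizer (S : Set Γ)).subgroupOf H ⊓ (charStab θ.1).subgroupOf H =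
    (normalizer (S : Set Γ) ⊓ charStab θ.1).subgroupOf H from rfl, card_subgroupOf, inf_comm _ H,
    ← inf_assoc]
  exact if_congr (and_congr (invBy_irrOf_iff hS.le h θ).symm (liesOver_irrOf_iff h).symm) rfl rfl

open Classical in
theorem sum_card_mul_card_over (h : K ≤ H) (hn : H ≤ normalizer (K : Set Γ))
    (hS : IsSylowIn p S H) (Y : IrrCharacter H → Prop) (hY : ∀ χ, Y χ → ¬ p ∣ charDegree χ.1) :
    ∑ θ : IrrCharacter K, (if InvBy S θ.1 then
      Nat.card ↥(H ⊓ normalizer (S : Set Γ) ⊓ charStab θ.1) *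
        Nat.card {χ // Y χ ∧ LiesOverLe h χ.1 θ.1} else 0) =
      Nat.card ↥(H ⊓ normalizer (S : Set Γ)) * Nat.card {χ // Y χ} := by
  have h1 : ∀ Y' : IrrCharacter H → Prop, Nat.card {χ // Y' χ} =
      ∑ χ : IrrCharacter H, if Y' χ then 1 else 0 := fun Y' => by
    rw [Finset.sum_boole, Nat.cast_id, Nat.card_eq_fintype_card, Fintype.card_subtype]
  simp_rw [h1, Finset.mul_sum]
  have h2 : ∀ θ : IrrCharacter K, (if InvBy S θ.1 then ∑ χ : IrrCharacter H,
      Nat.card ↥(H ⊓ normalizer (S : Set Γ) ⊓ charStab θ.1) *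
        (if Y χ ∧ LiesOverLe h χ.1 θ.1 then 1 else 0) else 0) =
      ∑ χ : IrrCharacter H, if Y χ then (if InvBy S θ.1 ∧ LiesOverLe h χ.1 θ.1 then
        Nat.card ↥(H ⊓ normalizer (S : Set Γ) ⊓ charStab θ.1) else 0) else 0 := fun θ => by
    by_cases h3 : InvBy S θ.1
    · rw [if_pos h3]
      refine Finset.sum_congr rfl fun χ _ => ?_
      by_cases h4 : Y χ <;> by_cases h5 : LiesOverLe h χ.1 θ.1 <;> simp [h3, h4, h5]
    · simp [h3]
  refine (Finset.sum_congr rfl fun θ _ => by convert h2 θ).trans ?_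
  rw [Finset.sum_comm]
  refine Finset.sum_congr rfl fun χ _ => ?_
  by_cases h4 : Y χ
  · simp only [if_pos h4, mul_one]
    exact sum_card_under h hn hS (hY χ h4)
  · simp [h4]

theorem card_over_clifford (hLT : L ≤ T) (hTH : T ≤ H) (hn : H ≤ normalizer (L : Set Γ))
    {ν : IrrCharacter L} (hT : ∀ u ∈ H, IsConjCharOf L u ν.1 ν.1 → u ∈ T) (P : ℕ → Prop) :
    Nat.card {χ : IrrCharacter H // P (charDegree χ.1) ∧ LiesOverLe (hLT.trans hTH) χ.1 ν.1} =
      Nat.card {ψ : IrrCharacter T // P (T.relIndex H * charDegree ψ.1) ∧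
        LiesOverLe hLT ψ.1 ν.1} := by
  haveI := normal_subgroupOf_of_le_normalizer hn
  have hd : ∀ {χ : IrrCharacter H} {ψ : IrrCharacter T}, indHom (inclusion hTH) ψ.1 = χ.1 →
      charDegree χ.1 = T.relIndex H * charDegree ψ.1 := fun {χ ψ} e => by
    rw [← e, charDegree_indHom_inclusion hTH (irr_isCharacter ψ)]
  refine RelBij.card_eq (R := fun (χ : IrrCharacter H) (ψ : IrrCharacter T) =>
    indHom (inclusion hTH) ψ.1 = χ.1) ⟨fun χ hχ => ?_, fun ψ hψ => ?_,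
      fun χ ψ ψ' _ h1 h2 h3 h4 => ?_, fun χ χ' ψ _ _ _ h1 h2 => Subtype.ext ?_⟩
  · obtain ⟨ψ, h1, h2⟩ := cliffordCorr_surjective_le hLT hTH hT hχ.2
    exact ⟨ψ, ⟨by rw [← hd h2]; exact hχ.1, h1⟩, h2⟩
  · obtain ⟨χ, e⟩ : ∃ χ : IrrCharacter H, indHom (inclusion hTH) ψ.1 = χ.1 :=
      ⟨⟨_, cliffordCorr_isIrr_le hTH hT hψ.2⟩, rfl⟩
    refine ⟨χ, ⟨by rw [hd e]; exact hψ.1, ?_⟩, e⟩
    unfold LiesOverLe
    rw [← e, cliffordCorr_ip_le hTH hT hψ.2]
    exact hψ.2
  · exact cliffordCorr_injective_le hTH hT h1.2 h2.2 (h3.trans h4.symm)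
  · exact h1.symm.trans h2

/-- The number of characters of `p'`-degree of `H` over `ν`. -/
noncomputable def cnt (p : ℕ) {L H : Subgroup Γ} (h : L ≤ H) (ν : IrrCharacter L) : ℕ :=
  Nat.card {χ : IrrCharacter H // ¬ p ∣ charDegree χ.1 ∧ LiesOverLe h χ.1 ν.1}

theorem cnt_congr {H' : Subgroup Γ} (e : H = H') (h : L ≤ H) (h' : L ≤ H') (ν : IrrCharacter L) :
    cnt p h ν = cnt p h' ν := by subst e; rfl

theorem cnt_irrOf (h : L ≤ H) (hT : H ≤ T) (ν : IrrCharacter L) :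
    cnt p h ν = cnt p (subgroupOf_le_subgroupOf h T) (irrOf (h.trans hT) ν) :=
  card_over_irrOf h hT ν fun n => ¬ p ∣ n

theorem cnt_clifford (h : L ≤ H) (hn : H ≤ normalizer (L : Set Γ)) (hS : IsSylowIn p S H)
    {ν : IrrCharacter L} (hν : InvBy S ν.1) (h' : L ≤ H ⊓ charStab ν.1) :
    cnt p h ν = cnt p h' ν := by
  have h1 : ¬ p ∣ (H ⊓ charStab ν.1).relIndex H :=
    hS.not_dvd_relIndex_of_le (le_inf hS.le (hν.le_charStab (hS.le.trans hn)))
  refine (card_over_clifford h' inf_le_left hn (fun u hu h2 => ⟨hu, hn hu, h2⟩)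
    fun n => ¬ p ∣ n).trans (Nat.card_congr (Equiv.subtypeEquivRight fun ψ => ?_))
  rw [hp.out.dvd_mul, or_iff_right h1]

theorem commutator_sup_le_sup (h : S ≤ normalizer (K : Set Γ)) : ⁅K ⊔ S, K ⊔ S⁆ ≤ K ⊔ ⁅S, S⁆ := by
  haveI := normal_subgroupOf_of_le_normalizer (sup_le le_normalizer h : K ⊔ S ≤ _)
  have h1 : (_root_.commutator (K ⊔ S : Subgroup Γ)).map (QuotientGroup.mk' (K.subgroupOf _)) =
      ⁅S.subgroupOf (K ⊔ S), S.subgroupOf (K ⊔ S)⁆.map (QuotientGroup.mk' (K.subgroupOf _)) := by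
    rw [_root_.commutator_def, map_commutator, map_commutator,
      ← subgroupOf_sup_eq_top (rfl : K ⊔ S = K ⊔ S), Subgroup.map_sup,
      map_mk'_eq_bot_iff.2 le_rfl, bot_sup_eq]
  have h2 := map_le_iff_le_comap.1 h1.le
  rw [comap_map_mk'_eq] at h2
  rw [← map_subtype_commutator, sup_comm K ⁅S, S⁆]
  refine (map_mono h2).trans ?_
  rw [Subgroup.map_sup, map_commutator, map_subgroupOf_eq_of_le le_sup_right,
    map_subgroupOf_eq_of_le le_sup_left]

section Canon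

variable {θ : IrrCharacter K}

theorem ExtTo.exists_not_dvd_detOrder (hK : ¬ p ∣ Nat.card K) (h : K ≤ V)
    (hn : V ≤ normalizer (K : Set Γ)) (he : ExtTo θ.1 V) :
    ∃ η : IrrCharacter V, resLe h η.1 = θ.1 ∧ ¬ p ∣ detOrder η.1 := by
  haveI := normal_subgroupOf_of_le_normalizer hn
  obtain ⟨η, hη⟩ := he.exists_irr h
  obtain ⟨η', h1, h2⟩ := BT.exists_extension_not_dvd_detOrder (p := p) (θ := irrOf h θ)
    (by rw [charDegree_irrOf]; exact fun h => hK (h.trans (irr_degree_dvd_card θ)))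
    (by rw [BT.detOrder_irrOf_eq]; exact fun h => hK (h.trans (detOrder_dvd_card _)))
    ((res_subgroupOf_eq_irrOf_iff h).2 hη)
  exact ⟨η', (res_subgroupOf_eq_irrOf_iff h).1 h1, h2⟩

theorem eq_of_not_dvd_detOrder (hK : ¬ p ∣ Nat.card K) (h : K ≤ V)
    (hn : V ≤ normalizer (K : Set Γ)) {k : ℕ} (hk : K.relIndex V = p ^ k) {η η' : V → ℂ}
    (hη : IsCharacter V η) (hη' : IsCharacter V η') (h1 : resLe h η = θ.1) (h2 : resLe h η' = θ.1)
    (h3 : ¬ p ∣ detOrder η) (h4 : ¬ p ∣ detOrder η') : η = η' := by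
  haveI := normal_subgroupOf_of_le_normalizer hn
  have hc : ∀ {n : ℕ}, ¬ p ∣ n → (K.subgroupOf V).index.Coprime n := fun hn => by
    change (K.relIndex V).Coprime _
    rw [hk]; exact (hp.out.coprime_iff_not_dvd.2 hn).pow_left k
  have e1 := (res_subgroupOf_eq_irrOf_iff h).2 h1
  have e2 := (res_subgroupOf_eq_irrOf_iff h).2 h2
  exact extension_eq_of_detChar_eq _ (irrOf h θ)
    (hc (by rw [charDegree_irrOf]; exact fun h => hK (h.trans (irr_degree_dvd_card θ))))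
    hη hη' e1 e2 (detChar_eq_of_extension _ hη hη' (e1.trans e2.symm) (hc h3) (hc h4))

theorem extTo_of_coprime (h : K ≤ V) (hn : V ≤ normalizer (K : Set Γ))
    (hc : (Nat.card K).Coprime (K.relIndex V)) (hθ : InvBy V θ.1) : ExtTo θ.1 V := by
  haveI := normal_subgroupOf_of_le_normalizer hn
  obtain ⟨η, hη⟩ := exists_extension_of_coprime (K.subgroupOf V) (irrOf h θ)
    (fun x n => hθ x x.2 ⟨n, n.2⟩ ⟨_, (MulAut.conjNormal x n).2⟩ rfl)
    (by rwa [card_subgroupOf_of_le h])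
  exact extTo_of_irr h ((res_subgroupOf_eq_irrOf_iff h).1 hη)

theorem extTo_of_forall_prime (h : K ≤ V) (hn : V ≤ normalizer (K : Set Γ)) (hθ : InvBy V θ.1)
    (H : ∀ q : ℕ, q.Prime → ∃ W : Subgroup Γ, W ≤ V ∧ ¬ q ∣ W.relIndex V ∧ ExtTo θ.1 W) :
    ExtTo θ.1 V := by
  haveI := normal_subgroupOf_of_le_normalizer hn
  obtain ⟨η, hη⟩ := exists_extension_of_forall_prime (K.subgroupOf V) (irrOf h θ)
    (fun x n => hθ x x.2 ⟨n, n.2⟩ ⟨_, (MulAut.conjNormal x n).2⟩ rfl) fun q hq _ => by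
      obtain ⟨W, h1, h2, h3⟩ := H q hq
      obtain ⟨h4, η, h5, h6⟩ := (extTo_irrOf_iff h h1 θ).2 h3
      exact ⟨W.subgroupOf V, h4, h2, η, h5, congrFun h6⟩
  exact extTo_of_irr h ((res_subgroupOf_eq_irrOf_iff h).1 hη)

theorem LiesOverLe.resLe_eq_of_relIndex_eq_pow (h : K ≤ V) (hn : V ≤ normalizer (K : Set Γ))
    {k : ℕ} (hk : K.relIndex V = p ^ k) {η : IrrCharacter V} (hη : ¬ p ∣ charDegree η.1)
    (h1 : LiesOverLe h η.1 θ.1) : resLe h η.1 = θ.1 := by
  haveI := normal_subgroupOf_of_le_normalizer hn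
  refine (res_subgroupOf_eq_irrOf_iff h).1 (((liesOver_irrOf_iff h).2 h1).res_eq_of_coprime ?_)
  change (K.relIndex V).Coprime _
  rw [hk]; exact (hp.out.coprime_iff_not_dvd.2 hη).pow_left k

theorem relIndex_sup_eq_pow (hS : IsPGroup p S) (hn : S ≤ normalizer (K : Set Γ)) :
    ∃ k, K.relIndex (K ⊔ S) = p ^ k := by
  rw [sup_comm, relIndex_sup_of_le_normalizer hn]
  exact hS.exists_relIndex_eq_pow K

/-- The characters of `p'`-degree over `θ` are those over a canonical extension of `θ` to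
`K ⊔ ⁅S, S⁆`. -/
theorem exists_canonical_commutator (h : K ≤ H) (hn : H ≤ normalizer (K : Set Γ))
    (hK : ¬ p ∣ Nat.card K) (hS : IsSylowIn p S H)
    (hM : H ≤ normalizer ((K ⊔ S : Subgroup Γ) : Set Γ)) (hM₀ : M = K ⊔ ⁅S, S⁆) (hMH : M ≤ H)
    (hMn : H ≤ normalizer (M : Set Γ)) (hθ : InvBy H θ.1) :
    ∃ η : IrrCharacter M, InvBy H η.1 ∧
      (∀ χ : IrrCharacter H, ¬ p ∣ charDegree χ.1 ∧ LiesOverLe h χ.1 θ.1 ↔
        LiesOverLe hMH χ.1 η.1) ∧
      ∀ V : Subgroup Γ, M ≤ V → V ≤ H → (ExtTo η.1 V ↔ ExtTo θ.1 V) := by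
  have hSK : S ≤ normalizer (K : Set Γ) := hS.le.trans hn
  have hSS : ⁅S, S⁆ ≤ S := le_normalizer_iff_commutator_le_right.1 le_normalizer
  have hKM : K ≤ M := hM₀ ▸ le_sup_left
  have hMU : M ≤ K ⊔ S := hM₀ ▸ sup_le_sup_left hSS _
  have hUH : K ⊔ S ≤ H := sup_le h hS.le
  obtain ⟨k, hk⟩ := relIndex_sup_eq_pow hS.isPGroup hSK
  obtain ⟨j, hj⟩ : ∃ j, K.relIndex M = p ^ j :=
    hM₀ ▸ relIndex_sup_eq_pow (hS.isPGroup.to_le hSS) (hSS.trans hSK)
  have hθd : ¬ p ∣ charDegree θ.1 := fun h => hK (h.trans (irr_degree_dvd_card θ))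
  obtain ⟨τ, hτ, hτd⟩ := (extTo_of_coprime le_sup_left (hUH.trans hn)
    (hk ▸ (hp.out.coprime_iff_not_dvd.2 hK).symm.pow_right k)
    (hθ.mono hUH)).exists_not_dvd_detOrder hK le_sup_left (hUH.trans hn)
  have hη0 : resLe hKM (resLe hMU τ.1) = θ.1 := hτ
  obtain ⟨η, hη⟩ : ∃ η : IrrCharacter M, η.1 = resLe hMU τ.1 :=
    ⟨⟨_, isIrr_of_resLe_eq hKM ((irr_isCharacter τ).resLe hMU) hη0⟩, rfl⟩
  have hηd : ¬ p ∣ detOrder η.1 := fun h => hτd (h.trans (by
    rw [hη]; exact (irr_isCharacter τ).detOrder_comp_dvd (inclusion hMU)))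
  rw [← hη] at hη0
  have huniq : ∀ {η' : M → ℂ}, IsCharacter M η' → resLe hKM η' = θ.1 → ¬ p ∣ detOrder η' →
      η' = η.1 := fun h1 h2 h3 => eq_of_not_dvd_detOrder hK hKM (hMH.trans hn) hj h1
        (irr_isCharacter η) h2 hη0 h3 hηd
  have hab : ⁅K ⊔ S, K ⊔ S⁆ ≤ M := hM₀ ▸ commutator_sup_le_sup hSK
  have hτη : LiesOverLe hMU τ.1 η.1 := liesOverLe_of_resLe_eq hη.symm
  haveI := normal_subgroupOf_of_le_normalizer hM
  refine ⟨η, fun x hx => ?_, fun χ => ⟨fun h1 => ?_, fun h1 => ⟨?_, ?_⟩⟩,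
    fun V hMV hVH => ⟨fun h1 => h1.trans hKM hη0, fun h1 => ?_⟩⟩
  · have h1 := isConjCharOf_nconj (hMn hx) η
    have h2 : (nconj (hMn hx) η).1 = η.1 := by
      refine huniq (irr_isCharacter _) ?_ ?_
      · have h3 := h1.resLe hKM
        rw [hη0] at h3
        exact h3.unique (hn hx) (hθ.isConj hx)
      · have := (irr_isCharacter η).detOrder_comp_of_surjective
          (M.normalizerMonoidHom ⟨x, hMn hx⟩).symm.toMonoidHom (MulEquiv.surjective _)
        exact fun h => hηd (this ▸ h)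
    rw [h2] at h1
    exact h1
  · obtain ⟨ζ, h2, h3⟩ := LiesOverLe.exists_between le_sup_left hUH (irr_isClassFunction χ) h1.2
    have h4 := h3.resLe_eq_of_relIndex_eq_pow _ (hUH.trans hn) hk
      fun h => h1.1 (h.trans h2.degree_dvd)
    haveI := normal_subgroupOf_of_le_normalizer (hUH.trans hn)
    obtain ⟨f, hf, rfl⟩ := exists_lin_smul_of_res_eq (θ := irrOf le_sup_left θ)
      ((res_subgroupOf_eq_irrOf_iff _).2 hτ) ((res_subgroupOf_eq_irrOf_iff _).2 h4)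
    have h5 : M ≤ f.ker.map (K ⊔ S).subtype := by
      rw [hM₀]
      refine sup_le (fun x hx => ⟨⟨x, mem_sup_left hx⟩, hf hx, rfl⟩)
        ((commutator_mono (le_sup_right : S ≤ K ⊔ S) (le_sup_right : S ≤ K ⊔ S)).trans ?_)
      rw [← map_subtype_commutator]
      exact map_mono (Abelianization.commutator_subset_ker f)
    refine h2.trans (irr_isCharacter χ) (irr_isCharacter η)
      (liesOverLe_of_resLe_eq (h := hMU) ?_)
    rw [hη]
    funext m
    obtain ⟨y, hy, e⟩ := h5 m.2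
    rw [resLe_apply, resLe_apply, lin_smul_apply, show (⟨m, hMU m.2⟩ : (K ⊔ S : Subgroup Γ)) = y
      from Subtype.ext e.symm, MonoidHom.mem_ker.1 hy, Units.val_one, one_mul]
  · obtain ⟨ζ, h2, h3⟩ := LiesOverLe.exists_between hMU hUH (irr_isClassFunction χ) h1
    obtain ⟨f, -, rfl⟩ := exists_lin_smul_of_liesOverLe hMU hab hτη h3
    intro h4
    rcases hp.out.dvd_mul.1 (h4.trans h2.degree_dvd_relIndex_mul) with h5 | h5
    · exact hS.not_dvd_relIndex_of_le le_sup_right h5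
    · rw [charDegree_lin_smul, ← charDegree_resLe le_sup_left, hτ] at h5
      exact hθd h5
  · exact h1.trans (irr_isCharacter χ) (irr_isCharacter θ) (liesOverLe_of_resLe_eq hη0)
  · obtain ⟨ζ, h2, h3⟩ := h1.exists_not_dvd_detOrder hK (hKM.trans hMV) (hVH.trans hn)
    exact extTo_of_irr hMV (huniq ((irr_isCharacter ζ).resLe hMV) h2 fun h =>
      h3 (h.trans ((irr_isCharacter ζ).detOrder_comp_dvd (inclusion hMV))))

/-- Extendibility to `V` is decided on `p'`-subgroups normalizing `S`. -/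
theorem extTo_iff_forall_pPrime (h : K ≤ V) (hn : V ≤ normalizer (K : Set Γ))
    (hK : ¬ p ∣ Nat.card K) (hS : IsPGroup p S) (hSK : S ≤ normalizer (K : Set Γ))
    (hV : V ≤ K ⊔ V ⊓ normalizer (S : Set Γ)) (hi : ¬ p ∣ (K ⊔ S).relIndex V)
    (hθ : InvBy V θ.1) (hθS : InvBy S θ.1) :
    ExtTo θ.1 V ↔ ∀ Q : Subgroup Γ, Q ≤ V ⊓ normalizer (S : Set Γ) → ¬ p ∣ Nat.card Q →
      ExtTo θ.1 (K ⊔ Q) := by
  refine ⟨fun h1 Q hQ _ => h1.mono le_sup_left (sup_le h (hQ.trans inf_le_left)), fun h1 =>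
    extTo_of_forall_prime h hn hθ fun q hq => ?_⟩
  by_cases hqp : q = p
  · subst hqp
    obtain ⟨k, hk⟩ := relIndex_sup_eq_pow hS hSK
    have hU : K ⊔ S ≤ normalizer (K : Set Γ) := sup_le le_normalizer hSK
    refine ⟨(K ⊔ S) ⊓ V, inf_le_right, by rwa [inf_relIndex_right],
      (extTo_of_coprime le_sup_left hU (hk ▸ (hq.coprime_iff_not_dvd.2 hK).symm.pow_right k)
        ((invBy_self (irr_isClassFunction θ)).sup hθS le_normalizer hSK)).mono
        (le_inf le_sup_left h) inf_le_left⟩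
  · haveI := Fact.mk hq
    obtain ⟨Q, hQ⟩ := exists_isSylowIn q (V ⊓ normalizer (S : Set Γ))
    refine ⟨K ⊔ Q, sup_le h (hQ.le.trans inf_le_left), fun h2 => ?_, h1 Q hQ.le fun h2 => ?_⟩
    · refine hQ.not_dvd_relIndex_of_le (le_sup_right : Q ≤ K ⊔ Q) ?_
      rwa [relIndex_eq_relIndex_of_forall_exists_mul_eq (sup_le h (hQ.le.trans inf_le_left))
        inf_le_left fun g hg => ?_]
      obtain ⟨y, hy, x, hx, e⟩ := (mem_sup_of_le_normalizer_right (inf_le_left.trans hn)).1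
        (sup_comm K _ ▸ hV hg)
      exact ⟨y, hy, x, mem_sup_left hx, e⟩
    · obtain ⟨k, hk⟩ := IsPGroup.iff_card.1 hQ.isPGroup
      exact hqp ((Nat.prime_dvd_prime_iff_eq hp.out hq).1 (hp.out.dvd_of_dvd_pow (hk ▸ h2))).symm

end Canon

section Glaub

variable {C : Subgroup Γ} {θ : IrrCharacter K} {φ : IrrCharacter C}

theorem extTo_iff_extTo_inf_normalizer [K.Normal] (hK : ¬ p ∣ Nat.card K) (hS : IsSylowIn p S ⊤)
    [(K ⊔ S).Normal] (hC : C = K ⊓ centralizer (S : Set Γ)) (hCK : C ≤ K) (hθS : InvBy S θ.1)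
    (hφ : ModCorr p (resLe hCK θ.1) φ) (h : K ≤ V) (hab : ⁅V, V⁆ ≤ K ⊔ ⁅S, S⁆)
    (hθ : InvBy V θ.1) : ExtTo θ.1 V ↔ ExtTo φ.1 (V ⊓ normalizer (S : Set Γ)) := by
  set N := normalizer (S : Set Γ) with hN
  have hKn : ∀ X : Subgroup Γ, X ≤ normalizer (K : Set Γ) := fun X => by
    rw [normalizer_eq_top]; exact le_top
  have hca : CoprimeAct S K := coprimeAct_of_isPGroup_left (hKn S) hS.isPGroup hK
  have hKN : K ⊔ N = ⊤ := by
    rw [← (hS.of_le le_sup_right le_top : IsSylowIn p S (K ⊔ S)).frattini_top, sup_assoc,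
      sup_eq_right.2 le_normalizer]
  have hCN : C ≤ N := hC ▸ inf_le_right.trans (centralizer_le_normalizer _)
  have hNC : N ≤ normalizer (C : Set Γ) :=
    hC ▸ le_normalizer_inf (hKn N) (le_normalizer_centralizer le_rfl)
  have hSN : S ≤ N := le_normalizer
  have hSS : ⁅S, S⁆ ≤ S := le_normalizer_iff_commutator_le_right.1 le_normalizer
  have hCp : ¬ p ∣ Nat.card C := fun h => hK (h.trans (card_dvd_of_le hCK))
  have hCV : C ≤ V ⊓ N := le_inf (hCK.trans h) hCN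
  have hD : (K ⊔ ⁅S, S⁆) ⊓ N = C ⊔ ⁅S, S⁆ := by
    rw [sup_comm, sup_inf_assoc_of_le_normalizer (hSS.trans hSN) (Or.inl (hKn _)),
      hca.inf_normalizer_eq, ← hC, sup_comm]
  rw [extTo_iff_forall_pPrime h (hKn V) hK hS.isPGroup (hKn S) (by
      rw [inf_comm, ← sup_inf_assoc_of_le_normalizer h (Or.inr (hKn _)), hKN, top_inf_eq])
      (fun h1 => hS.not_dvd_relIndex_of_le (le_sup_right : S ≤ K ⊔ S) (by
        rw [relIndex_top_right]; exact h1.trans (relIndex_dvd_index_of_normal _ _))) hθ hθS,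
    extTo_iff_forall_pPrime hCV (inf_le_right.trans hNC) hCp hS.isPGroup (hSN.trans hNC)
      ((le_inf le_rfl inf_le_right).trans le_sup_right)
      (fun h1 => (hS.of_le hSN le_top).not_dvd ((h1.trans
        (relIndex_dvd_of_le_left _ le_sup_right)).trans (by
          rw [inf_comm]; exact relIndex_inf_dvd_of_le_normalizer hSN le_rfl)))
      (hφ.invBy hp.out (inf_le_right.trans hNC) ((hθ.mono inf_le_left).resLe hCK))
      (hφ.invBy hp.out (hSN.trans hNC) (hθS.resLe hCK)), inf_assoc, inf_idem]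
  refine forall_congr' fun Q => imp_congr_right fun hQ => imp_congr_right fun hQp => ?_
  have hQC : Q ≤ normalizer (C : Set Γ) := hQ.trans (inf_le_right.trans hNC)
  have hA : C ⊔ Q ≤ V ⊓ N := sup_le hCV hQ
  have hAp : ¬ p ∣ Nat.card (C ⊔ Q : Subgroup Γ) := fun h => by
    rw [sup_comm] at h
    exact (hp.out.dvd_mul.1 (h.trans (card_sup_dvd_of_le_normalizer hQC))).elim hQp hCp
  have hAA : ⁅C ⊔ Q, C ⊔ Q⁆ ≤ C ⊔ Q := le_normalizer_iff_commutator_le_right.1 le_normalizer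
  obtain ⟨k, hk⟩ := relIndex_sup_eq_pow (hS.isPGroup.to_le hSS) (hSS.trans (hSN.trans hNC))
  have h1 := okuyama_wajima hp.out S hS.isPGroup (hKn S) hK hAp (hKn _) (hA.trans inf_le_right) hC
    hCK le_sup_left (le_of_coprime_card_relIndex (K := C ⊔ ⁅S, S⁆) (hD ▸ le_inf
      ((commutator_mono (hA.trans inf_le_left) (hA.trans inf_le_left)).trans hab)
      (hAA.trans (hA.trans inf_le_right))) (sup_le le_normalizer (hSS.trans (hSN.trans hNC)))
      (hk ▸ ((hp.out.coprime_iff_not_dvd.2 fun h => hAp (h.trans (card_dvd_of_le hAA))).symm).pow_right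
        k)) hθS (hθ.mono (hA.trans inf_le_left)) hφ
  rwa [← sup_assoc, sup_eq_left.2 hCK] at h1

theorem inf_charStab_eq_of_modCorr [K.Normal] (hK : ¬ p ∣ Nat.card K) (hS : IsPGroup p S)
    (hC : C = K ⊓ centralizer (S : Set Γ)) (hCK : C ≤ K) (hθS : InvBy S θ.1)
    (hφ : ModCorr p (resLe hCK θ.1) φ) :
    normalizer (S : Set Γ) ⊓ charStab θ.1 = normalizer (S : Set Γ) ⊓ charStab φ.1 := by
  have hKn : ∀ X : Subgroup Γ, X ≤ normalizer (K : Set Γ) := fun X => by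
    rw [normalizer_eq_top]; exact le_top
  have hNC : normalizer (S : Set Γ) ≤ normalizer (C : Set Γ) :=
    hC ▸ le_normalizer_inf (hKn _) (le_normalizer_centralizer le_rfl)
  have H := glaubP_of_isPGroup hp.out hS (hKn S) hK hC hCK
  ext x
  refine and_congr_right fun hx => ⟨fun h => ⟨hNC hx, ?_⟩, fun h => ⟨hKn ⊤ trivial, ?_⟩⟩
  · exact hφ.isConjCharOf_self hp.out (hNC hx) (h.2.resLe hCK)
  · exact H.isConjCharOf (hKn S) (hKn ⊤ trivial) (hNC hx) hx hθS hθS hφ hφ h.2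

theorem cnt_eq_of_modCorr [K.Normal] (hK : ¬ p ∣ Nat.card K) (hS : IsSylowIn p S ⊤)
    [(K ⊔ S).Normal] (hC : C = K ⊓ centralizer (S : Set Γ)) (hCK : C ≤ K)
    (hCN : C ≤ normalizer (S : Set Γ)) (hθS : InvBy S θ.1) (hφ : ModCorr p (resLe hCK θ.1) φ) :
    cnt p (le_top : K ≤ ⊤) θ = cnt p hCN φ := by
  have hst := inf_charStab_eq_of_modCorr hK hS.isPGroup hC hCK hθS hφ
  set N := normalizer (S : Set Γ) with hN
  have hKn : ∀ X : Subgroup Γ, X ≤ normalizer (K : Set Γ) := fun X => by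
    rw [normalizer_eq_top]; exact le_top
  have hca : CoprimeAct S K := coprimeAct_of_isPGroup_left (hKn S) hS.isPGroup hK
  have hKN : K ⊔ N = ⊤ := by
    rw [← (hS.of_le le_sup_right le_top : IsSylowIn p S (K ⊔ S)).frattini_top, sup_assoc,
      sup_eq_right.2 le_normalizer]
  have hNC : N ≤ normalizer (C : Set Γ) :=
    hC ▸ le_normalizer_inf (hKn N) (le_normalizer_centralizer le_rfl)
  have hSN : S ≤ N := le_normalizer
  have hSS : ⁅S, S⁆ ≤ S := le_normalizer_iff_commutator_le_right.1 le_normalizer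
  have hNS : N ≤ normalizer ((⁅S, S⁆ : Subgroup Γ) : Set Γ) := le_normalizer_commutator le_rfl le_rfl
  have hCp : ¬ p ∣ Nat.card C := fun h => hK (h.trans (card_dvd_of_le hCK))
  have hD : (K ⊔ ⁅S, S⁆) ⊓ N = C ⊔ ⁅S, S⁆ := by
    rw [sup_comm, sup_inf_assoc_of_le_normalizer (hSS.trans hSN) (Or.inl (hKn _)),
      hca.inf_normalizer_eq, ← hC, sup_comm]
  haveI : (K ⊔ ⁅S, S⁆).Normal := normal_of_le_normalizer_of_sup_eq_top hKN
    (le_sup_left.trans le_normalizer) (le_normalizer_sup (hKn N) hNS)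
  have hφS : InvBy S φ.1 := hφ.invBy hp.out (hSN.trans hNC) (hθS.resLe hCK)
  obtain ⟨T, hT⟩ : ∃ T, T = ⊤ ⊓ charStab θ.1 := ⟨_, rfl⟩
  obtain ⟨T₁, hT₁⟩ : ∃ T₁, T₁ = N ⊓ charStab φ.1 := ⟨_, rfl⟩
  have hTT : T₁ = T ⊓ N := by rw [hT₁, hT, top_inf_eq, ← hst, inf_comm]
  have hKT : K ≤ T := hT ▸ le_inf le_top (le_charStab (irr_isClassFunction θ))
  have hST : S ≤ T := hT ▸ le_inf le_top (hθS.le_charStab (hKn S))
  have hT₁N : T₁ ≤ N := hT₁ ▸ inf_le_left
  have hCT : C ≤ T₁ := hTT ▸ le_inf (hCK.trans hKT) hCN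
  have hST₁ : S ≤ T₁ := hTT ▸ le_inf hST hSN
  have hθT : InvBy T θ.1 := InvBy.of_le_charStab (hT ▸ inf_le_right)
  have hφT : InvBy T₁ φ.1 := InvBy.of_le_charStab (hT₁ ▸ inf_le_right)
  have hMT : K ⊔ ⁅S, S⁆ ≤ T := sup_le hKT (hSS.trans hST)
  have hDT : C ⊔ ⁅S, S⁆ ≤ T₁ := sup_le hCT (hSS.trans hST₁)
  rw [cnt_clifford le_top (hKn ⊤) hS hθS (hT ▸ hKT), cnt_clifford hCN hNC (hS.of_le hSN le_top) hφS
    (hT₁ ▸ hCT), ← cnt_congr hT hKT, ← cnt_congr hT₁ hCT]
  obtain ⟨η, hη1, hη2, hη3⟩ := exists_canonical_commutator hKT (hKn T) hK (hS.of_le hST le_top)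
    (by rw [normalizer_eq_top]; exact le_top) rfl hMT (by rw [normalizer_eq_top]; exact le_top) hθT
  obtain ⟨ξ, hξ1, hξ2, hξ3⟩ := exists_canonical_commutator hCT (hT₁N.trans hNC) hCp
    (hS.of_le hST₁ le_top) (le_normalizer_sup (hT₁N.trans hNC) hT₁N) rfl hDT
    (le_normalizer_sup (hT₁N.trans hNC) (hT₁N.trans hNS)) hφT
  set f := QuotientGroup.mk' (K ⊔ ⁅S, S⁆) with hf
  have hker : f.ker = K ⊔ ⁅S, S⁆ := QuotientGroup.ker_mk' _
  have h1 := card_over_invariant f hMT (by rw [hker, inf_eq_right.2 hMT]) rfl hη1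
  have h2 := card_over_invariant f (B := T.map f) hDT (by
    rw [hker, hTT, inf_assoc, inf_comm N, hD, inf_eq_right.2 (hDT.trans (hTT.le.trans inf_le_left))])
    (by
      have : T = K ⊔ T₁ := by
        rw [hTT, inf_comm, ← sup_inf_assoc_of_le_normalizer hKT (Or.inr (hKn _)), hKN, top_inf_eq]
      rw [this, Subgroup.map_sup, map_mk'_eq_bot_iff.2 le_sup_left, bot_sup_eq]) hξ1
  unfold cnt
  rw [Nat.card_congr (Equiv.subtypeEquivRight hη2), Nat.card_congr (Equiv.subtypeEquivRight hξ2)]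
  refine Nat.eq_of_mul_eq_mul_right (Nat.card_pos (α := T.map f)) ?_
  rw [h1, h2]
  refine Nat.card_congr (Equiv.subtypeEquivRight fun ab => and_congr_right fun _ =>
    forall_congr' fun c => imp_congr_right fun hc => ?_)
  set X := (closure {(ab.1 : Γ ⧸ (K ⊔ ⁅S, S⁆)), (c : Γ ⧸ (K ⊔ ⁅S, S⁆))}).comap f with hX
  have hMX : K ⊔ ⁅S, S⁆ ≤ X := hker ▸ ker_le_comap _ _
  have hab : ⁅X, X⁆ ≤ K ⊔ ⁅S, S⁆ := by
    rw [← map_mk'_eq_bot_iff, map_commutator, commutator_self_eq_bot_iff, hX,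
      map_comap_eq_self_of_surjective (QuotientGroup.mk'_surjective _)]
    exact isMulCommutative_closure_pair (hc.map (T.map f).subtype)
  rw [hη3 _ (le_inf hMT hMX) inf_le_left, hξ3 _ (le_inf hDT ((sup_le_sup_right hCK _).trans hMX))
    inf_le_left, extTo_iff_extTo_inf_normalizer hK hS hC hCK hθS hφ
    (le_inf hKT (le_sup_left.trans hMX)) ((commutator_mono inf_le_right inf_le_right).trans hab)
    (hθT.mono inf_le_left), hTT, inf_right_comm]

end Glaub

section Central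

variable {Z : Subgroup Γ}

theorem liesOverLe_iff_of_between (hZ : Z ≤ Subgroup.center Γ) (hZK : Z ≤ K) (h : K ≤ H)
    {χ : IrrCharacter H} {θ : IrrCharacter K} (h1 : LiesOverLe h χ.1 θ.1) (ν : IrrCharacter Z) :
    LiesOverLe (hZK.trans h) χ.1 ν.1 ↔ LiesOverLe hZK θ.1 ν.1 := by
  refine ⟨fun h2 => ?_, fun h2 => h1.trans (irr_isCharacter χ) (irr_isCharacter ν) h2⟩
  obtain ⟨ν', h3⟩ := exists_irr_liesUnderLe hZK θ
  have h4 := resLe_eq_smul_of_le_center hZ _ (h1.trans (irr_isCharacter χ) (irr_isCharacter ν') h3)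
  rw [resLe_eq_smul_of_le_center hZ _ h2] at h4
  rwa [Subtype.ext (smul_right_injective _ (irr_apply_one_ne_zero χ) h4) (a1 := ν)]

open Classical in
theorem sum_card_mul_cnt (hZ : Z ≤ Subgroup.center Γ) (hZK : Z ≤ K) (h : K ≤ H)
    (hn : H ≤ normalizer (K : Set Γ)) (hS : IsSylowIn p S H) (hN : normalizer (S : Set Γ) ≤ H)
    (ν : IrrCharacter Z) :
    ∑ θ : IrrCharacter K, (if InvBy S θ.1 then if LiesOverLe hZK θ.1 ν.1 then
      Nat.card ↥(normalizer (S : Set Γ) ⊓ charStab θ.1) * cnt p h θ else 0 else 0) =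
      Nat.card (normalizer (S : Set Γ)) * cnt p (hZK.trans h) ν := by
  have h1 := sum_card_mul_card_over h hn hS
    (fun χ => ¬ p ∣ charDegree χ.1 ∧ LiesOverLe (hZK.trans h) χ.1 ν.1) fun _ h => h.1
  rw [inf_eq_right.2 hN] at h1
  refine (Finset.sum_congr rfl fun θ _ => ?_).trans h1
  refine if_congr Iff.rfl ?_ rfl
  split_ifs with h2
  · congr 1
    exact Nat.card_congr (Equiv.subtypeEquivRight fun χ => ⟨fun h3 =>
      ⟨⟨h3.1, (liesOverLe_iff_of_between hZ hZK h h3.2 ν).2 h2⟩, h3.2⟩, fun h3 => ⟨h3.1.1, h3.2⟩⟩)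
  · haveI : IsEmpty {χ : IrrCharacter H // (¬ p ∣ charDegree χ.1 ∧
        LiesOverLe (hZK.trans h) χ.1 ν.1) ∧ LiesOverLe h χ.1 θ.1} :=
      ⟨fun χ => h2 ((liesOverLe_iff_of_between hZ hZK h χ.2.2 ν).1 χ.2.1.2)⟩
    rw [Nat.card_of_isEmpty (α := {χ : IrrCharacter H // _}), mul_zero]

theorem cnt_eq_of_pPrime_normal [K.Normal] (hZ : Z ≤ Subgroup.center Γ) (hZK : Z ≤ K)
    (hK : ¬ p ∣ Nat.card K) (hS : IsSylowIn p S ⊤) [(K ⊔ S).Normal] (ν : IrrCharacter Z)
    (hZN : Z ≤ normalizer (S : Set Γ)) : cnt p (le_top : Z ≤ ⊤) ν = cnt p hZN ν := by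
  classical
  have hKn : ∀ X : Subgroup Γ, X ≤ normalizer (K : Set Γ) := fun X => by
    rw [normalizer_eq_top]; exact le_top
  obtain ⟨C, hC⟩ : ∃ C, C = K ⊓ centralizer (S : Set Γ) := ⟨_, rfl⟩
  have hCK : C ≤ K := hC ▸ inf_le_left
  have hCN : C ≤ normalizer (S : Set Γ) := hC ▸ inf_le_right.trans (centralizer_le_normalizer _)
  have hZC : Z ≤ C := hC ▸ le_inf hZK (hZ.trans (center_le_centralizer _))
  have hNC : normalizer (S : Set Γ) ≤ normalizer (C : Set Γ) :=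
    hC ▸ le_normalizer_inf (hKn _) (le_normalizer_centralizer le_rfl)
  obtain ⟨e, he⟩ := (glaubP_of_isPGroup hp.out hS.isPGroup (hKn S) hK hC hCK).exists_equiv' hp.out
  have h1 := sum_card_mul_cnt hZ hZK le_top (hKn ⊤) hS le_top ν
  have h2 := sum_card_mul_cnt hZ hZC hCN hNC (hS.of_le le_normalizer le_top) le_rfl ν
  refine Nat.eq_of_mul_eq_mul_left (Nat.card_pos (α := normalizer (S : Set Γ))) ?_
  rw [← h1, ← h2, ← Finset.sum_filter, ← e.sum_comp,
    Finset.sum_subtype (p := fun θ : IrrCharacter K => InvBy S θ.1) _ (by simp)]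
  refine Finset.sum_congr rfl fun θ _ => ?_
  rw [if_pos (invBy_of_le_centralizer _ (le_centralizer_iff.1 (hC ▸ inf_le_right))),
    inf_charStab_eq_of_modCorr hK hS.isPGroup hC hCK θ.2 (he θ),
    cnt_eq_of_modCorr hK hS hC hCK hCN θ.2 (he θ)]
  exact if_congr (liesOverLe_iff_of_between hZ hZC hCK
    ((he θ).ip_ne_zero hp.out ((irr_isCharacter _).resLe hCK)) ν) rfl rfl

end Central

/-- The relative McKay equality for all configurations of index less than `n`. -/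
def McKayBelow (p n : ℕ) : Prop :=
  ∀ (Γ : Type u) [Group Γ] [Finite Γ], IsPSolvable p Γ → ∀ (L G S : Subgroup Γ) (h : L ≤ G),
    G ≤ normalizer (L : Set Γ) → IsSylowIn p S G → L.relIndex G < n →
    ∀ ν : IrrCharacter L, InvBy S ν.1 →
    ∀ h' : L ≤ G ⊓ normalizer ((L ⊔ S : Subgroup Γ) : Set Γ), cnt p h ν = cnt p h' ν

theorem relIndex_lt_of_lt_right (h : L ≤ T) (hT : T < H) : L.relIndex T < L.relIndex H := by
  have h1 := card_mul_relIndex h
  have h2 := card_mul_relIndex (h.trans hT.le)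
  have h3 := card_lt_of_lt hT
  rw [← h1, ← h2] at h3
  exact lt_of_mul_lt_mul_left h3 (Nat.zero_le _)

theorem mcKay_central (hΓ : IsPSolvable p Γ) {Z : Subgroup Γ} (hZ : Z ≤ Subgroup.center Γ)
    (hZp : ¬ p ∣ Nat.card Z) (hS : IsSylowIn p S ⊤) (ih : McKayBelow.{u} p Z.index)
    (ν : IrrCharacter Z) (h' : Z ≤ normalizer ((Z ⊔ S : Subgroup Γ) : Set Γ)) :
    cnt p (le_top : Z ≤ ⊤) ν = cnt p h' ν := by
  classical
  haveI := normal_of_le_center' hZ
  have hZS : Z ≤ normalizer (S : Set Γ) :=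
    (hZ.trans (center_le_centralizer _)).trans (centralizer_le_normalizer _)
  have hZn : ∀ X : Subgroup Γ, X ≤ normalizer (Z : Set Γ) := fun X => by
    rw [normalizer_eq_top]; exact le_top
  have hN : normalizer ((Z ⊔ S : Subgroup Γ) : Set Γ) = normalizer (S : Set Γ) :=
    le_antisymm ((hS.of_le le_sup_right le_top).normalizer_le_normalizer (sup_le hZS le_normalizer))
      (le_normalizer_sup (hZn _) le_rfl)
  by_cases hZt : Z = ⊤
  · exact cnt_congr (by rw [hZt, top_sup_eq, normalizer_eq_top]) _ _ _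
  obtain ⟨K, hKn, hZK, hK⟩ := (isPSolvable_iff_isPiSep.1 hΓ).exists_gt Z inferInstance hZt
  have hKN : ∀ X : Subgroup Γ, X ≤ normalizer (K : Set Γ) := fun X => by
    rw [normalizer_eq_top]; exact le_top
  set H := ⊤ ⊓ normalizer ((K ⊔ S : Subgroup Γ) : Set Γ) with hH
  have hNH : normalizer (S : Set Γ) ≤ H := le_inf le_top (le_normalizer_sup (hKN _) le_rfl)
  have hKH : K ≤ H := le_inf le_top (le_sup_left.trans le_normalizer)
  have hSH : IsSylowIn p S H := hS.of_le (le_normalizer.trans hNH) le_top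
  by_cases hHt : H = ⊤
  · haveI : (K ⊔ S).Normal := normalizer_eq_top_iff.1 (eq_top_iff.2 (hHt.ge.trans inf_le_right))
    rcases hK with hK | hK
    · obtain ⟨k, hk⟩ := (isPiNat_singleton_iff hp.out (relIndex_pos Z K).ne').1 hK
      have h1 : K ≤ Z ⊔ S := by
        rw [← (hS.inf_of_le_normalizer le_top (hKN ⊤)).sup_eq_of_relIndex_eq_pow hZK.le hk]
        exact sup_le_sup_left inf_le_left _
      have h2 : K ⊔ S = Z ⊔ S :=
        le_antisymm (sup_le h1 le_sup_right) (sup_le_sup_right hZK.le _)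
      exact cnt_congr (by rw [← h2, normalizer_eq_top]) _ _ _
    · rw [isPiNat_compl_singleton_iff hp.out] at hK
      rw [cnt_eq_of_pPrime_normal hZ hZK.le (by
        rw [← card_mul_relIndex hZK.le, hp.out.dvd_mul]; exact not_or.2 ⟨hZp, hK⟩) hS ν hZS]
      exact cnt_congr hN.symm _ _ _
  have h1 := sum_card_mul_cnt hZ hZK.le le_top (hKN ⊤) hS le_top ν
  have h2 := sum_card_mul_cnt hZ hZK.le hKH (hKN H) hSH hNH ν
  have hlt : K.relIndex ⊤ < Z.index := by
    rw [relIndex_top_right, ← relIndex_mul_index hZK.le]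
    exact lt_mul_left (index_pos K) (lt_of_le_of_ne (relIndex_pos Z K)
      fun e => hZK.not_ge (relIndex_eq_one.1 e.symm))
  have h3 : cnt p (le_top : Z ≤ ⊤) ν = cnt p (hZK.le.trans hKH) ν := by
    refine Nat.eq_of_mul_eq_mul_left (Nat.card_pos (α := normalizer (S : Set Γ))) ?_
    rw [← h1, ← h2]
    refine Finset.sum_congr rfl fun θ _ => ?_
    split_ifs with h4 h5
    · rw [ih Γ hΓ K ⊤ S le_top (hKN ⊤) hS hlt θ h4 hKH]
    · rfl
    · rfl
  rw [h3, ih Γ hΓ Z H S _ (hZn H) hSH (by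
    rw [← relIndex_top_right]
    exact relIndex_lt_of_lt_right (hZK.le.trans hKH) (lt_top_iff_ne_top.2 hHt)) ν
    (invBy_of_le_centralizer _ (le_centralizer_iff.1 (hZ.trans (center_le_centralizer _))))
    (le_inf (hZK.le.trans hKH) h')]
  exact cnt_congr (by rw [hN, inf_eq_right.2 hNH]) _ _ _

theorem cnt_lin_smul (h : L ≤ H) (μ : Γ →* ℂˣ) (ν : IrrCharacter L) :
    cnt p h ((μ.comp L.subtype) • ν) = cnt p h ν := by
  refine (Nat.card_congr ((MulAction.toPerm (μ.comp H.subtype)).subtypeEquiv fun χ => ?_)).symm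
  rw [MulAction.toPerm_apply, charDegree_lin_smul, liesOverLe_iff_mult_pos h (irr_isCharacter _)
    (irr_isCharacter _), liesOverLe_iff_mult_pos h (irr_isCharacter _) (irr_isCharacter _),
    resLe_lin_smul, ← mult_linChar_mul (μ.comp L.subtype)]
  rfl

theorem exists_twist_not_dvd_detOrder [L.Normal] (h : L ≤ H) (hH : ¬ p ∣ H.index)
    {ν : IrrCharacter L} (hν : InvBy ⊤ ν.1) {ψ : IrrCharacter H} (hψ : ¬ p ∣ charDegree ψ.1)
    (h1 : LiesOverLe h ψ.1 ν.1) :
    ∃ μ : Γ →* ℂˣ, ¬ p ∣ detOrder ((μ.comp L.subtype) • ν).1 := by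
  have h2 := clifford_invariant_le' (fun t _ => invBy_iff_smul.1 hν t trivial) h1
  set e := mult (resLe h ψ.1) ν.1 with he
  have hd : charDegree ψ.1 = e * charDegree ν.1 := by
    have := congrFun h2 1
    rw [Pi.smul_apply, irr_apply_one ν, smul_eq_mul, ← Nat.cast_mul] at this
    exact charDegree_eq_of_apply_one this
  have hdet : ∀ l : L, detChar ψ.1 ⟨l, h l.2⟩ = detChar ν.1 l ^ e := fun l => by
    have h3 := congrFun ((irr_isCharacter ψ).detChar_comp (inclusion h)) l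
    rw [← resLe_eq_comp, h2, (irr_isCharacter ν).detChar_nsmul] at h3
    exact h3.symm
  set τ := MonoidHom.transfer (detHom ψ.1).toHomUnits with hτ
  have hτl : ∀ l : L, (τ l : ℂ) = detChar ν.1 l ^ (e * H.index) := fun l => by
    rw [hτ, transfer_eq_pow_of_forall _ _ ((detHom ν.1).toHomUnits l ^ e), ← pow_mul]
    · simp
    intro k g hk
    refine Units.ext ?_
    have h3 : detChar ψ.1 ⟨_, hk⟩ = _ := (show _ = _ from ?_).trans
      (hdet (MulAut.conjNormal g⁻¹ (l ^ k)))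
    · rw [MonoidHom.coe_toHomUnits, detHom_apply, h3, detChar_conjNormal L (irr_isCharacter ν)
        fun n => hν _ trivial n _ rfl, detChar_pow, ← pow_mul, ← pow_mul, mul_comm]
      simp
    · congr 1
      exact Subtype.ext (by rw [MulAut.conjNormal_apply, inv_inv]; rfl)
  obtain ⟨k, -, hk⟩ := exists_forall_pRegPart_eq_pow L p
  have hc : (e * H.index * charDegree ν.1).Coprime (p ^ k) := by
    refine (hp.out.coprime_iff_not_dvd.2 fun h => ?_).symm.pow_right k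
    rw [mul_right_comm, ← hd] at h
    exact (hp.out.dvd_mul.1 h).elim hψ hH
  obtain ⟨b, hb⟩ : ∃ b : ℕ, e * H.index * charDegree ν.1 * b ≡ 1 [MOD p ^ k] :=
    (Nat.exists_mul_mod_eq_of_coprime 1 hc (pow_ne_zero _ hp.out.ne_zero)).imp fun _ h => h.2
  refine ⟨(τ ^ b)⁻¹, ?_⟩
  rw [not_dvd_detOrder_iff _ hp.out]
  intro g j hg
  have hu : g ^ p ^ k = 1 := by rw [← hk, (isPElt_of_pow_eq_one hg).pRegPart_eq]
  have hd' : detChar ν.1 g ^ p ^ k = 1 := by rw [← detChar_pow, hu, detChar_one]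
  rw [lin_smul_val, mul_comm, (irr_isCharacter ν).detChar_mul_linear (irr_isCharacter _)
    (charDegree_linChar _), Pi.mul_apply, Pi.pow_apply, linChar_apply, MonoidHom.comp_apply,
    MonoidHom.inv_apply, MonoidHom.pow_apply, Units.val_inv_eq_inv_val, Units.val_pow_eq_pow_val,
    coe_subtype, hτl, inv_pow, ← pow_mul, ← pow_mul, ← mul_assoc, mul_right_comm,
    pow_eq_pow_of_modEq hb hd', pow_one, mul_inv_cancel₀ (detChar_ne_zero _ _)]

theorem mcKay_invariant_of_not_dvd (hΓ : IsPSolvable p Γ) [L.Normal] (hS : IsSylowIn p S ⊤)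
    (ih : McKayBelow.{u} p L.index) {ν : IrrCharacter L} (hν : InvBy ⊤ ν.1)
    (hd : ¬ p ∣ charDegree ν.1) (ho : ¬ p ∣ detOrder ν.1)
    (h' : L ≤ normalizer ((L ⊔ S : Subgroup Γ) : Set Γ)) :
    cnt p (le_top : L ≤ ⊤) ν = cnt p h' ν := by
  obtain ⟨E⟩ := nonempty_centralExt L ν fun x n => hν x trivial n _ rfl
  obtain ⟨lam, hlam⟩ := E.exists_rel_self
  have key : ∀ {U : Subgroup Γ} (h : L ≤ U), cnt p h ν = cnt p (E.star_mono h) lam := fun h =>
    (hlam.card_over_eq h fun n => ¬ p ∣ n).trans (Nat.card_congr (Equiv.subtypeEquivRight fun β => by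
      rw [hp.out.dvd_mul, or_iff_right hd]))
  have hZp : ¬ p ∣ Nat.card (E.star L) := fun h =>
    (hp.out.dvd_mul.1 (h.trans E.card_star_self_dvd)).elim hd ho
  have hQ : IsPSolvable p E.Q := isPSolvable_of_normal E.ρ.ker
    (isPSolvable_of_not_dvd (E.star_self ▸ hZp)) (isPSolvable_of_mulEquiv (isPSolvable_quotient hΓ L)
      (QuotientGroup.quotientKerEquivOfSurjective E.ρ E.ρ_surjective).symm)
  obtain ⟨S', hS'⟩ := exists_isSylowIn p (E.star (L ⊔ S))
  obtain ⟨k, hk⟩ := relIndex_sup_eq_pow (K := L) hS.isPGroup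
    (by rw [normalizer_eq_top]; exact le_top)
  have h1 : E.star L ⊔ S' = E.star (L ⊔ S) := hS'.sup_eq_of_relIndex_eq_pow
    (E.star_mono le_sup_left) ((E.relIndex_star le_rfl le_sup_left).trans hk)
  have h2 : IsSylowIn p S' ⊤ := hS'.trans le_top (by
    rw [relIndex_top_right, E.index_star le_sup_left, ← relIndex_top_right]
    exact hS.not_dvd_relIndex_of_le le_sup_right)
  have h3 : E.star (normalizer ((L ⊔ S : Subgroup Γ) : Set Γ)) =
      normalizer ((E.star L ⊔ S' : Subgroup E.Q) : Set E.Q) := by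
    rw [h1]
    refine comap_injective E.σ_surjective ?_
    rw [E.comap_star h', comap_normalizer_eq_of_surjective _ E.σ_surjective,
      E.comap_star le_sup_left, comap_normalizer_eq_of_surjective _ E.surj]
  rw [key, key, cnt_congr E.star_top _ le_top, cnt_congr h3 _ (h3 ▸ E.star_mono h')]
  exact mcKay_central hQ E.star_self_le_center hZp h2 (by rwa [E.index_star le_rfl]) lam _

theorem mcKay_invariant (hΓ : IsPSolvable p Γ) [L.Normal] (hS : IsSylowIn p S ⊤)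
    (ih : McKayBelow.{u} p L.index) {ν : IrrCharacter L} (hν : InvBy ⊤ ν.1)
    (h' : L ≤ normalizer ((L ⊔ S : Subgroup Γ) : Set Γ)) :
    cnt p (le_top : L ≤ ⊤) ν = cnt p h' ν := by
  have key : ∀ {H : Subgroup Γ} (h : L ≤ H), S ≤ H → cnt p h ν ≠ 0 →
      cnt p (le_top : L ≤ ⊤) ν = cnt p h' ν := fun {H} h hSH hc => by
    obtain ⟨⟨ψ, h1, h2⟩⟩ := (Nat.card_ne_zero.1 hc).1
    obtain ⟨μ, hμ⟩ := exists_twist_not_dvd_detOrder h
      (by rw [← relIndex_top_right]; exact hS.not_dvd_relIndex_of_le hSH) hν h1 h2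
    rw [← cnt_lin_smul _ μ, ← cnt_lin_smul h' μ]
    refine mcKay_invariant_of_not_dvd hΓ hS ih (fun x _ g g' e => ?_) (by
      rw [charDegree_lin_smul]; exact fun h => h1 (h.trans h2.degree_dvd)) hμ h'
    rw [lin_smul_apply, lin_smul_apply, hν x trivial g g' e, MonoidHom.comp_apply,
      MonoidHom.comp_apply, coe_subtype, e, map_mul, map_mul, map_inv, mul_inv_cancel_comm]
  by_cases h1 : cnt p (le_top : L ≤ ⊤) ν = 0
  · by_cases h2 : cnt p h' ν = 0
    · rw [h1, h2]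
    · exact key h' (le_sup_right.trans le_normalizer) h2
  · exact key le_top le_top h1

theorem mcKayBelow (n : ℕ) : McKayBelow.{u} p n := by
  induction n with
  | zero => exact fun _ _ _ _ _ _ _ _ _ _ h => absurd h (Nat.not_lt_zero _)
  | succ n ih =>
  intro Γ _ _ hΓ L G S h hn hS hlt ν hν h'
  have ih' : McKayBelow.{u} p (L.relIndex G) := fun Γ _ _ hΓ L G S h hn hS hlt' =>
    ih Γ hΓ L G S h hn hS (lt_of_lt_of_le hlt' (Nat.lt_succ_iff.1 hlt))
  have hLT : L ≤ charStab ν.1 := le_charStab (irr_isClassFunction ν)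
  have hST : S ≤ charStab ν.1 := hν.le_charStab (hS.le.trans hn)
  have hSN : S ≤ G ⊓ normalizer ((L ⊔ S : Subgroup Γ) : Set Γ) :=
    le_inf hS.le (le_sup_right.trans le_normalizer)
  by_cases hT : G ≤ charStab ν.1
  · haveI := normal_subgroupOf_of_le_normalizer hn
    have e : (G ⊓ normalizer ((L ⊔ S : Subgroup Γ) : Set Γ)).subgroupOf G =
        normalizer ((L.subgroupOf G ⊔ S.subgroupOf G : Subgroup G) : Set G) := by
      rw [inf_subgroupOf_left, subgroupOf_normalizer_eq (sup_le h hS.le), subgroupOf_sup h hS.le]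
    rw [cnt_irrOf h le_rfl, cnt_irrOf h' inf_le_left, cnt_congr (subgroupOf_self G) _ le_top,
      cnt_congr e _ (e ▸ subgroupOf_le_subgroupOf h' G)]
    exact mcKay_invariant (isPSolvable_subgroup hΓ G) ((isSylowIn_subgroupOf_top_iff hS.le).2 hS) ih'
      (subgroupOf_self G ▸ (invBy_irrOf_iff le_rfl h ν).2 (InvBy.of_le_charStab hT)) _
  · rw [cnt_clifford h hn hS hν (le_inf h hLT), cnt_clifford h' (inf_le_left.trans hn)
      (hS.of_le hSN inf_le_left) hν (le_inf h' hLT),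
      ih' Γ hΓ L _ S _ (inf_le_left.trans hn) (hS.of_le (le_inf hS.le hST) inf_le_left)
        (relIndex_lt_of_lt_right (le_inf h hLT) (inf_lt_left.2 hT)) ν hν
        (le_inf (le_inf h hLT) (h'.trans inf_le_right))]
    exact cnt_congr (inf_right_comm _ _ _) _ _ _

/-- The relative McKay equality for `p`-solvable groups. -/
theorem card_pPrime_over_eq_normalizer (hΓ : IsPSolvable p Γ) [L.Normal] (hS : IsSylowIn p S ⊤)
    {ν : IrrCharacter L} (hν : InvBy S ν.1) (h' : L ≤ normalizer ((L ⊔ S : Subgroup Γ) : Set Γ)) :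
    Nat.card {χ : IrrCharacter Γ // ¬ p ∣ charDegree χ.1 ∧ LiesOver L χ.1 ν.1} = cnt p h' ν := by
  rw [← cnt_congr (top_inf_eq _) (le_inf le_top h') h', ← mcKayBelow _ Γ hΓ L ⊤ S le_top
    (by rw [normalizer_eq_top]) hS (Nat.lt_succ_self _) ν hν]
  exact Nat.card_congr ((irrCongr topEquiv.symm).subtypeEquiv fun χ => by
    rw [charDegree_irrCongr]; rfl)

end CT
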