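import Cfsg.Agent.Lib.Char.FullyRam
import Cfsg.Agent.Lib.Char.SimpleGrp
import Cfsg.Agent.Lib.Char.Degrees2

/-!
# Groups of average character degree at most two: character-theoretic inequalities
-/

set_option autoImplicit false
set_option linter.unusedSectionVars false

namespace SAD

open Cfsg CT GT MulAction
open scoped commutatorElement

variable {G : Type*} [Group G] [Finite G] {H : Type*} [Group H] [Finite H]

/-- `∑_χ (χ(1) - 2)` -/
noncomputable def wt (G : Type*) [Group G] [Finite G] : ℚ :=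
  ∑ χ : IrrCharacter G, ((charDegree χ.1 : ℚ) - 2)

theorem sadA_realise_eqns : True := by
  have := @wt.eq_1.{0}
  trivial

theorem wt_nonpos_iff : wt G ≤ 0 ↔
    ∑ χ : IrrCharacter G, charDegree χ.1 ≤ 2 * Nat.card (IrrCharacter G) := by
  rw [wt, Finset.sum_sub_distrib, Finset.sum_const, Finset.card_univ, ← Nat.card_eq_fintype_card,
    sub_nonpos, nsmul_eq_mul, mul_comm]
  norm_cast

theorem wt_term_nonneg {χ : IrrCharacter G} (h : charDegree χ.1 ≠ 1) :
    (0 : ℚ) ≤ (charDegree χ.1 : ℚ) - 2 := by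
  have := irr_degree_pos χ
  have : 2 ≤ charDegree χ.1 := by omega
  rw [sub_nonneg]
  exact_mod_cast this

/-- passing to quotients -/
theorem wt_nonpos_of_surjective (f : G →* H) (hf : Function.Surjective f) (h : wt G ≤ 0) :
    wt H ≤ 0 := by
  classical
  set m := (Finset.univ.filter fun l : G →* ℂˣ => f.ker ≤ l.ker).card with hm
  have key : ∀ (χ : IrrCharacter G) (l : G →* ℂˣ), f.ker ≤ ker (l • χ).1 →
      (Finset.univ.filter fun l : G →* ℂˣ => f.ker ≤ ker (l • χ).1).card = m := fun χ l hl => by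
    refine (Finset.card_bij (fun k _ => k * l) (fun k hk => ?_) (fun _ _ _ _ e => mul_right_cancel e)
      fun k hk => ⟨k * l⁻¹, ?_, by ext; simp⟩).symm
    · simp only [Finset.mem_filter, Finset.mem_univ, true_and] at hk ⊢
      intro n hn
      have h1 := (irr_mem_ker_iff _).1 (hl hn)
      simp only [lin_smul_apply, map_one, Units.val_one, one_mul] at h1
      simp only [irr_mem_ker_iff, lin_smul_apply, map_one, Units.val_one, one_mul,
        MonoidHom.mul_apply, MonoidHom.mem_ker.1 (hk hn), h1]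
    · simp only [Finset.mem_filter, Finset.mem_univ, true_and] at hk ⊢
      intro n hn
      have h1 := (irr_mem_ker_iff _).1 (hl hn)
      have h2 := (irr_mem_ker_iff _).1 (hk hn)
      simp only [lin_smul_apply, map_one, Units.val_one, one_mul] at h1 h2
      have h3 : χ.1 n ≠ 0 := fun e => irr_apply_one_ne_zero χ (by rw [← h1, e, mul_zero])
      rw [MonoidHom.mem_ker, MonoidHom.mul_apply, MonoidHom.inv_apply, mul_inv_eq_one]
      exact Units.ext (mul_right_cancel₀ h3 (h2.trans h1.symm))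
  have h1 : ∑ l : G →* ℂˣ, ∑ χ : IrrCharacter G,
      (if f.ker ≤ ker (l • χ).1 then (charDegree χ.1 : ℚ) - 2 else 0) =
      Fintype.card (G →* ℂˣ) * wt H := by
    rw [← Finset.card_univ, ← nsmul_eq_mul, ← Finset.sum_const]
    refine Finset.sum_congr rfl fun l _ => ?_
    rw [wt, ← Finset.sum_congr rfl fun ψ _ => congrArg (fun n : ℕ => (n : ℚ) - 2)
      (charDegree_irrComp f hf ψ), sum_irrComp f hf fun χ => (charDegree χ.1 : ℚ) - 2,
      Finset.sum_filter]
    exact Fintype.sum_equiv (MulAction.toPerm l) _ _ fun χ => by simp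
  have h2 : ∑ l : G →* ℂˣ, ∑ χ : IrrCharacter G,
      (if f.ker ≤ ker (l • χ).1 then (charDegree χ.1 : ℚ) - 2 else 0) ≤ m * wt G := by
    rw [Finset.sum_comm, wt, Finset.mul_sum]
    refine Finset.sum_le_sum fun χ _ => ?_
    rw [← Finset.sum_filter, Finset.sum_const, nsmul_eq_mul]
    by_cases e : ∃ l : G →* ℂˣ, f.ker ≤ ker (l • χ).1
    · rw [key χ _ e.choose_spec]
    · rw [Finset.filter_eq_empty_iff.2 fun l _ hl => e ⟨l, hl⟩, Finset.card_empty, Nat.cast_zero,
        zero_mul]
      refine mul_nonneg (Nat.cast_nonneg _) (wt_term_nonneg fun h1 => e ?_)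
      obtain ⟨l, rfl⟩ := (exists_linChar_eq_iff χ).2 h1
      exact ⟨l⁻¹, by rw [lin_smul_linChar, ker_linChar]; exact fun n _ => inv_mul_cancel (l n)⟩
  rw [h1] at h2
  exact nonpos_of_mul_nonpos_right (h2.trans (mul_nonpos_of_nonneg_of_nonpos (Nat.cast_nonneg _) h))
    (Nat.cast_pos.2 Fintype.card_pos)

theorem wt_nonpos_of_mulEquiv (e : G ≃* H) (h : wt G ≤ 0) : wt H ≤ 0 :=
  wt_nonpos_of_surjective e.toMonoidHom e.surjective h

theorem wt_nonpos_quotient (N : Subgroup G) [N.Normal] (h : wt G ≤ 0) : wt (G ⧸ N) ≤ 0 :=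
  wt_nonpos_of_surjective _ (QuotientGroup.mk'_surjective N) h

theorem wt_nonpos_map (K : Subgroup G) (f : G →* H) (h : wt K ≤ 0) : wt (K.map f) ≤ 0 :=
  wt_nonpos_of_surjective _ (f.subgroupMap_surjective K) h

/-- the budget inequality -/
theorem sum_le_index (h : wt G ≤ 0) (S : Finset (IrrCharacter G))
    (hS : ∀ χ ∈ S, charDegree χ.1 ≠ 1) :
    ∑ χ ∈ S, ((charDegree χ.1 : ℚ) - 2) ≤ (commutator G).index := by
  classical
  rw [wt, ← Finset.sum_filter_add_sum_filter_not _ fun χ => charDegree χ.1 = 1,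
    Finset.sum_congr rfl (g := fun _ => (-1 : ℚ)) fun χ hχ => by
      rw [(Finset.mem_filter.1 hχ).2]; norm_num, Finset.sum_const, ← Fintype.card_subtype,
    ← Nat.card_eq_fintype_card, card_linear_eq_index_commutator] at h
  have := Finset.sum_le_sum_of_subset_of_nonneg (f := fun χ : IrrCharacter G =>
    (charDegree χ.1 : ℚ) - 2) (s := S) (t := Finset.univ.filter fun χ => ¬ charDegree χ.1 = 1)
    (fun χ hχ => Finset.mem_filter.2 ⟨Finset.mem_univ _, hS χ hχ⟩)
    fun χ hχ _ => wt_term_nonneg (Finset.mem_filter.1 hχ).2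
  simp only [smul_neg, nsmul_eq_mul, mul_one] at h
  linarith

theorem degree_le (h : wt G ≤ 0) (χ : IrrCharacter G) :
    charDegree χ.1 ≤ (commutator G).index + 2 := by
  by_cases e : charDegree χ.1 = 1
  · omega
  have := sum_le_index h {χ} (by simpa using e)
  rw [Finset.sum_singleton, sub_le_iff_le_add] at this
  exact_mod_cast this

theorem index_stabilizer_le (h : wt G ≤ 0) {N : Subgroup G} [N.Normal] (θ : IrrCharacter N) :
    (stabilizer G θ).index * charDegree θ.1 ≤ (commutator G).index + 2 := by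
  obtain ⟨χ, hχ⟩ := exists_irr_liesOver θ
  refine le_trans ?_ (degree_le h χ)
  rw [clifford_degree hχ, mul_assoc]
  exact Nat.le_mul_of_pos_left _ ((liesOver_iff_mult_pos (irr_isCharacter χ) (irr_isCharacter θ)).1 hχ)

/-- nontrivial perfect groups have average degree greater than two -/
theorem commutator_ne_top (h : wt G ≤ 0) [Nontrivial G] : commutator G ≠ ⊤ := by
  classical
  intro hp
  obtain ⟨M, hM⟩ := exists_isMaxNormal G
  have := hM.normal
  have := isMaxNormal_iff_isSimpleGroup.1 hM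
  have h1 := wt_nonpos_quotient M h
  have h2 : commutator (G ⧸ M) = ⊤ := by
    rw [commutator_def, ← Subgroup.map_top_of_surjective _ (QuotientGroup.mk'_surjective M),
      ← Subgroup.map_commutator, ← commutator_def, hp]
  have hna : ∃ x y : G ⧸ M, x * y ≠ y * x := by
    by_contra hn
    push Not at hn
    exact top_ne_bot (h2.symm.trans (commutator_eq_bot_iff_forall_degree_one.2
      (irr_degree_eq_one_of_comm hn)))
  have h3 : ∀ χ ∈ Finset.univ.erase (irrOne (G ⧸ M)), 3 ≤ charDegree χ.1 := fun χ hχ => by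
    have h3 := irr_degree_ne_one_of_simple hna (Finset.ne_of_mem_erase hχ)
    have h4 := irr_degree_pos χ
    by_contra h5
    obtain ⟨z, hz⟩ := exists_prime_orderOf_dvd_card' 2
      ((show charDegree χ.1 = 2 by omega) ▸ irr_degree_dvd_card χ)
    obtain ⟨k, h6, h7, -⟩ := exists_apply_invol_of_simple hna (Finset.ne_of_mem_erase hχ) hz
    omega
  have h4 := sum_le_index h1 _ fun χ hχ => by have := h3 χ hχ; omega
  have h5 := sum_irr_degree_sq (G := G ⧸ M)
  rw [← Finset.add_sum_erase _ _ (Finset.mem_univ (irrOne _)), charDegree_irrOne] at h5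
  rw [h2, Subgroup.index_top] at h4
  have h6 := (Finset.card_nsmul_le_sum _ _ (1 : ℚ) fun χ hχ => by
    have : (3 : ℚ) ≤ charDegree χ.1 := by exact_mod_cast h3 χ hχ
    show (1 : ℚ) ≤ charDegree χ.1 - 2
    linarith).trans h4
  rw [nsmul_one, Nat.cast_le, Nat.le_one_iff_eq_zero_or_eq_one, Finset.card_eq_zero,
    Finset.card_eq_one] at h6
  rcases h6 with e | ⟨χ, e⟩
  · rw [e, Finset.sum_empty] at h5
    exact (Finite.one_lt_card (α := G ⧸ M)).ne (by simpa using h5)
  · have h6 := h3 χ (e ▸ Finset.mem_singleton_self χ)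
    have h7 := degree_le h1 χ
    have h8 := irr_degree_dvd_card χ
    rw [h2, Subgroup.index_top] at h7
    rw [e, Finset.sum_singleton] at h5
    rw [← h5, show charDegree χ.1 = 3 by omega] at h8
    norm_num at h8

section Clifford

variable {N : Subgroup G} [N.Normal]

theorem sum_irr_eq_sum_over (N : Subgroup G) [N.Normal] (F : IrrCharacter G → ℚ) :
    ∑ χ, F χ = ∑ θ : IrrCharacter N, (∑ χ ∈ irrOver N θ.1, F χ) / (stabilizer G θ).index := by
  classical
  simp only [Finset.sum_div]
  rw [Finset.sum_comm' (t' := Finset.univ) (s' := fun χ => irrUnder N χ.1) (by simp)]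
  refine Finset.sum_congr rfl fun χ _ => ?_
  obtain ⟨θ, hθ⟩ := exists_irr_liesUnder N χ
  rw [hθ.irrUnder_eq, Finset.sum_congr rfl (g := fun _ => F χ / (stabilizer G θ).index)
    fun φ hφ => by
      rw [← card_conjOrbit, ← card_conjOrbit θ, ← hθ.irrUnder_eq,
        (hθ.of_mem_orbit (irr_isClassFunction χ) (mem_conjOrbit.1 hφ)).irrUnder_eq],
    Finset.sum_const, card_conjOrbit, nsmul_eq_mul, mul_div_cancel₀]
  exact Nat.cast_ne_zero.2 (index_pos _).ne'

/-- the contribution of the characters over `θ` -/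
noncomputable def cost (G : Type*) [Group G] [Finite G] {N : Subgroup G} (θ : IrrCharacter N) : ℚ :=
  ∑ χ ∈ irrOver N θ.1, ((charDegree χ.1 : ℚ) - 2)

/-- the normalized contribution of the orbit of `θ` -/
noncomputable def pr (G : Type*) [Group G] {N : Subgroup G} [N.Normal] (θ : IrrCharacter N) : ℚ :=
  charDegree θ.1 - 2 / (stabilizer G θ).index

/-- the characters over `θ` cost at least `pr θ` times the budget -/
def Good (G : Type*) [Group G] [Finite G] {N : Subgroup G} [N.Normal] (θ : IrrCharacter N) : Prop :=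
  (commutator G).index * pr G θ ≤ cost G θ

theorem sadA_realise_eqns' : True := by
  have := @cost.eq_1.{0}
  have := @pr.eq_1.{0}
  have := @Good.eq_1.{0}
  trivial

theorem degree_ne_one (hN : N ≤ commutator G) {θ : IrrCharacter N} (h1 : θ ≠ irrOne N)
    {χ : IrrCharacter G} (hχ : χ ∈ irrOver N θ.1) : charDegree χ.1 ≠ 1 := fun e => by
  have h2 := (liesOver_irrOne_iff χ).2 fun n hn => (irr_mem_ker_iff χ).1
    ((irr_commutator_le_ker_iff χ).2 e (hN hn))
  obtain ⟨g, hg⟩ := (h2.liesOver_iff_mem_orbit).1 (mem_irrOver.1 hχ)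
  exact h1 (hg.symm.trans (conjSmul_irrOne g))

theorem cost_nonneg (hN : N ≤ commutator G) {θ : IrrCharacter N} (h1 : θ ≠ irrOne N) :
    0 ≤ cost G θ :=
  Finset.sum_nonneg fun _ hχ => wt_term_nonneg (degree_ne_one hN h1 hχ)

theorem cost_le (h : wt G ≤ 0) (hN : N ≤ commutator G) {θ : IrrCharacter N} (h1 : θ ≠ irrOne N) :
    cost G θ ≤ (commutator G).index :=
  sum_le_index h _ fun _ hχ => degree_ne_one hN h1 hχ

theorem cost_add_le (h : wt G ≤ 0) (hN : N ≤ commutator G) {θ φ : IrrCharacter N}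
    (h1 : θ ≠ irrOne N) (h2 : φ ≠ irrOne N) (h3 : φ ∉ orbit G θ) :
    cost G θ + cost G φ ≤ (commutator G).index := by
  classical
  rw [cost, cost, ← Finset.sum_union (irrOver_disjoint h3)]
  exact sum_le_index h _ fun _ hχ => (Finset.mem_union.1 hχ).elim (degree_ne_one hN h1)
    (degree_ne_one hN h2)

theorem sum_cost_le (h : wt G ≤ 0) (hN : N ≤ commutator G) (S : Finset (IrrCharacter N))
    (hS : irrOne N ∉ S) :
    ∑ θ ∈ S, cost G θ / (stabilizer G θ).index ≤ (commutator G).index := by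
  classical
  have h1 := sum_le_index h (Finset.univ.filter fun χ => charDegree χ.1 ≠ 1)
    fun χ hχ => (Finset.mem_filter.1 hχ).2
  rw [Finset.sum_filter, sum_irr_eq_sum_over N] at h1
  refine le_trans (le_trans (le_of_eq (Finset.sum_congr rfl fun θ hθ => ?_))
    (Finset.sum_le_sum_of_subset_of_nonneg (Finset.subset_univ S) fun θ _ _ => ?_)) h1
  · rw [cost, Finset.sum_congr rfl fun χ hχ =>
      (if_pos (degree_ne_one hN (ne_of_mem_of_not_mem hθ hS) hχ)).symm]
  · refine div_nonneg (Finset.sum_nonneg fun χ _ => ?_) (Nat.cast_nonneg _)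
    split_ifs with e
    exacts [wt_term_nonneg e, le_rfl]

theorem Good.le_one (h : wt G ≤ 0) (hN : N ≤ commutator G) {θ : IrrCharacter N} (hθ : Good G θ)
    (h1 : θ ≠ irrOne N) : pr G θ ≤ 1 :=
  le_of_mul_le_mul_left (by rw [mul_one]; exact hθ.trans (cost_le h hN h1))
    (Nat.cast_pos.2 (index_pos (commutator G)))

theorem Good.add_le_one (h : wt G ≤ 0) (hN : N ≤ commutator G) {θ φ : IrrCharacter N}
    (hθ : Good G θ) (hφ : Good G φ) (h1 : θ ≠ irrOne N) (h2 : φ ≠ irrOne N) (h3 : φ ∉ orbit G θ) :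
    pr G θ + pr G φ ≤ 1 :=
  le_of_mul_le_mul_left (by
    rw [mul_one, mul_add]; exact (add_le_add hθ hφ).trans (cost_add_le h hN h1 h2 h3))
    (Nat.cast_pos.2 (index_pos (commutator G)))

theorem sum_pr_le (h : wt G ≤ 0) (hN : N ≤ commutator G) (S : Finset (IrrCharacter N))
    (hS : irrOne N ∉ S) (hg : ∀ θ ∈ S, Good G θ) :
    ∑ θ ∈ S, pr G θ / (stabilizer G θ).index ≤ 1 :=
  le_of_mul_le_mul_left (by
    rw [mul_one, Finset.mul_sum]
    refine le_trans (Finset.sum_le_sum fun θ hθ => ?_) (sum_cost_le h hN S hS)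
    rw [← mul_div_assoc]
    exact div_le_div_of_nonneg_right (hg θ hθ) (Nat.cast_nonneg _))
    (Nat.cast_pos.2 (index_pos (commutator G)))

/-- a set of linear characters with stabilizers of index `t` -/
theorem card_le_of_index (h : wt G ≤ 0) (hN : N ≤ commutator G) (S : Finset (N →* ℂˣ)) {t : ℕ}
    (hS : 1 ∉ S) (hg : ∀ f ∈ S, Good G (linChar f))
    (ht : ∀ f ∈ S, (stabilizer G (linChar f)).index = t) : S.card * ((1 - 2 / t) / t : ℚ) ≤ 1 := by
  have := sum_pr_le h hN (S.map ⟨_, linChar_injective⟩) (by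
    simp only [Finset.mem_map, Function.Embedding.coeFn_mk, linChar_eq_irrOne_iff]
    rintro ⟨f, hf, rfl⟩
    exact hS hf) (by simpa using hg)
  rwa [Finset.sum_map, Finset.sum_congr rfl (g := fun _ => ((1 - 2 / t) / t : ℚ)) fun f hf => by
    simp only [Function.Embedding.coeFn_mk, pr, ht f hf, charDegree_linChar, Nat.cast_one],
    Finset.sum_const, nsmul_eq_mul] at this

theorem good_of_mult (hN : N ≤ commutator G) {θ : IrrCharacter N} (h1 : θ ≠ irrOne N)
    (he : ∀ χ : IrrCharacter G, LiesOver N χ.1 θ.1 → mult (res N χ.1) θ.1 = 1) : Good G θ := by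
  have h2 := sum_irrOver_mult_sq θ
  rw [Finset.sum_congr rfl (g := fun _ => 1) fun χ hχ => by rw [he χ (mem_irrOver.1 hχ), one_pow],
    Finset.sum_const, smul_eq_mul, mul_one] at h2
  have h3 : cost G θ = N.index * pr G θ := by
    rw [cost, pr, Finset.sum_congr rfl
      (g := fun _ => ((stabilizer G θ).index * charDegree θ.1 : ℚ) - 2) fun χ hχ => by
        rw [clifford_degree (mem_irrOver.1 hχ), he χ (mem_irrOver.1 hχ), one_mul, Nat.cast_mul],
      Finset.sum_const, h2, nsmul_eq_mul, ← Subgroup.relIndex_mul_index (le_inertia θ),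
      Nat.cast_mul]
    have : ((stabilizer G θ).index : ℚ) ≠ 0 := Nat.cast_ne_zero.2 (index_pos _).ne'
    field_simp
  have h4 := cost_nonneg hN h1
  rw [Good, h3]
  rw [h3] at h4
  exact mul_le_mul_of_nonneg_right (Nat.cast_le.2 (Subgroup.index_antitone hN))
    (nonneg_of_mul_nonneg_right h4 (Nat.cast_pos.2 (index_pos N)))

theorem good_of_isCyclic [IsCyclic (G ⧸ N)] (hN : N ≤ commutator G) {θ : IrrCharacter N}
    (h1 : θ ≠ irrOne N) : Good G θ :=
  good_of_mult hN h1 fun _ hχ => hχ.mult_eq_one_of_isCyclic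

theorem mult_eq_one_of_sup {K : Subgroup G} [IsMulCommutative K] (hs : N ⊔ K = ⊤) (l : N →* ℂˣ)
    (χ : IrrCharacter G) (h : LiesOver N χ.1 (linChar l).1) :
    mult (res N χ.1) (linChar l).1 = 1 := by
  obtain ⟨ψ, -, -, h1, h2⟩ := exists_clifford_correspondent h
  rw [charDegree_linChar, mul_one] at h2
  have h4 : ∀ n : stabilizer G (linChar l), (n : G) ∈ N → n ∈ center ψ.1 := fun n hn => by
    have := congrFun h1 ⟨n, hn⟩
    rw [resLe_apply, Pi.smul_apply, smul_eq_mul, ← h2] at this
    rw [irr_mem_center_iff, this, norm_mul, Complex.norm_natCast, linChar_apply, units_hom_norm,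
      mul_one]
  have h5 : ∀ g : stabilizer G (linChar l), ∃ n k : stabilizer G (linChar l),
      (n : G) ∈ N ∧ (k : G) ∈ K ∧ n * k = g := fun g => by
    obtain ⟨n, hn, k, hk, e⟩ := (mem_sup_of_le_normalizer_left
      (Subgroup.le_normalizer_of_normal (H := N))).1 (hs.ge (Subgroup.mem_top (g : G)))
    exact ⟨⟨n, le_inertia _ hn⟩, ⟨k, (eq_inv_mul_of_mul_eq e) ▸
      mul_mem (inv_mem (le_inertia _ hn)) g.2⟩, hn, hk, Subtype.ext e⟩
  rw [← h2, ← irr_center_eq_top_iff, eq_top_iff]
  intro g _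
  obtain ⟨n, k, hn, hk, rfl⟩ := h5 g
  refine mul_mem (h4 n hn) ((irr_mem_center_iff_commutator ψ).2 fun y => ?_)
  obtain ⟨n', k', hn', hk', rfl⟩ := h5 y
  have h6 : k * k' = k' * k := Subtype.ext (isMulCommutative_iff_forall.1 ‹_› _ hk _ hk')
  have h7 : ⁅k, n' * k'⁆ = ⁅n', k⁆⁻¹ := by
    calc ⁅k, n' * k'⁆ = k * n' * (k' * k⁻¹ * k'⁻¹) * n'⁻¹ := by
          rw [commutatorElement_def]; group
      _ = _ := by
        rw [show k' * k⁻¹ * k'⁻¹ = k⁻¹ by
          rw [mul_inv_eq_iff_eq_mul, mul_inv_eq_iff_eq_mul, mul_assoc, ← h6, inv_mul_cancel_left],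
          commutatorElement_def]
        group
  rw [h7]
  exact inv_mem ((irr_isCharacter ψ).commutator_mem_ker_of_mem_center (h4 n' hn') k)

/-- the number of characters over an extendible character -/
theorem le_cost_of_ext {θ : IrrCharacter N} {η : stabilizer G θ → ℂ} (hη : IsCharacter _ η)
    (he : resLe (le_inertia θ) η = θ.1) :
    Nat.card (IrrCharacter (stabilizer G θ ⧸ N.subgroupOf (stabilizer G θ))) *
      (((stabilizer G θ).index : ℚ) - 2) ≤ cost G θ := by
  rw [← card_irrOver_of_extension hη ((res_subgroupOf_eq_irrOf_iff (le_inertia θ)).2 he),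
    card_irrOver, Nat.card_congr ((Equiv.subtypeEquivRight fun ψ =>
      liesOver_irrOf_iff (le_inertia θ)).trans (cliffordEquiv le_rfl (le_inertia θ))),
    ← card_irrOver, ← nsmul_eq_mul]
  refine Finset.card_nsmul_le_sum _ _ _ fun χ hχ => sub_le_sub_right (Nat.cast_le.2 ?_) _
  rw [clifford_degree (mem_irrOver.1 hχ), mul_assoc]
  exact (Nat.le_mul_of_pos_right _ (irr_degree_pos θ)).trans (Nat.le_mul_of_pos_left _
    ((liesOver_iff_mult_pos (irr_isCharacter χ) (irr_isCharacter θ)).1 (mem_irrOver.1 hχ)))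

theorem index_commutator_le_card_irr (Q : Type*) [Group Q] [Finite Q] :
    (commutator Q).index ≤ Nat.card (IrrCharacter Q) := by
  rw [← card_linear_eq_index_commutator]
  exact Nat.card_le_card_of_injective _ Subtype.val_injective

theorem commutator_eq_bot_of_card_irr_le {Q : Type*} [Group Q] [Finite Q]
    (h : Nat.card (IrrCharacter Q) ≤ (commutator Q).index) : commutator Q = ⊥ := by
  rw [← card_linear_eq_index_commutator] at h
  refine commutator_eq_bot_iff_forall_degree_one.2 fun χ => ?_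
  obtain ⟨ψ, rfl⟩ := ((Nat.bijective_iff_injective_and_card _).2 ⟨Subtype.val_injective,
    le_antisymm (Nat.card_le_card_of_injective _ Subtype.val_injective) h⟩).2 χ
  exact ψ.2

theorem index_commutator_quotient (N : Subgroup G) [N.Normal] :
    (commutator (G ⧸ N)).index = (commutator G ⊔ N).index := by
  rw [← map_mk'_commutator, Subgroup.index_map, QuotientGroup.ker_mk', QuotientGroup.range_mk',
    Subgroup.index_top, mul_one]

theorem relIndex_le_index_commutator (hN : N ≤ commutator G) (T : Subgroup G) :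
    (commutator G).relIndex T ≤ (commutator (T ⧸ N.subgroupOf T)).index := by
  rw [index_commutator_quotient]
  refine Subgroup.index_antitone (sup_le ?_ (Subgroup.comap_mono hN))
  exact commutator_le_subgroupOf (Subgroup.commutator_mono le_top le_top)

theorem good_of_ext (hN : N ≤ commutator G) {l : N →* ℂˣ} {η : stabilizer G (linChar l) → ℂ}
    (hη : IsCharacter _ η) (he : resLe (le_inertia _) η = (linChar l).1)
    (hT : commutator G ≤ stabilizer G (linChar l)) (ht : 2 ≤ (stabilizer G (linChar l)).index) :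
    Good G (linChar l) := by
  refine le_trans ?_ (le_cost_of_ext hη he)
  have h1 : ((stabilizer G (linChar l)).index : ℚ) ≠ 0 := Nat.cast_ne_zero.2 (index_pos _).ne'
  rw [pr, ← Subgroup.relIndex_mul_index hT, charDegree_linChar, Nat.cast_mul, mul_assoc,
    mul_sub, mul_div_cancel₀ _ h1, Nat.cast_one, mul_one]
  exact mul_le_mul_of_nonneg_right (Nat.cast_le.2 ((relIndex_le_index_commutator hN _).trans
    (index_commutator_le_card_irr _))) (sub_nonneg.2 (by exact_mod_cast ht))

theorem exists_ext_of_coprime (hc : (Nat.card N).Coprime N.index) (θ : IrrCharacter N) :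
    ∃ η : stabilizer G θ → ℂ, IsCharacter _ η ∧ resLe (le_inertia θ) η = θ.1 := by
  obtain ⟨χ, hχ⟩ := exists_extension_of_coprime (N.subgroupOf (stabilizer G θ))
    (irrOf (le_inertia θ) θ) (forall_smul_iff.1 (forall_smul_irrOf _ fun _ ht => ht)) (by
      rw [Nat.card_congr (Subgroup.subgroupOfEquivOfLe (le_inertia θ)).toEquiv]
      exact hc.coprime_dvd_right (Subgroup.relIndex_dvd_index_of_le (le_inertia θ)))
  exact ⟨χ.1, irr_isCharacter χ, (res_subgroupOf_eq_irrOf_iff _).1 hχ⟩

theorem mem_stab_iff {g : G} {f : N →* ℂˣ} : g ∈ stabilizer G (linChar f) ↔ conjLin g f = f := by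
  rw [mem_stabilizer_iff, conjSmul_linChar, linChar_injective.eq_iff]

theorem le_stab_iff {K : Subgroup G} {f : N →* ℂˣ} :
    K ≤ stabilizer G (linChar f) ↔ (⁅N, K⁆ : Subgroup G).subgroupOf N ≤ f.ker := by
  have key : ∀ (k : G) (n : N), MulAut.conjNormal k n * n⁻¹ ∈ f.ker ↔
      f (MulAut.conjNormal k n) = f n := fun k n => by
    rw [MonoidHom.mem_ker, map_mul, map_inv, mul_inv_eq_one]
  constructor
  · intro h
    rw [Subgroup.commutator_comm, ← Subgroup.comap_map_eq_self_of_injective N.subtype_injective f.ker]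
    refine Subgroup.comap_mono (Subgroup.commutator_le.2 fun k hk n hn =>
      ⟨_, (key k ⟨n, hn⟩).2 ?_, by simp [commutatorElement_def]⟩)
    simpa [conjLin_apply] using DFunLike.congr_fun (mem_stab_iff.1 (inv_mem (h hk))) ⟨n, hn⟩
  · intro h k hk
    refine mem_stab_iff.2 (MonoidHom.ext fun n => (key k⁻¹ n).1 (h ?_))
    rw [Subgroup.mem_subgroupOf, Subgroup.commutator_comm]
    simpa [commutatorElement_def] using Subgroup.commutator_mem_commutator (inv_mem hk) n.2

theorem eq_one_of_le_stab {K : Subgroup G} (hK : ⁅N, K⁆ = N) {f : N →* ℂˣ}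
    (h : K ≤ stabilizer G (linChar f)) : f = 1 := by
  rw [le_stab_iff, hK, Subgroup.subgroupOf_self] at h
  exact MonoidHom.ext fun n => h (Subgroup.mem_top n)

theorem index_dvd_of_sup {K T : Subgroup G} (hs : N ⊔ K = ⊤) (hT : N ≤ T) :
    T.index ∣ Nat.card K := by
  refine (Subgroup.index_dvd_of_le hT).trans ?_
  rw [← Subgroup.relIndex_top_right, ← hs, Subgroup.relIndex_sup_left]
  exact Subgroup.relIndex_dvd_card _ _

theorem le_commutator_of_eq {K : Subgroup G} (hK : ⁅N, K⁆ = N) : N ≤ commutator G :=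
  hK.ge.trans (Subgroup.commutator_mono le_top le_top)

theorem card_modEq_one {x : G} {r : ℕ} [Fact r.Prime] (hx : IsPElt r x)
    (hN : ⁅N, Subgroup.zpowers x⁆ = N) (S : Subgroup (N →* ℂˣ)) (hS : ∀ f ∈ S, conjLin x f ∈ S) :
    Nat.card S ≡ 1 [MOD r] := by
  classical
  obtain ⟨k, hk⟩ := hx
  let F : Function.End S := fun f => ⟨conjLin x f.1, hS _ f.2⟩
  have h1 : ∀ (n : ℕ) (f : S), ((F ^ n) f).1 = conjLin (x ^ n) f.1 := fun n f => by
    induction n with
    | zero => rw [pow_zero, pow_zero, conjLin_one]; rfl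
    | succ n ih => rw [pow_succ', pow_succ', ← conjLin_conjLin, ← ih]; rfl
  have h2 := Equiv.Perm.card_fixedPoints_modEq (f := F) (p := r) (n := k) (funext fun f =>
    Subtype.ext (by rw [h1, ← hk, pow_orderOf_eq_one, conjLin_one]; rfl))
  rwa [← Nat.card_eq_fintype_card, show Fintype.card (Function.fixedPoints F) = 1 from
    Fintype.card_eq_one_iff.2 ⟨⟨1, Subtype.ext (by ext; rfl)⟩,
    fun f => Subtype.ext (Subtype.ext (eq_one_of_le_stab hN (Subgroup.zpowers_le.2
      (mem_stab_iff.2 (congrArg Subtype.val f.2)))))⟩] at h2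

end Clifford

end SAD
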