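import Cfsg.Agent.Lib.Char.SadC
import Cfsg.Agent.Lib.Char.Burnside
import Cfsg.Agent.Lib.Grp.TwoCover
import Cfsg.Agent.Lib.Grp.CentCover

/-!
# Small average degrees: non-central chief factors below the simple quotient
-/

set_option autoImplicit false
set_option linter.unusedSectionVars false

namespace SAD

open Cfsg GT FT Subgroup
open scoped Pointwise commutatorElement

universe u

section General

variable {G : Type*} [Group G] [Finite G]

theorem exists_notMem {A : Subgroup G} (S : Finset G) (h : S.card < Nat.card A) :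
    ∃ x ∈ A, x ∉ S := by
  by_contra! hc
  refine h.not_ge ?_
  rw [← Nat.card_eq_finsetCard]
  exact Nat.card_le_card_of_injective (fun x => ⟨x, hc x x.2⟩) fun x y e =>
    Subtype.ext (Subtype.mk.inj e)

theorem mem_zpowers_inv {t w : G} (h : t * t = 1) : w ∈ zpowers t ↔ w = 1 ∨ w = t := by
  refine ⟨fun hw => ?_, fun hw => hw.elim (fun e => e ▸ one_mem _) fun e => e ▸ mem_zpowers t⟩
  obtain ⟨n, rfl⟩ := mem_zpowers_iff.1 hw
  have h2 : ∀ k : ℤ, t ^ (2 * k) = 1 := fun k => by rw [zpow_mul, zpow_two, h, one_zpow]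
  obtain ⟨k, rfl | rfl⟩ := Int.even_or_odd' n
  exacts [.inl (h2 k), .inr (by rw [zpow_add, h2, one_mul, zpow_one])]

theorem card_le_sq {W : Subgroup G} (hW : IsElementaryAbelian 2 W) {u : G} (hu : u ∈ 𝐍(W))
    (h2 : u * u ∈ 𝐂(W)) : Nat.card W ≤ Nat.card ↥(W ⊓ 𝐂[u]) * Nat.card ↥(W ⊓ 𝐂[u]) := by
  have cm := isMulCommutative_iff_forall.1 hW.1
  have sq : ∀ a ∈ W, a * a = 1 := fun a ha => by rw [← pow_two]; exact hW.2 a ha
  have cj := fun a ha => conj_mem_of_mem_normalizer (x := a) hu ha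
  let φ : W →* G := MonoidHom.mk' (fun a => a * (u * a * u⁻¹)) fun a b => by
    have := cm _ (cj a a.2) _ b.2
    calc ((a * b : W) : G) * (u * (a * b : W) * u⁻¹) = a * (b * (u * a * u⁻¹)) * (u * b * u⁻¹) := by
          simp only [coe_mul]; group
      _ = _ := by rw [← this]; group
  have h1 : φ.range ≤ W ⊓ 𝐂[u] := by
    rintro _ ⟨a, rfl⟩
    refine ⟨mul_mem a.2 (cj a a.2), mem_cent1.2 ?_⟩
    change a * (u * a * u⁻¹) * u = u * (a * (u * a * u⁻¹))
    calc a * (u * a * u⁻¹) * u = u * a * u⁻¹ * (a * (u * u)) * u⁻¹ := by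
          rw [cm _ a.2 _ (cj a a.2)]; group
      _ = _ := by rw [h2 a a.2]; group
  have h3 : φ.ker.map W.subtype ≤ W ⊓ 𝐂[u] := by
    rintro _ ⟨a, ha, rfl⟩
    refine ⟨a.2, mem_cent1.2 ?_⟩
    have : u * a * u⁻¹ = a := mul_left_cancel ((show (a : G) * (u * a * u⁻¹) = 1 from ha).trans
      (sq a a.2).symm)
    exact (mul_inv_eq_iff_eq_mul.1 this).symm
  have h4 := card_le_of_le h3
  rw [card_map_subtype] at h4
  rw [← φ.ker.card_mul_index, index_ker]
  exact Nat.mul_le_mul h4 (card_le_of_le h1)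

/-- a dihedral group acting faithfully on an elementary abelian `2`-group of order `r + 1` -/
theorem eq_three_of_inverts {W : Subgroup G} (hW : IsElementaryAbelian 2 W) {u x : G} {r : ℕ}
    (hr : r.Prime) (hc : Nat.card W = r + 1) (hu : u ∈ 𝐍(W)) (hx : x ∈ 𝐍(W))
    (h2 : u * u ∈ 𝐂(W)) (hi : u * x * u⁻¹ = x⁻¹) (hd : W ⊓ 𝐂[x] = ⊥) : r = 3 := by
  haveI := hW.1
  have h1 := card_le_sq hW hu h2
  have h3 := card_le_sq hW (mul_mem hu hx) (by
    have : u * x * (u * x) = x⁻¹ * (u * u) * x⁻¹⁻¹ := by rw [inv_inv, ← hi]; group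
    rw [this]
    exact conj_mem_of_mem_normalizer (normalizer_le_normalizer_centralizer W (inv_mem hx)) h2)
  have h4 := card_sup_of_disjoint_of_le_normalizer (H := W ⊓ 𝐂[u]) (N := W ⊓ 𝐂[u * x])
    (le_normalizer_of_le_centralizer (inf_le_left.trans ((comm_iff_le_cent.1 hW.1).trans
      (centralizer_anti inf_le_left))))
    (disjoint_iff.2 (eq_bot_iff.2 fun g hg => hd.le ⟨hg.1.1,
      (𝐂[g].mul_mem_cancel_left (mem_cent1_comm.1 hg.1.2)).1 (mem_cent1_comm.1 hg.2.2) |>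
        mem_cent1_comm.1⟩))
  have h5 := card_le_of_le (sup_le inf_le_left inf_le_left : W ⊓ 𝐂[u] ⊔ W ⊓ 𝐂[u * x] ≤ W)
  rw [h4] at h5
  generalize Nat.card ↥(W ⊓ 𝐂[u]) = m at *
  generalize Nat.card ↥(W ⊓ 𝐂[u * x]) = n at *
  have h6 : m * m = r + 1 := by
    rcases le_total m n with h | h <;> nlinarith
  obtain ⟨k, rfl⟩ : ∃ k, m = k + 1 := ⟨m - 1, by rcases m with _ | m <;> simp at h6 ⊢⟩
  have h7 : r = k * (k + 2) := by nlinarith
  obtain ⟨-, h⟩ | ⟨-, h⟩ := Nat.prime_mul_iff.1 (h7 ▸ hr)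
  · omega
  · rw [h7, h]

end General

/-- The data on the simple quotient. -/
structure Nice (Q : Type u) [Group Q] (A : Subgroup Q) (t : Q) : Prop where
  hyp : Hyp Q
  gen : Gen A t
  two : IsPGroup 2 A
  typ : (𝐂[t] = A ∧ (∀ a ∈ A, a * a = 1) ∧ 4 ≤ Nat.card A ∧ (Nat.card A = 4 → Nat.card Q = 60)) ∨
    ∃ s, Dih A t s

namespace Nice

variable {Q : Type u} [Group Q] [Finite Q] {A : Subgroup Q} {t : Q} (q : Nice Q A t)
include q

theorem exists_four : ∃ w ∈ 𝐂[t], w * w = 1 ∧ w ≠ 1 ∧ w ≠ t := by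
  classical
  rcases q.typ with ⟨h1, h2, h3, -⟩ | ⟨s, d⟩
  · obtain ⟨w, hw, h⟩ := exists_notMem (A := A) {1, t} (Finset.card_le_two.trans_lt (by omega))
    simp only [Finset.mem_insert, Finset.mem_singleton, not_or] at h
    exact ⟨w, h1 ▸ hw, h2 w hw, h⟩
  · exact ⟨s, d.sC, d.ss, fun e => d.sA (e ▸ one_mem _), fun e => d.sA (e ▸ d.tA)⟩

theorem sylow : IsSylowIn 2 𝐂[t] ⊤ := by
  have h2 : IsPGroup 2 𝐂[t] := isPGroup_iff_forall_isPElt.2 fun g hg => by
    by_cases hA : g ∈ A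
    · exact isPElt_of_mem q.two hA
    · exact isPElt_of_pow_eq_one (k := 1) (by rw [pow_one, pow_two, q.gen.out g hg hA])
  obtain ⟨P, hP, hle⟩ := exists_isSylowIn_ge h2 le_top
  have hne : P ≠ ⊥ := fun e => q.gen.t1 (mem_bot.1 (e ▸ hle (mem_cent1.2 rfl)))
  obtain ⟨z, hz, ho⟩ := exists_orderOf_eq Nat.prime_two (dvd_card_of_isPGroup_of_ne_bot
    (hP.isPGroup.to_le inf_le_left)
    (inf_centralizer_ne_bot_of_isPGroup hP.isPGroup hP.isPGroup hne le_normalizer))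
  obtain ⟨g, hg⟩ := isConj_iff.1 (q.gen.conj z (by rw [← pow_two, ← ho, pow_orderOf_eq_one])
    (by rintro rfl; simp at ho))
  refine hP.of_card_ge h2 le_top ?_
  rw [← card_conj_smul g 𝐂[t], conj_smul_centralizer_singleton, hg]
  exact card_le_of_le (le_cent1_iff.2 hz.2)

theorem ap {y : Q} (h1 : y ≠ 1) {p : ℕ} [hp : Fact p.Prime] (h2 : p ≠ 2) (hy : IsPElt p y) :
    Ap A y :=
  ⟨h1, hy.coprime_orderOf (q.two.coprime_card fun h =>
    h2 ((Nat.prime_dvd_prime_iff_eq Nat.prime_two hp.out).1 h).symm).symm⟩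

theorem isConj {u v : Q} (hu : u * u = 1) (hu1 : u ≠ 1) (hv : v * v = 1) (hv1 : v ≠ 1) :
    ∃ g, g * u * g⁻¹ = v :=
  isConj_iff.1 ((q.gen.conj u hu hu1).symm.trans (q.gen.conj v hv hv1))

end Nice

/-- A group with the simple quotient `Q`. -/
structure Ext {G Q : Type u} [Group G] [Group Q] (f : G →* Q) (A : Subgroup Q) (t : Q) : Prop where
  good : Nice Q A t
  surj : Function.Surjective f
  sm : ∀ H : Subgroup G, H ≠ ⊤ → AllSm H

namespace Ext

variable [Tools.{u}] {G Q : Type u} [Group G] [Finite G] [Group Q] [Finite Q] {f : G →* Q}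
  {A : Subgroup Q} {t : Q} (e : Ext f A t)
include e

theorem sm_comap {K : Subgroup Q} (h1 : K ≠ ⊥) [Group.IsSolvable K] : AllSm (𝐍(K).comap f) :=
  e.sm _ fun h => e.good.hyp.norm_ne_top h1 (comap_injective e.surj (h.trans (comap_top f).symm))

theorem map_eq_bot {N : Subgroup G} [N.Normal] (h : N ≠ ⊤) : N ≤ f.ker := by
  haveI := e.good.hyp.simple
  haveI := Tools.solv (e.sm N h)
  refine (map_eq_bot_iff N).1 ((Normal.eq_bot_or_eq_top (Normal.map ‹_› f e.surj)).resolve_right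
    fun h' => e.good.hyp.ns ?_)
  haveI : Group.IsSolvable (⊤ : Subgroup Q) := h' ▸ isSolvable_map N f
  exact isSolvable_of_mulEquiv topEquiv

theorem perfect : commutator G = ⊤ := by
  by_contra h
  have h1 := (Subgroup.map_eq_bot_iff _).2 (e.map_eq_bot h)
  rw [map_commutator_eq, MonoidHom.range_eq_top.2 e.surj, ← commutator_def,
    e.good.hyp.perfect] at h1
  haveI := e.good.hyp.simple
  exact top_ne_bot h1

variable {V : Subgroup G} (hV : IsMinNormal V) (hle : V ≤ f.ker) (hZ : ¬ V ≤ center G)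
include hV hle hZ

theorem cent_le : 𝐂(V) ≤ f.ker := by
  haveI := hV.normal
  exact e.map_eq_bot fun h => hZ (centralizer_eq_top_iff_subset.1 h)

theorem odd_act {p r : ℕ} [hp : Fact p.Prime] [hr : Fact r.Prime] (hVp : IsElementaryAbelian p V)
    (h2 : r ≠ 2) (hrp : r ≠ p) {x : G} (hx : IsPElt r x) (h1 : f x ≠ 1) :
    (p = 2 ∧ IsElementaryAbelian 2 ⁅V, zpowers x⁆ ∧ Nat.card ↥⁅V, zpowers x⁆ = r + 1) ∨
      (r = 3 ∧ (p = 2 ∨ p = 7)) := by
  haveI := hV.normal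
  haveI : Group.IsSolvable (zpowers (f x)) := isSolvable_of_isMulCommutative
  have hP := IsElementaryAbelian.isPGroup' hVp
  have key : ∀ s, s.Prime → s ∣ Nat.card ↥⁅V, zpowers x⁆ → p = s := fun s hs hd =>
    ((isPGroup_iff_isPiNat.1 (hP.to_le (commutator_le_left _ _))) s hs hd).symm
  rcases Tools.odd (e.sm_comap (zpowers_ne_bot.2 h1)) (hle.trans (ker_le_comap f _))
    (le_normalizer (mem_zpowers (f x))) h2 hx
    (fun h => hrp ((isPGroup_iff_isPiNat.1 hP) r hr.out h)) (by simp [normalizer_eq_top])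
    (fun h => h1 (e.cent_le hV hle hZ h)) with ⟨h3, h4⟩ | ⟨h3, ⟨φ⟩⟩ | ⟨h3, h4⟩
  · exact .inl ⟨key 2 Nat.prime_two (h4 ▸ (hr.out.eq_two_or_odd'.resolve_left h2).add_one.two_dvd),
      h3, h4⟩
  · exact .inr ⟨h3, .inl (key 2 Nat.prime_two (by
      rw [Nat.card_congr φ.toEquiv, Nat.card_eq_fintype_card, QuaternionGroup.card]; norm_num))⟩
  · exact .inr ⟨h3, .inr (key 7 (by norm_num) h4.symm.dvd)⟩

theorem not_sixty {p : ℕ} [hp : Fact p.Prime] (hVp : IsElementaryAbelian p V) :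
    Nat.card Q ≠ 60 := fun h => by
  haveI := Nat.fact_prime_three
  haveI := Fact.mk Nat.prime_five
  have key : ∀ r, [Fact r.Prime] → r ∣ 60 → ∃ x : G, IsPElt r x ∧ f x ≠ 1 := fun r hr hd => by
    obtain ⟨y, hy⟩ := exists_prime_orderOf_dvd_card' (G := Q) r (h ▸ hd)
    obtain ⟨x, hx, rfl⟩ := IsPElt.exists_lift e.surj (p := r) ⟨1, by rw [hy, pow_one]⟩
    exact ⟨x, hx, fun e => hr.out.one_lt.ne (by rw [← hy, e, orderOf_one])⟩
  by_cases h5 : p = 5
  · obtain ⟨x, hx, h1⟩ := key 3 (by norm_num)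
    rcases e.odd_act hV hle hZ hVp (by norm_num) (by omega) hx h1 with k | k <;> omega
  · obtain ⟨x, hx, h1⟩ := key 5 (by norm_num)
    rcases e.odd_act hV hle hZ hVp (by norm_num) (Ne.symm h5) hx h1 with ⟨-, k, k'⟩ | k
    · exact absurd ((isPGroup_iff_isPiNat.1 (IsElementaryAbelian.isPGroup' k)) 3 Nat.prime_three
        (k' ▸ by norm_num)) (by norm_num)
    · omega

theorem noncentral_odd {p : ℕ} [hp : Fact p.Prime] (hVp : IsElementaryAbelian p V) (h2 : p ≠ 2)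
    (hk : f.ker ≤ V) : False := by
  haveI := hV.normal
  haveI := hVp.1
  have hP := IsElementaryAbelian.isPGroup' hVp
  have hodd : ¬ 2 ∣ Nat.card V := fun h =>
    h2 ((isPGroup_iff_isPiNat.1 hP) 2 Nat.prime_two h).symm
  have q := e.good
  obtain ⟨w, hw, hww, hw1, hwt⟩ := q.exists_four
  have hW : ElemN 2 2 (zpowers t ⊔ zpowers w) ⊤ :=
    (elemN_one_zpowers (mem_top t) q.gen.t1 (by rw [pow_two, q.gen.tt])).sup_zpowers (mem_top w)
      (centralizer_zpowers t ▸ hw) (by rw [pow_two, hww]) fun h =>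
        ((mem_zpowers_inv q.gen.tt).1 h).elim hw1 hwt
  generalize zpowers t ⊔ zpowers w = W0 at hW
  obtain ⟨W, hWs, hWm⟩ := IsSylowIn.exists_map_eq (f := f) (H := W0.comap f)
    (by rw [map_comap_eq_self_of_surjective e.surj]; exact isSylowIn_self hW.isPGroup)
  have hact : CoprimeAct W V := coprimeAct_of_isPGroup_left (by simp [normalizer_eq_top])
    hWs.isPGroup hodd
  have hinj : ∀ a ∈ W, f a = 1 → a = 1 := fun a ha h =>
    mem_bot.1 (hact.disjoint.le_bot ⟨hk h, ha⟩)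
  have hmem : ∀ a ∈ W, f a ∈ W0 := fun a ha => hWm ▸ mem_map_of_mem f ha
  have hsq : ∀ a ∈ W, a ^ 2 = 1 := fun a ha =>
    hinj _ (pow_mem ha 2) (by rw [map_pow, hW.elem.2 _ (hmem a ha)])
  have hW' : ElemN 2 2 W ⊤ := ⟨le_top, ⟨isMulCommutative_iff_forall.2 fun a ha b hb => by
      rw [← mul_inv_eq_one]
      refine hinj _ (mul_mem (mul_mem ha hb) (inv_mem (mul_mem hb ha))) ?_
      rw [map_mul, map_inv, map_mul, map_mul,
        isMulCommutative_iff_forall.1 hW.comm _ (hmem a ha) _ (hmem b hb), mul_inv_cancel], hsq⟩, by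
    have := card_map_mul_card_inf_ker f W
    rw [hWm, hW.card, show f.ker ⊓ W = ⊥ from eq_bot_iff.2 fun a ha => hinj a ha.2 ha.1,
      card_bot, mul_one] at this
    exact this.symm⟩
  haveI := IsPGroup.isSolvable' hW.isPGroup
  obtain ⟨a, ha, b, hb, ha1, hb1, hab, h3, -, h0, -⟩ := Tools.four
    (e.sm_comap (hW.ne_bot (by norm_num))) (hle.trans (ker_le_comap f _))
    (hWs.le.trans (comap_mono le_normalizer)) hW' hodd hact.norm
    (eq_bot_iff.2 fun a ha => hinj a ha.1 (e.cent_le hV hle hZ ha.2))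
  have hab' := mul_mem ha hb
  have sq : ∀ a ∈ W, f a * f a = 1 := fun a ha => by rw [← map_mul, ← pow_two, hsq a ha, map_one]
  obtain ⟨g, hg⟩ := q.isConj (sq a ha) (fun h => ha1 (hinj a ha h)) (sq _ hab') fun h =>
    hab (mul_left_cancel ((by rw [← pow_two, hsq a ha] : a * a = 1).trans (hinj _ hab' h).symm))
  obtain ⟨g, rfl⟩ := e.surj g
  have hm : (a * b)⁻¹ * (g * a * g⁻¹) ∈ V := hk (by
    rw [MonoidHom.mem_ker, map_mul, map_inv, ← hg, map_mul, map_mul, map_inv, inv_mul_cancel])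
  have e1 : MulAut.conj g • (V ⊓ 𝐂[a]) = V ⊓ 𝐂[a * b] := by
    rw [conj_smul_inf, conj_smul_of_normal, conj_smul_centralizer_singleton]
    ext v
    simp only [mem_inf]
    refine and_congr_right fun hv => ?_
    rw [mem_cent1_comm, mem_cent1_comm (x := a * b), ← 𝐂[v].inv_mem_iff (x := a * b)]
    have hc : (a * b)⁻¹ * (g * a * g⁻¹) ∈ 𝐂[v] := cent_le_cent1 hv (comm_iff_le_cent.1 hVp.1 hm)
    exact ⟨fun h => (𝐂[v].mul_mem_cancel_right h).1 hc, fun h => (𝐂[v].mul_mem_cancel_left h).1 hc⟩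
  have e2 : V ⊓ 𝐂[a * b] ≤ 𝐂(W) := fun v hv => by
    obtain ⟨x, hx, c, hc, rfl⟩ := hact.exists_commutator_mul_centralizer hv.1
    have : x ∈ ⁅V, W⁆ ⊓ 𝐂[a * b] :=
      ⟨hx, (𝐂[a * b].mul_mem_cancel_right (cent_le_cent1 hab' hc.2)).1 hv.2⟩
    rw [mem_bot.1 (h0.le this), one_mul]
    exact hc.2
  have e3 : V ⊓ 𝐂[a * b] = V ⊓ 𝐂[a] := eq_of_le_of_card_ge
    (le_inf inf_le_left (e2.trans (cent_le_cent1 ha))) (by rw [← e1, card_conj_smul])
  have e4 : ⁅V, W⁆ ⊓ 𝐂[a] = ⊥ := eq_bot_iff.2 fun v hv =>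
    hact.disjoint_commutator_centralizer.le_bot ⟨hv.1, e2 (e3.ge ⟨hact.commutator_le hv.1, hv.2⟩)⟩
  rw [e4, card_bot] at h3
  omega

theorem noncentral_two (hVp : IsElementaryAbelian 2 V) (hk : f.ker ≤ V) : False := by
  haveI := hV.normal
  haveI := hVp.1
  haveI := Nat.fact_prime_three
  have hP := IsElementaryAbelian.isPGroup' hVp
  have q := e.good
  obtain ⟨r, hr, hd, h2, h3⟩ : ∃ r, r.Prime ∧ r ∣ Nat.card Q ∧ r ≠ 2 ∧ r ≠ 3 := by
    by_contra! hc
    exact q.hyp.ns (CT.isSolvable_of_two_primes Nat.prime_two Nat.prime_three Q fun r hr hd =>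
      or_iff_not_imp_left.2 (hc r hr hd))
  haveI := Fact.mk hr
  obtain ⟨y, hy⟩ := exists_prime_orderOf_dvd_card' r hd
  have hyr : IsPElt r y := ⟨1, by rw [hy, pow_one]⟩
  have h1 : y ≠ 1 := fun e => hr.one_lt.ne (by rw [← hy, e, orderOf_one])
  obtain ⟨x, hx, rfl⟩ := IsPElt.exists_lift e.surj hyr
  have hrV : ¬ r ∣ Nat.card V := fun h => h2 ((isPGroup_iff_isPiNat.1 hP) r hr h)
  have hact : CoprimeAct (zpowers x) V := coprimeAct_of_isPGroup_left (by simp [normalizer_eq_top])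
    hx.isPGroup_zpowers hrV
  have hinj : ∀ a ∈ zpowers x, f a = 1 → a = 1 := fun a ha h =>
    mem_bot.1 (hact.disjoint.le_bot ⟨hk h, ha⟩)
  obtain ⟨-, hW, hc⟩ := (e.odd_act hV hle hZ hVp h2 h2 hx h1).resolve_right fun h => h3 h.1
  have hN : ∀ s ∈ 𝐍(zpowers (f x)), ∃ u ∈ 𝐍(zpowers x), f u = s := fun s hs => by
    rw [← MonoidHom.map_zpowers, normalizer_map_of_coprimeAct e.surj (le_antisymm hle hk ▸ hact)]
      at hs
    exact hs
  have hNW : 𝐍(zpowers x) ≤ 𝐍(⁅V, zpowers x⁆) :=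
    le_normalizer_commutator (by simp [normalizer_eq_top]) le_rfl
  have hbot : ⁅V, zpowers x⁆ ⊓ 𝐂[x] = ⊥ :=
    centralizer_zpowers x ▸ hact.disjoint_commutator_centralizer.eq_bot
  have hxN : x ∈ 𝐍(zpowers x) := le_normalizer (mem_zpowers x)
  by_cases hre : Re (f x)
  · obtain ⟨s, hs, -, hi⟩ := hre
    obtain ⟨u, hu, rfl⟩ := hN s (mem_normalizer_of_conj_mem fun z hz => by
      obtain ⟨n, rfl⟩ := mem_zpowers_iff.1 hz
      rw [← conj_zpow, hi]
      exact zpow_mem (inv_mem (mem_zpowers _)) n)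
    refine h3 (eq_three_of_inverts hW hr hc (hNW hu) (hNW hxN) (centralizer_anti hact.commutator_le
      (comm_iff_le_cent.1 hVp.1 (hk (by rw [MonoidHom.mem_ker, map_mul, hs])))) ?_ hbot)
    rw [eq_inv_iff_mul_eq_one]
    exact hinj _ (mul_mem (conj_mem_of_mem_normalizer hu (mem_zpowers x)) (mem_zpowers x))
      (by rw [map_mul, map_mul, map_mul, map_inv, hi, inv_mul_cancel])
  obtain ⟨h7, -, -, s, hs, hs3, hsc⟩ := q.gen.seven q.hyp (q.ap h1 h2 hyr) hre
  obtain rfl : r = 7 := hy ▸ h7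
  obtain ⟨u0, hu0, rfl⟩ := hN s hs
  have hu : pPart 3 u0 ∈ 𝐍(zpowers x) := pPart_mem 3 hu0
  have hfu : f (pPart 3 u0) = f u0 := by
    rw [map_pPart, (isPElt_of_pow_eq_one (k := 1) (by rw [pow_one, hs3])).pPart_eq]
  have hu3 := isPElt_pPart 3 u0
  generalize pPart 3 u0 = u at hu hfu hu3
  have hK : zpowers u ⊔ zpowers x ≤ 𝐍(zpowers x) := sup_le (zpowers_le.2 hu) le_normalizer
  haveI : Group.IsSolvable (zpowers (f x)) := isSolvable_of_isMulCommutative
  have h8 := Tools.eight (e.sm_comap (zpowers_ne_bot.2 h1))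
    (hact.commutator_le.trans (hle.trans (ker_le_comap f _)))
    (hK.trans fun g hg => MonoidHom.map_zpowers f x ▸ map_normalizer_le _ f (mem_map_of_mem f hg))
    ⟨le_top, hW, hc⟩ (fun h => ?_) (hK.trans hNW)
  · have hm : ⁅u, x⁆ ∈ zpowers x :=
      mul_mem (conj_mem_of_mem_normalizer hu (mem_zpowers x)) (inv_mem (mem_zpowers x))
    have ho : orderOf x = 7 := orderOf_eq_prime (hinj _ (pow_mem (mem_zpowers x) 7)
      (by rw [map_pow, ← hy, pow_orderOf_eq_one])) fun e => h1 (by rw [e, map_one])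
    have hz := zpowers_eq_of_card_prime (by rw [Nat.card_zpowers, ho]; norm_num) hm fun h =>
      hsc (mem_cent1.2 (by rw [← hfu, ← map_mul, ← map_mul, commutatorElement_eq_one_iff_mul_comm.1 h]))
    have h9 : zpowers x ≤ 𝐂(⁅V, zpowers x⁆) := hz.ge.trans (zpowers_le.2 (h8 (commutator_mem_commutator
      (mem_sup_left (mem_zpowers u)) (mem_sup_right (mem_zpowers x)))))
    rw [← inf_eq_left.2 (le_cent1_iff.2 (h9 (mem_zpowers x))), hbot, card_bot] at hc
    omega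
  · rcases (Nat.Prime.dvd_mul Nat.prime_two).1
      (h.trans (card_sup_dvd_of_le_normalizer (zpowers_le.2 hu))) with h | h
    · exact absurd ((isPGroup_iff_isPiNat.1 hu3.isPGroup_zpowers) 2 Nat.prime_two h) (by norm_num)
    · exact absurd ((isPGroup_iff_isPiNat.1 hx.isPGroup_zpowers) 2 Nat.prime_two h) (by norm_num)

end Ext

end SAD
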