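import Cfsg.Agent.Lib.Char.SadB
import Cfsg.Agent.Lib.Char.SadD

/-!
# Small average degrees: central chief factors below the simple quotient
-/

set_option autoImplicit false
set_option linter.unusedSectionVars false

namespace SAD

open Cfsg GT FT Subgroup
open scoped Pointwise commutatorElement

universe u

section General

variable {G : Type*} [Group G] [Finite G] {A : Subgroup G} {t s : G}

theorem Dih.exists_swap (d : Dih A t s) (h2 : IsPGroup 2 A) {w : G} (hw : w ∈ 𝐂[t])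
    (hA : w ∉ A) : ∃ σ, σ * σ = 1 ∧ σ * t * σ⁻¹ = t ∧ σ * w * σ⁻¹ = t * w := by
  classical
  obtain ⟨x, hx, h⟩ := exists_notMem (A := A) {1, t}
    (Finset.card_le_two.trans_lt (by have := d.four; omega))
  simp only [Finset.mem_insert, Finset.mem_singleton, not_or] at h
  have hxx : x * x ≠ 1 := fun e => (d.uniq x hx e).elim h.1 h.2
  have h4 : 4 ∣ orderOf x := by
    obtain ⟨k, hk⟩ := isPElt_of_mem h2 hx
    rcases k with _ | _ | k
    · exact absurd (orderOf_eq_one_iff.1 hk) h.1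
    · exact absurd (by rw [← pow_two]; exact orderOf_dvd_iff_pow_eq_one.1 hk.dvd) hxx
    · exact ⟨2 ^ k, by rw [hk]; ring⟩
  have ho := orderOf_pow_orderOf_div (orderOf_pos x).ne' h4
  have hc := pow_mem hx (orderOf x / 4)
  generalize x ^ (orderOf x / 4) = c at ho hc
  have hcc : c * c = t := (d.uniq _ (mul_mem hc hc) (by
    rw [← pow_two, ← pow_two, ← pow_mul]
    exact orderOf_dvd_iff_pow_eq_one.1 ho.dvd)).resolve_left fun e =>
      absurd (ho ▸ orderOf_dvd_of_pow_eq_one (by rw [pow_two, e] : c ^ 2 = 1)) (by norm_num)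
  have h1 := d.conj_out hw hA hc
  have h3 := d.out hw hA
  refine ⟨c * w, ?_, mul_inv_eq_iff_eq_mul.2 (mem_cent1.1 (mul_mem (d.le hc) hw)), ?_⟩
  · calc c * w * (c * w) = c * (w * c * w⁻¹) * (w * w) := by group
      _ = 1 := by rw [h1, h3]; group
  · calc c * w * w * (c * w)⁻¹ = c * (w * c * w⁻¹)⁻¹ * w := by group
      _ = t * w := by rw [h1, inv_inv, hcc]

theorem Dih.mem_four (d : Dih A t s) {g : G} :
    g ∈ 𝐂[t] ⊓ 𝐂[s] ↔ g = 1 ∨ g = t ∨ g = s ∨ g = t * s := by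
  have key : ∀ a ∈ A, a ∈ 𝐂[s] → a = 1 ∨ a = t := fun a ha h => d.uniq a ha (by
    have := d.inv a ha
    rw [← mem_cent1.1 h, mul_inv_cancel_right] at this
    exact mul_eq_one_iff_eq_inv.2 this)
  have ht : t ∈ 𝐂[t] ⊓ 𝐂[s] := ⟨mem_cent1.2 rfl, mem_cent1_comm.1 d.sC⟩
  have hs : s ∈ 𝐂[t] ⊓ 𝐂[s] := ⟨d.sC, mem_cent1.2 rfl⟩
  refine ⟨fun hg => ?_, by
    rintro (rfl | rfl | rfl | rfl)
    exacts [one_mem _, ht, hs, mul_mem ht hs]⟩
  by_cases hA : g ∈ A
  · exact (key g hA hg.2).imp_right .inl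
  · have e : g = g * s * s := by rw [mul_assoc, d.ss, mul_one]
    rcases key _ (d.mul_s hg.1 hA) (mul_mem hg hs).2 with h | h
    · exact .inr (.inr (.inl (by rw [e, h, one_mul])))
    · exact .inr (.inr (.inr (by rw [e, h])))

/-- the four-groups are normalized by a symmetric group of degree three -/
theorem Dih.exists_sym (d : Dih A t s) (h2 : IsPGroup 2 A) : ∃ a b, a * a = 1 ∧ a ≠ 1 ∧
    b * b = 1 ∧ b ≠ 1 ∧ a ∈ 𝐍(𝐂[t] ⊓ 𝐂[s]) ∧ b ∈ 𝐍(𝐂[t] ⊓ 𝐂[s]) ∧ (a * b) ^ 3 = 1 ∧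
      a * b ∉ 𝐂[t] := by
  have s1 : s ≠ 1 := fun e => d.sA (e ▸ one_mem _)
  have st : s ≠ t := fun e => d.sA (e ▸ d.tA)
  have ts : t * s = s * t := (mem_cent1.1 d.sC).symm
  obtain ⟨a, ha, hat, has⟩ := d.exists_swap h2 d.sC d.sA
  obtain ⟨B, r, d', hB⟩ := d.exists_dih d.ss s1
  obtain ⟨n, hn⟩ := IsPGroup.iff_card.1 h2
  obtain ⟨b, hb, hbs, hbt⟩ := d'.exists_swap (IsPGroup.of_card (hB.trans hn))
    (mem_cent1_comm.1 d.sC) fun h => (d'.uniq t h d.tt).elim d.t1 st.symm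
  have e1 : t * s * t = s := by rw [ts, mul_assoc, d.tt, mul_one]
  have e2 : t * (t * s) = s := by rw [← mul_assoc, d.tt, one_mul]
  have e3 : s * t * s = t := by rw [← ts, mul_assoc, d.ss, mul_one]
  have x1 : a * b * t * (a * b)⁻¹ = s := by
    calc _ = a * (b * t * b⁻¹) * a⁻¹ := by group
      _ = s := by rw [hbt, ← conj_mul, has, hat, e1]
  have x2 : a * b * s * (a * b)⁻¹ = t * s := by
    calc _ = a * (b * s * b⁻¹) * a⁻¹ := by group
      _ = _ := by rw [hbs, has]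
  have x3 : a * b * (t * s) * (a * b)⁻¹ = t := by rw [← conj_mul, x1, x2, ← mul_assoc, e3]
  have hx : a * b ∉ 𝐂[t] := fun h => st (by rw [← x1, mem_cent1.1 h, mul_inv_cancel_right])
  refine ⟨a, b, ha, ?_, hb, ?_, mem_normalizer_of_conj_mem fun g hg => d.mem_four.2 ?_,
    mem_normalizer_of_conj_mem fun g hg => d.mem_four.2 ?_, ?_, hx⟩
  · rintro rfl
    exact d.t1 (by simpa using has)
  · rintro rfl
    exact s1 (by simpa using hbt)
  · rcases d.mem_four.1 hg with rfl | rfl | rfl | rfl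
    · simp
    · simp [hat]
    · simp [has]
    · rw [← conj_mul, hat, has, e2]; simp
  · rcases d.mem_four.1 hg with rfl | rfl | rfl | rfl
    · simp
    · simp [hbt, ts]
    · simp [hbs]
    · rw [← conj_mul, hbt, hbs, e3]; simp
  generalize a * b = x at x1 x2 x3
  have c : ∀ g, x ^ 3 * g * (x ^ 3)⁻¹ = x * (x * (x * g * x⁻¹) * x⁻¹) * x⁻¹ := fun g => by
    simp only [pow_succ, pow_zero, one_mul, mul_inv_rev, mul_assoc]
  have c' : x * x ^ 3 * x⁻¹ = x ^ 3 := by group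
  rcases d.mem_four.1 (show x ^ 3 ∈ _ from ⟨mem_cent1.2 (mul_inv_eq_iff_eq_mul.1
    (by rw [c, x1, x2, x3])), mem_cent1.2 (mul_inv_eq_iff_eq_mul.1 (by rw [c, x2, x3, x1]))⟩) with
    h | h | h | h
  · exact h
  · rw [h, x1] at c'; exact absurd c' st
  · rw [h, x2] at c'; exact absurd (by simpa using c') d.t1
  · rw [h, x3] at c'; exact absurd (by simpa using c') s1

theorem anticomm {x y v : G} (hv : v ∈ center G) (hvv : v * v = 1) (hx : x * x = v)
    (hy : y * y = v) (hxy : x * y * (x * y) = v) : x * y = v * (y * x) := by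
  have c := fun g => mem_center_iff.1 hv g
  calc x * y = x * (x * x)⁻¹ * (x * x) * (y * y) * (y * y)⁻¹ * y := by group
    _ = x⁻¹ * (v * v) * y⁻¹ := by
        rw [show x * (x * x)⁻¹ = x⁻¹ by group, mul_assoc _ _ y,
          show (y * y)⁻¹ * y = y⁻¹ by group, hx, hy, mul_assoc x⁻¹]
    _ = x⁻¹ * v * (x * y * (x * y)) * y⁻¹ := by rw [hxy]; group
    _ = _ := by rw [c]; group

end General

/-- the quotient is `A₅` -/
def Five {Q : Type*} [Group Q] (t : Q) : Prop :=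
  (∀ v ∈ 𝐂[t], v * v = 1) ∧ Nat.card 𝐂[t] = 4 ∧ Nat.card Q = 60

namespace Ext

variable [Tools.{u}] {G Q : Type u} [Group G] [Finite G] [Group Q] [Finite Q] {f : G →* Q}
  {A : Subgroup Q} {t : Q} (e : Ext f A t)
include e

theorem mem_der {p : ℕ} [Fact p.Prime] {P : Subgroup G} (hP : IsSylowIn p P ⊤) {v : G}
    (hv : v ∈ center G) (hvP : v ∈ P) : v ∈ ⁅P, P⁆ :=
  hP.mem_commutator_of_mem_center hv hvP (e.perfect ▸ mem_top v)

theorem central_odd {p : ℕ} [hp : Fact p.Prime] (h2 : p ≠ 2) (hk : IsPGroup p f.ker)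
    (hZ : f.ker ≤ center G) : f.ker = ⊥ := by
  have q := e.good
  obtain ⟨P0, hP0⟩ := exists_isSylowIn p (⊤ : Subgroup Q)
  have hP := hP0.comap_of_isPGroup_ker e.surj hk
  rw [comap_top] at hP
  suffices h : IsMulCommutative (P0.comap f) by
    refine eq_bot_iff.2 fun v hv => ?_
    rw [← commutator_self_eq_bot_iff.2 h]
    exact e.mem_der hP (hZ hv) (ker_le_comap f _ hv)
  have key : ∀ U : Subgroup G, IsMulCommutative U → P0.comap f ≤ U ⊔ f.ker →
      IsMulCommutative (P0.comap f) := fun U hU h => isMulCommutative_iff_forall.2 fun a ha b hb => by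
    obtain ⟨x, hx, y, hy, rfl⟩ := mem_sup_of_normal_right.1 (h ha)
    obtain ⟨x', hx', y', hy', rfl⟩ := mem_sup_of_normal_right.1 (h hb)
    have c := fun g => mem_center_iff.1 (hZ hy) g
    have c' := fun g => mem_center_iff.1 (hZ hy') g
    calc x * y * (x' * y') = x * x' * (y' * y) := by rw [mul_assoc, ← c]; group
      _ = x' * (x * y * y') := by rw [isMulCommutative_iff_forall.1 hU x hx x' hx', ← c' y]; group
      _ = _ := by rw [c']; group
  by_cases hne : P0 = ⊥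
  · exact key ⊥ inferInstance (by rw [hne, MonoidHom.comap_bot]; exact le_sup_right)
  obtain ⟨⟨y, hy⟩, hy1⟩ := ne_bot_iff_exists_ne_one.1 (inf_centralizer_ne_bot_of_isPGroup
    hP0.isPGroup hP0.isPGroup hne le_normalizer)
  have hyA := q.ap (fun e => hy1 (Subtype.ext e)) h2 (isPElt_of_mem hP0.isPGroup hy.1)
  have hle : P0 ≤ 𝐂[y] := le_cent1_iff.2 hy.2
  by_cases hre : Re y
  swap
  · obtain ⟨-, h, -⟩ := q.gen.seven q.hyp hyA hre
    obtain ⟨x, rfl⟩ := e.surj y
    refine key (zpowers x) inferInstance ?_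
    rw [← comap_map_eq, MonoidHom.map_zpowers]
    exact comap_mono (h ▸ hle)
  obtain ⟨s, hs, hs1, hi⟩ := hre
  have hinv : ∀ b ∈ P0, s * b * s⁻¹ = b⁻¹ := fun b hb =>
    q.gen.inv_of_norm (q.gen.cop hyA) hs hs1 (mem_norm_cent1_of_inv hi) (hle hb)
  obtain ⟨u, hu, rfl⟩ := IsPElt.exists_lift e.surj (p := 2)
    (isPElt_of_pow_eq_one (k := 1) (by rw [pow_one, pow_two, hs]))
  have huu : u * u = 1 := (pow_two u ▸ hu.pow 2).eq_one_of_isPRegular
    ((isPElt_of_mem hk (by rw [MonoidHom.mem_ker, map_mul, hs])).isPRegular_of_ne (Ne.symm h2))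
  have hsN : f u ∈ 𝐍(P0) := mem_normalizer_of_conj_mem fun b hb => hinv b hb ▸ inv_mem hb
  have huN : u ∈ 𝐍(P0.comap f) := le_normalizer_comap f hsN
  have hodd : ¬ 2 ∣ Nat.card (P0.comap f) := fun h =>
    h2 ((isPGroup_iff_isPiNat.1 hP.isPGroup) 2 Nat.prime_two h).symm
  haveI := IsPGroup.isSolvable' hP0.isPGroup
  have hact : CoprimeAct (zpowers u) (P0.comap f) :=
    coprimeAct_of_isPGroup_left (zpowers_le.2 huN) hu.isPGroup_zpowers hodd
  refine key _ (Tools.inv (e.sm_comap hne) (comap_mono le_normalizer) hsN huu hodd huN)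
    (hact.commutator_sup_inf_centralizer.ge.trans (sup_le_sup_left (fun x hx => ?_) _))
  by_contra h1
  exact q.gen.not_comm (q.gen.ap_of_mem hyA (hle hx.1) h1) hs hs1 (by
    rw [← map_mul, ← map_mul, hx.2 u (mem_zpowers u)])

section two

variable {v : G} (hv1 : v ≠ 1) (hk : ∀ g, f g = 1 ↔ g = 1 ∨ g = v) (hZ : v ∈ center G)
include hv1 hk hZ

theorem vv : v * v = 1 := ((hk _).1 (by rw [map_mul, (hk v).2 (.inr rfl), mul_one])).resolve_right
  fun h => hv1 (by simpa using h)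

theorem sq_ker {g : G} (h : f g = 1) : g * g = 1 :=
  ((hk g).1 h).elim (fun e => by rw [e, mul_one]) fun h => h ▸ e.vv hv1 hk hZ

theorem sq_eq {x y : G} (hx : f x * f x = 1) (hx1 : f x ≠ 1) (hy : f y * f y = 1)
    (hy1 : f y ≠ 1) : x * x = y * y := by
  obtain ⟨g, hg⟩ := e.good.isConj hx hx1 hy hy1
  obtain ⟨g, rfl⟩ := e.surj g
  have h1 : x * x ∈ center G := ((hk (x * x)).1 (by rw [map_mul, hx])).elim
    (fun e => e ▸ one_mem _) fun e => e ▸ hZ
  have h2 : g * x * g⁻¹ * (g * x * g⁻¹) = x * x := by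
    rw [conj_mul, mem_center_iff.1 h1, mul_inv_cancel_right]
  rcases (hk ((g * x * g⁻¹)⁻¹ * y)).1 (by
    rw [map_mul, map_inv, map_mul, map_mul, map_inv, hg, inv_mul_cancel]) with h | h
  · rw [← h2, inv_mul_eq_one.1 h]
  · rw [← h2, inv_mul_eq_iff_eq_mul.1 h]
    generalize g * x * g⁻¹ = w
    calc w * w = w * w * (v * v) := by rw [e.vv hv1 hk hZ, mul_one]
      _ = _ := by rw [mul_assoc w v, ← mem_center_iff.1 hZ (w * v)]; group

theorem sylow_two : IsSylowIn 2 (𝐂[t].comap f) ⊤ :=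
  comap_top f ▸ e.good.sylow.comap_of_isPGroup_ker e.surj (isPGroup_iff_forall_isPElt.2 fun g hg =>
    isPElt_of_pow_eq_one (k := 1) (by rw [pow_one, pow_two, e.sq_ker hv1 hk hZ hg]))

theorem sq_eq_v {x : G} (hx : f x * f x = 1) (hx1 : f x ≠ 1) : x * x = v := by
  refine ((hk _).1 (by rw [map_mul, hx])).resolve_left fun h => ?_
  have all : ∀ y, f y * f y = 1 → y * y = 1 := fun y hy => by
    by_cases h1 : f y = 1
    exacts [e.sq_ker hv1 hk hZ h1, (e.sq_eq hv1 hk hZ hy h1 hx hx1).trans h]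
  have hv := e.mem_der (e.sylow_two hv1 hk hZ) hZ
    (ker_le_comap f _ ((hk v).2 (.inr rfl)))
  rcases e.good.typ with ⟨h1, h2, -⟩ | ⟨s, d⟩
  · rw [commutator_self_eq_bot_iff.2 (isMulCommutative_of_conj_eq_inv (x := 1) fun n hn => by
      rw [one_mul, inv_one, mul_one, eq_inv_iff_mul_eq_one]
      exact all n (h2 _ (h1 ▸ hn)))] at hv
    exact hv1 (mem_bot.1 hv)
  have out : ∀ y, f y ∈ 𝐂[t] → f y ∉ A → ∀ a, f a ∈ A → y * a * y⁻¹ = a⁻¹ := fun y hy hA a ha => by
    have h1 := all y (d.out hy hA)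
    have h2 := all (y * a) (d.out (by rw [map_mul]; exact mul_mem hy (d.le ha))
      (by rw [map_mul, A.mul_mem_cancel_right ha]; exact hA))
    rw [inv_eq_of_mul_eq_one_right h1, eq_inv_iff_mul_eq_one, ← h2, mul_assoc]
  obtain ⟨s, rfl⟩ := e.surj s
  have cm := isMulCommutative_iff_forall.1
    (isMulCommutative_of_conj_eq_inv (N := A.comap f) (out s d.sC d.sA))
  let R : Subgroup G :=
    { carrier := {g | ∃ a, f a ∈ A ∧ g = a * a}
      one_mem' := ⟨1, by simp, by simp⟩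
      mul_mem' := by
        rintro _ _ ⟨a, ha, rfl⟩ ⟨b, hb, rfl⟩
        exact ⟨a * b, map_mul f a b ▸ mul_mem ha hb, by
          rw [mul_assoc a b, ← mul_assoc b, ← cm a ha b hb]; group⟩
      inv_mem' := by
        rintro _ ⟨a, ha, rfl⟩
        exact ⟨a⁻¹, map_inv f a ▸ inv_mem ha, mul_inv_rev _ _⟩ }
  have hR : ⁅𝐂[t].comap f, 𝐂[t].comap f⁆ ≤ R := commutator_le.2 fun x hx y hy => by
    by_cases hxA : f x ∈ A <;> by_cases hyA : f y ∈ A
    · exact ⟨1, by simp, by rw [commutatorElement_eq_one_iff_mul_comm.2 (cm x hxA y hyA), mul_one]⟩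
    · refine ⟨x, hxA, ?_⟩
      rw [commutatorElement_def, mul_assoc x, mul_assoc x, ← conj_inv, out y hy hyA x hxA, inv_inv]
    · exact ⟨y⁻¹, map_inv f y ▸ inv_mem hyA, by rw [commutatorElement_def, out x hx hxA y hyA]⟩
    · refine ⟨x * y, ?_, ?_⟩
      · have := mul_mem (d.mul_s hx hxA) (inv_mem (d.mul_s (inv_mem hy) (mt A.inv_mem_iff.1 hyA)))
        rw [map_mul]
        convert this using 1
        group
      · rw [commutatorElement_def, inv_eq_of_mul_eq_one_right (all x (d.out hx hxA)),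
          inv_eq_of_mul_eq_one_right (all y (d.out hy hyA)), mul_assoc]
  obtain ⟨a, -, ha⟩ := hR hv
  exact hv1 (ha.trans (all a (by rw [← map_mul, ← ha, (hk v).2 (.inr rfl)])))

theorem central_two : Five t ∧ TwoCover f v 𝐂[t] := by
  classical
  have sq := fun x => e.sq_eq_v hv1 hk hZ (x := x)
  have vv := e.vv hv1 hk hZ
  have q := e.good
  rcases q.typ with ⟨h1, h2, h3, h4⟩ | ⟨s, d⟩
  · have h5 : Nat.card A = 4 := by
      by_contra hne
      obtain ⟨w, hw, hww, hw1, hwt⟩ := q.exists_four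
      obtain ⟨z, hz, h⟩ := exists_notMem (A := A) {1, t, w, w * t}
        (Finset.card_le_four.trans_lt (by omega))
      simp only [Finset.mem_insert, Finset.mem_singleton, not_or] at h
      rw [h1] at hw
      have ht := q.gen.tA
      have inv : ∀ {x y : Q}, x ∈ A → x * y = 1 → y = x := fun hx h =>
        mul_left_cancel (h.trans (h2 _ hx).symm)
      obtain ⟨a, rfl⟩ := e.surj t
      obtain ⟨b, rfl⟩ := e.surj w
      obtain ⟨c, rfl⟩ := e.surj z
      have anti : ∀ y, f y ∈ A → f y ≠ 1 → f y ≠ f a → a * y = v * (y * a) := fun y hy k1 k2 =>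
        anticomm hZ vv (sq a q.gen.tt q.gen.t1) (sq y (h2 _ hy) k1) (sq _
          (h2 _ (map_mul f a y ▸ mul_mem ht hy)) fun k => k2 (inv ht (map_mul f a y ▸ k)))
      have k1 := anti b hw hw1 hwt
      have k2 := anti c hz h.1 h.2.1
      have k3 := anti (b * c) (map_mul f b c ▸ mul_mem hw hz)
        (fun k => h.2.2.1 (inv hw (map_mul f b c ▸ k))) fun k => h.2.2.2 (by
          rw [← k, map_mul, ← mul_assoc, hww, one_mul])
      rw [← mul_assoc, k1, mul_assoc, mul_right_inj, mul_assoc, k2, mul_assoc, mul_right_inj] at k3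
      exact hv1 (by simpa using k3)
    exact ⟨⟨fun w hw => h2 w (h1 ▸ hw), h1 ▸ h5, h4 h5⟩, e.surj, hk, hv1, vv, hZ,
      fun x hx h => sq x (h2 _ (h1 ▸ hx)) h⟩
  exfalso
  haveI := Nat.fact_prime_three
  obtain ⟨a, b, ha, ha1, hb, hb1, haN, hbN, h3, hx⟩ := d.exists_sym q.two
  obtain ⟨a, rfl⟩ := e.surj a
  obtain ⟨b, rfl⟩ := e.surj b
  set U0 := 𝐂[t] ⊓ 𝐂[s]
  have hU : IsPGroup 2 (U0.comap f) :=
    (e.sylow_two hv1 hk hZ).isPGroup.to_le (comap_mono inf_le_left)
  haveI := IsPGroup.isSolvable' (q.sylow.isPGroup.to_le (inf_le_left : U0 ≤ _))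
  have htU : t ∈ U0 := d.mem_four.2 (.inr (.inl rfl))
  have hsm := e.sm_comap (K := U0) fun h => d.t1 (mem_bot.1 (h ▸ htU))
  have hi : a * (a * b) * a⁻¹ = (a * b)⁻¹ := by
    rw [← mul_assoc, sq a ha ha1, mul_inv_rev, mul_left_inj, eq_inv_iff_mul_eq_one, mul_assoc,
      sq b hb hb1, vv]
  have h6 := e.sq_ker hv1 hk hZ (g := (a * b) ^ 3) (by rw [map_pow, map_mul, h3])
  have hfx : f ((a * b) ^ 4) = f a * f b := by rw [map_pow, map_mul, pow_succ, h3, one_mul]
  have hx3 : IsPElt 3 ((a * b) ^ 4) := isPElt_of_pow_eq_one (k := 1) (by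
    rw [← pow_mul, show 4 * 3 ^ 1 = (3 + 3) * 2 from rfl, pow_mul, pow_add, h6, one_pow])
  have hi' : a * (a * b) ^ 4 * a⁻¹ = ((a * b) ^ 4)⁻¹ := by rw [← conj_pow, hi, inv_pow]
  generalize (a * b) ^ 4 = x at hfx hx3 hi'
  have hxL : x ∈ 𝐍(U0).comap f := mem_comap.2 (hfx ▸ mul_mem haN hbN)
  have hxN : x ∈ 𝐍(U0.comap f) := le_normalizer_comap f hxL
  have hU3 : ¬ 3 ∣ Nat.card (U0.comap f) := fun h =>
    absurd ((isPGroup_iff_isPiNat.1 hU) 3 Nat.prime_three h) (by norm_num)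
  have hact : CoprimeAct (zpowers x) (U0.comap f) :=
    coprimeAct_of_isPGroup_left (zpowers_le.2 hxN) hx3.isPGroup_zpowers hU3
  have hxC : x ∉ 𝐂(U0.comap f) := fun h => hx (by
    obtain ⟨y, rfl⟩ := e.surj t
    rw [← hfx, mem_cent1, ← map_mul, ← map_mul, h y htU])
  rcases Tools.odd hsm (comap_mono le_normalizer) hxL (by norm_num) hx3 hU3 hxN hxC with
    ⟨h4, h5⟩ | ⟨-, h4⟩ | ⟨-, h4⟩
  · obtain ⟨y, hy, h⟩ := exists_notMem (A := ⁅U0.comap f, zpowers x⁆) {1, v}
      (Finset.card_le_two.trans_lt (by omega))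
    have h7 : y * y = 1 := by rw [← pow_two, h4.2 y hy]
    exact hv1 ((sq y (by rw [← map_mul, h7, map_one]) fun k => h (by simpa using (hk y).1 k)
      ).symm.trans h7)
  · refine Tools.quat hsm (hact.commutator_le.trans (comap_mono le_normalizer)) hxL
      (mem_comap.2 haN) h4 (hact.commutator.norm (mem_zpowers x))
      (normalizer_inf_normalizer_le_normalizer_commutator _ _ ⟨le_normalizer_comap f haN,
        mem_normalizer_of_conj_mem fun z hz => ?_⟩) hx3 (fun h => hxC ?_) hi'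
    · obtain ⟨n, rfl⟩ := mem_zpowers_iff.1 hz
      rw [← conj_zpow, hi']
      exact zpow_mem (inv_mem (mem_zpowers _)) n
    · exact le_cent_comm.1 (hact.le_centralizer_of_commutator_le
        (le_cent_comm.1 (zpowers_le.2 h))) (mem_zpowers x)
  · exact absurd ((isPGroup_iff_isPiNat.1 (hU.to_le hact.commutator_le)) 7 (by norm_num)
      h4.symm.dvd) (by norm_num)

end two

theorem quot {N : Subgroup G} [N.Normal] (hN : N ≤ f.ker) :
    Ext (QuotientGroup.lift N f hN) A t :=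
  ⟨e.good, fun y => by
    obtain ⟨x, rfl⟩ := e.surj y
    exact ⟨x, rfl⟩, fun H hH => by
    have hs := QuotientGroup.mk'_surjective N
    rw [← map_comap_eq_self_of_surjective hs H]
    exact Tools.map (e.sm _ fun h => hH (comap_injective hs (h.trans (comap_top _).symm))) _⟩

end Ext

theorem Nice.ext [Tools.{u}] {Q : Type u} [Group Q] [Finite Q] {A : Subgroup Q} {t : Q}
    (G : Type u) [Group G] [Finite G] :
    ∀ f : G →* Q, Ext f A t → f.ker = ⊥ ∨ (Five t ∧ ∃ z, TwoCover f z 𝐂[t]) := by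
  refine induction_on_card (P := fun G _ _ => ∀ f : G →* Q, Ext f A t →
    f.ker = ⊥ ∨ (Five t ∧ ∃ z, TwoCover f z 𝐂[t])) (fun G _ _ ih f e => ?_) G
  refine or_iff_not_imp_left.2 fun hne => ?_
  have q := e.good
  have cov : ∀ N : Subgroup G, N.Normal → N ≠ ⊥ → N ≤ f.ker → f.ker ≤ N ∨ (Five t ∧
      (∀ m m', f m = 1 → f m' = 1 → m ∉ N → m' ∉ N → m⁻¹ * m' ∈ N) ∧
      ∀ x, f x ∈ 𝐂[t] → f x ≠ 1 → x * x ∉ N) := fun N _ h1 hN => by
    refine (ih _ (card_quotient_lt h1) _ (e.quot hN)).imp (fun h m hm => ?_) fun ⟨h5, z, c⟩ =>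
      ⟨h5, fun m m' hm hm' k k' => ?_, fun x hx hx1 k => c.ne ?_⟩
    · exact (QuotientGroup.eq_one_iff m).1 (mem_bot.1 (h ▸ hm))
    · exact QuotientGroup.eq.1
        ((((c.ker m).1 hm).resolve_left (mt (QuotientGroup.eq_one_iff m).1 k)).trans
          (((c.ker m').1 hm').resolve_left (mt (QuotientGroup.eq_one_iff m').1 k')).symm)
    · rw [← c.sq x hx hx1, ← QuotientGroup.mk_mul, (QuotientGroup.eq_one_iff _).2 k]
  haveI : Group.IsSolvable f.ker := Tools.solv (e.sm _ fun h => by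
    obtain ⟨x, hx⟩ := e.surj t
    exact q.gen.t1 (hx ▸ h.ge (mem_top x)))
  obtain ⟨V, hV, hle, p, hp, hVp⟩ := exists_isMinNormal_isElementaryAbelian_le inferInstance hne
  haveI := Fact.mk hp
  haveI := hV.normal
  by_cases hZ : V ≤ center G
  swap
  · exfalso
    rcases cov V hV.normal hV.ne_bot hle with h | h
    · by_cases h2 : p = 2
      · subst h2
        exact e.noncentral_two hV hle hZ hVp h
      · exact e.noncentral_odd hV hle hZ hVp h2 h
    · exact e.not_sixty hV hle hZ hVp h.1.2.2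
  obtain ⟨⟨v, hv⟩, hv1⟩ := ne_bot_iff_exists_ne_one.1 hV.ne_bot
  replace hv1 : v ≠ 1 := fun h => hv1 (Subtype.ext h)
  rcases cov V hV.normal hV.ne_bot hle with h | ⟨-, hm, hsq⟩
  · by_cases h2 : p = 2
    · subst h2
      have hvv : v * v = 1 := by rw [← pow_two, hVp.2 v hv]
      have := e.central_two hv1 (fun g => by
        rw [← mem_zpowers_inv hvv, zpowers_eq_of_card_prime (hV.card_prime_of_le_center hZ) hv hv1,
          ← le_antisymm h hle, MonoidHom.mem_ker]) (hZ hv)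
      exact ⟨this.1, v, this.2⟩
    · exact absurd (e.central_odd h2 ((IsElementaryAbelian.isPGroup' hVp).to_le h) (h.trans hZ)) hne
  exfalso
  have sqV : ∀ m, f m = 1 → m * m ∈ V := fun m h => by
    by_cases hV : m ∈ V
    · exact mul_mem hV hV
    · simpa using hm m⁻¹ m (by simp [h]) h (mt V.inv_mem_iff.1 hV) hV
  have key : ∀ z, f z = 1 → z ∉ V → z * z = 1 → z ∈ center G → (∀ m m', f m = 1 → f m' = 1 →
      m ∉ zpowers z → m' ∉ zpowers z → m⁻¹ * m' ∈ zpowers z) ∧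
      (∀ x, f x ∈ 𝐂[t] → f x ≠ 1 → x * x ∉ zpowers z) ∧ ∀ m ∈ V, m ∈ zpowers z → m = 1 :=
    fun z h1 h2 h3 h4 => by
      have h5 : ∀ m ∈ V, m ∈ zpowers z → m = 1 := fun m hm h =>
        ((mem_zpowers_inv h3).1 h).resolve_right fun e => h2 (e ▸ hm)
      obtain ⟨-, h6, h7⟩ := (cov (zpowers z) ⟨fun n hn g => by
          rwa [mem_center_iff.1 (zpowers_le.2 h4 hn) g, mul_inv_cancel_right]⟩
        (zpowers_ne_bot.2 fun e => h2 (e ▸ one_mem _)) (zpowers_le.2 h1)).resolve_left fun h =>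
          hv1 (h5 v hv (h (hle hv)))
      exact ⟨h6, h7, h5⟩
  obtain ⟨w, hw, hww, hw1, hwt⟩ := q.exists_four
  have tt := q.gen.tt
  have t1 := q.gen.t1
  obtain ⟨a, rfl⟩ := e.surj t
  obtain ⟨b, rfl⟩ := e.surj w
  have ha := hsq a (mem_cent1.2 rfl) t1
  have haa : f (a * a) = 1 := by rw [map_mul, tt]
  by_cases h2 : p = 2
  · subst h2
    have conjV : ∀ g m, f m = 1 → ⁅g, m⁆ ∈ V := fun g m h => by
      by_cases hV : m ∈ V
      · exact mul_mem (‹V.Normal›.conj_mem m hV g) (inv_mem hV)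
      · have := hm (g * m * g⁻¹)⁻¹ m⁻¹ (by simp [h]) (by simp [h]) (fun k => hV (by
          simpa [mul_assoc] using ‹V.Normal›.conj_mem _ (inv_mem k) g⁻¹)) (mt V.inv_mem_iff.1 hV)
        rwa [inv_inv] at this
    have h3 : ⁅(⊤ : Subgroup G), f.ker⁆ ≤ 𝐂((⊤ : Subgroup G)) :=
      (commutator_le.2 fun g _ m hm => conjV g m hm).trans (hZ.trans (center_le_centralizer _))
    have hM : ∀ m, f m = 1 → m ∈ center G := fun m hm => mem_center_iff.2 fun g =>
      ((commutator_le_centralizer_of_rotate h3 (commutator_comm ⊤ f.ker ▸ h3))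
        (show g ∈ commutator G from e.perfect ▸ mem_top g) m hm).symm
    have hbb : f (b * b) = 1 := by rw [map_mul, hww]
    have hk : f (a * b * a⁻¹ * b⁻¹) = 1 := by
      rw [map_mul, map_mul, map_mul, map_inv, map_inv, ← mem_cent1.1 hw]; group
    have hab := hsq (a * b) (map_mul f a b ▸ mul_mem (mem_cent1.2 rfl) hw) fun h =>
      hwt (mul_left_cancel ((map_mul f a b ▸ h).trans tt.symm))
    generalize hk' : a * b * a⁻¹ * b⁻¹ = k at hk
    have ck := mem_center_iff.1 (hM k hk)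
    have ca := mem_center_iff.1 (hM _ haa)
    have e1 : a * b * a⁻¹ = k * b := by rw [← hk']; group
    have kk : k * k = 1 := by
      have : a * (a * b * a⁻¹) * a⁻¹ = b := by
        rw [show a * (a * b * a⁻¹) * a⁻¹ = a * a * b * (a * a)⁻¹ by group, ← ca,
          mul_inv_cancel_right]
      rw [e1, ← mul_assoc, ck, mul_assoc k, mul_assoc k, e1, ← mul_assoc] at this
      simpa using this
    have hkV : k ∉ V := fun h => hab (by
      have : a * b * (a * b) = k * (a * a * (a * a) * ((a * a)⁻¹ * (b * b))) := by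
        calc a * b * (a * b) = a * b * a⁻¹ * (a * a) * b := by group
          _ = _ := by rw [e1, mul_assoc k, ca, mul_assoc (a * a), mul_inv_cancel_left]; group
      rw [this]
      exact mul_mem h (mul_mem (sqV _ haa) (hm _ _ haa hbb ha (hsq b hw hw1))))
    have h4 : a * a * (a * a) = 1 := by
      have h5 := hVp.2 _ (hm _ _ hk haa hkV ha)
      rw [pow_two, mul_assoc, ← mul_assoc (a * a), ← ca, mul_assoc, ← mul_assoc, ← mul_inv_rev, kk,
        inv_one, one_mul] at h5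
      exact h5
    exact (key _ haa ha h4 (hM _ haa)).2.1 a (mem_cent1.2 rfl) t1 (mem_zpowers _)
  have hodd : ∀ m ∈ V, m * m = 1 → m = 1 := fun m hm h => eq_one_of_odd h fun h' => h2
    ((Nat.prime_dvd_prime_iff_eq Nat.prime_two hp).1
      (h'.trans (orderOf_dvd_of_pow_eq_one (hVp.2 m hm)))).symm
  obtain ⟨n, hn⟩ := hp.eq_two_or_odd'.resolve_left h2
  have h3 := sqV _ haa
  generalize a * a = z at ha haa h3
  have h4 : z ^ p ∉ V := by
    rw [hn, pow_succ, pow_mul, pow_two, V.mul_mem_cancel_left (pow_mem h3 n)]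
    exact ha
  have h5 : f (z ^ p) = 1 := by rw [map_pow, haa, one_pow]
  have h6 : z ^ p * z ^ p = 1 := by rw [← (Commute.refl z).mul_pow, hVp.2 _ h3]
  generalize z ^ p = y at h4 h5 h6
  obtain ⟨k1, -, k2⟩ := key y h5 h4 h6 (mem_center_iff.2 fun g => by
    have h7 := hm y (g * y * g⁻¹) h5 (by simp [h5]) h4 fun k => h4 (by
      simpa [mul_assoc] using ‹V.Normal›.conj_mem _ k g⁻¹)
    have h8 := hodd _ h7 (by
      have c := mem_center_iff.1 (hZ h7)
      have h9 : g * y * g⁻¹ * (g * y * g⁻¹) = 1 := by rw [conj_mul, h6]; group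
      rw [← mul_inv_cancel_left y (g * y * g⁻¹)] at h9
      generalize y⁻¹ * (g * y * g⁻¹) = m at c h9
      rwa [mul_assoc, ← c, ← mul_assoc, ← mul_assoc, h6, one_mul] at h9)
    exact mul_inv_eq_iff_eq_mul.1 (inv_mul_eq_one.1 h8).symm)
  have := k1 v (v * v) (hle hv) (hle (mul_mem hv hv)) (fun h => hv1 (k2 v hv h))
    fun h => hv1 (hodd v hv (k2 _ (mul_mem hv hv) h))
  exact hv1 (k2 v hv (by simpa using this))

end SAD
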