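import Cfsg.Agent.Lib.FT.Api

/-!
# The triangle group `(2,3,5)` has order at most 60
-/

set_option autoImplicit false
set_option linter.unusedSectionVars false

namespace SAD

open Cfsg GT FT Subgroup
open scoped Pointwise

variable {G : Type*} [Group G]

theorem ico_step {t c : G} (ht : t * t = 1) (hc : c ^ 5 = 1) (h : (t * c) ^ 3 = 1) {a : G}
    (ha : a = t ∨ a = c) (w : G)
    (hw : w ∈ [1, t, c * t, c ^ 2 * t, c ^ 3 * t, c ^ 4 * t, t * c ^ 2 * t, c * (t * c ^ 2 * t),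
      c ^ 2 * (t * c ^ 2 * t), c ^ 3 * (t * c ^ 2 * t), c ^ 4 * (t * c ^ 2 * t),
      t * (c ^ 3 * (t * c ^ 2 * t))]) :
    ∃ w' ∈ [1, t, c * t, c ^ 2 * t, c ^ 3 * t, c ^ 4 * t, t * c ^ 2 * t, c * (t * c ^ 2 * t),
      c ^ 2 * (t * c ^ 2 * t), c ^ 3 * (t * c ^ 2 * t), c ^ 4 * (t * c ^ 2 * t),
      t * (c ^ 3 * (t * c ^ 2 * t))], ∃ k ∈ zpowers c, a * w = w' * k := by
  have tt : ∀ x, t * (t * x) = x := fun x => by rw [← mul_assoc, ht, one_mul]
  have ti : t⁻¹ = t := inv_eq_of_mul_eq_one_right ht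
  have c4 : c ^ 4 = c⁻¹ := by rw [eq_inv_iff_mul_eq_one, ← pow_succ, hc]
  have c3 : c ^ 3 = c⁻¹ * c⁻¹ := by
    rw [← c4, ← pow_add, show 4 + 4 = 5 + 3 from rfl, pow_add, hc, one_mul]
  have c2 : c ^ 2 = c⁻¹ * c⁻¹ * c⁻¹ := by
    rw [← c4, ← pow_add, ← pow_add, show 4 + 4 + 4 = 5 + (5 + 2) from rfl, pow_add, hc, pow_add,
      hc, one_mul, one_mul]
  have r1 : t * c * t = c⁻¹ * t * c⁻¹ := by
    have : t * c * t = (t * c) ^ 3 * (c⁻¹ * t⁻¹ * c⁻¹) := by simp only [pow_succ]; group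
    rw [this, h, ti, one_mul]
  have r2 : t * c⁻¹ * t = c * t * c := by
    have := congrArg (·⁻¹) r1
    simpa only [mul_inv_rev, ti, inv_inv, ← mul_assoc] using this
  have r3 : t * c ^ 3 * t = c * (t * c ^ 2 * t) * c := by
    calc t * c ^ 3 * t = t * c⁻¹ * (t * (t * c⁻¹)) * t := by rw [tt, c3]; group
      _ = (t * c⁻¹ * t) * (t * c⁻¹ * t) := by group
      _ = _ := by rw [r2, pow_two]; group
  have r4 : t * (c ^ 2 * (t * c ^ 2 * t)) = c ^ 4 * (t * c ^ 2 * t) * c⁻¹ := by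
    calc t * (c ^ 2 * (t * c ^ 2 * t)) = t * c * (t * (t * c)) * t * c ^ 2 * t := by
          rw [tt, pow_two]; group
      _ = (t * c * t) * (t * c * t) * c ^ 2 * t := by group
      _ = (t * c * t) * (t * c * t) * c * (c * t) := by rw [pow_two]; group
      _ = c⁻¹ * t * c⁻¹ * (c⁻¹ * t * c⁻¹) * c * (c * t) := by rw [r1]
      _ = c⁻¹ * t * c⁻¹ * c⁻¹ * (t * c * t) := by group
      _ = c⁻¹ * (t * (c⁻¹ * c⁻¹ * c⁻¹) * t) * c⁻¹ := by rw [r1]; group
      _ = _ := by rw [← c2, c4]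
  have r5 : c * (t * (c ^ 3 * (t * c ^ 2 * t))) = t * (c ^ 3 * (t * c ^ 2 * t)) * c⁻¹ := by
    calc c * (t * (c ^ 3 * (t * c ^ 2 * t))) = (c * t * c) * (c ^ 2 * (t * c ^ 2 * t)) := by
          simp only [pow_succ]; group
      _ = t * c⁻¹ * (t * (c ^ 2 * (t * c ^ 2 * t))) := by rw [← r2]; group
      _ = _ := by rw [r4, c4, c3]; group
  have m1 := one_mem (zpowers c)
  have mc := mem_zpowers c
  have mi := inv_mem mc
  simp only [List.mem_cons, List.not_mem_nil, or_false] at hw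
  simp only [List.mem_cons, List.not_mem_nil, or_false, exists_eq_or_imp, exists_eq_left]
  rcases ha with rfl | rfl
  · rcases hw with rfl | rfl | rfl | rfl | rfl | rfl | rfl | rfl | rfl | rfl | rfl | rfl
    · exact .inr (.inl ⟨1, m1, by group⟩)
    · exact .inl ⟨1, m1, by rw [ht, mul_one]⟩
    · exact .inr (.inr (.inr (.inr (.inr (.inl ⟨_, mi, by rw [c4, ← r1, mul_assoc]⟩)))))
    · exact .inr (.inr (.inr (.inr (.inr (.inr (.inl ⟨1, m1, by group⟩))))))
    · exact .inr (.inr (.inr (.inr (.inr (.inr (.inr (.inl ⟨_, mc, by rw [← r3, mul_assoc]⟩)))))))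
    · exact .inr (.inr (.inl ⟨_, mc, by rw [c4, ← r2, mul_assoc]⟩))
    · exact .inr (.inr (.inr (.inl ⟨1, m1, by rw [mul_assoc, tt, mul_one]⟩)))
    · exact .inr (.inr (.inr (.inr (.inl ⟨_, mi, by
        rw [eq_mul_inv_iff_mul_eq, mul_assoc, ← r3, mul_assoc, tt]⟩))))
    · exact .inr (.inr (.inr (.inr (.inr (.inr (.inr (.inr (.inr (.inr (.inl
        ⟨_, mi, r4⟩))))))))))
    · exact .inr (.inr (.inr (.inr (.inr (.inr (.inr (.inr (.inr (.inr (.inr
        ⟨1, m1, by group⟩))))))))))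
    · exact .inr (.inr (.inr (.inr (.inr (.inr (.inr (.inr (.inl ⟨_, mc, by
        rw [← eq_mul_inv_iff_mul_eq.1 r4, mul_assoc a, tt]⟩))))))))
    · exact .inr (.inr (.inr (.inr (.inr (.inr (.inr (.inr (.inr (.inl
        ⟨1, m1, by rw [tt, mul_one]⟩)))))))))
  · rcases hw with rfl | rfl | rfl | rfl | rfl | rfl | rfl | rfl | rfl | rfl | rfl | rfl
    · exact .inl ⟨_, mc, by group⟩
    · exact .inr (.inr (.inl ⟨1, m1, by group⟩))
    · exact .inr (.inr (.inr (.inl ⟨1, m1, by rw [pow_two]; group⟩)))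
    · exact .inr (.inr (.inr (.inr (.inl ⟨1, m1, by simp only [pow_succ]; group⟩))))
    · exact .inr (.inr (.inr (.inr (.inr (.inl ⟨1, m1, by simp only [pow_succ]; group⟩)))))
    · exact .inr (.inl ⟨1, m1, by rw [c4]; group⟩)
    · exact .inr (.inr (.inr (.inr (.inr (.inr (.inr (.inl ⟨1, m1, by group⟩)))))))
    · exact .inr (.inr (.inr (.inr (.inr (.inr (.inr (.inr (.inl
        ⟨1, m1, by rw [mul_one, ← mul_assoc, ← pow_two]⟩))))))))
    · exact .inr (.inr (.inr (.inr (.inr (.inr (.inr (.inr (.inr (.inl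
        ⟨1, m1, by simp only [pow_succ]; group⟩)))))))))
    · exact .inr (.inr (.inr (.inr (.inr (.inr (.inr (.inr (.inr (.inr (.inl
        ⟨1, m1, by simp only [pow_succ]; group⟩))))))))))
    · exact .inr (.inr (.inr (.inr (.inr (.inr (.inl ⟨1, m1, by rw [c4]; group⟩))))))
    · exact .inr (.inr (.inr (.inr (.inr (.inr (.inr (.inr (.inr (.inr (.inr
        ⟨_, mi, r5⟩))))))))))

theorem card_closure_le_sixty [Finite G] {t c : G} (ht : t * t = 1) (hc : c ^ 5 = 1)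
    (h : (t * c) ^ 3 = 1) : Nat.card (closure ({t, c} : Set G)) ≤ 60 := by
  classical
  set L : List G := [1, t, c * t, c ^ 2 * t, c ^ 3 * t, c ^ 4 * t, t * c ^ 2 * t,
    c * (t * c ^ 2 * t), c ^ 2 * (t * c ^ 2 * t), c ^ 3 * (t * c ^ 2 * t), c ^ 4 * (t * c ^ 2 * t),
    t * (c ^ 3 * (t * c ^ 2 * t))] with hL
  have step : ∀ a, a = t ∨ a = c → ∀ g, (∃ w ∈ L, ∃ k ∈ zpowers c, g = w * k) →
      ∃ w ∈ L, ∃ k ∈ zpowers c, a * g = w * k := by
    rintro a ha g ⟨w, hw, k, hk, rfl⟩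
    obtain ⟨w', hw', k', hk', e⟩ := ico_step ht hc h ha w hw
    exact ⟨w', hw', k' * k, mul_mem hk' hk, by rw [← mul_assoc, e, mul_assoc]⟩
  have key : ∀ g ∈ closure ({t, c} : Set G), ∃ w ∈ L, ∃ k ∈ zpowers c, g = w * k := by
    intro g hg
    rw [← mem_toSubmonoid, closure_toSubmonoid_of_finite] at hg
    induction hg using Submonoid.closure_induction_left with
    | one => exact ⟨1, by simp [hL], 1, one_mem _, (mul_one _).symm⟩
    | mul_left x hx y _ ih => exact step x hx y ih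
  have h5 : Nat.card (zpowers c) ≤ 5 := by
    rw [Nat.card_zpowers]; exact Nat.le_of_dvd (by norm_num) (orderOf_dvd_of_pow_eq_one hc)
  have hf : Nat.card (closure ({t, c} : Set G)) ≤ Nat.card (L.toFinset × zpowers c) := by
    choose w hw k hk e using key
    refine Nat.card_le_card_of_injective
      (fun g => (⟨w g g.2, List.mem_toFinset.2 (hw g g.2)⟩, ⟨k g g.2, hk g g.2⟩)) fun g g' hh => ?_
    simp only [Prod.mk.injEq, Subtype.mk.injEq] at hh
    exact Subtype.ext (by rw [e g g.2, e g' g'.2, hh.1, hh.2])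
  rw [Nat.card_prod, Nat.card_eq_finsetCard] at hf
  have h12 : L.toFinset.card ≤ 12 := List.toFinset_card_le L
  nlinarith

end SAD
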