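import Cfsg.Agent.Lib.Char.SadD
import Cfsg.Agent.Lib.Char.SadIco
import Cfsg.Agent.Lib.Block.OnePSL

/-!
# Simple groups with small average degrees: orders `168` and `360`
-/

set_option autoImplicit false
set_option linter.unusedSectionVars false

namespace SAD

open Cfsg GT FT Subgroup
open scoped Pointwise commutatorElement

universe u

section General

variable {G : Type*} [Group G] [Finite G] {A : Subgroup G} {t s : G}

theorem card_le_of_mem {S : Finset G} {H : Subgroup G} (g : G) (h : ∀ x ∈ S, g * x ∈ H) :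
    S.card ≤ Nat.card H := by
  rw [← Nat.card_eq_finsetCard]
  exact Nat.card_le_card_of_injective (fun x => ⟨g * x, h x x.2⟩) fun x y e =>
    Subtype.ext (mul_left_cancel (Subtype.mk.inj e))

theorem psl_of_card (hperf : commutator G = ⊤) (hG : Nat.card G = 168) {y : G} (hy : y ≠ 1)
    (h7 : Nat.card 𝐂[y] = 7) (h21 : Nat.card 𝐍(𝐂[y]) = 21) :
    Nonempty (G ≃* Matrix.ProjectiveSpecialLinearGroup (Fin 2) (ZMod 7)) := by
  haveI : Fact (Nat.Prime 7) := ⟨by norm_num⟩
  have hi : 𝐂[y].index = 24 := by have := 𝐂[y].card_mul_index; rw [h7] at this; omega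
  have hP : IsSylowIn 7 𝐂[y] ⊤ := isSylowIn_top_iff'.2
    ⟨IsPGroup.of_card (n := 1) h7, by rw [hi]; norm_num⟩
  obtain ⟨B, _, _, ι, H, e⟩ := BT.exists_primeSyl hP h7
  have hC : 𝐂(𝐂[y]) = 𝐂[y] := by
    have := zpowers_eq_of_card_prime (h7 ▸ by norm_num) (mem_cent1.2 rfl) hy
    rw [← this, centralizer_zpowers, this]
  refine H.nonempty_psl2 (by norm_num) (by rw [e, hC]) ?_ ?_ hperf
  · have := card_mul_relIndex (le_normalizer (H := 𝐂[y]))
    rw [BT.card_autN H.inj, e, hC]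
    rw [h7] at this
    omega
  · have := 𝐍(𝐂[y]).card_mul_index
    rw [e]
    rw [h21] at this
    omega

theorem not_solvable_ico {u c : G} (hu : u * u = 1) (h1 : u ≠ 1) (hc : c ^ 5 = 1)
    (h : (u * c) ^ 3 = 1) : ¬ Group.IsSolvable (closure ({u, c} : Set G)) := fun hs => by
  set H := closure ({u, c} : Set G)
  have hu' : u ∈ H := subset_closure (by simp)
  have hc' : c ∈ H := subset_closure (by simp)
  haveI : Nontrivial H := ⟨⟨⟨u, hu'⟩, 1, fun e => h1 (congrArg Subtype.val e)⟩⟩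
  obtain ⟨M, hM, hp⟩ := exists_normal_index_prime H
  have key : ∀ (x : H) (n : ℕ), n.Prime → (x : G) ^ n = 1 → M.index ≠ n → x ∈ M :=
    fun x n hn hx hne => mem_of_coprime_orderOf_index (((Nat.coprime_primes hn hp).2 hne.symm).coprime_dvd_left
      (orderOf_dvd_of_pow_eq_one (Subtype.ext hx)))
  have k2 := key ⟨u, hu'⟩ 2 Nat.prime_two (by rw [pow_two]; exact hu)
  have k3 := key (⟨u, hu'⟩ * ⟨c, hc'⟩) 3 Nat.prime_three h
  have k5 := key ⟨c, hc'⟩ 5 Nat.prime_five hc
  have k : (⟨u, hu'⟩ : H) ∈ M ∧ (⟨c, hc'⟩ : H) ∈ M := by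
    by_cases e2 : M.index = 2
    · exact ⟨(M.mul_mem_cancel_right (k5 (by omega))).1 (k3 (by omega)), k5 (by omega)⟩
    by_cases e5 : M.index = 5
    · exact ⟨k2 e2, (M.mul_mem_cancel_left (k2 e2)).1 (k3 (by omega))⟩
    · exact ⟨k2 e2, k5 e5⟩
  have : H ≤ M.map H.subtype := (closure_le _).2 (by
    rintro x (rfl | rfl)
    exacts [⟨_, k.1, rfl⟩, ⟨_, k.2, rfl⟩])
  refine hp.one_lt.ne' (index_eq_one.2 (eq_top_iff.2 fun x _ => ?_))
  obtain ⟨y, hy, e⟩ := this x.2
  exact Subtype.ext e ▸ hy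

theorem three_rel {z y : G} (hz : z * z = 1) (hy : y ^ 3 = 1) (h : (z * y) ^ 3 = 1) :
    y * (y * z * y⁻¹) * y⁻¹ = y * z * y⁻¹ * z ∧ y * z * y⁻¹ * z = z * (y * z * y⁻¹) := by
  have zi : z⁻¹ = z := inv_eq_of_mul_eq_one_right hz
  have e : z * (y * z * y⁻¹) * (y * (y * z * y⁻¹) * y⁻¹) = 1 := by
    rw [← h, ← mul_one (z * _ * _), ← hy]; simp only [pow_succ]; group
  have e1 : y * (y * z * y⁻¹) * y⁻¹ = y * z * y⁻¹ * z := by
    rw [← inv_eq_of_mul_eq_one_right e]; simp only [mul_inv_rev, inv_inv, zi, mul_assoc]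
  refine ⟨e1, ?_⟩
  rw [← e1, ← inv_eq_of_mul_eq_one_left e]
  simp only [mul_inv_rev, inv_inv, zi, mul_assoc]

theorem Dih.card_out (d : Dih A t s) [Fintype G] [DecidableEq G] [DecidablePred (· ∈ A)]
    [DecidablePred (· ∈ 𝐂[t])] :
    (Finset.univ.filter fun x => x ∈ 𝐂[t] ∧ x ∉ A).card = Nat.card A := by
  have h := Finset.card_filter_add_card_filter_not (s := Finset.univ.filter (· ∈ 𝐂[t])) (· ∈ A)
  rw [Finset.filter_filter, Finset.filter_filter, Finset.filter_congr (q := (· ∈ A))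
    fun x _ => ⟨fun h => h.2, fun h => ⟨d.le h, h⟩⟩, ← Fintype.card_subtype (· ∈ A),
    ← Fintype.card_subtype (· ∈ 𝐂[t]), ← Nat.card_eq_fintype_card, ← Nat.card_eq_fintype_card] at h
  have := d.card_cent
  omega

theorem Dih.card_inf_le (d : Dih A t s) {z : G} (hz : z ∈ 𝐂[t]) (hA : z ∉ A) :
    Nat.card ↥(𝐂[t] ⊓ 𝐂[z]) ≤ Nat.card A := by
  have hd := card_dvd_of_le (inf_le_left : 𝐂[t] ⊓ 𝐂[z] ≤ 𝐂[t])
  have hlt : 𝐂[t] ⊓ 𝐂[z] < 𝐂[t] := lt_of_le_of_ne inf_le_left fun e => by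
    have : A ≤ zpowers t := fun a ha => (d.uniq a ha (by
      have h1 := d.conj_out hz hA ha
      rw [← mem_cent1.1 (inf_eq_left.1 e (d.le ha)), mul_inv_cancel_right] at h1
      exact mul_eq_one_iff_eq_inv.2 h1)).elim (fun e => e ▸ one_mem _) fun e => e ▸ mem_zpowers t
    have h2 := card_le_of_le this
    rw [Nat.card_zpowers, orderOf_eq_prime (by rw [pow_two, d.tt]) d.t1] at h2
    linarith [d.four]
  have h3 := card_lt_of_lt hlt
  rw [d.card_cent] at hd h3
  obtain ⟨k, hk⟩ := hd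
  rcases k with _ | _ | k
  · have := d.four; omega
  · omega
  · nlinarith

theorem Dih.card_three (d : Dih A t s) (h4 : Nat.card A = 4) [Fintype G] [DecidableEq G]
    {S : Finset G} (hS : ∀ y ∈ S, orderOf y = 3 ∧ (t * y) ^ 3 = 1) : S.card ≤ 16 := by
  classical
  have rel : ∀ y ∈ S, _ := fun y hy =>
    three_rel d.tt ((hS y hy).1 ▸ pow_orderOf_eq_one y) (hS y hy).2
  have := Finset.card_le_mul_card_image_of_maps_to (s := S) (f := fun y => y * t * y⁻¹)
    (t := Finset.univ.filter fun x => x ∈ 𝐂[t] ∧ x ∉ A) (fun y hy => ?_) 4 fun z hz => ?_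
  · rw [d.card_out, h4] at this; exact this
  · refine Finset.mem_filter.2 ⟨Finset.mem_univ _, mem_cent1.2 (rel y hy).2, fun hA => ?_⟩
    rcases d.uniq _ hA (by rw [conj_mul, d.tt]; group) with e | e
    · exact d.t1 (conj_eq_one_iff.1 e)
    · have := (rel y hy).1
      rw [e, e, d.tt] at this
      exact d.t1 this
  · obtain ⟨-, hz, hA⟩ := Finset.mem_filter.1 hz
    rcases (S.filter fun y => y * t * y⁻¹ = z).eq_empty_or_nonempty with e | ⟨y0, h0⟩
    · simp [e]
    refine le_trans (card_le_of_mem y0⁻¹ fun y hy => ?_) ((d.card_inf_le hz hA).trans h4.le)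
    obtain ⟨h0, e0⟩ := Finset.mem_filter.1 h0
    obtain ⟨h1, e1⟩ := Finset.mem_filter.1 hy
    have r0 := (rel y0 h0).1
    have r1 := (rel y h1).1
    rw [e0] at r0
    rw [e1] at r1
    refine ⟨mem_cent1.2 ?_, mem_cent1.2 ?_⟩
    · calc y0⁻¹ * y * t = y0⁻¹ * (y * t * y⁻¹) * y := by group
        _ = _ := by rw [e1, ← e0]; group
    · calc y0⁻¹ * y * z = y0⁻¹ * (y * z * y⁻¹) * y := by group
        _ = _ := by rw [r1, ← r0]; group

theorem Dih.card_sqrt (d : Dih A t s) (h4 : Nat.card A = 4) {S : Finset G}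
    (hS : ∀ w ∈ S, w * w = t) : S.card ≤ 2 := by
  classical
  have h1 : (1 : G) ∉ S := fun h => d.t1 (by rw [← hS 1 h, mul_one])
  have ht : t ∉ S := fun h => d.t1 (by rw [← hS t h, d.tt])
  have : (insert 1 (insert t S)).card ≤ 4 := by
    refine h4 ▸ card_le_of_mem 1 fun w hw => ?_
    rw [one_mul]
    rcases Finset.mem_insert.1 hw with e | hw
    · exact e ▸ one_mem _
    rcases Finset.mem_insert.1 hw with e | hw
    · exact e ▸ d.tA
    exact by_contra fun hA => d.t1 ((hS _ hw).symm.trans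
      (d.out (mem_cent1.2 (by rw [← hS _ hw, mul_assoc])) hA))
  rw [Finset.card_insert_of_notMem (by simp [h1, d.t1.symm]), Finset.card_insert_of_notMem ht] at this
  omega

end General

variable {G : Type u} [Group G] [Finite G] {A : Subgroup G} {t s : G} [Tools.{u}] (h : Hyp G)
include h

theorem Dih.not_360 (d : Dih A t s) (h4 : Nat.card A = 4) (hG : Nat.card G = 360)
    (h59 : ∀ y, Ap A y → Nat.card 𝐂[y] = 5 ∨ Nat.card 𝐂[y] = 9) {y0 : G} (h0 : Ap A y0)
    (h9 : Nat.card 𝐂[y0] = 9) (h36 : Nat.card 𝐍(𝐂[y0]) = 36) : False := by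
  classical
  have c := d.gen
  have := Fintype.ofFinite G
  haveI := Nat.fact_prime_three
  have hr : Re y0 := by_contra fun hr => by
    obtain ⟨h7, e, -⟩ := c.seven h h0 hr
    rw [e, Nat.card_zpowers, h7] at h9
    omega
  have exp : ∀ w ∈ 𝐂[y0], w ^ 3 = 1 := by
    obtain ⟨E, u, hf, hc, -⟩ := c.frob h0 hr
    haveI := c.re_comm hr h0
    have h1 := (hf.of_le (powKer_le _ 3) (hf.norm.trans (normalizer_le_normalizer_powKer _ 3))
      ).card_dvd_sub_one
    have h2 := card_dvd_of_le (powKer_le 𝐂[y0] 3)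
    have h3 := (one_lt_card_iff_ne_bot _).2 (powKer_ne_bot 𝐂[y0] (p := 3) (by rw [h9]; norm_num))
    have h5 : Nat.card E = 4 := by rw [h9] at hc; omega
    rw [h9] at h2
    rw [h5] at h1
    have h6 := Nat.le_of_dvd (by norm_num) h2
    have h7 : powKer 𝐂[y0] 3 = 𝐂[y0] := eq_of_le_of_card_ge (powKer_le _ 3) (by
      rw [h9]
      generalize Nat.card (powKer 𝐂[y0] 3) = k at *
      interval_cases k <;> omega)
    exact fun w hw => (mem_powKer.1 (h7.ge hw)).2
  have exp' : ∀ w, Ap A w → Nat.card 𝐂[w] = 9 → orderOf w = 3 := fun w hw e => by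
    obtain ⟨g, hg⟩ := c.exists_conj_cent h h0 hw (by rw [e, h9]; norm_num)
    have := exp _ hg
    rw [conj_pow, conj_eq_one_iff] at this
    exact orderOf_eq_prime this hw.1
  set I := Finset.univ.filter fun u : G => u * u = 1 ∧ u ≠ 1 with hI
  set T := Finset.univ.filter fun y : G => orderOf y = 3 with hT
  have cI : I.card = 45 := by
    have h1 := SAD.ncard_clSupp (A := ({t} : Set G)) (L := 𝐂[t])
      (fun g hg a ha => by rw [ha, mem_cent1.1 hg]; simp)
      fun g a ha hga => mem_cent1.2 (by rw [ha] at hga; exact mul_inv_eq_iff_eq_mul.1 hga)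
    have h2 := 𝐂[t].card_mul_index
    rw [d.card_cent, h4, hG] at h2
    have h3 : clSupp {t} ⊤ = (I : Set G) := by
      ext u
      simp only [hI, Finset.coe_filter, Finset.mem_univ, true_and, Set.mem_ofPred_eq]
      constructor
      · rintro ⟨a, rfl, g, -, rfl⟩
        exact ⟨by rw [conj_mul, d.tt]; group, mt conj_eq_one_iff.1 d.t1⟩
      · rintro ⟨h1, h2⟩
        obtain ⟨g, rfl⟩ := isConj_iff.1 (d.conj u h1 h2)
        exact ⟨t, rfl, g, mem_top _, rfl⟩
    rw [h3, Set.ncard_coe_finset, Set.ncard_singleton] at h1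
    omega
  have cT : 80 ≤ T.card := by
    have h1 := c.ncard_cent h h0
    have h2 := 𝐍(𝐂[y0]).card_mul_index
    have h3 := ncard_sharp_add_one 𝐂[y0]
    rw [h36, hG] at h2
    rw [show (sharp 𝐂[y0]).ncard = 8 by omega, show 𝐍(𝐂[y0]).index = 10 by omega] at h1
    rw [← Set.ncard_coe_finset]
    refine h1.ge.trans (Set.ncard_le_ncard fun z hz => ?_)
    simpa [hT] using exp' z hz.1 (hz.2.trans h9)
  have key := Finset.card_mul_le_card_mul (fun (y z : G) => (z * y) ^ 3 = 1) (s := T) (t := I)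
    (m := 12) (n := 16) (fun y hy => ?_) fun z hz => ?_
  · omega
  swap
  · obtain ⟨-, hz, hz1⟩ := Finset.mem_filter.1 hz
    obtain ⟨B, r, d', hB⟩ := d.exists_dih hz hz1
    exact d'.card_three (hB.trans h4) fun y hy => by
      simpa [hT, Finset.mem_bipartiteBelow] using hy
  have hy3 : orderOf y = 3 := (Finset.mem_filter.1 hy).2
  have hy3' : y ^ 3 = 1 := hy3 ▸ pow_orderOf_eq_one y
  have hyA : Ap A y := ⟨by rintro rfl; simp at hy3, by rw [hy3, h4]; norm_num⟩
  have hyC : Nat.card 𝐂[y] = 9 := (h59 y hyA).resolve_left fun e => by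
    have := 𝐂[y].orderOf_dvd_natCard (mem_cent1.2 rfl)
    rw [e, hy3] at this
    omega
  set Z := I.bipartiteAbove (fun (y z : G) => (z * y) ^ 3 = 1) y with hZ
  have c2 : (I.filter fun u => u * y * (u * y) = 1).card ≤ 9 := by
    rcases (I.filter fun u => u * y * (u * y) = 1).eq_empty_or_nonempty with e | ⟨u0, hu0⟩
    · simp [e]
    have inv : ∀ u ∈ I.filter fun u => u * y * (u * y) = 1, u * y = y⁻¹ * u := fun u hu => by
      obtain ⟨hu, e⟩ := Finset.mem_filter.1 hu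
      rw [eq_inv_of_mul_eq_one_left e, mul_inv_rev,
        inv_eq_of_mul_eq_one_right (Finset.mem_filter.1 hu).2.1]
    refine hyC ▸ card_le_of_mem u0⁻¹ fun u hu => mem_cent1.2 ?_
    calc u0⁻¹ * u * y = u0⁻¹ * (y⁻¹ * u0) * (u0⁻¹ * u) := by rw [mul_assoc, inv u hu]; group
      _ = _ := by rw [← inv u0 hu0]; group
  have c4 : (I.filter fun u => u * y * (u * y) ≠ 1 ∧ (u * y) ^ 4 = 1).card ≤ 2 * Z.card := by
    refine Finset.card_le_mul_card_image_of_maps_to (f := fun u => u * y * (u * y))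
      (fun u hu => ?_) 2 fun z hz => ?_
    · obtain ⟨hu, h1, h2⟩ := Finset.mem_filter.1 hu
      have huu := (Finset.mem_filter.1 hu).2.1
      refine (Finset.mem_bipartiteAbove _).2 ⟨Finset.mem_filter.2 ⟨Finset.mem_univ _, ?_, h1⟩, ?_⟩
      · rw [← h2]; simp only [pow_succ]; group
      · have e1 : u * y * (u * y) = (u * y)⁻¹ * (u * y)⁻¹ := by
          rw [← mul_inv_rev, eq_inv_iff_mul_eq_one, ← h2]; simp only [pow_succ]; group
        have e2 : u * y * (u * y) * y = y⁻¹ * (u * y * u⁻¹)⁻¹ * y := by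
          rw [e1, show u⁻¹ = u from inv_eq_of_mul_eq_one_right huu]
          simp only [mul_inv_rev, show u⁻¹ = u from inv_eq_of_mul_eq_one_right huu, mul_assoc]
        rw [e2, show y⁻¹ * (u * y * u⁻¹)⁻¹ * y = (y⁻¹ * u) * y⁻¹ * (y⁻¹ * u)⁻¹ by group, conj_pow,
          inv_pow, hy3']
        group
    · obtain ⟨-, hz, hz1⟩ := Finset.mem_filter.1 ((Finset.mem_bipartiteAbove _).1 hz).1
      obtain ⟨B, r, d', hB⟩ := d.exists_dih hz hz1
      rw [← Finset.card_image_of_injective _ (mul_left_injective y)]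
      refine d'.card_sqrt (hB.trans h4) fun w hw => ?_
      obtain ⟨u, hu, rfl⟩ := Finset.mem_image.1 hw
      exact (Finset.mem_filter.1 hu).2
  have hsub : I ⊆ (I.filter fun u => u * y * (u * y) = 1) ∪ (Z ∪
      I.filter fun u => u * y * (u * y) ≠ 1 ∧ (u * y) ^ 4 = 1) := fun u hu => by
    obtain ⟨-, huu, hu1⟩ := Finset.mem_filter.1 hu
    by_cases e2 : u * y * (u * y) = 1
    · exact Finset.mem_union_left _ (Finset.mem_filter.2 ⟨hu, e2⟩)
    refine Finset.mem_union_right _ ?_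
    have e1 : u * y ≠ 1 := fun e => e2 (by rw [e, mul_one])
    by_cases hw : Ap A (u * y)
    · rcases h59 _ hw with e | e
      · have e5 : (u * y) ^ 5 = 1 :=
          orderOf_dvd_iff_pow_eq_one.1 (e ▸ 𝐂[u * y].orderOf_dvd_natCard (mem_cent1.2 rfl))
        have e3 : (u * (u * y)) ^ 3 = 1 := by rw [← mul_assoc, huu, one_mul, hy3']
        refine absurd (Tools.solv (h.sm _ fun e => ?_)) (not_solvable_ico huu hu1 e5 e3)
        have := card_closure_le_sixty huu e5 e3
        rw [e, card_top, hG] at this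
        omega
      · exact Finset.mem_union_left _ ((Finset.mem_bipartiteAbove _).2
          ⟨hu, exp' _ hw e ▸ pow_orderOf_eq_one _⟩)
    · obtain ⟨a, ha, g, -, e⟩ := c.mem_clSupp.2 ⟨e1, hw⟩
      refine Finset.mem_union_right _ (Finset.mem_filter.2 ⟨hu, e2, ?_⟩)
      rw [e, conj_pow, orderOf_dvd_iff_pow_eq_one.1 (h4 ▸ A.orderOf_dvd_natCard ha.1)]
      group
  have := (Finset.card_le_card hsub).trans ((Finset.card_union_le _ _).trans
    (Nat.add_le_add_left (Finset.card_union_le _ _) _))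
  omega

theorem Dih.psl [Tools4.{u}] (d : Dih A t s) : Nat.card A = 4 ∧
    Nonempty (G ≃* Matrix.ProjectiveSpecialLinearGroup (Fin 2) (ZMod 7)) := by
  obtain ⟨h4, ⟨hG, y, hy, h7, h21⟩ | ⟨hG, h59, y, hy, h9, h36⟩⟩ := d.count h
  · exact ⟨h4, psl_of_card h.perfect hG hy.1 h7 h21⟩
  · exact (d.not_360 h h4 hG h59 hy h9 h36).elim

end SAD
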