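import Cfsg.Agent.Lib.Char.SadSt
import Cfsg.Agent.Lib.Grp.Ess

/-!
# Local analysis for S4753, part 0: transitive cyclic actions on elementary abelian `2`-groups
-/

set_option autoImplicit false
set_option linter.unusedSectionVars false

namespace SAD.L

open Cfsg GT FT Subgroup
open scoped Pointwise commutatorElement

universe u

theorem perm_trans {Ω : Type*} [Finite Ω] {r : ℕ} [hr : Fact r.Prime] {σ : Equiv.Perm Ω}
    (hσ : IsPElt r σ) (hc : Nat.card Ω = r + 1) {o : Ω} (ho : σ o = o) (h1 : σ ≠ 1) {a b : Ω}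
    (ha : a ≠ o) (hb : b ≠ o) : ∃ i : ℕ, (σ ^ i) a = b := by
  classical
  obtain ⟨c, hc1⟩ : ∃ c, σ c ≠ c := by
    by_contra h
    push Not at h
    exact h1 (Equiv.ext h)
  have hfix : ∀ τ ∈ zpowers σ, τ o = o := by
    intro τ hτ
    obtain ⟨i, rfl⟩ := mem_zpowers_iff.1 hτ
    exact Equiv.Perm.zpow_apply_eq_self_of_apply_eq_self ho i
  have hco : c ≠ o := fun e => hc1 (e ▸ ho)
  have hsub : MulAction.orbit (zpowers σ) c ⊆ {o}ᶜ := by
    rintro _ ⟨τ, rfl⟩ e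
    have e' : (τ : Equiv.Perm Ω) c = o := e
    exact hco ((τ : Equiv.Perm Ω).injective (e'.trans (hfix _ τ.2).symm))
  have hcard : ({o}ᶜ : Set Ω).ncard = r := by
    have := Set.ncard_add_ncard_compl ({o} : Set Ω)
    rw [Set.ncard_singleton, hc] at this
    omega
  obtain ⟨n, hn⟩ := hσ.isPGroup_zpowers.card_orbit c
  have hn0 : n ≠ 0 := by
    rintro rfl
    rw [pow_zero] at hn
    haveI := (Nat.card_eq_one_iff_unique.1 hn).1
    have := Subsingleton.elim (⟨c, MulAction.mem_orbit_self c⟩ : MulAction.orbit (zpowers σ) c)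
      ⟨σ c, ⟨σ, mem_zpowers σ⟩, rfl⟩
    exact hc1 (congrArg Subtype.val this).symm
  have heq : MulAction.orbit (zpowers σ) c = {o}ᶜ := by
    refine Set.eq_of_subset_of_ncard_le hsub ?_ (Set.toFinite _)
    rw [hcard, ← Nat.card_coe_set_eq, hn]
    exact Nat.le_self_pow hn0 r
  obtain ⟨α, hα⟩ : a ∈ MulAction.orbit (zpowers σ) c := heq ▸ ha
  obtain ⟨β, hβ⟩ : b ∈ MulAction.orbit (zpowers σ) c := heq ▸ hb
  obtain ⟨i, hi⟩ := (mem_zpowers_iff_mem_range_orderOf.1 (β * α⁻¹).2 |> Finset.mem_image.1)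
  refine ⟨i, ?_⟩
  rw [hi.2, ← hα, ← hβ]
  simp [Subgroup.smul_def]

variable {G : Type*} [Group G]

theorem mem_cent_iff' {U : Subgroup G} {c : G} : c ∈ 𝐂(U) ↔ ∀ a ∈ U, c * a * c⁻¹ = a := by
  rw [mem_centralizer_iff]
  refine forall₂_congr fun a _ => ⟨fun h => by rw [← h]; group, fun h => ?_⟩
  conv_lhs => rw [← h]
  group

theorem mem_cent1_iff {x c : G} : c ∈ 𝐂[x] ↔ c * x * c⁻¹ = x := by
  rw [mem_centralizer_singleton_iff, mul_inv_eq_iff_eq_mul]

theorem conj_mem_of_norm {U : Subgroup G} {c a : G} (hc : c ∈ 𝐍(U)) (ha : a ∈ U) :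
    c * a * c⁻¹ ∈ U := (mem_normalizer_iff.1 hc a).1 ha

theorem cent_conj_mem {U : Subgroup G} {g c : G} (hg : g ∈ 𝐍(U)) (hc : c ∈ 𝐂(U)) :
    g * c * g⁻¹ ∈ 𝐂(U) :=
  conj_mem_of_norm (le_normalizer_centralizer le_rfl hg) hc

theorem elem_mul_self {U : Subgroup G} (h : IsElementaryAbelian 2 U) {a : G} (ha : a ∈ U) :
    a * a = 1 := by rw [← pow_two]; exact h.2 a ha

theorem elem_inv {U : Subgroup G} (h : IsElementaryAbelian 2 U) {a : G} (ha : a ∈ U) :
    a⁻¹ = a := inv_eq_of_mul_eq_one_right (elem_mul_self h ha)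

theorem comm_of {U : Subgroup G} (h : IsMulCommutative U) {a b : G} (ha : a ∈ U) (hb : b ∈ U) :
    a * b = b * a := congrArg Subtype.val (h.is_comm.comm (⟨a, ha⟩ : U) ⟨b, hb⟩)

theorem le_cent_of_comm {U : Subgroup G} (h : IsMulCommutative U) : U ≤ 𝐂(U) :=
  fun _ ha => mem_centralizer_iff.2 fun _ hb => comm_of h hb ha

/-- the `r`-element `x` acts nontrivially on the elementary abelian group `U` of order `r + 1` -/
structure Sing (U : Subgroup G) (x : G) (r : ℕ) : Prop where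
  prime : r.Prime
  elem : IsElementaryAbelian 2 U
  card : Nat.card U = r + 1
  pelt : IsPElt r x
  norm : x ∈ 𝐍(U)
  nc : x ∉ 𝐂(U)

namespace Sing

variable [Finite G] {U : Subgroup G} {x : G} {r : ℕ} (h : Sing U x r)
include h

theorem pgroup : IsPGroup 2 U := elem_isPGroup h.elem

theorem ne_two : r ≠ 2 := by
  rintro rfl
  obtain ⟨n, hn⟩ := IsPGroup.iff_card.1 h.pgroup
  rw [h.card] at hn
  rcases n with _ | n
  · omega
  · rw [pow_succ] at hn; omega

theorem reg : IsPRegular 2 x := by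
  haveI := Fact.mk h.prime
  exact h.pelt.isPRegular_of_ne h.ne_two.symm

theorem three_le : 3 ≤ r := by
  have := h.prime.two_le
  have := h.ne_two
  omega

theorem ne_bot : U ≠ ⊥ := by
  rintro rfl
  have := h.card
  have := h.three_le
  rw [card_bot] at *
  omega

omit [Finite G] in
theorem znorm {y : G} (hy : y ∈ zpowers x) : y ∈ 𝐍(U) := (zpowers_le.2 h.norm) hy

theorem trans {a b : G} (ha : a ∈ U) (a1 : a ≠ 1) (hb : b ∈ U) (b1 : b ≠ 1) :
    ∃ y ∈ zpowers x, y * a * y⁻¹ = b := by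
  haveI := Fact.mk h.prime
  let f : 𝐍(U) →* Equiv.Perm U := (MulAut.toPerm U).comp U.normalizerMonoidHom
  have hf : ∀ (y : 𝐍(U)) (c : U), (f y c : G) = y * c * (y : G)⁻¹ := fun _ _ => rfl
  obtain ⟨i, hi⟩ := perm_trans (σ := f ⟨x, h.norm⟩) (((isPElt_mk h.norm).2 h.pelt).map f) h.card
    (o := 1) (Subtype.ext (by rw [hf]; simp)) (fun e => h.nc (mem_cent_iff'.2 fun c hc => by
      have := hf ⟨x, h.norm⟩ ⟨c, hc⟩
      rw [e] at this
      exact this.symm)) (a := ⟨a, ha⟩) (b := ⟨b, hb⟩) (fun e => a1 (congrArg Subtype.val e))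
    (fun e => b1 (congrArg Subtype.val e))
  refine ⟨x ^ i, pow_mem (mem_zpowers x) i, ?_⟩
  rw [← map_pow] at hi
  have := hf (⟨x, h.norm⟩ ^ i) ⟨a, ha⟩
  rw [hi] at this
  exact this.symm

theorem le_of_norm {W : Subgroup G} (hx : x ∈ 𝐍(W)) (h1 : U ⊓ W ≠ ⊥) : U ≤ W := by
  obtain ⟨⟨a, ha⟩, a1⟩ := ne_bot_iff_exists_ne_one.1 h1
  intro b hb
  by_cases b1 : b = 1
  · rw [b1]; exact W.one_mem
  obtain ⟨y, hy, rfl⟩ := h.trans ha.1 (fun e => a1 (Subtype.ext e)) hb b1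
  exact conj_mem_of_norm ((zpowers_le.2 hx) hy) ha.2

theorem le_cent {Q : Subgroup G} (hQ : IsPGroup 2 Q) (hQU : Q ≤ 𝐍(U)) (hx : x ∈ 𝐍(Q)) :
    U ≤ 𝐂(Q) :=
  h.le_of_norm (le_normalizer_centralizer le_rfl hx)
    (inf_centralizer_ne_bot_of_isPGroup hQ h.pgroup h.ne_bot hQU)

theorem cent_of_fix {c : G} (hc : c ∈ 𝐍(U)) (hx : ⁅c, x⁆ ∈ 𝐂(U)) {a : G} (ha : a ∈ U)
    (a1 : a ≠ 1) (e : c * a * c⁻¹ = a) : c ∈ 𝐂(U) := by
  refine le_centralizer_iff.1 (le_trans ?_ (centralizer_zpowers c).ge) (mem_zpowers c)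
  refine le_trans (h.le_of_norm (W := U ⊓ 𝐂[c]) (mem_normalizer_fintype fun b hb => ⟨?_, ?_⟩) ?_)
    inf_le_right
  · exact conj_mem_of_norm h.norm hb.1
  · have h1 : c * b * c⁻¹ = b := by
      have := mem_centralizer_singleton_iff.1 hb.2
      rw [← this]; group
    have h2 := mem_cent_iff'.1 hx _ (conj_mem_of_norm h.norm hb.1)
    refine mem_centralizer_singleton_iff.2 ?_
    calc x * b * x⁻¹ * c = ⁅c, x⁆ * (x * (c * b * c⁻¹) * x⁻¹) * ⁅c, x⁆⁻¹ * c := by rw [h1, h2]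
      _ = c * (x * b * x⁻¹) := by simp only [commutatorElement_def]; group
  · refine ne_bot_iff_exists_ne_one.2 ⟨⟨a, ha, ha, ?_⟩, fun e => a1 (congrArg Subtype.val e)⟩
    refine mem_centralizer_singleton_iff.2 ?_
    conv_lhs => rw [← e]
    group

theorem fix {a : G} (ha : a ∈ U) (e : x * a * x⁻¹ = a) : a = 1 := by
  by_contra a1
  exact h.nc (h.cent_of_fix h.norm (by simp) ha a1 e)

theorem inf_cent : U ⊓ 𝐂[x] = ⊥ := by
  refine eq_bot_iff.2 fun a ha => h.fix ha.1 ?_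
  rw [← mem_centralizer_singleton_iff.1 ha.2]; group

theorem zfix {y : G} (hy : y ∈ zpowers x) (hc : y ∉ 𝐂(U)) {a : G} (ha : a ∈ U)
    (e : y * a * y⁻¹ = a) : a = 1 := by
  by_contra a1
  refine hc (h.cent_of_fix (h.znorm hy) ?_ ha a1 e)
  rw [(eq_of_commute_zpowers hy (mem_zpowers x)).commutator_eq]
  exact one_mem _

theorem exists_mul_cent {c : G} (hc : c ∈ 𝐍(U)) (hx : ⁅c, x⁆ ∈ 𝐂(U)) :
    ∃ y ∈ zpowers x, y * c ∈ 𝐂(U) := by
  obtain ⟨⟨a, ha⟩, a1⟩ := ne_bot_iff_exists_ne_one.1 h.ne_bot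
  have a1' : a ≠ 1 := fun e => a1 (Subtype.ext e)
  obtain ⟨y, hy, e⟩ := h.trans (conj_mem_of_norm hc ha) (by simpa using a1') ha a1'
  refine ⟨y, hy, h.cent_of_fix (mul_mem (h.znorm hy) hc) ?_ ha a1' (Eq.trans (by group) e)⟩
  have h1 : ⁅y * c, x⁆ = y * ⁅c, x⁆ * y⁻¹ * ⁅y, x⁆ := by
    simp only [commutatorElement_def]; group
  rw [h1, (eq_of_commute_zpowers hy (mem_zpowers x)).commutator_eq, mul_one]
  exact cent_conj_mem (h.znorm hy) hx

theorem commutator_eq : ⁅U, zpowers x⁆ = U := by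
  have hc : CoprimeAct (zpowers x) U := coprimeAct_of_isPGroup_right (zpowers_le.2 h.norm) h.pgroup
    (by rw [Nat.card_zpowers]; exact h.reg)
  have := hc.commutator_sup_inf_centralizer
  rwa [centralizer_zpowers, h.inf_cent, sup_bot_eq] at this

omit [Finite G] in
theorem conj (g : G) : Sing (MulAut.conj g • U) (g * x * g⁻¹) r where
  prime := h.prime
  elem := elem_conj h.elem g
  card := by rw [card_conj_smul, h.card]
  pelt := h.pelt.conj g
  norm := by rw [← conj_smul_normalizer]; exact conj_mem_conj_smul.2 h.norm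
  nc := by rw [← conj_smul_centralizer]; exact fun e => h.nc (conj_mem_conj_smul.1 e)

/-- An involution inverting `x` forces `U` to be a four-group. -/
theorem eq_three {s : G} (hs : s ∈ 𝐍(U)) (hss : s * s ∈ 𝐂(U)) (hi : s * x * s⁻¹ * x ∈ 𝐂(U)) :
    r = 3 := by
  haveI := Fact.mk h.prime
  have hz : ∀ y ∈ zpowers x, s * y * s⁻¹ * y ∈ 𝐂(U) := by
    refine forall_mem_zpowers_of_mul (by simp) fun a ha h1 => ?_
    have e : s * (x * a) * s⁻¹ * (x * a) =
        (s * x * s⁻¹ * x) * (x⁻¹ * (s * a * s⁻¹ * a) * x⁻¹⁻¹) * (x⁻¹ * a⁻¹ * x * a) := by group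
    have e2 : x⁻¹ * a⁻¹ * x * a = 1 := by
      have := (eq_of_commute_zpowers ha (mem_zpowers x)).eq
      calc x⁻¹ * a⁻¹ * x * a = (a * x)⁻¹ * (x * a) := by group
        _ = 1 := by rw [this]; group
    rw [e, e2, mul_one]
    exact mul_mem hi (cent_conj_mem (inv_mem h.norm) h1)
  have key : ∀ a ∈ U, a ≠ 1 → s * a * s⁻¹ = a → ∀ b ∈ U, b ≠ 1 → s * b * s⁻¹ = b → b = a := by
    intro a ha a1 ea b hb b1 eb
    obtain ⟨y, hy, rfl⟩ := h.trans ha a1 hb b1
    by_cases hc : y ∈ 𝐂(U)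
    · exact mem_cent_iff'.1 hc a ha
    exfalso
    have h1 := mem_cent_iff'.1 (hz y hy) _ (conj_mem_of_norm (inv_mem (h.znorm hy)) ha)
    have h2 : y * a * y⁻¹ = y⁻¹ * a * y⁻¹⁻¹ := by
      have ea' : s⁻¹ * a * s = a := by
        conv_lhs => rw [← ea]
        group
      calc y * a * y⁻¹ = s * (y * a * y⁻¹) * s⁻¹ := eb.symm
        _ = s * (y * (s⁻¹ * a * s) * y⁻¹) * s⁻¹ := by rw [ea']
        _ = _ := by rw [← h1]; group
    have h3 : y * y ∉ 𝐂(U) := by
      intro h3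
      refine hc (mem_cent_iff'.2 fun c hcU => conj_eq_of_sq_conj_eq (h.reg.of_mem_zpowers hy) ?_)
      rw [← mem_cent_iff'.1 h3 c hcU]
      conv_lhs => rw [mem_cent_iff'.1 h3 c hcU]
      group
    refine a1 (h.zfix (mul_mem hy hy) h3 ha ?_)
    calc y * y * a * (y * y)⁻¹ = y * (y * a * y⁻¹) * y⁻¹ := by group
      _ = a := by rw [h2]; group
  have hfx : ∀ b ∈ U, s * (b * (s * b * s⁻¹)) * s⁻¹ = b * (s * b * s⁻¹) := by
    intro b hb
    calc s * (b * (s * b * s⁻¹)) * s⁻¹ = (s * b * s⁻¹) * (s * s * b * (s * s)⁻¹) := by group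
      _ = _ := by
        rw [mem_cent_iff'.1 hss b hb, comm_of h.elem.1 hb (conj_mem_of_norm hs hb)]
  have hone : ∀ b ∈ U, b * (s * b * s⁻¹) = 1 → s * b * s⁻¹ = b := fun b hb e => by
    rw [eq_inv_of_mul_eq_one_right e, elem_inv h.elem hb]
  obtain ⟨a, ha, a1, ea⟩ : ∃ a ∈ U, a ≠ 1 ∧ s * a * s⁻¹ = a := by
    obtain ⟨⟨b, hb⟩, b1⟩ := ne_bot_iff_exists_ne_one.1 h.ne_bot
    by_cases e : b * (s * b * s⁻¹) = 1
    · exact ⟨b, hb, fun e => b1 (Subtype.ext e), hone b hb e⟩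
    · exact ⟨_, mul_mem hb (conj_mem_of_norm hs hb), e, hfx b hb⟩
  have k1 : ∀ b ∈ U, s * b * s⁻¹ = b → b = 1 ∨ b = a := fun b hb e => by
    by_cases b1 : b = 1
    · exact Or.inl b1
    · exact Or.inr (key a ha a1 ea b hb b1 e)
  have k2 : ∀ b ∈ U, b = 1 ∨ b = a ∨ s * b * s⁻¹ = b * a := fun b hb => by
    rcases k1 _ (mul_mem hb (conj_mem_of_norm hs hb)) (hfx b hb) with e | e
    · exact (k1 b hb (hone b hb e)).imp_right Or.inl
    · refine Or.inr (Or.inr ?_)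
      rw [← e, ← mul_assoc, elem_mul_self h.elem hb, one_mul]
  have h4 : Nat.card U ≤ 4 := by
    obtain ⟨b, hb⟩ : ∃ b, (U : Set G) ⊆ {1, a, b, b * a} := by
      by_cases hex : ∃ b ∈ U, s * b * s⁻¹ = b * a
      · obtain ⟨b, hb, eb⟩ := hex
        refine ⟨b, fun c hc => ?_⟩
        rcases k2 c hc with e | e | e
        · simp [e]
        · simp [e]
        have : s * (b * c) * s⁻¹ = b * c := by
          calc s * (b * c) * s⁻¹ = (s * b * s⁻¹) * (s * c * s⁻¹) := by group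
            _ = b * (a * c) * a := by rw [eb, e]; group
            _ = b * c := by
              rw [comm_of h.elem.1 ha hc, ← mul_assoc, mul_assoc _ a, elem_mul_self h.elem ha,
                mul_one]
        have e2 : c = b * (b * c) := by rw [← mul_assoc, elem_mul_self h.elem hb, one_mul]
        rcases k1 _ (mul_mem hb hc) this with e' | e'
        · rw [e', mul_one] at e2; simp [e2]
        · rw [e'] at e2; simp [e2]
      · refine ⟨1, fun c hc => ?_⟩
        rcases k2 c hc with e | e | e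
        · simp [e]
        · simp [e]
        · exact (hex ⟨c, hc, e⟩).elim
    have := Set.ncard_le_ncard hb (Set.toFinite _)
    have h1 := Set.ncard_insert_le 1 ({a, b, b * a} : Set G)
    have h2 := Set.ncard_insert_le a ({b, b * a} : Set G)
    have h3 := Set.ncard_insert_le b ({b * a} : Set G)
    rw [Set.ncard_singleton] at h3
    rw [← Nat.card_coe_set_eq] at this
    change Nat.card U ≤ _ at this
    omega
  have := h.card
  have := h.three_le
  omega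

end Sing

end SAD.L
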