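import Cfsg.Agent.Lib.Char.SadL0
import Cfsg.Agent.Lib.Char.Quot

/-!
# Local analysis for S4753, part 1: automorphisms of `2`-subgroups
-/

set_option autoImplicit false
set_option linter.unusedSectionVars false

namespace SAD.L

open Cfsg GT FT Subgroup
open scoped Pointwise commutatorElement

universe u

theorem sm_congr {H K : Type*} [Group H] [Group K] (e : H ≃* K) (h : Sm H) : Sm K := by
  unfold Sm at *
  rw [← Nat.card_congr (CT.irrCongr e),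
    ← finsum_comp_equiv (CT.irrCongr e) (f := fun χ : IrrCharacter K => charDegree (χ : K → ℂ))]
  simpa using h

theorem allSm_top {G : Type*} [Group G] {M : Subgroup G} (h : AllSm M) :
    AllSm (⊤ : Subgroup M) := fun H _ =>
  sm_congr (H.equivMapOfInjective M.subtype M.subtype_injective).symm (h _ (map_subtype_le H))

theorem allSm_quo [T : Tools.{u}] {G : Type u} [Group G] [Finite G] {M : Subgroup G}
    (h : AllSm M) (N : Subgroup G) [(N.subgroupOf M).Normal] : AllSm (⊤ : Subgroup (Quo M N)) := by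
  have := Tools.map (allSm_top h) (qmk M N)
  rwa [map_top_of_surjective _ (qmk_surjective M N)] at this

variable {G : Type*} [Group G]

/-- the facts on the quaternion group of order eight that are needed -/
structure Q8 (W : Subgroup G) (z : G) : Prop where
  mem : z ∈ W
  ne : z ≠ 1
  sq : ∀ a ∈ W, a * a = 1 ∨ a * a = z
  uniq : ∀ a ∈ W, a * a = 1 → a = 1 ∨ a = z
  comm : ∃ a ∈ W, ∃ b ∈ W, ⁅a, b⁆ = z
  cent : ∀ a ∈ W, (∀ b ∈ W, a * b = b * a) → a = 1 ∨ a = z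
  cmt : ∀ a ∈ W, ∀ b ∈ W, ⁅a, b⁆ = 1 ∨ ⁅a, b⁆ = z
  card : Nat.card W = 8

theorem exists_q8 {W : Subgroup G} (h : Nonempty (W ≃* QuaternionGroup 2)) : ∃ z, Q8 W z := by
  obtain ⟨e⟩ := h
  have hz : ∀ a : W, (a : G) = e.symm (QuaternionGroup.a 2) ↔ e a = QuaternionGroup.a 2 := by
    intro a
    rw [← SetLike.coe_eq_coe.symm, MulEquiv.eq_symm_apply]
  have h1 : ∀ a : W, (a : G) = 1 ↔ e a = 1 := by
    intro a
    rw [OneMemClass.coe_eq_one, MulEquiv.map_eq_one_iff]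
  refine ⟨e.symm (QuaternionGroup.a 2), SetLike.coe_mem _, ?_, fun a ha => ?_, fun a ha => ?_,
    ?_, fun a ha h => ?_, fun a ha b hb => ?_, ?_⟩
  · rw [Ne, h1, e.apply_symm_apply]; decide
  · have := h1 (⟨a, ha⟩ * ⟨a, ha⟩)
    have h2 := hz (⟨a, ha⟩ * ⟨a, ha⟩)
    rw [map_mul] at this h2
    refine Or.imp this.2 h2.2 ?_
    generalize e ⟨a, ha⟩ = q
    revert q; decide
  · have := h1 (⟨a, ha⟩ * ⟨a, ha⟩)
    rw [map_mul] at this
    intro h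
    have h3 := this.1 h
    refine Or.imp (h1 ⟨a, ha⟩).2 (hz ⟨a, ha⟩).2 ?_
    revert h3
    generalize e ⟨a, ha⟩ = q
    revert q; decide
  · refine ⟨e.symm (QuaternionGroup.a 1), SetLike.coe_mem _, e.symm (QuaternionGroup.xa 0),
      SetLike.coe_mem _, ?_⟩
    have := (hz ⁅e.symm (QuaternionGroup.a 1), e.symm (QuaternionGroup.xa 0)⁆).2 (by
      rw [map_commutatorElement, e.apply_symm_apply, e.apply_symm_apply]; decide)
    exact this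
  · refine Or.imp (h1 ⟨a, ha⟩).2 (hz ⟨a, ha⟩).2 ?_
    have h3 : ∀ q, e ⟨a, ha⟩ * q = q * e ⟨a, ha⟩ := by
      intro q
      obtain ⟨b, rfl⟩ := e.surjective q
      rw [← map_mul, ← map_mul]
      exact congrArg e (Subtype.ext (h b b.2))
    revert h3
    generalize e ⟨a, ha⟩ = q
    revert q; decide
  · refine Or.imp (h1 ⁅(⟨a, ha⟩ : W), ⟨b, hb⟩⁆).2 (hz ⁅(⟨a, ha⟩ : W), ⟨b, hb⟩⁆).2 ?_
    rw [map_commutatorElement]
    generalize e ⟨a, ha⟩ = q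
    generalize e ⟨b, hb⟩ = q'
    revert q q'; decide
  · rw [Nat.card_congr e.toEquiv, Nat.card_eq_fintype_card, QuaternionGroup.card]

variable [Finite G]

theorem Q8.zz {W : Subgroup G} {z : G} (h : Q8 W z) : z * z = 1 :=
  (h.sq z h.mem).resolve_right fun e => h.ne (by simpa using e)

theorem Q8.not_comm {W : Subgroup G} {z : G} (h : Q8 W z) : ¬ IsMulCommutative W := by
  intro hc
  obtain ⟨a, ha, b, hb, e⟩ := h.comm
  exact h.ne (e ▸ commutatorElement_eq_one_iff_mul_comm.2 (comm_of hc ha hb))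

theorem exists_ne_one {U : Subgroup G} (h : U ≠ ⊥) : ∃ a ∈ U, a ≠ 1 := by
  obtain ⟨⟨a, ha⟩, a1⟩ := ne_bot_iff_exists_ne_one.1 h
  exact ⟨a, ha, fun e => a1 (Subtype.ext e)⟩

theorem ne_bot_of_mem {U : Subgroup G} {a : G} (ha : a ∈ U) (h : a ≠ 1) : U ≠ ⊥ :=
  fun e => h (by rwa [e, mem_bot] at ha)

theorem exists_ne_ne {U : Subgroup G} (h : 3 ≤ Nat.card U) (z : G) :
    ∃ a ∈ U, a ≠ 1 ∧ a ≠ z := by
  by_contra hn
  push Not at hn
  have hb : (U : Set G) ⊆ {1, z} := fun a ha => by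
    by_cases a1 : a = 1
    · simp [a1]
    · simp [hn a ha a1]
  have := Set.ncard_le_ncard hb (Set.toFinite _)
  have h1 := Set.ncard_insert_le 1 ({z} : Set G)
  rw [Set.ncard_singleton] at h1
  rw [← Nat.card_coe_set_eq] at this
  change Nat.card U ≤ _ at this
  omega

theorem Q8.not_elem {W U : Subgroup G} {z : G} (h : Q8 W z) (hU : IsElementaryAbelian 2 U)
    (hc : 3 ≤ Nat.card U) : ¬ U ≤ W := by
  intro hle
  obtain ⟨a, ha, a1, az⟩ := exists_ne_ne hc z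
  rcases h.uniq a (hle ha) (elem_mul_self hU ha) with e | e
  exacts [a1 e, az e]

theorem four_cases {U H : Subgroup G} (hU : ElemN 2 2 U H) {u v a : G} (hu : u ∈ U) (hv : v ∈ U)
    (u1 : u ≠ 1) (v1 : v ≠ 1) (huv : u ≠ v) (ha : a ∈ U) :
    a = 1 ∨ a = u ∨ a = v ∨ a = u * v := by
  have h1 : u * v ≠ 1 := fun e => huv (by
    rw [eq_inv_of_mul_eq_one_left e, elem_inv hU.elem hv])
  have hb : ({1, u, v, u * v} : Set G) ⊆ U := by
    rintro c (rfl | rfl | rfl | rfl)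
    exacts [U.one_mem, hu, hv, U.mul_mem hu hv]
  have hc : ({1, u, v, u * v} : Set G).ncard = 4 := by
    rw [Set.ncard_insert_of_notMem (by simp [u1.symm, v1.symm, h1.symm]),
      Set.ncard_insert_of_notMem (by simp [huv, v1]),
      Set.ncard_insert_of_notMem (by simp [u1]), Set.ncard_singleton]
  have := Set.eq_of_subset_of_ncard_le hb (by
    rw [hc, ← Nat.card_coe_set_eq]; exact hU.card.le) (Set.toFinite _)
  have ha' : a ∈ ({1, u, v, u * v} : Set G) := this ▸ ha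
  simpa using ha'

theorem idx_commutator_le {D C : Subgroup G} {y : G} (h : Idx D C y) (hC : C ≤ D) :
    ⁅D, D⁆ ≤ C := by
  refine commutator_le.2 fun a ha b hb => ?_
  rw [commutatorElement_def]
  by_cases h1 : a ∈ C
  · have := C.mul_mem h1 (h.conj_mem hC hb (C.inv_mem h1))
    simpa [mul_assoc] using this
  by_cases h2 : b ∈ C
  · exact C.mul_mem (h.conj_mem hC ha h2) (C.inv_mem h2)
  have := C.mul_mem (h.mul_mem ha hb h1 h2) (h.mul_mem (D.inv_mem ha) (D.inv_mem hb)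
    (by simpa using h1) (by simpa using h2))
  simpa [mul_assoc] using this

theorem cop2 {Q : Subgroup G} (hQ : IsPGroup 2 Q) {x : G} (hx : IsPRegular 2 x) (hn : x ∈ 𝐍(Q)) :
    CoprimeAct (zpowers x) Q :=
  coprimeAct_of_isPGroup_right (zpowers_le.2 hn) hQ (by rw [Nat.card_zpowers]; exact hx)

theorem norm_commutator {Q : Subgroup G} {x : G} (hn : x ∈ 𝐍(Q)) : x ∈ 𝐍(⁅Q, zpowers x⁆) :=
  normalizer_inf_normalizer_le_normalizer_commutator _ _ ⟨hn, le_normalizer (mem_zpowers x)⟩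

theorem not_cent_commutator {Q : Subgroup G} {x : G} (hc : CoprimeAct (zpowers x) Q)
    (h : x ∉ 𝐂(Q)) : x ∉ 𝐂(⁅Q, zpowers x⁆) := fun e =>
  h (le_centralizer_iff.1 (hc.le_centralizer_of_commutator_le
    (le_centralizer_iff.1 (zpowers_le.2 e))) (mem_zpowers x))

theorem commutator_zpowers_le {Q : Subgroup G} {x y : G} (hx : x ∈ 𝐍(Q))
    (h : y ∈ zpowers x ⊔ 𝐂(Q)) : ⁅Q, zpowers y⁆ ≤ ⁅Q, zpowers x⁆ := by
  have hle : ⁅Q, zpowers x⁆ ≤ Q := commutator_le_left_of_norm (zpowers_le.2 hx)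
  have h1 : 𝐂(Q) ≤ 𝐍(⁅Q, zpowers x⁆) :=
    le_normalizer_of_le_centralizer (centralizer_anti hle)
  refine (commutator_mono le_rfl (zpowers_le.2 h)).trans
    (commutator_sup_right_le le_rfl ?_ (zpowers_le.2 (norm_commutator hx)) h1)
  rw [commutator_comm, le_cent_iff_commutator.1 le_rfl]
  exact bot_le

theorem exists_fix {U : Subgroup G} (h : IsElementaryAbelian 2 U) (h1 : U ≠ ⊥) {s : G}
    (hs : s ∈ 𝐍(U)) (hss : s * s ∈ 𝐂(U)) : ∃ a ∈ U, a ≠ 1 ∧ s * a * s⁻¹ = a := by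
  obtain ⟨b, hb, b1⟩ := exists_ne_one h1
  by_cases e : b * (s * b * s⁻¹) = 1
  · exact ⟨b, hb, b1, by rw [eq_inv_of_mul_eq_one_right e, elem_inv h hb]⟩
  · refine ⟨_, mul_mem hb (conj_mem_of_norm hs hb), e, ?_⟩
    calc s * (b * (s * b * s⁻¹)) * s⁻¹ = (s * b * s⁻¹) * (s * s * b * (s * s)⁻¹) := by group
      _ = _ := by rw [mem_cent_iff'.1 hss b hb, comm_of h.1 hb (conj_mem_of_norm hs hb)]

theorem mem_cent_of_sq {U : Subgroup G} {x : G} (hx : IsPRegular 2 x) (h : x * x ∈ 𝐂(U)) :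
    x ∈ 𝐂(U) :=
  mem_cent_iff'.2 fun c hc => conj_eq_of_sq_conj_eq hx (by
    conv_rhs => rw [← mem_cent_iff'.1 h c hc]
    group)

theorem norm_le_norm_sup_cent (Q : Subgroup G) : 𝐍(Q) ≤ 𝐍(Q ⊔ 𝐂(Q)) :=
  le_normalizer_sup le_rfl (le_normalizer_centralizer le_rfl)

theorem sup_cent_le_norm (Q : Subgroup G) : Q ⊔ 𝐂(Q) ≤ 𝐍(Q) :=
  sup_le le_normalizer (centralizer_le_normalizer _)

theorem lift {Q : Subgroup G} (hQ : IsPGroup 2 Q) {x s : G} {r : ℕ} [Fact r.Prime] (r2 : r ≠ 2)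
    (hp : IsPElt r x) (hx : x ∈ 𝐍(Q)) (hs : s ∈ 𝐍(Q)) (hss : s * s ∈ Q ⊔ 𝐂(Q))
    (hi : s * x * s⁻¹ * x ∈ Q ⊔ 𝐂(Q)) :
    ∃ (P : Subgroup G) (s' : G), IsPGroup r P ∧ x ∈ P ∧ P ≤ zpowers x ⊔ 𝐂(Q) ∧ s' ∈ 𝐍(P) ∧ s' ∈ 𝐍(Q) ∧
      s' * s⁻¹ ∈ Q ⊔ 𝐂(Q) ∧ s' * x * s'⁻¹ * x ∈ 𝐂(Q) ∧ s' * s' ∈ Q ⊔ 𝐂(Q) := by
  set B := Q ⊔ 𝐂(Q) with hB
  have hN : ∀ g ∈ 𝐍(Q), ∀ b ∈ B, g * b * g⁻¹ ∈ B := fun g hg b hb =>
    conj_mem_of_norm (norm_le_norm_sup_cent Q hg) hb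
  have hxB : zpowers x ≤ 𝐍(B) := zpowers_le.2 (norm_le_norm_sup_cent Q hx)
  obtain ⟨P, hP, hxP⟩ := exists_isSylowIn_ge hp.isPGroup_zpowers
    (le_sup_right : zpowers x ≤ B ⊔ zpowers x)
  have hsK : s ∈ 𝐍(B ⊔ zpowers x) := by
    refine mem_normalizer_of_conj_mem fun g hg => ?_
    refine (sup_le (fun b hb => ?_) (zpowers_le.2 ?_) :
      B ⊔ zpowers x ≤ (B ⊔ zpowers x).comap (MulAut.conj s).toMonoidHom) hg
    · exact mem_sup_left (hN s hs b hb)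
    · have := mul_mem (mem_sup_left hi : _ ∈ B ⊔ zpowers x)
        (mem_sup_right (inv_mem (mem_zpowers x)))
      simpa using this
  have hreg : ∀ g ∈ P, g ∈ B → g ∈ 𝐂(Q) := fun g hg hb =>
    mem_centralizer_of_mem_sup hQ ((isPElt_of_mem hP.isPGroup hg).isPRegular_of_ne r2.symm) hb
  obtain ⟨k, hk, s', hs', e⟩ := hP.frattini hsK
  obtain ⟨b, hb, y, hy, rfl⟩ := (mem_sup_of_le_normalizer_left hxB).1 hk
  have e' : y * s' = b⁻¹ * s := by rw [← e]; group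
  have hn : y * s' ∈ 𝐍(P) := mul_mem (le_normalizer (hxP hy)) hs'
  have hxP' := hxP (mem_zpowers x)
  refine ⟨P, y * s', hP.isPGroup, hxP', fun g hg => ?_, hn, ?_, ?_, ?_, ?_⟩
  · obtain ⟨c, hc, w, hw, rfl⟩ := (mem_sup_of_le_normalizer_left hxB).1 (hP.le hg)
    exact mul_mem (mem_sup_right (hreg c (by simpa using P.mul_mem hg (P.inv_mem (hxP hw))) hc))
      (mem_sup_left hw)
  · rw [e']; exact mul_mem (inv_mem (sup_cent_le_norm Q hb)) hs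
  · rw [e']; simpa using hb
  · refine hreg _ (P.mul_mem (conj_mem_of_norm hn hxP') hxP') ?_
    have : b⁻¹ * s * x * (b⁻¹ * s)⁻¹ * x = b⁻¹ * (s * x * s⁻¹ * x) * (x⁻¹ * b * x⁻¹⁻¹) := by group
    rw [e', this]
    exact B.mul_mem (B.mul_mem (B.inv_mem hb) hi) (hN _ (inv_mem hx) b hb)
  · have : b⁻¹ * s * (b⁻¹ * s) = b⁻¹ * (s * b⁻¹ * s⁻¹) * (s * s) := by group
    rw [e', this]
    exact B.mul_mem (B.mul_mem (B.inv_mem hb) (hN s hs _ (B.inv_mem hb))) hss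

theorem not_dvd_of_isPGroup {p q : ℕ} [hp : Fact p.Prime] (hq : q.Prime) {Q : Subgroup G}
    (hQ : IsPGroup p Q) (h : q ≠ p) : ¬ q ∣ Nat.card Q := by
  obtain ⟨n, hn⟩ := IsPGroup.iff_card.1 hQ
  rw [hn]
  exact fun e => h ((Nat.prime_dvd_prime_iff_eq hq hp.out).1 (hq.dvd_of_dvd_pow e))

section T

variable [T : Tools.{u}] {G : Type u} [Group G] [Finite G]

theorem odd2 {L Q : Subgroup G} {x : G} {r : ℕ} (hr : r.Prime) (hL : AllSm L)
    (hQ : IsPGroup 2 Q) (hQL : Q ≤ L) (hx : x ∈ L) (r2 : r ≠ 2) (hp : IsPElt r x)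
    (hn : x ∈ 𝐍(Q)) (hc : x ∉ 𝐂(Q)) : Sing ⁅Q, zpowers x⁆ x r ∨
      (r = 3 ∧ Nonempty (↥⁅Q, zpowers x⁆ ≃* QuaternionGroup 2)) := by
  haveI := Fact.mk hr
  rcases Tools.odd hL hQL hx r2 hp (not_dvd_of_isPGroup hr hQ r2) hn hc with h | h | h
  · exact Or.inl ⟨hr, h.1, h.2, hp, norm_commutator hn,
      not_cent_commutator (cop2 hQ (hp.isPRegular_of_ne r2.symm) hn) hc⟩
  · exact Or.inr h
  · exact absurd (h.2 ▸ dvd_refl _) (not_dvd_of_isPGroup (q := 7) (by norm_num)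
      (hQ.to_le (commutator_le_left_of_norm (zpowers_le.2 hn))) (by norm_num))

theorem odd2c {L Q : Subgroup G} {x : G} {r : ℕ} (hr : r.Prime) (hL : AllSm L)
    (hQ : IsPGroup 2 Q) (hQL : Q ≤ L) (hx : x ∈ L) (r2 : r ≠ 2) (hp : IsPElt r x)
    (hn : x ∈ 𝐍(Q)) (hc : x ∉ 𝐂(Q)) (hab : IsMulCommutative ↥⁅Q, zpowers x⁆) :
    Sing ⁅Q, zpowers x⁆ x r := by
  refine (odd2 hr hL hQ hQL hx r2 hp hn hc).resolve_right fun h => ?_
  obtain ⟨z, hz⟩ := exists_q8 h.2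
  exact hz.not_comm hab

theorem oddO {L O : Subgroup G} {x : G} {r : ℕ} (hr : r.Prime) (hL : AllSm L)
    (hO : ¬ 2 ∣ Nat.card O) (hOr : ¬ r ∣ Nat.card O) (hOL : O ≤ L) (hx : x ∈ L) (r2 : r ≠ 2)
    (hp : IsPElt r x) (hn : x ∈ 𝐍(O)) (hc : x ∉ 𝐂(O)) :
    r = 3 ∧ Nat.card ↥⁅O, zpowers x⁆ = 7 := by
  haveI := Fact.mk hr
  have h2 : ¬ 2 ∣ Nat.card ↥⁅O, zpowers x⁆ := fun h =>
    hO (h.trans (card_dvd_of_le (commutator_le_left_of_norm (zpowers_le.2 hn))))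
  rcases Tools.odd hL hOL hx r2 hp hOr hn hc with h | h | h
  · have := hr.eq_two_or_odd
    omega
  · obtain ⟨z, hz⟩ := exists_q8 h.2
    exact absurd (hz.card ▸ by norm_num) h2
  · exact h

theorem quat' {L W P : Subgroup G} {x s : G} (hL : AllSm L) (hW : W ≤ L) (hPL : P ≤ L)
    (hs : s ∈ L) (e : Nonempty (W ≃* QuaternionGroup 2)) (hP : IsPGroup 3 P) (hx : x ∈ P)
    (hPW : P ≤ 𝐍(W)) (hsW : s ∈ 𝐍(W)) (hsP : s ∈ 𝐍(P)) (hc : x ∉ 𝐂(W))
    (hi : s * x * s⁻¹ * x ∈ 𝐂(W)) : False := by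
  haveI : Fact (Nat.Prime 3) := ⟨by norm_num⟩
  obtain ⟨z, hz⟩ := exists_q8 e
  have hW2 : IsPGroup 2 W := IsPGroup.of_card (n := 3) hz.card
  set P0 := P ⊓ 𝐂(W) with hP0
  set H := L ⊓ 𝐍(P0) with hH
  have hd : Disjoint P0 W := disjoint_of_isPGroup_of_not_dvd (hP.to_le inf_le_left)
    (not_dvd_of_isPGroup (by norm_num) hW2 (by norm_num))
  have hWH : W ≤ H := le_inf hW (le_normalizer_of_le_centralizer
    (le_centralizer_iff.1 inf_le_right))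
  have hPH : P ≤ H := le_inf hPL (le_normalizer_inf le_normalizer (le_normalizer_centralizer hPW))
  have hsH : s ∈ H := ⟨hs, zpowers_le.1 (le_normalizer_inf (zpowers_le.2 hsP)
    (le_normalizer_centralizer (zpowers_le.2 hsW)))⟩
  haveI := subgroupOf_normal (inf_le_right : H ≤ 𝐍(P0))
  have hn : ∀ g (hg : g ∈ H), g ∈ 𝐍(W) → qmk H P0 ⟨g, hg⟩ ∈ 𝐍(qim H P0 W) := fun g hg h =>
    qim_le_norm (zpowers_le.2 h) (qmk_mem_qim (mem_zpowers g))
  obtain ⟨e⟩ := e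
  refine Tools.quat (allSm_quo (hL.mono inf_le_left) P0) le_top (mem_top (qmk H P0 ⟨x, hPH hx⟩))
    (mem_top (qmk H P0 ⟨s, hsH⟩)) ⟨(qimEquiv hWH hd).symm.trans e⟩ (hn _ _ (hPW hx))
    (hn _ _ hsW) (((isPElt_mk _).2 (isPElt_of_mem hP hx)).map _) (fun h => hc ?_) ?_
  · refine mem_cent_iff'.2 fun a ha => ?_
    have := mem_cent_iff'.1 h _ (qmk_mem_qim (x := ⟨a, hWH ha⟩) ha)
    rw [← map_inv, ← map_mul, ← map_mul, qmk_eq_iff] at this
    have h2 := hd.le_bot ⟨this, W.mul_mem (W.inv_mem (conj_mem_of_norm (hPW hx) ha)) ha⟩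
    exact inv_mul_eq_one.1 (mem_bot.1 h2)
  · rw [eq_inv_iff_mul_eq_one, ← map_inv, ← map_mul, ← map_mul, ← map_mul, qmk_eq_one_iff]
    exact ⟨P.mul_mem (conj_mem_of_norm hsP hx) hx, hi⟩

theorem sym' {H U N : Subgroup G} {x s : G} (hH : AllSm H) (hU : ElemN 2 2 U H) (hN : N ≤ 𝐍(U))
    (e : U ⊔ N = H) (hd : U ⊓ N = ⊥) (hx : x ∈ H) (hp : IsPElt 3 x) (hc : x ∉ 𝐂(U))
    (hs : s ∈ H) (hsc : s ∉ 𝐂(U)) (hss : s * s ∈ 𝐂(U)) : ⁅H, H⁆ ⊓ 𝐂(U) ≤ U := by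
  have hHU : H ≤ 𝐍(U) := e ▸ sup_le le_normalizer hN
  obtain ⟨u, hu, u1, eu⟩ := exists_fix hU.elem (hU.ne_bot (by norm_num)) (hHU hs) hss
  obtain ⟨v, hv, v1, vu⟩ := exists_ne_ne (U := U) (by rw [hU.card]; norm_num) u
  have hC : 𝐂(U) ≤ 𝐂[u] := centralizer_le (Set.singleton_subset_iff.2 hu)
  have hNu : N ⊓ 𝐂[u] ≤ 𝐍(zpowers u) :=
    le_normalizer_of_le_centralizer (by rw [centralizer_zpowers]; exact inf_le_right)
  refine le_trans (inf_le_inf_left _ hC) (Tools.sym hH hU hHU hu u1 hx hp hc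
    (fun h => hsc (h ⟨hs, mem_cent1_iff.2 eu⟩)) fun h => ?_)
  have hI : Idx (H ⊓ 𝐂[u]) (zpowers u ⊔ (N ⊓ 𝐂[u])) v := by
    intro g hg
    obtain ⟨n, hn, a, ha, rfl⟩ := (mem_sup_of_le_normalizer_right hN).1
      (by rw [sup_comm, e]; exact hg.1)
    have hn' : n ∈ zpowers u ⊔ (N ⊓ 𝐂[u]) := mem_sup_right ⟨hn, by
      simpa using (𝐂[u]).mul_mem hg.2 (inv_mem (hC (hU.le_cent ha)))⟩
    have hu' : u ∈ zpowers u ⊔ (N ⊓ 𝐂[u]) := mem_sup_left (mem_zpowers u)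
    rcases four_cases hU hu hv u1 v1 vu.symm ha with rfl | rfl | rfl | rfl
    · exact Or.inl (by simpa using hn')
    · exact Or.inl (mul_mem hn' hu')
    · exact Or.inr (by simpa using hn')
    · exact Or.inr (by simpa [mul_assoc] using mul_mem hn' hu')
  have hv' := idx_commutator_le hI (sup_le (zpowers_le.2 ⟨hU.le hu, hC (hU.le_cent hu)⟩)
    (inf_le_inf_right _ (e ▸ le_sup_right))) (h hv)
  obtain ⟨w, hw, n, hn, rfl⟩ := (mem_sup_of_le_normalizer_left hNu).1 hv'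
  have hwU : w ∈ U := zpowers_le.2 hu hw
  have : n = 1 := mem_bot.1 (hd ▸ ⟨by simpa using U.mul_mem (U.inv_mem hwU) hv, hn.1⟩)
  rw [this, mul_one] at v1 vu
  rcases eq_of_mul_self_of_mem_zpowers (mem_zpowers u) hw (elem_mul_self hU.elem hu) u1
    (elem_mul_self hU.elem hwU) with h | h
  exacts [v1 h, vu h]

theorem sym_main {Q : Subgroup G} (hL : AllSm 𝐍(Q)) (hQ : IsPGroup 2 Q) {x s : G} {r : ℕ}
    (hr : r.Prime) (r2 : r ≠ 2) (hp : IsPElt r x) (hx : x ∈ 𝐍(Q)) (hc : x ∉ 𝐂(Q))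
    (hs : s ∈ 𝐍(Q)) (hss : s * s ∈ Q ⊔ 𝐂(Q)) (hi : s * x * s⁻¹ * x ∈ Q ⊔ 𝐂(Q)) :
    Sing ⁅Q, zpowers x⁆ x 3 ∧ IsMulCommutative Q ∧ ∃ s' ∈ 𝐍(Q), s' ∈ 𝐍(⁅Q, zpowers x⁆) ∧
      s' ∉ 𝐂(⁅Q, zpowers x⁆) ∧ s' * s' ∈ 𝐂(⁅Q, zpowers x⁆) ∧ s' ∈ 𝐂(Q ⊓ 𝐂[x]) := by
  haveI := Fact.mk hr
  obtain ⟨P, s, hP, hxP, hPx, hsP, hs, -, hi, hss⟩ := lift hQ r2 hp hx hs hss hi
  set U := ⁅Q, zpowers x⁆ with hU
  have hUQ : U ≤ Q := commutator_le_left_of_norm (zpowers_le.2 hx)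
  have hCU : 𝐂(Q) ≤ 𝐂(U) := centralizer_anti hUQ
  have hPQ : P ≤ 𝐍(Q) := hPx.trans (sup_le (zpowers_le.2 hx) (centralizer_le_normalizer _))
  have hN : 𝐍(P) ⊓ 𝐍(Q) ≤ 𝐍(U) := by
    intro g hg
    rw [← conj_smul_eq_iff_mem_normalizer]
    refine eq_of_le_of_card_ge ?_ (card_conj_smul _ _).ge
    rw [hU, conj_smul_commutator, conj_smul_eq_iff_mem_normalizer.2 hg.2, conj_smul_zpowers]
    exact commutator_zpowers_le hx (hPx (conj_mem_of_norm hg.1 hxP))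
  have hsU : s ∈ 𝐍(U) := hN ⟨hsP, hs⟩
  have hreg : IsPRegular 2 x := hp.isPRegular_of_ne r2.symm
  have hcop := cop2 hQ hreg hx
  rcases odd2 hr hL hQ le_normalizer hx r2 hp hx hc with h | h
  swap
  · obtain ⟨rfl, h⟩ := h
    exact (quat' hL (hUQ.trans le_normalizer) hPQ hs h hP hxP
      (fun g hg => hN ⟨le_normalizer hg, hPQ hg⟩) hsU hsP (not_cent_commutator hcop hc)
      (hCU hi)).elim
  have hQU : Q ≤ 𝐂(U) := le_centralizer_iff.1 (h.le_cent hQ (le_norm_commutator_left _ _) hx)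
  have hss' : s * s ∈ 𝐂(U) := sup_le hQU hCU hss
  obtain rfl := h.eq_three hsU hss' (hCU hi)
  have hsc : s ∉ 𝐂(U) := fun hsc => h.nc (mem_cent_of_sq hreg (by
    have := mul_mem (inv_mem (mul_mem hsc (cent_conj_mem h.norm (inv_mem hsc)))) (hCU hi)
    simpa [mul_assoc] using this))
  set R := Q ⊓ 𝐂[x] with hR
  have hRP : R ≤ 𝐂(P) := le_centralizer_iff.1 (hPx.trans (sup_le
    (le_centralizer_iff.1 (by rw [centralizer_zpowers]; exact inf_le_right))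
    (centralizer_anti inf_le_left)))
  have hRP' : R = Q ⊓ 𝐂(P) := le_antisymm (le_inf inf_le_left hRP)
    (inf_le_inf_left _ (centralizer_le (Set.singleton_subset_iff.2 hxP)))
  have hd : U ⊓ (𝐍(P) ⊓ 𝐍(Q)) = ⊥ := by
    refine eq_bot_iff.2 (le_trans ?_ h.inf_cent.le)
    refine le_inf inf_le_left (le_trans ?_ (centralizer_le (Set.singleton_subset_iff.2 hxP)))
    refine le_trans (inf_le_inf_left _ inf_le_left) (inf_normalizer_le_centralizer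
      (fun g hg => hN ⟨le_normalizer hg, hPQ hg⟩) ?_)
    exact disjoint_of_isPGroup_of_not_dvd h.pgroup (not_dvd_of_isPGroup (by norm_num) hP
      (by norm_num))
  set H := U ⊔ (𝐍(P) ⊓ 𝐍(Q)) with hH
  have hRH : R ≤ H := le_sup_of_le_right (le_inf (hRP.trans (centralizer_le_normalizer _))
    (inf_le_left.trans le_normalizer))
  have key := sym' (H := H) (hL.mono (sup_le (hUQ.trans le_normalizer) inf_le_right))
    ⟨le_sup_left, h.elem, h.card⟩ hN rfl hd (mem_sup_right ⟨le_normalizer hxP, hx⟩) hp h.nc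
    (mem_sup_right ⟨hsP, hs⟩) hsc hss'
  have hHR : H ≤ 𝐍(R) := sup_le (le_normalizer_of_le_centralizer (le_centralizer_iff.1
    (inf_le_left.trans hQU))) (hRP' ▸ le_normalizer_inf inf_le_right
      (le_normalizer_centralizer inf_le_left))
  have hRC : H ≤ 𝐂(R) := by
    rw [le_cent_iff_commutator, eq_bot_iff, ← h.inf_cent]
    have h1 : ⁅H, R⁆ ≤ R := commutator_le_right_of_norm hHR
    exact le_inf (le_trans (le_inf (commutator_mono le_rfl hRH)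
      (h1.trans (inf_le_left.trans hQU))) key) (h1.trans inf_le_right)
  have hQe : U ⊔ R = Q := by
    have := hcop.commutator_sup_inf_centralizer
    rwa [centralizer_zpowers] at this
  refine ⟨h, ?_, s, hs, hsU, hsc, hss', hRC (mem_sup_right ⟨hsP, hs⟩)⟩
  refine (le_centralizer_iff_isMulCommutative).1 ?_
  conv_rhs => rw [← hQe, centralizer_sup]
  exact le_inf hQU (hQe.ge.trans (sup_le (le_sup_left.trans hRC) (hRH.trans hRC)))

end T

end SAD.L
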