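import Cfsg.Agent.Lib.Char.SadL1

/-!
# Local analysis for S4753, part 2: automizers of abelian `2`-subgroups, `2`-constrained subgroups
-/

set_option autoImplicit false
set_option linter.unusedSectionVars false

namespace SAD.L

open Cfsg GT FT Subgroup
open scoped Pointwise commutatorElement

universe u

section
variable {G : Type*} [Group G] [Finite G]

theorem norm_commutator_of {Q : Subgroup G} {x g : G} (hx : x ∈ 𝐍(Q)) (hg : g ∈ 𝐍(Q))
    (h : g * x * g⁻¹ ∈ zpowers x ⊔ 𝐂(Q)) : g ∈ 𝐍(⁅Q, zpowers x⁆) := by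
  rw [← conj_smul_eq_iff_mem_normalizer]
  refine eq_of_le_of_card_ge ?_ (card_conj_smul _ _).ge
  rw [conj_smul_commutator, conj_smul_eq_iff_mem_normalizer.2 hg, conj_smul_zpowers]
  exact commutator_zpowers_le hx h

theorem conj_mem_sup_of_comm {Q : Subgroup G} {x g : G} (h : ⁅g, x⁆ ∈ 𝐂(Q)) :
    g * x * g⁻¹ ∈ zpowers x ⊔ 𝐂(Q) := by
  have := mul_mem (mem_sup_right h : _ ∈ zpowers x ⊔ 𝐂(Q)) (mem_sup_left (mem_zpowers x))
  simpa [commutatorElement_def] using this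

theorem commutator_inv_mem {C : Subgroup G} {x y : G} (h : ⁅x, y⁆ ∈ C) : ⁅y, x⁆ ∈ C := by
  rw [← commutatorElement_inv]; exact C.inv_mem h

theorem Sing.of_mem {U : Subgroup G} {x y : G} {r : ℕ} (h : Sing U x r) (hp : IsPElt r y)
    (hn : y ∈ 𝐍(U)) (hc : y ∉ 𝐂(U)) : Sing U y r := ⟨h.prime, h.elem, h.card, hp, hn, hc⟩

theorem Sing.mem_sup {U : Subgroup G} {x c : G} {r : ℕ} (h : Sing U x r) (hc : c ∈ 𝐍(U))
    (hx : ⁅c, x⁆ ∈ 𝐂(U)) : c ∈ zpowers x ⊔ 𝐂(U) := by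
  obtain ⟨y, hy, e⟩ := h.exists_mul_cent hc hx
  simpa using mul_mem (mem_sup_left (inv_mem hy) : _ ∈ zpowers x ⊔ 𝐂(U)) (mem_sup_right e)

theorem Sing.inverts {U : Subgroup G} {y s : G} {r : ℕ} (h : Sing U y r) (hs : s ∈ 𝐍(U))
    (hss : s * s ∈ 𝐂(U)) (hc : s ∉ 𝐂(U)) (hn : s * y * s⁻¹ ∈ zpowers y ⊔ 𝐂(U)) :
    s * y * s⁻¹ * y ∈ 𝐂(U) := by
  haveI := Fact.mk h.prime
  have hyC : zpowers y ≤ 𝐍(𝐂(U)) := le_normalizer_centralizer (zpowers_le.2 h.norm)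
  obtain ⟨w, hw, c, hcU, e⟩ := (mem_sup_of_le_normalizer_right hyC).1 hn
  have hwy : w * y ∈ zpowers y := mul_mem hw (mem_zpowers y)
  have e1 : s * y * s⁻¹ * y = (w * y) * (y⁻¹ * c * y⁻¹⁻¹) := by rw [← e]; group
  rw [e1]
  refine mul_mem ?_ (cent_conj_mem (inv_mem h.norm) hcU)
  by_contra hwc
  have h2 := h.of_mem (h.pelt.of_mem_zpowers hwy) (h.znorm hwy) hwc
  have hwn := h.znorm hw
  obtain ⟨v, hv, hvc⟩ := h2.exists_mul_cent hs (by
    have ew : w = s * y * s⁻¹ * c⁻¹ := by rw [← e]; group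
    have hcomm : y * w = w * y := (eq_of_commute_zpowers (mem_zpowers y) hw).eq
    have : ⁅s, w * y⁆ = (s * s * y * (s * s)⁻¹ * y⁻¹) * (y * (s * c⁻¹ * s⁻¹) * y⁻¹) *
        (y * w * c * (y * w)⁻¹) * (y * w * (w * y)⁻¹) := by
      rw [commutatorElement_def]
      conv_lhs => rw [ew]
      conv_rhs => rw [ew]
      group
    rw [this, hcomm, mul_inv_cancel, mul_one]
    refine mul_mem (mul_mem ?_ (cent_conj_mem h.norm (cent_conj_mem hs (inv_mem hcU))))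
      (cent_conj_mem (h.znorm hwy) hcU)
    have := mul_mem hss (cent_conj_mem h.norm (inv_mem hss))
    simpa [mul_assoc] using this)
  have hvn := h2.znorm hv
  have hv2 : v ∈ 𝐂(U) := by
    refine mem_cent_of_sq (h2.reg.of_mem_zpowers hv) ?_
    have : v * v = (v * s) * (s⁻¹ * (v * s) * s⁻¹⁻¹) * (s * s)⁻¹ := by group
    rw [this]
    exact mul_mem (mul_mem hvc (cent_conj_mem (inv_mem hs) hvc)) (inv_mem hss)
  exact hc (by simpa using mul_mem (inv_mem hv2) hvc)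

theorem Sing.qim {M N U : Subgroup G} [(N.subgroupOf M).Normal] {x : G} {r : ℕ} (h : Sing U x r)
    (hU : U ≤ M) (hx : x ∈ M) (hd : Disjoint N U) : Sing (qim M N U) (qmk M N ⟨x, hx⟩) r := by
  haveI := Fact.mk h.prime
  refine ⟨h.prime, elem_qim h.elem, by rw [← h.card, Nat.card_congr (qimEquiv hU hd).toEquiv],
    ((isPElt_mk _).2 h.pelt).map _,
    qim_le_norm (zpowers_le.2 h.norm) (qmk_mem_qim (mem_zpowers x)), fun hc => h.nc ?_⟩
  refine mem_cent_iff'.2 fun a ha => ?_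
  have := mem_cent_iff'.1 hc _ (qmk_mem_qim (x := ⟨a, hU ha⟩) ha)
  rw [← map_inv, ← map_mul, ← map_mul, qmk_eq_iff] at this
  have h2 := hd.le_bot ⟨this, U.mul_mem (U.inv_mem (conj_mem_of_norm h.norm ha)) ha⟩
  exact inv_mul_eq_one.1 (mem_bot.1 h2)

theorem disjoint_Op' {X U : Subgroup G} (hU : IsPGroup 2 U) : Disjoint (Op' 2 X) U :=
  (disjoint_of_isPGroup_of_not_dvd hU (not_dvd_card_Op' 2 X)).symm

/-- a solvable group with an abelian Sylow `2`-subgroup -/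
theorem abelian_sylow {X S : Subgroup G} (hX : Group.IsSolvable X) (hS : IsSylowIn 2 S X)
    (hc : IsMulCommutative S) : Op' 2 X ⊔ (𝐍(S) ⊓ X) = X := by
  refine plength1_frattini hS ((plength1_iff_sylow_le hS).2 (le_trans ?_ (cent_le_Opp
    (hS.inf_of_le_normalizer (Opp_le 2 X) (le_norm_Opp 2 X)))))
  exact le_inf hS.le ((le_cent_of_comm hc).trans (centralizer_anti inf_le_left))

end

variable [T : Tools.{u}] {G : Type u} [Group G] [Finite G]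

theorem comm_eq {L Q : Subgroup G} (hL : AllSm L) (hQL : Q ≤ L) {x y : G} {r r' : ℕ}
    (hx : x ∈ L) (hy : y ∈ L) (hxQ : x ∈ 𝐍(Q)) (hyQ : y ∈ 𝐍(Q))
    (h1 : Sing ⁅Q, zpowers x⁆ x r) (h2 : Sing ⁅Q, zpowers y⁆ y r') (hQ : IsMulCommutative Q)
    (h : ⁅x, y⁆ ∈ 𝐂(Q)) : ⁅Q, zpowers x⁆ = ⁅Q, zpowers y⁆ := by
  have n1 := norm_commutator_of hxQ hyQ (conj_mem_sup_of_comm (commutator_inv_mem h))
  have n2 := norm_commutator_of hyQ hxQ (conj_mem_sup_of_comm h)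
  have l1 : ⁅Q, zpowers x⁆ ≤ Q := commutator_le_left_of_norm (zpowers_le.2 hxQ)
  have l2 : ⁅Q, zpowers y⁆ ≤ Q := commutator_le_left_of_norm (zpowers_le.2 hyQ)
  by_cases hd : ⁅Q, zpowers x⁆ ⊓ ⁅Q, zpowers y⁆ = ⊥
  · exfalso
    refine Tools.indep hL (l1.trans hQL) (l2.trans hQL) hx hy h1.elem h2.elem
      (l1.trans ((le_cent_of_comm hQ).trans (centralizer_anti l2))) h1.reg h2.reg h1.norm h1.nc
      (zpowers_le.1 ?_) h2.norm h2.nc (zpowers_le.1 ?_)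
    · rw [le_cent_iff_commutator, eq_bot_iff, ← hd, commutator_comm]
      exact le_inf (commutator_mono l2 le_rfl) (commutator_le_left_of_norm (zpowers_le.2 n2))
    · rw [le_cent_iff_commutator, eq_bot_iff, ← hd, commutator_comm]
      exact le_inf (commutator_le_left_of_norm (zpowers_le.2 n1)) (commutator_mono l1 le_rfl)
  · exact le_antisymm (h1.le_of_norm n2 hd) (h2.le_of_norm n1 (by rwa [inf_comm]))

instance (Q : Subgroup G) : ((𝐂(Q)).subgroupOf 𝐍(Q)).Normal :=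
  subgroupOf_normal (le_normalizer_centralizer le_rfl)

/-- the automizer of an abelian `2`-group -/
theorem aut {Q : Subgroup G} (hL : AllSm 𝐍(Q)) (hQ : IsPGroup 2 Q) (hab : IsMulCommutative Q)
    (h2 : pCore 2 (Quo 𝐍(Q) 𝐂(Q)) = ⊥) (hne : ¬ 𝐍(Q) ≤ 𝐂(Q)) :
    ∃ y ∈ 𝐍(Q), ∃ r, Sing ⁅Q, zpowers y⁆ y r ∧ 𝐍(Q) ≤ 𝐍(⁅Q, zpowers y⁆) ∧
      𝐍(Q) ⊓ 𝐂(⁅Q, zpowers y⁆) ≤ 𝐂(Q) ∧ y ^ r ∈ 𝐂(Q) ∧
      ∀ n ∈ 𝐍(Q), n * y * n⁻¹ ∈ zpowers y ⊔ 𝐂(Q) := by
  haveI := Tools.solv (allSm_quo hL 𝐂(Q))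
  have hlift : ∀ K : Subgroup (Quo 𝐍(Q) 𝐂(Q)), K.Normal → K ≠ ⊥ → ∃ M, IsMinNormal M ∧ M ≤ K ∧
      ∃ y : 𝐍(Q), qmk _ _ y ∈ M ∧ ∃ r, (y : G) ^ r ∈ 𝐂(Q) ∧ IsMulCommutative M ∧
        (∀ w : 𝐍(Q), qmk _ _ w ∈ M → IsPElt r (w : G) → (w : G) ∉ 𝐂(Q) →
          Sing ⁅Q, zpowers (w : G)⁆ w r) ∧ IsPElt r (y : G) ∧ (y : G) ∉ 𝐂(Q) := by
    intro K hK K1
    haveI : Group.IsSolvable K := isSolvable_of_le (le_top : K ≤ ⊤)
    obtain ⟨M, hM, hMK, r, hr, he⟩ := exists_isMinNormal_isElementaryAbelian_le hK K1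
    haveI := Fact.mk hr
    haveI := hM.normal
    have r2 : r ≠ 2 := by
      rintro rfl
      exact hM.ne_bot (eq_bot_iff.2 (h2 ▸ le_pCore (elem_isPGroup he)))
    obtain ⟨b, hb, b1⟩ := exists_ne_one hM.ne_bot
    obtain ⟨y, hy, rfl⟩ := (isPElt_of_mem (elem_isPGroup he) hb).exists_lift (qmk_surjective _ _)
    refine ⟨M, hM, hMK, y, hb, r, ?_, he.1, fun w _ hw hc => ?_, isPElt_coe.2 hy,
      fun h => b1 (qmk_eq_one_iff.2 h)⟩
    · have := he.2 _ hb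
      rwa [← map_pow, qmk_eq_one_iff] at this
    · exact odd2c hr hL hQ le_normalizer w.2 r2 hw w.2 hc (isMulCommutative_of_le
        (commutator_le_left_of_norm (zpowers_le.2 w.2)))
  have hcm : ∀ a b : 𝐍(Q), qmk _ 𝐂(Q) a * qmk _ _ b = qmk _ _ b * qmk _ _ a →
      ⁅(a : G), (b : G)⁆ ∈ 𝐂(Q) := by
    intro a b h
    rw [← commutatorElement_eq_one_iff_mul_comm, ← map_commutatorElement, qmk_eq_one_iff] at h
    exact h
  obtain ⟨M, hM, -, y, hyM, r, hyr, hMc, hS, hp, hc⟩ := hlift ⊤ inferInstance (by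
    rw [← qim_top, Ne, qim_eq_bot_iff le_rfl]; exact hne)
  have h1 := hS y hyM hp hc
  have hconj : ∀ n : 𝐍(Q), ⁅((n * y * n⁻¹ : 𝐍(Q)) : G), (y : G)⁆ ∈ 𝐂(Q) := fun n =>
    hcm _ _ (comm_of hMc (by rw [map_mul, map_mul, map_inv]; exact hM.normal.conj_mem _ hyM _) hyM)
  have hle : ⁅Q, zpowers (y : G)⁆ ≤ Q := commutator_le_left_of_norm (zpowers_le.2 y.2)
  have hN : 𝐍(Q) ≤ 𝐍(⁅Q, zpowers (y : G)⁆) := by
    intro n hn
    have h3 := hS (⟨n, hn⟩ * y * ⟨n, hn⟩⁻¹) (by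
      rw [map_mul, map_mul, map_inv]; exact hM.normal.conj_mem _ hyM _) (hp.conj n) (fun h => hc (by
        simpa [mul_assoc] using cent_conj_mem (inv_mem hn) h))
    have := comm_eq hL le_normalizer (SetLike.coe_mem _) y.2 (SetLike.coe_mem _) y.2 h3 h1 hab
      (hconj ⟨n, hn⟩)
    rw [← conj_smul_eq_iff_mem_normalizer, conj_smul_commutator,
      conj_smul_eq_iff_mem_normalizer.2 hn, conj_smul_zpowers]
    exact this
  have hC : 𝐍(Q) ⊓ 𝐂(⁅Q, zpowers (y : G)⁆) ≤ 𝐂(Q) := by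
    by_contra hn
    obtain ⟨M', hM', hle', w, hwM, r', -, hMc', hS', hp', hc'⟩ :=
      hlift (qim _ _ (𝐍(Q) ⊓ 𝐂(⁅Q, zpowers (y : G)⁆))) (qim_normal (le_normalizer_inf le_normalizer
        (le_normalizer_centralizer hN))) (by rwa [Ne, qim_eq_bot_iff inf_le_left])
    have h3 := hS' w hwM hp' hc'
    have h4 : (w : G) ∈ 𝐂(⁅Q, zpowers (y : G)⁆) := by
      obtain ⟨v, hv, e⟩ := mem_qim.1 (hle' hwM)
      simpa using mul_mem hv.2 (centralizer_anti hle (qmk_eq_iff.1 e))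
    have := comm_eq hL le_normalizer w.2 y.2 w.2 y.2 h3 h1 hab (hcm _ _ (by
      by_cases e : M' = M
      · exact comm_of hMc (e ▸ hwM) hyM
      · exact (mem_centralizer_iff.1 (hM'.le_centralizer_of_ne hM e hwM) _ hyM).symm))
    exact h3.nc (this ▸ h4)
  refine ⟨y, y.2, r, h1, hN, hC, hyr, fun n hn => ?_⟩
  have hy' : n * y * n⁻¹ ∈ 𝐍(Q) := mul_mem (mul_mem hn y.2) (inv_mem hn)
  obtain ⟨v, hv, e⟩ := h1.exists_mul_cent (hN hy') (centralizer_anti hle (hconj ⟨n, hn⟩))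
  have := hC ⟨mul_mem (zpowers_le.2 y.2 hv) hy', e⟩
  simpa using mul_mem (mem_sup_left (inv_mem hv) : _ ∈ zpowers (y : G) ⊔ 𝐂(Q)) (mem_sup_right this)

/-- the automizer of an elementary abelian Sylow `2`-subgroup is cyclic -/
theorem aut_odd {S : Subgroup G} (hL : AllSm 𝐍(S)) (hS : IsSylowIn 2 S 𝐍(S)) {y : G} {r : ℕ}
    (h : Sing S y r) (hyr : y ^ r ∈ 𝐂(S)) (hn : ∀ n ∈ 𝐍(S), n * y * n⁻¹ ∈ zpowers y ⊔ 𝐂(S)) :
    𝐍(S) ≤ zpowers y ⊔ 𝐂(S) := by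
  haveI := Fact.mk h.prime
  have hSC := le_cent_of_comm h.elem.1
  set Y := zpowers (qmk 𝐍(S) 𝐂(S) ⟨y, h.norm⟩) with hY
  have hy1 : qmk 𝐍(S) 𝐂(S) ⟨y, h.norm⟩ ≠ 1 := fun e => h.nc (qmk_eq_one_iff.1 e)
  have hcard : Nat.card Y = r := by
    rw [Nat.card_zpowers]
    refine orderOf_eq_prime ?_ hy1
    rw [← map_pow, qmk_eq_one_iff]; exact hyr
  have hYn : ∀ w : 𝐍(S), qmk _ 𝐂(S) w ∈ 𝐍(Y) := by
    intro w
    refine mem_normalizer_of_conj_mem fun a ha => ?_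
    refine (zpowers_le.2 ?_ : Y ≤ Y.comap (MulAut.conj (qmk _ 𝐂(S) w)).toMonoidHom) ha
    obtain ⟨v, hv, c, hc, e⟩ := (mem_sup_of_le_normalizer_right
      (le_normalizer_centralizer (zpowers_le.2 h.norm))).1 (hn w w.2)
    obtain ⟨i, rfl⟩ := mem_zpowers_iff.1 hv
    refine mem_zpowers_iff.2 ⟨i, ?_⟩
    rw [MulEquiv.coe_toMonoidHom, MulAut.conj_apply]
    rw [← map_zpow, ← map_inv, ← map_mul, ← map_mul, qmk_eq_iff]
    change (y ^ i)⁻¹ * (w * y * (w : G)⁻¹) ∈ _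
    rw [← e]; simpa using hc
  have hfin : ∀ w : 𝐍(S), qmk _ 𝐂(S) w ∈ 𝐂(Y) → (w : G) ∈ zpowers y ⊔ 𝐂(S) := by
    intro w hw
    refine h.mem_sup w.2 ?_
    have := mem_centralizer_iff.1 hw _ (mem_zpowers _)
    rw [eq_comm, ← commutatorElement_eq_one_iff_mul_comm, ← map_commutatorElement,
      qmk_eq_one_iff] at this
    exact this
  refine le_of_forall_isPElt_mem fun q hq w hw hp => ?_
  by_cases q2 : q = 2
  · subst q2
    exact mem_sup_right (hSC (hS.mem_of_mem_normalizer hp hw hw))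
  have hp' : IsPElt q (qmk _ 𝐂(S) ⟨w, hw⟩) := ((isPElt_mk _).2 hp).map _
  refine hfin ⟨w, hw⟩ ?_
  by_cases qr : q = r
  · subst qr
    obtain ⟨a, ha, a1⟩ := exists_ne_one (inf_centralizer_ne_bot_of_isPGroup hp'.isPGroup_zpowers
      (IsPGroup.of_card (n := 1) (by rw [hcard, pow_one])) (ne_bot_of_mem (mem_zpowers _) hy1)
      (zpowers_le.2 (hYn _)))
    have : zpowers a = Y := eq_of_le_of_card_ge (zpowers_le.2 ha.1) (by
      rw [hcard]
      rcases (Nat.dvd_prime h.prime).1 (hcard ▸ card_dvd_of_le (zpowers_le.2 ha.1)) with e | e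
      · exact absurd (zpowers_eq_bot.1 (card_eq_one.1 e)) a1
      · exact e.ge)
    rw [← this]
    exact le_centralizer_iff.1 (zpowers_le.2 ha.2) (mem_zpowers _)
  by_contra hc
  obtain ⟨-, h7⟩ := oddO hq.out (allSm_quo hL 𝐂(S)) (O := Y) (by
    rw [hcard]; exact fun e => h.ne_two ((Nat.prime_dvd_prime_iff_eq Nat.prime_two h.prime).1 e).symm)
    (by rw [hcard]; exact fun e => qr ((Nat.prime_dvd_prime_iff_eq hq.out h.prime).1 e))
    le_top (mem_top _) q2 hp' (hYn _) hc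
  have hr7 : r = 7 := by
    have := card_dvd_of_le (commutator_le_left_of_norm (zpowers_le.2 (hYn ⟨w, hw⟩)))
    rw [h7, hcard] at this
    exact ((Nat.prime_dvd_prime_iff_eq (by norm_num) h.prime).1 this).symm
  obtain ⟨K, hK⟩ := exists_sdp_of_coprime hS.le le_rfl hS.coprime_card_relIndex
  have h8 := Tools.eight hL hS.le hK.right_le ⟨le_top, h.elem, by rw [h.card, hr7]; rfl⟩
    (hK.relIndex_left ▸ hS.not_dvd) hK.right_le
  have h9 : qim 𝐍(S) 𝐂(S) K = ⊤ := by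
    rw [qim_eq_top_iff (centralizer_le_normalizer _) hK.right_le]
    exact le_antisymm (sup_le hK.right_le (centralizer_le_normalizer _))
      (hK.sup.ge.trans (sup_le (hSC.trans le_sup_right) le_sup_left))
  have := (qim_le_cent_iff (M := 𝐍(S)) hK.right_le hK.right_le).2 h8
  rw [h9] at this
  exact hc (centralizer_anti le_top (this (mem_top _)))

theorem core_aux (hX : AllSm (⊤ : Subgroup G)) (hO : Op' 2 (⊤ : Subgroup G) = ⊥) {U : Subgroup G}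
    {x : G} {r : ℕ} (h : Sing U x r) : U ≤ Op 2 ⊤ ∧ U ≤ 𝐂(Op 2 (⊤ : Subgroup G)) := by
  haveI := Tools.solv hX
  set Q := Op 2 (⊤ : Subgroup G) with hQ
  have hQ2 : IsPGroup 2 Q := isPGroup_Op 2 ⊤
  have hQn : ∀ g, g ∈ 𝐍(Q) := fun g => le_norm_piCoreOf _ _ (mem_top g)
  have hc : x ∉ 𝐂(Q) := fun hc => h.nc (by
    rw [(isPElt_of_mem hQ2 (P6.cent_Op_le hO ⟨mem_top x, hc⟩)).eq_one_of_isPRegular h.reg]
    exact one_mem _)
  have hW : IsPGroup 2 ↥(Q ⊔ U) := (hQ2.to_sup_of_normal_left' h.pgroup fun g _ => hQn g)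
  have hU : U ≤ ⁅Q ⊔ U, zpowers x⁆ := h.commutator_eq.ge.trans (commutator_mono le_sup_right le_rfl)
  have hWU : ⁅Q ⊔ U, zpowers x⁆ = U := by
    rcases odd2 h.prime hX hW le_top (mem_top x) h.ne_two h.pelt (zpowers_le.1 (le_normalizer_sup
      (zpowers_le.2 (hQn x)) (zpowers_le.2 h.norm)))
      (fun e => hc (centralizer_anti le_sup_left e)) with h1 | h1
    · exact (eq_of_le_of_card_ge hU (by rw [h1.card, h.card])).symm
    · obtain ⟨z, hz⟩ := exists_q8 h1.2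
      exact absurd hU (hz.not_elem h.elem (by rw [h.card]; have := h.three_le; omega))
  have hle : ⁅Q, zpowers x⁆ ≤ U := (commutator_mono le_sup_left le_rfl).trans hWU.le
  have h1 := odd2c h.prime hX hQ2 le_top (mem_top x) h.ne_two h.pelt (hQn x) hc
    (elem_of_le h.elem hle).1
  have e : ⁅Q, zpowers x⁆ = U := eq_of_le_of_card_ge hle (by rw [h1.card, h.card])
  exact ⟨e ▸ commutator_le_left_of_norm (zpowers_le.2 (hQn x)),
    h.le_cent hQ2 (e ▸ le_norm_commutator_left _ _) (hQn x)⟩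

theorem core {X U V : Subgroup G} (hX : AllSm X) {x y : G} {r r' : ℕ} (h : Sing U x r)
    (h' : Sing V y r') (hU : U ≤ X) (hV : V ≤ X) (hx : x ∈ X) (hy : y ∈ X)
    (h2 : IsPGroup 2 ↥⁅U, V⁆) : U ≤ 𝐂(V) := by
  have hO := piCoreOf_quo_piCoreOf {2}ᶜ X
  have h1 := core_aux (allSm_quo hX (Op' 2 X)) hO (h.qim hU hx (disjoint_Op' h.pgroup))
  have h3 := core_aux (allSm_quo hX (Op' 2 X)) hO (h'.qim hV hy (disjoint_Op' h'.pgroup))
  have := (qim_le_cent_iff hU hV).1 (h1.2.trans (centralizer_anti h3.1))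
  rw [le_cent_iff_commutator, eq_bot_iff]
  exact le_trans (le_inf this le_rfl) (disjoint_Op' h2).le_bot

/-- an odd group normalized by `S ⟨y⟩` is centralized by `S` -/
theorem homog {L S O : Subgroup G} (hL : AllSm L) (hS : S ≤ L) (hOL : O ≤ L) {y : G} {r : ℕ}
    (h : Sing S y r) (hO : ¬ 2 ∣ Nat.card O) (hSO : S ≤ 𝐍(O)) (hy : y ∈ 𝐍(O)) : S ≤ 𝐂(O) := by
  by_contra hn
  have hd : S ⊓ 𝐂(O) = ⊥ := by
    by_contra hd
    exact hn (h.le_of_norm (le_normalizer_centralizer le_rfl hy) hd)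
  obtain ⟨n, hSn⟩ := exists_elemN_of_elem h.elem (le_top (a := S))
  have h2n : 2 ≤ n := by
    by_contra hlt
    have := hSn.card
    have h3 := h.three_le
    rw [h.card] at this
    interval_cases n <;> omega
  obtain ⟨V, hVS, hV⟩ := hSn.exists_le h2n
  obtain ⟨a, ha, b, hb, a1, b1, ab, c1, -, c3, -⟩ := Tools.four hL hOL (hVS.trans hS) hV hO
    (hVS.trans hSO) (eq_bot_iff.2 ((inf_le_inf_right _ hVS).trans hd.le))
  have hc : CoprimeAct V O := coprimeAct_of_isPGroup_left (hVS.trans hSO) hV.isPGroup hO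
  have hCV : ∀ v ∈ V, 𝐂(V) ≤ 𝐂[v] := fun v hv => centralizer_le (Set.singleton_subset_iff.2 hv)
  have hab := V.mul_mem ha hb
  have ab1 : a * b ≠ 1 := fun e => ab (by
    rw [eq_inv_of_mul_eq_one_left e, elem_inv hV.elem hb])
  have k1 : O ⊓ 𝐂[a * b] ≤ O ⊓ 𝐂(V) := by
    intro g hg
    obtain ⟨k, hk, c, hc', rfl⟩ := hc.exists_commutator_mul_centralizer hg.1
    have : k = 1 := mem_bot.1 (c3 ▸ ⟨hk, by
      simpa using (𝐂[a * b]).mul_mem hg.2 (inv_mem (hCV _ hab hc'.2))⟩)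
    rwa [this, one_mul]
  obtain ⟨w, hw, e⟩ := h.trans (hVS hab) ab1 (hVS ha) a1
  have k2 : O ⊓ 𝐂[a * b] = O ⊓ 𝐂[a] := by
    refine eq_of_le_of_card_ge (k1.trans (inf_le_inf_left _ (hCV a ha))) (le_of_eq ?_)
    rw [← card_conj_smul w (O ⊓ 𝐂[a * b]), smul_inf, conj_smul_centralizer_singleton, e,
      conj_smul_eq_iff_mem_normalizer.2 (zpowers_le.2 hy hw)]
  have : ⁅O, V⁆ ⊓ 𝐂[a] = ⊥ := eq_bot_iff.2 (c3 ▸ le_inf inf_le_left
    ((inf_le_inf_right _ hc.commutator_le).trans (k2.ge.trans inf_le_right)))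
  rw [this, card_bot] at c1
  omega

/-- a proper subgroup containing `S ⟨y⟩` normalizes `S` -/
theorem le_norm_of_sing {X S : Subgroup G} (hX : AllSm X) (hS : IsSylowIn 2 S X) {y : G} {r : ℕ}
    (h : Sing S y r) (hy : y ∈ X) : X ≤ 𝐍(S) := by
  rw [← abelian_sylow (Tools.solv hX) hS h.elem.1]
  refine sup_le (le_normalizer_of_le_centralizer (le_centralizer_iff.1 ?_)) inf_le_left
  exact homog hX hS.le (piCoreOf_le _ _) h (not_dvd_card_Op' 2 X)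
    (hS.le.trans (le_norm_piCoreOf _ _)) (le_norm_piCoreOf _ _ hy)

end SAD.L
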