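import Cfsg.Agent.Lib.Char.SadL2
import Cfsg.Agent.Lib.Grp.BaerSuzuki

/-!
# Local analysis for S4753, part 3: Alperin's fusion theorem and essential subgroups
-/

set_option autoImplicit false
set_option linter.unusedSectionVars false

namespace SAD.L

open Cfsg GT FT Subgroup
open scoped Pointwise commutatorElement

universe u

section
variable {G : Type*} [Group G] [Finite G]

/-- fully normalized centric radical proper subgroups of `S` -/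
structure Rad (p : ℕ) (S Q : Subgroup G) : Prop where
  lt : Q < S
  syl : IsSylowIn p (S ⊓ 𝐍(Q)) 𝐍(Q)
  rad : ∀ K, K ≤ 𝐍(Q) → 𝐍(Q) ≤ 𝐍(K) → K ≤ (S ⊓ K) ⊔ 𝐂(Q) → S ⊓ K ≤ Q

theorem alperin {p : ℕ} [Fact p.Prime] {S : Subgroup G} (hS : IsSylowIn p S ⊤) {α : Type*}
    (f : G → α) (h1 : ∀ n ∈ 𝐍(S), ∀ a ∈ S, f (n * a * n⁻¹) = f a)
    (h2 : ∀ Q, Rad p S Q → ∀ n ∈ 𝐍(Q), ∀ a ∈ Q, f (n * a * n⁻¹) = f a) (m : ℕ) :
    ∀ Q ≤ S, Nat.card S - Nat.card Q = m → ∀ g, MulAut.conj g • Q ≤ S →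
      ∀ a ∈ Q, f (g * a * g⁻¹) = f a := by
  induction m using Nat.strong_induction_on with
  | _ m ih =>
  intro Q hQ hm g hg a ha
  by_cases e : Q = S
  · subst e
    exact h1 g (conj_smul_eq_iff_mem_normalizer.1
      (eq_of_le_of_card_ge hg (card_conj_smul _ _).ge)) a ha
  have ih' : ∀ R ≤ S, Nat.card Q < Nat.card R → ∀ g, MulAut.conj g • R ≤ S →
      ∀ a ∈ R, f (g * a * g⁻¹) = f a := fun R hR hc =>
    ih _ (by have := card_le_of_le hR; omega) R hR rfl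
  have grow : ∀ R ≤ S, Nat.card R = Nat.card Q → ∀ g, MulAut.conj g • (S ⊓ 𝐍(R)) ≤ S →
      ∀ a ∈ R, f (g * a * g⁻¹) = f a := by
    intro R hR hc g hg a ha
    have hlt : R < S := lt_of_le_of_ne hR fun e' => e (eq_of_le_of_card_ge hQ (by rw [← e', hc]))
    have := lt_inf_normalizer_of_lt hS.isPGroup hlt
    exact ih' _ inf_le_left (hc ▸ card_lt_of_lt this) g hg a (this.le ha)
  obtain ⟨P, hP, hSP⟩ := exists_isSylowIn_ge (hS.isPGroup.to_le inf_le_left)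
    (inf_le_right : S ⊓ 𝐍(Q) ≤ _)
  obtain ⟨h, -, hh⟩ := hS.exists_conj_le hP.isPGroup le_top
  have hQP : Q ≤ P := (le_inf hQ le_normalizer).trans hSP
  set Q' := MulAut.conj h • Q with hQ'
  have hQ'S : Q' ≤ S := (conj_smul_le_conj_smul_iff.2 hQP).trans hh
  have hc' : Nat.card Q' = Nat.card Q := card_conj_smul _ _
  have hP' : IsSylowIn p (MulAut.conj h • P) 𝐍(Q') := conj_smul_normalizer h Q ▸ hP.conj h
  have hsyl : IsSylowIn p (S ⊓ 𝐍(Q')) 𝐍(Q') := by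
    rw [hP'.eq_of_le (hS.isPGroup.to_le inf_le_left) inf_le_right (le_inf hh hP'.le)]
    exact hP'
  have key : ∀ n ∈ 𝐍(Q'), ∀ b ∈ Q', f (n * b * n⁻¹) = f b := by
    by_cases hr : Rad p S Q'
    · exact h2 Q' hr
    intro n hn b hb
    obtain ⟨K, k1, k2, k3, k4⟩ : ∃ K, K ≤ 𝐍(Q') ∧ 𝐍(Q') ≤ 𝐍(K) ∧ K ≤ (S ⊓ K) ⊔ 𝐂(Q') ∧
        ¬ S ⊓ K ≤ Q' := by
      by_contra hn
      push Not at hn
      exact hr ⟨lt_of_le_of_ne hQ'S fun e' => e (eq_of_le_of_card_ge hQ (by rw [← e', hc'])),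
        hsyl, hn⟩
    have hK : IsSylowIn p (S ⊓ K) K := by
      have := hsyl.inf_of_le_normalizer k1 k2
      rwa [inf_assoc, inf_eq_right.2 k1] at this
    obtain ⟨k, hk, y, hy, rfl⟩ := hK.frattini (k2 hn)
    have hyQ : y ∈ 𝐍(Q') := by simpa using mul_mem (inv_mem (k1 hk)) hn
    obtain ⟨s, hs, c, hc, rfl⟩ := (mem_sup_of_le_normalizer_right
      (le_normalizer_centralizer (inf_le_right.trans k1))).1 (k3 hk)
    have hb' := conj_mem_of_norm hyQ hb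
    calc f (s * c * y * b * (s * c * y)⁻¹) = f (s * (c * (y * b * y⁻¹) * c⁻¹) * s⁻¹) := by
          congr 1; group
      _ = f (y * b * y⁻¹) := by
          rw [mem_cent_iff'.1 hc _ hb']; exact h1 s (le_normalizer hs.1) _ (hQ'S hb')
      _ = f b := by
          have hy' : y ∈ 𝐍((S ⊓ K) ⊔ Q') :=
            zpowers_le.1 (le_normalizer_sup (zpowers_le.2 hy) (zpowers_le.2 hyQ))
          refine ih' _ (sup_le inf_le_left hQ'S) (hc' ▸ card_lt_of_lt (lt_of_le_of_ne le_sup_right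
            fun e' => k4 (le_sup_left.trans e'.ge))) y ?_ b (mem_sup_right hb)
          rw [conj_smul_eq_iff_mem_normalizer.2 hy']
          exact sup_le inf_le_left hQ'S
  have e1 := grow Q hQ rfl h ((conj_smul_le_conj_smul_iff.2 hSP).trans hh) a ha
  obtain ⟨n, hn, hn'⟩ := hsyl.exists_conj_le (Q := MulAut.conj (h * g⁻¹) •
    (S ⊓ 𝐍(MulAut.conj g • Q))) ((hS.isPGroup.to_le inf_le_left).map _) (by
      refine (conj_smul_le_conj_smul_iff.2 inf_le_right).trans (le_of_eq ?_)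
      rw [conj_smul_normalizer, conj_smul_conj_smul, inv_mul_cancel_right])
  have e2 := grow _ hg (card_conj_smul _ _) (n * (h * g⁻¹)) (by
    rw [← conj_smul_conj_smul]; exact hn'.trans inf_le_left) _ (conj_mem_conj_smul.2 ha)
  rw [← e2, ← e1, ← key n hn _ (conj_mem_conj_smul.2 ha)]
  congr 1; group

theorem alperin' {p : ℕ} [Fact p.Prime] {S : Subgroup G} (hS : IsSylowIn p S ⊤) {α : Type*}
    (f : G → α) (h1 : ∀ n ∈ 𝐍(S), ∀ a ∈ S, f (n * a * n⁻¹) = f a)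
    (h2 : ∀ Q, Rad p S Q → ∀ n ∈ 𝐍(Q), ∀ a ∈ Q, f (n * a * n⁻¹) = f a) {a g : G} (ha : a ∈ S)
    (hg : g * a * g⁻¹ ∈ S) : f (g * a * g⁻¹) = f a :=
  alperin hS f h1 h2 _ (zpowers a) (zpowers_le.2 ha) rfl g
    (by rw [conj_smul_zpowers]; exact zpowers_le.2 hg) a (mem_zpowers a)

theorem le_of_focal {S T : Subgroup G} (hG : ⁅(⊤ : Subgroup G), (⊤ : Subgroup G)⁆ = ⊤) (hS : IsSylowIn 2 S ⊤)
    (h1 : ∀ q, q.Prime → q ≠ 2 → ∀ n ∈ 𝐍(S), IsPElt q n → n ∉ 𝐂(S) →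
      ∀ a ∈ S, n * a * n⁻¹ * a⁻¹ ∈ T)
    (h2 : ∀ Q, Rad 2 S Q → ∀ n ∈ 𝐍(Q), ∀ a ∈ Q, n * a * n⁻¹ * a⁻¹ ∈ T) : S ≤ T := by
  by_contra hn
  obtain ⟨M, hM, hlt, hsq⟩ := exists_idx_ge hS.isPGroup
    (lt_of_le_of_ne inf_le_left fun e => hn (inf_eq_left.1 e) : S ⊓ T < S)
  have hin : ∀ {Q : Subgroup G}, Q ≤ S → ∀ n ∈ 𝐍(Q), ∀ a ∈ Q, n * a * n⁻¹ * a⁻¹ ∈ T →
      n * a * n⁻¹ * a⁻¹ ∈ M := fun hQ n hn a ha h =>
    hM ⟨hQ (mul_mem (conj_mem_of_norm hn ha) (inv_mem ha)), h⟩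
  let D : Subgroup G :=
    { carrier := {n | n ∈ 𝐍(S) ∧ ∀ a ∈ S, n * a * n⁻¹ * a⁻¹ ∈ M}
      one_mem' := ⟨one_mem _, fun a _ => by simp⟩
      mul_mem' := fun {x y} hx hy => ⟨mul_mem hx.1 hy.1, fun a ha => by
        have := mul_mem (hx.2 _ (conj_mem_of_norm hy.1 ha)) (hy.2 a ha)
        simpa [mul_assoc] using this⟩
      inv_mem' := fun {x} hx => ⟨inv_mem hx.1, fun a ha => by
        have := inv_mem (hx.2 _ (conj_mem_of_norm (inv_mem hx.1) ha))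
        simpa [mul_assoc] using this⟩ }
  have hD : 𝐍(S) ≤ D := by
    refine le_of_forall_isPElt_mem fun q hq n hn hp => ⟨hn, fun a ha => ?_⟩
    by_cases q2 : q = 2
    · subst q2
      have hn' := hS.mem_of_mem_normalizer hp (mem_top n) hn
      have : n * a * n⁻¹ * a⁻¹ = (n * a * (n * a)) * ((a⁻¹ * n⁻¹ * a) * (a⁻¹ * n⁻¹ * a)) *
          (a⁻¹ * a⁻¹) := by group
      rw [this]
      exact mul_mem (mul_mem (hsq _ (mul_mem hn' ha))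
        (hsq _ (mul_mem (mul_mem (inv_mem ha) (inv_mem hn')) ha))) (hsq _ (inv_mem ha))
    by_cases hc : n ∈ 𝐂(S)
    · rw [mem_cent_iff'.1 hc a ha]; simp
    · exact hin le_rfl n hn a ha (h1 q hq.out q2 n hn hp hc a ha)
  have hf : ∀ a b : G, (QuotientGroup.mk a⁻¹ : G ⧸ M) = QuotientGroup.mk b⁻¹ ↔ a * b⁻¹ ∈ M :=
    fun a b => by rw [QuotientGroup.eq, inv_inv]
  have := hS.commutator_inf_le (R := M) fun a ha g _ hg => (hf _ _).1 (alperin' hS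
    (fun a => (QuotientGroup.mk a⁻¹ : G ⧸ M)) (fun n hn a ha => (hf _ _).2 ((hD hn).2 a ha))
    (fun Q hQ n hn a ha => (hf _ _).2 (hin hQ.lt.le n hn a ha (h2 Q hQ n hn a ha))) ha hg).symm
  rw [hG, top_inf_eq] at this
  exact hlt.not_ge this

theorem exists_sq_mem {P Q : Subgroup G} (hP : IsPGroup 2 P) (h : ¬ P ≤ Q) :
    ∃ s ∈ P, s ∉ Q ∧ s * s ∈ Q := by
  by_contra hn
  push Not at hn
  refine h fun a ha => ?_
  by_contra hq
  obtain ⟨k, hk⟩ := (isPElt_of_mem hP ha).exists_pow_eq_one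
  have : ∀ j, a ^ 2 ^ j ∉ Q := by
    intro j
    induction j with
    | zero => simpa using hq
    | succ j ih => rw [pow_succ, pow_mul, pow_two]; exact hn _ (pow_mem ha _) ih
  exact this k (hk ▸ Q.one_mem)

theorem exists_prime_mem {y : G} (hy : y ≠ 1) :
    ∃ r, r.Prime ∧ r ∣ orderOf y ∧ ∃ w ∈ zpowers y, w ≠ 1 ∧ w ^ r = 1 := by
  obtain ⟨r, hr, hd⟩ := Nat.exists_prime_and_dvd (fun e => hy (orderOf_eq_one_iff.1 e))
  haveI := Fact.mk hr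
  obtain ⟨w, hw⟩ := exists_prime_orderOf_dvd_card' (G := zpowers y) r (by rwa [Nat.card_zpowers])
  rw [← orderOf_coe] at hw
  refine ⟨r, hr, hd, w, w.2, fun e => hr.one_lt.ne' ?_, hw ▸ pow_orderOf_eq_one _⟩
  rw [← hw, e, orderOf_one]

theorem conj_zpowers_inv {s y w : G} (h : s * y * s⁻¹ = y⁻¹) (hw : w ∈ zpowers y) :
    s * w * s⁻¹ = w⁻¹ := by
  obtain ⟨i, rfl⟩ := mem_zpowers_iff.1 hw
  rw [← conj_zpow, h, inv_zpow]

theorem four_aut {U H : Subgroup G} (hU : ElemN 2 2 U H) {u g : G} (hu : u ∈ U) (u1 : u ≠ 1)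
    (hg : g ∈ 𝐍(U)) (e : g * u * g⁻¹ = u) (hc : g ∉ 𝐂(U)) {v : G} (hv : v ∈ U) (v1 : v ≠ 1)
    (vu : v ≠ u) : g * v * g⁻¹ = u * v := by
  rcases four_cases hU hu hv u1 v1 vu.symm (conj_mem_of_norm hg hv) with h | h | h | h
  · exact absurd (by simpa using h) v1
  · exact absurd (by simpa using h.trans e.symm) vu
  · refine absurd (mem_cent_iff'.2 fun a ha => ?_) hc
    rcases four_cases hU hu hv u1 v1 vu.symm ha with rfl | rfl | rfl | rfl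
    · simp
    · exact e
    · exact h
    · conv_rhs => rw [← e, ← h]
      group
  · exact h

theorem four_aut_mul {U H : Subgroup G} (hU : ElemN 2 2 U H) {u g h : G} (hu : u ∈ U)
    (u1 : u ≠ 1) (hg : g ∈ 𝐍(U)) (e : g * u * g⁻¹ = u) (hc : g ∉ 𝐂(U)) (hh : h ∈ 𝐍(U))
    (e' : h * u * h⁻¹ = u) (hc' : h ∉ 𝐂(U)) : g⁻¹ * h ∈ 𝐂(U) := by
  refine mem_cent_iff'.2 fun a ha => ?_
  have : h * a * h⁻¹ = g * a * g⁻¹ := by
    by_cases a1 : a = 1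
    · simp [a1]
    by_cases au : a = u
    · rw [au, e, e']
    rw [four_aut hU hu u1 hg e hc ha a1 au, four_aut hU hu u1 hh e' hc' ha a1 au]
  calc g⁻¹ * h * a * (g⁻¹ * h)⁻¹ = g⁻¹ * (h * a * h⁻¹) * g := by group
    _ = a := by rw [this]; group

theorem Sing.four {U : Subgroup G} {x : G} (h : Sing U x 3) : ElemN 2 2 U ⊤ :=
  ⟨le_top, h.elem, h.card⟩

/-- the structure of an essential subgroup -/
structure Es (S Q U : Subgroup G) (x : G) : Prop where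
  lt : Q < S
  syl : IsSylowIn 2 (S ⊓ 𝐍(Q)) 𝐍(Q)
  comm : IsMulCommutative Q
  sing : Sing U x 3
  le : U ≤ Q
  xN : x ∈ 𝐍(Q)
  norm : 𝐍(Q) ≤ 𝐍(U)
  cent : 𝐍(Q) ⊓ 𝐂(U) ≤ 𝐂(Q)
  centric : S ⊓ 𝐂(Q) ≤ Q
  sup : U ⊔ (Q ⊓ 𝐂[x]) = Q
  fix : 𝐍(Q) ≤ 𝐂(Q ⊓ 𝐂[x])

theorem Rad.centric {S Q : Subgroup G} (h : Rad 2 S Q) : S ⊓ (Q ⊔ 𝐂(Q)) ≤ Q :=
  h.rad _ (sup_cent_le_norm Q) (norm_le_norm_sup_cent Q)
    (sup_le_sup_right (le_inf h.lt.le le_sup_left) _)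

theorem Rad.core {S Q : Subgroup G} (h : Rad 2 S Q) (B : Subgroup G)
    [(B.subgroupOf 𝐍(Q)).Normal] (e : B = Q ⊔ 𝐂(Q)) : pCore 2 (Quo 𝐍(Q) B) = ⊥ := by
  have hB : B ≤ 𝐍(Q) := e ▸ sup_cent_le_norm Q
  set K := qpre 𝐍(Q) B (pCore 2 _) with hK
  have k1 : K ≤ 𝐍(Q) := qpre_le _
  have k2 : 𝐍(Q) ≤ 𝐍(K) := le_norm_qpre_of_normal
  have hBK : B ≤ K := le_qpre hB _
  have hS : IsSylowIn 2 (S ⊓ K) K := by
    have := h.syl.inf_of_le_normalizer k1 k2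
    rwa [inf_assoc, inf_eq_right.2 k1] at this
  obtain ⟨k, hk⟩ := IsPGroup.iff_card.1 (isPGroup_pCore 2 (Quo 𝐍(Q) B))
  have h1 := hS.sup_eq_of_relIndex_eq_pow hBK (by rw [hK, relIndex_qpre_self, hk])
  have h2 := h.rad K k1 k2 (h1.ge.trans (sup_le (e.le.trans (sup_le_sup_right
    (le_inf h.lt.le ((e ▸ le_sup_left : Q ≤ B).trans hBK)) _)) le_sup_left))
  rw [← qim_qpre (pCore 2 _), qim_eq_bot_iff k1]
  exact h1.ge.trans (sup_le le_rfl (h2.trans (e ▸ le_sup_left)))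

end

variable [T : Tools.{u}] {G : Type u} [Group G] [Finite G]

theorem Rad.exists_es {S Q : Subgroup G} (h : Rad 2 S Q) (hS : IsPGroup 2 S)
    (hL : AllSm 𝐍(Q)) : ∃ U x, Es S Q U x := by
  have hQ := hS.to_le h.lt.le
  obtain ⟨s, hs, hsQ, hss⟩ := exists_sq_mem (hS.to_le inf_le_left)
    (lt_inf_normalizer_of_lt hS h.lt).not_ge
  have hsB : s ∉ Q ⊔ 𝐂(Q) := fun e => hsQ (h.centric ⟨hs.1, e⟩)
  have hab : IsMulCommutative Q := by
    haveI := subgroupOf_normal (norm_le_norm_sup_cent Q)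
    obtain ⟨d, d1, hd, e⟩ := exists_odd_inverted (t := qmk 𝐍(Q) (Q ⊔ 𝐂(Q)) ⟨s, hs.2⟩) (by
      rw [pow_two, ← map_mul, qmk_eq_one_iff]; exact mem_sup_left hss) (by
      rw [h.core _ rfl, mem_bot, qmk_eq_one_iff]; exact hsB)
    obtain ⟨r, hr, hrd, w, hw, w1, hwr⟩ := exists_prime_mem d1
    haveI := Fact.mk hr
    obtain ⟨x, hx, rfl⟩ := (isPElt_of_pow_eq_one (k := 1) (by rwa [pow_one]) :
      IsPElt r w).exists_lift (qmk_surjective _ _)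
    have e' := conj_zpowers_inv e hw
    rw [eq_inv_iff_mul_eq_one, ← map_inv, ← map_mul, ← map_mul, ← map_mul, qmk_eq_one_iff] at e'
    exact (sym_main hL hQ hr (fun e => hd (e ▸ hrd)) (isPElt_coe.2 hx) x.2
      (fun e => w1 (qmk_eq_one_iff.2 (mem_sup_right e))) hs.2 (mem_sup_left hss) e').2.1
  have hQC := le_cent_of_comm hab
  have hsC : s ∉ 𝐂(Q) := fun e => hsB (mem_sup_right e)
  obtain ⟨y, hy, r, h1, hN, hC, -, hn⟩ := aut hL hQ hab (h.core _ (sup_eq_right.2 hQC).symm)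
    (fun e => hsC (e hs.2))
  have hle : ⁅Q, zpowers y⁆ ≤ Q := commutator_le_left_of_norm (zpowers_le.2 hy)
  have hCU := centralizer_anti hle
  have hi := h1.inverts (hN hs.2) (hCU (hQC hss)) (fun e => hsC (hC ⟨hs.2, e⟩))
    (sup_le_sup_left hCU _ (hn s hs.2))
  have hyC : y ∉ 𝐂(Q) := fun e => h1.nc (hCU e)
  obtain ⟨h3, -, t, ht, htU, htc, htt, htR⟩ := sym_main hL hQ h1.prime h1.ne_two h1.pelt hy hyC
    hs.2 (mem_sup_left hss) (mem_sup_right (hC ⟨(𝐍(Q)).mul_mem (conj_mem_of_norm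
      (le_normalizer hs.2) hy) hy, hi⟩))
  refine ⟨_, y, h.lt, h.syl, hab, h3, hle, hy, hN, hC, (inf_le_inf_left _ le_sup_right).trans
    h.centric, ?_, fun n hn => ?_⟩
  · have := (cop2 hQ h1.reg hy).commutator_sup_inf_centralizer
    rwa [centralizer_zpowers] at this
  obtain ⟨u, hu, u1, eu⟩ := exists_fix h3.elem h3.ne_bot htU htt
  obtain ⟨w, hw, e⟩ := h3.trans (conj_mem_of_norm (hN hn) hu) (by simpa using u1) hu u1
  have hw' : w ∈ 𝐍(Q) := zpowers_le.2 hy hw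
  have hwR : w ∈ 𝐂(Q ⊓ 𝐂[y]) := le_centralizer_iff.1
    (by rw [centralizer_zpowers]; exact inf_le_right) hw
  have hQR : 𝐂(Q) ≤ 𝐂(Q ⊓ 𝐂[y]) := centralizer_anti inf_le_left
  by_cases hc : w * n ∈ 𝐂(⁅Q, zpowers y⁆)
  · simpa using mul_mem (inv_mem hwR) (hQR (hC ⟨mul_mem hw' hn, hc⟩))
  · have := four_aut_mul h3.four hu u1 htU eu htc (hN (mul_mem hw' hn))
      (Eq.trans (by group) e) hc
    simpa using mul_mem (inv_mem hwR) (mul_mem htR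
      (hQR (hC ⟨(𝐍(Q)).mul_mem ((𝐍(Q)).inv_mem ht) (mul_mem hw' hn), this⟩)))

end SAD.L
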