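import Cfsg.Agent.Lib.Char.SadL3
import Cfsg.Agent.Lib.Block.BSuz

/-!
# Local analysis for S4753, part 4: essential subgroups are four-groups
-/

set_option autoImplicit false
set_option linter.unusedSectionVars false

namespace SAD.L

open Cfsg GT FT Subgroup
open scoped Pointwise commutatorElement

universe u

section
variable {G : Type*} [Group G] [Finite G]

/-- an essential subgroup with the involution centralized by `N_S(Q)` -/
structure Eu (S Q U : Subgroup G) (x u : G) : Prop extends Es S Q U x where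
  two : IsPGroup 2 S
  uU : u ∈ U
  u1 : u ≠ 1
  ufix : ∀ s ∈ S ⊓ 𝐍(Q), s * u * s⁻¹ = u

theorem Es.exists_eu {S Q U : Subgroup G} {x : G} (h : Es S Q U x) (hS : IsPGroup 2 S) :
    ∃ u, Eu S Q U x u := by
  obtain ⟨u, hu, u1⟩ := exists_ne_one (inf_centralizer_ne_bot_of_isPGroup
    (hS.to_le (inf_le_left : S ⊓ 𝐍(Q) ≤ S)) h.sing.pgroup h.sing.ne_bot (inf_le_right.trans h.norm))
  exact ⟨u, h, hS, hu.1, u1, fun s hs => by rw [mem_centralizer_iff.1 hu.2 s hs]; group⟩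

namespace Eu

variable {S Q U : Subgroup G} {x u : G} (h : Eu S Q U x u)
include h

theorem QS : Q ≤ S ⊓ 𝐍(Q) := le_inf h.lt.le le_normalizer

theorem QC : Q ≤ 𝐂(U) := (le_cent_of_comm h.comm).trans (centralizer_anti h.le)

theorem uQ : u ∈ Q := h.le h.uU

theorem uu : u * u = 1 := elem_mul_self h.sing.elem h.uU

theorem mem_of_cent {g : G} (hg : g ∈ S ⊓ 𝐍(Q)) (hc : g ∈ 𝐂(U)) : g ∈ Q :=
  h.centric ⟨hg.1, h.cent ⟨hg.2, hc⟩⟩

theorem decomp {a : G} (ha : a ∈ Q) : ∃ b ∈ U, ∃ r ∈ Q ⊓ 𝐂[x], b * r = a :=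
  (mem_sup_of_le_normalizer_left (inf_le_left.trans (le_normalizer.trans h.norm))).1
    (h.sup.ge ha)

theorem conj_R {n r : G} (hn : n ∈ 𝐍(Q)) (hr : r ∈ Q ⊓ 𝐂[x]) : n * r * n⁻¹ = r :=
  mem_cent_iff'.1 (h.fix hn) r hr

theorem eq_one {r : G} (hr : r ∈ Q ⊓ 𝐂[x]) (hU : r ∈ U) : r = 1 :=
  mem_bot.1 (h.sing.inf_cent ▸ ⟨hU, hr.2⟩)

theorem comm_mem {n a : G} (hn : n ∈ 𝐍(Q)) (ha : a ∈ Q) : n * a * n⁻¹ * a⁻¹ ∈ U := by
  obtain ⟨b, hb, r, hr, rfl⟩ := h.decomp ha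
  have : n * (b * r) * n⁻¹ * (b * r)⁻¹ = (n * b * n⁻¹) * ((n * r * n⁻¹) * r⁻¹) * b⁻¹ := by group
  rw [this, h.conj_R hn hr, mul_inv_cancel, mul_one]
  exact mul_mem (conj_mem_of_norm (h.norm hn) hb) (inv_mem hb)

theorem out {s v : G} (hs : s ∈ S ⊓ 𝐍(Q)) (hq : s ∉ Q) (hv : v ∈ U) (v1 : v ≠ 1) (vu : v ≠ u) :
    s * v * s⁻¹ = u * v :=
  four_aut h.sing.four h.uU h.u1 (h.norm hs.2) (h.ufix s hs) (fun e => hq (h.mem_of_cent hs e))
    hv v1 vu

theorem idx {s : G} (hs : s ∈ S ⊓ 𝐍(Q)) (hq : s ∉ Q) : Idx (S ⊓ 𝐍(Q)) Q s := by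
  intro g hg
  by_cases e : g ∈ Q
  · exact Or.inl e
  have h1 := inv_mem hg
  have h2 := inv_mem hs
  have := four_aut_mul h.sing.four h.uU h.u1 (h.norm h1.2) (h.ufix _ h1)
    (fun e' => e (by simpa using h.mem_of_cent h1 e')) (h.norm h2.2) (h.ufix _ h2)
    (fun e' => hq (by simpa using h.mem_of_cent h2 e'))
  rw [inv_inv] at this
  exact Or.inr (h.mem_of_cent (mul_mem hg h2) this)

theorem exists_out : ∃ s ∈ S ⊓ 𝐍(Q), s ∉ Q :=
  (SetLike.lt_iff_le_and_exists.1 (lt_inf_normalizer_of_lt h.two h.lt)).2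

theorem exists_v : ∃ v ∈ U, v ≠ 1 ∧ v ≠ u := exists_ne_ne (by rw [h.sing.card]; norm_num) u

theorem conj_cases {s a : G} (hs : s ∈ S ⊓ 𝐍(Q)) (ha : a ∈ Q) :
    s * a * s⁻¹ = a ∨ s * a * s⁻¹ = u * a := by
  by_cases hq : s ∈ Q
  · exact Or.inl (mem_cent_iff'.1 (le_cent_of_comm h.comm hq) a ha)
  obtain ⟨b, hb, r, hr, rfl⟩ := h.decomp ha
  have : s * (b * r) * s⁻¹ = (s * b * s⁻¹) * (s * r * s⁻¹) := by group
  rw [this, h.conj_R hs.2 hr]
  by_cases b1 : b = 1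
  · simp [b1]
  by_cases bu : b = u
  · rw [bu, h.ufix s hs]; exact Or.inl rfl
  · rw [h.out hs hq hb b1 bu, mul_assoc]; exact Or.inr rfl

theorem cmt {a b : G} (ha : a ∈ S ⊓ 𝐍(Q)) (hb : b ∈ S ⊓ 𝐍(Q)) : ⁅a, b⁆ = 1 ∨ ⁅a, b⁆ = u := by
  have key : ∀ a ∈ S ⊓ 𝐍(Q), ∀ b ∈ Q, ⁅a, b⁆ = 1 ∨ ⁅a, b⁆ = u := fun a ha b hb => by
    rw [commutatorElement_def]
    rcases h.conj_cases ha hb with e | e <;> simp [e]
  by_cases h1 : b ∈ Q
  · exact key a ha b h1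
  rcases h.idx hb h1 a ha with e | e
  · rw [← commutatorElement_inv]
    rcases key b hb a e with e | e
    · simp [e]
    · rw [e, elem_inv h.sing.elem h.uU]; exact Or.inr rfl
  · have : ⁅a, b⁆ = ⁅b, a * b⁻¹⁆⁻¹ := by simp only [commutatorElement_def]; group
    rw [this]
    rcases key b hb _ e with e | e
    · simp [e]
    · rw [e, elem_inv h.sing.elem h.uU]; exact Or.inr rfl

theorem exists_cmt : ∃ a ∈ S ⊓ 𝐍(Q), ∃ b ∈ S ⊓ 𝐍(Q), ⁅a, b⁆ = u := by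
  obtain ⟨s, hs, hq⟩ := h.exists_out
  obtain ⟨v, hv, v1, vu⟩ := h.exists_v
  exact ⟨s, hs, v, h.QS (h.le hv), by rw [commutatorElement_def, h.out hs hq hv v1 vu]; group⟩

theorem u_fix {g : G} (hg : g ∈ 𝐍(S ⊓ 𝐍(Q))) : g * u * g⁻¹ = u := by
  obtain ⟨a, ha, b, hb, e⟩ := h.exists_cmt
  have := h.cmt (conj_mem_of_norm hg ha) (conj_mem_of_norm hg hb)
  rw [← conjugate_commutatorElement, e] at this
  exact this.resolve_left (by simpa using h.u1)

theorem sq_mem {q : G} (hq : q ∈ Q) : q * q ∈ Q ⊓ 𝐂[x] := by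
  obtain ⟨b, hb, r, hr, rfl⟩ := h.decomp hq
  have : b * r * (b * r) = r * r := by
    rw [mul_assoc, ← mul_assoc r b, ← comm_of h.comm (h.le hb) hr.1, ← mul_assoc, ← mul_assoc,
      elem_mul_self h.sing.elem hb, one_mul]
  exact this ▸ mul_mem hr hr

theorem sq_ne {q : G} (hq : q ∈ Q) : q * q ≠ u := fun e =>
  h.u1 (h.eq_one (e ▸ h.sq_mem hq) h.uU)

theorem center {s c : G} (hs : s ∈ S ⊓ 𝐍(Q)) (hq : s ∉ Q) (hc : c ∈ Q) (e : s * c * s⁻¹ = c) :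
    c ∈ Q ⊓ 𝐂[x] ∨ u * c ∈ Q ⊓ 𝐂[x] := by
  obtain ⟨b, hb, r, hr, rfl⟩ := h.decomp hc
  have : s * (b * r) * s⁻¹ = (s * b * s⁻¹) * (s * r * s⁻¹) := by group
  rw [this, h.conj_R hs.2 hr, mul_left_inj] at e
  by_cases b1 : b = 1
  · exact Or.inl (by simpa [b1] using hr)
  by_cases bu : b = u
  · exact Or.inr (by rwa [bu, ← mul_assoc, h.uu, one_mul])
  · rw [h.out hs hq hb b1 bu] at e
    exact absurd (by simpa using e) h.u1

theorem le_of_eq {U' : Subgroup G} {x' u' : G} (h' : Eu S Q U' x' u') : U ≤ U' := by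
  rw [← h.sing.commutator_eq, commutator_comm]
  exact commutator_le.2 fun a ha b hb => h'.comm_mem (zpowers_le.2 h.xN ha) (h.le hb)

/-- the centralizer in `N_S(Q)` of a noncentral element of `U` -/
theorem mem_of_comm {v g : G} (hv : v ∈ U) (v1 : v ≠ 1) (vu : v ≠ u) (hg : g ∈ S ⊓ 𝐍(Q))
    (e : g * v * g⁻¹ = v) : g ∈ Q := by
  by_contra hq
  rw [h.out hg hq hv v1 vu] at e
  exact h.u1 (by simpa using e)

end Eu

/-- the hypotheses on the simple group -/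
structure Hyp (G : Type*) [Group G] : Prop where
  simple : IsSimpleGroup G
  ns : ¬ Group.IsSolvable G
  sm : ∀ H : Subgroup G, H ≠ ⊤ → AllSm H

namespace Hyp

variable (H : Hyp G)
include H

theorem ne_top {Q : Subgroup G} (h : Group.IsSolvable Q) : Q ≠ ⊤ := by
  rintro rfl
  exact H.ns (Group.isSolvable_of_surjective (f := (⊤ : Subgroup G).subtype)
    fun g => ⟨⟨g, mem_top g⟩, rfl⟩)

theorem norm {Q : Subgroup G} (h1 : Q ≠ ⊥) (h : Group.IsSolvable Q) : AllSm 𝐍(Q) := by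
  haveI := H.simple
  refine H.sm _ fun e => ?_
  rcases (normalizer_eq_top_iff.1 e).eq_bot_or_eq_top with e | e
  exacts [h1 e, H.ne_top h e]

theorem normp {p : ℕ} [Fact p.Prime] {Q : Subgroup G} (h1 : Q ≠ ⊥) (h : IsPGroup p Q) :
    AllSm 𝐍(Q) := by
  haveI := h.isNilpotent
  exact H.norm h1 inferInstance

theorem normz {w : G} (h : w ≠ 1) : AllSm 𝐍(zpowers w) :=
  H.norm (ne_bot_of_mem (mem_zpowers w) h) (Group.isSolvable_of_comm fun a b => mul_comm' a b)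

theorem cent1 {w : G} (h : w ≠ 1) : AllSm 𝐂[w] :=
  (H.normz h).mono (centralizer_zpowers w ▸ centralizer_le_normalizer _)

theorem perfect : ⁅(⊤ : Subgroup G), (⊤ : Subgroup G)⁆ = ⊤ := by
  haveI := H.simple
  rcases (inferInstance : (⁅(⊤ : Subgroup G), (⊤ : Subgroup G)⁆).Normal).eq_bot_or_eq_top with e | e
  · exact absurd ⟨⟨1, e⟩⟩ H.ns
  · exact e

theorem not_compl {p : ℕ} [hp : Fact p.Prime] (h : p ∣ Nat.card G) :
    ¬ HasNormalPComplement p G := by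
  haveI := H.simple
  intro hc
  obtain ⟨k, hk⟩ := hasNormalPComplement_iff_index_pPrimeCore.1 hc
  rcases (inferInstance : (pPrimeCore p G).Normal).eq_bot_or_eq_top with e | e
  · rw [e, index_bot] at hk
    haveI := (IsPGroup.of_card hk).isNilpotent
    exact H.ns inferInstance
  · exact pPrimeCore_eq_top_iff.1 e h

theorem frob {p : ℕ} [hp : Fact p.Prime] (h : p ∣ Nat.card G) : ∃ Q : Subgroup G, IsPGroup p Q ∧
    Q ≠ ⊥ ∧ ∃ q, q.Prime ∧ q ≠ p ∧ ∃ g ∈ 𝐍(Q), IsPElt q g ∧ g ∉ 𝐂(Q) := by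
  by_contra hn
  push Not at hn
  exact H.not_compl h (hasNormalPComplement_of_forall_isPElt fun Q hQ h1 q hq qp g hg hp =>
    hn Q hQ h1 q hq.out qp g hg hp)

theorem not_isol {z : G} (z1 : z ≠ 1) : ¬ BT.Isol z := by
  haveI := H.simple
  intro h
  rcases (inferInstance : (pPrimeCore 2 G).Normal).eq_bot_or_eq_top with e | e
  · have : center G ≠ ⊥ := ne_bot_of_mem (mem_center_iff.2 fun g => by
      have := BT.zstar G h g
      rw [e, mem_bot, mul_eq_one_iff_inv_eq, inv_eq_of_mul_eq_one_right h.1] at this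
      conv_rhs => rw [this]
      group) z1
    rcases (inferInstance : (center G).Normal).eq_bot_or_eq_top with e | e
    exacts [this e, H.ne_top (Group.isSolvable_of_comm fun a b => mul_comm' a b) e]
  · exact pPrimeCore_eq_top_iff.1 e (orderOf_eq_two_of_mul_self h.1 z1 ▸ orderOf_dvd_natCard z)

end Hyp

end

variable [T : Tools.{u}] {G : Type u} [Group G] [Finite G]

namespace Hyp

variable (H : Hyp G) {S : Subgroup G}
include H

theorem even : 2 ∣ Nat.card G := by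
  by_contra h2
  have key : ∀ p, p.Prime → p ∣ Nat.card G → p = 7 ∧ 3 ∣ Nat.card G := by
    intro p hp hd
    haveI := Fact.mk hp
    obtain ⟨Q, hQ, h1, q, hq, qp, g, hg, hgq, hc⟩ := H.frob hd
    have hqd : q ∣ Nat.card G :=
      (hgq.dvd_orderOf fun e => hc (e ▸ one_mem _)).trans (orderOf_dvd_natCard g)
    obtain ⟨rfl, h7⟩ := oddO hq (H.normp h1 hQ) (fun e => h2 (e.trans (card_subgroup_dvd_card Q)))
      (not_dvd_of_isPGroup hq hQ qp) le_normalizer hg (fun e => h2 (e ▸ hqd)) hgq hg hc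
    refine ⟨?_, hqd⟩
    by_contra h
    exact not_dvd_of_isPGroup (q := 7) (by norm_num)
      (hQ.to_le (commutator_le_left_of_norm (zpowers_le.2 hg))) (Ne.symm h) h7.symm.dvd
  haveI := H.simple
  obtain ⟨p, hp, hd⟩ := Nat.exists_prime_and_dvd (Finite.one_lt_card (α := G)).ne'
  exact absurd (key 3 (by norm_num) (key p hp hd).2).1 (by norm_num)

variable (hS : IsSylowIn 2 S ⊤)
include hS

theorem S_ne : S ≠ ⊥ := hS.ne_bot (by rw [card_top]; exact H.even)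

theorem smN : AllSm 𝐍(S) := H.normp (H.S_ne hS) hS.isPGroup

theorem eu {Q : Subgroup G} (h : Rad 2 S Q) : ∃ U x u, Eu S Q U x u := by
  obtain ⟨U, x, h'⟩ := h.exists_es hS.isPGroup (H.normp (fun e => h.lt.not_ge (by
    refine le_trans (le_inf le_rfl fun g _ => mem_sup_right ?_) h.centric
    rw [e]; exact mem_cent_iff'.2 fun a ha => by simp [mem_bot.1 ha])) (hS.isPGroup.to_le h.lt.le))
  exact ⟨U, x, h'.exists_eu hS.isPGroup⟩

theorem focal {M : Subgroup G} (h1 : ∀ q, q.Prime → q ≠ 2 → ∀ n ∈ 𝐍(S), IsPElt q n → n ∉ 𝐂(S) →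
      ∀ a ∈ S, n * a * n⁻¹ * a⁻¹ ∈ M) (h2 : ∀ Q U x u, Eu S Q U x u → U ≤ M) : S ≤ M :=
  le_of_focal H.perfect hS h1 fun Q hQ n hn a ha => by
    obtain ⟨U, x, u, h⟩ := H.eu hS hQ
    exact h2 Q U x u h (h.comm_mem hn ha)

theorem oddS {q : ℕ} (hq : q.Prime) (q2 : q ≠ 2) {n : G} (hn : n ∈ 𝐍(S)) (hp : IsPElt q n)
    (hc : n ∉ 𝐂(S)) : (Sing ⁅S, zpowers n⁆ n q ∧ ⁅S, zpowers n⁆ ≤ 𝐂(S)) ∨
      ∃ z, Q8 ⁅S, zpowers n⁆ z :=
  (odd2 hq (H.smN hS) hS.isPGroup le_normalizer hn q2 hp hn hc).imp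
    (fun h => ⟨h, h.le_cent hS.isPGroup (le_norm_commutator_left _ _) hn⟩) fun h => exists_q8 h.2

end Hyp

theorem comm_mem_commutator {S : Subgroup G} {n a : G} (ha : a ∈ S) :
    n * a * n⁻¹ * a⁻¹ ∈ ⁅S, zpowers n⁆ := by
  rw [commutator_comm]
  exact commutator_mem_commutator (mem_zpowers n) ha

theorem Eu.cent_of_normal (H : Hyp G) {S Q U : Subgroup G} {x u : G} (hS : IsSylowIn 2 S ⊤)
    (h : Eu S Q U x u) (hn : S ≤ 𝐍(Q)) {q : ℕ} (hq : q.Prime) (q2 : q ≠ 2) {n : G}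
    (hnS : n ∈ 𝐍(S)) (hp : IsPElt q n) : n ∈ 𝐂(S) := by
  haveI := Fact.mk hq
  have e : S ⊓ 𝐍(Q) = S := inf_eq_left.2 hn
  have hle : ⁅S, zpowers n⁆ ≤ S := commutator_le_left_of_norm (zpowers_le.2 hnS)
  by_contra hc
  rcases H.oddS hS hq q2 hnS hp hc with ⟨h1, h2⟩ | ⟨z, hz⟩
  · have hQ : ⁅S, zpowers n⁆ ≤ Q :=
      (le_inf hle (h2.trans (centralizer_anti h.lt.le))).trans h.centric
    have hnQ : n ∈ 𝐍(Q) := mem_normalizer_of_conj_mem fun a ha => by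
      simpa using mul_mem (hQ (comm_mem_commutator (h.lt.le ha))) ha
    refine h1.nc (mem_cent_iff'.2 fun a ha => ?_)
    have h3 := h.comm_mem hnQ (hQ ha)
    have h4 := h2 (comm_mem_commutator (n := n) (hle ha))
    by_cases b1 : n * a * n⁻¹ * a⁻¹ = 1
    · exact mul_inv_eq_one.1 b1
    exfalso
    by_cases bu : n * a * n⁻¹ * a⁻¹ = u
    · exact h.u1 (eq_one_of_conj_eq_mul' (isPElt_two_of_mul_self h.uu)
        (hp.isPRegular_of_ne q2.symm) (h.u_fix (e.symm ▸ hnS)) (mul_inv_eq_iff_eq_mul.1 bu))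
    obtain ⟨s, hs, hsQ⟩ := h.exists_out
    exact hsQ (h.mem_of_comm h3 b1 bu hs (by rw [mem_centralizer_iff.1 h4 s hs.1]; group))
  · obtain ⟨a, ha, b, hb, eab⟩ := hz.comm
    have hle' : ⁅S, zpowers n⁆ ≤ S ⊓ 𝐍(Q) := e.symm ▸ hle
    have zu : z = u := (eab ▸ h.cmt (hle' ha) (hle' hb)).resolve_left hz.ne
    have hzc : ∀ c ∈ ⁅S, zpowers n⁆, u * c = c * u := fun c hc => by
      conv_lhs => rw [← h.ufix c (hle' hc)]
      group
    have hab : a * b ≠ b * a := fun e =>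
      hz.ne (eab ▸ commutatorElement_eq_one_iff_mul_comm.2 e)
    have key : ∀ c ∈ ⁅S, zpowers n⁆, c ∈ Q → c = 1 ∨ c = u := fun c hc hQ =>
      zu ▸ hz.uniq c hc ((hz.sq c hc).resolve_right (zu ▸ h.sq_ne hQ))
    by_cases h1 : a ∈ Q
    · rcases key a ha h1 with e | e
      · exact hab (by simp [e])
      · exact hab (e ▸ hzc b hb)
    by_cases h2 : b ∈ Q
    · rcases key b hb h2 with e | e
      · exact hab (by simp [e])
      · exact hab (e ▸ (hzc a ha).symm)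
    rcases key _ (mul_mem ha hb) ((h.idx (hle' ha) h1).mul_mem (hle' ha) (hle' hb) h1 h2) with e | e
    · exact hab (by rw [eq_inv_of_mul_eq_one_left e]; group)
    · refine hab (mul_left_cancel (a := a) ?_)
      rw [← mul_assoc a b, e, hzc a ha]

/-- a normal essential subgroup is a four-group -/
theorem Eu.eq_of_normal (H : Hyp G) {S Q U : Subgroup G} {x u : G} (hS : IsSylowIn 2 S ⊤)
    (h : Eu S Q U x u) (hn : S ≤ 𝐍(Q)) : Q = U := by
  have e : S ⊓ 𝐍(Q) = S := inf_eq_left.2 hn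
  have foc : ∀ M, (∀ Q U x u, Eu S Q U x u → U ≤ M) → S ≤ M := fun M hM =>
    H.focal hS (fun q hq q2 n hnS hp hc => (hc (h.cent_of_normal H hS hn hq q2 hnS hp)).elim) hM
  have all : ∀ {Q' U' x' u'}, Eu S Q' U' x' u' → S ⊓ 𝐍(Q') = S ∧ u' = u := by
    intro Q' U' x' u' h'
    have hu : u ∈ Q' := h'.centric ⟨h.lt.le h.uQ, mem_centralizer_iff.2 fun a ha => by
      conv_rhs => rw [← h.ufix a (e.ge (h'.lt.le ha))]
      group⟩
    refine ⟨inf_eq_left.2 fun s hs => mem_normalizer_of_conj_mem fun a ha => ?_, ?_⟩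
    · have : ⁅s, a⁆ ∈ Q' := by
        rcases h.cmt (e.ge hs) (e.ge (h'.lt.le ha)) with e | e <;> rw [e]
        exacts [one_mem _, hu]
      simpa [commutatorElement_def] using mul_mem this ha
    · obtain ⟨a, ha, b, hb, eab⟩ := h'.exists_cmt
      exact (eab ▸ h.cmt (e.ge ha.1) (e.ge hb.1)).resolve_left h'.u1
  -- two essential subgroups sharing a noncentral element coincide
  have same : ∀ {Q₁ U₁ x₁ u₁ Q₂ U₂ x₂ u₂ c}, Eu S Q₁ U₁ x₁ u₁ → Eu S Q₂ U₂ x₂ u₂ → c ∈ U₁ →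
      c ≠ 1 → c ≠ u → c ∈ Q₂ → Q₁ = Q₂ := by
    intro Q₁ U₁ x₁ u₁ Q₂ U₂ x₂ u₂ c h₁ h₂ hc c1 cu hc2
    obtain ⟨e₁, rfl⟩ := all h₁
    obtain ⟨e₂, -⟩ := all h₂
    have hle : Q₂ ≤ Q₁ := fun g hg => h₁.mem_of_comm hc c1 cu (e₁.ge (h₂.lt.le hg))
      (by rw [comm_of h₂.comm hg hc2]; group)
    refine le_antisymm (fun g hg => ?_) hle
    by_contra hg2
    refine h₁.lt.not_ge fun s hs => ?_
    rcases h₂.idx (e₂.ge (h₁.lt.le hg)) hg2 s (e₂.ge hs) with e | e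
    · exact hle e
    · simpa using mul_mem (hle e) hg
  obtain ⟨Q', U', x', u', h', hU'⟩ : ∃ Q' U' x' u', Eu S Q' U' x' u' ∧ ¬ U' ≤ Q := by
    by_contra hn
    push Not at hn
    exact h.lt.not_ge (foc Q hn)
  obtain ⟨e', rfl⟩ := all h'
  obtain ⟨b, hb, hbQ⟩ := SetLike.not_le_iff_exists.1 hU'
  have b1 : b ≠ 1 := fun e => hbQ (e ▸ Q.one_mem)
  have bu : b ≠ u' := fun e => hbQ (e ▸ h.uQ)
  have hbS : b ∈ S := h'.lt.le (h'.le hb)
  obtain ⟨a, ha, a1, au⟩ := h.exists_v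
  have haS : a ∈ S := h.lt.le (h.le ha)
  have haQ : a ∉ Q' := fun e => hbQ (same h h' ha a1 au e ▸ h'.le hb)
  have hle := foc (U ⊔ U') fun Q'' U'' x'' u'' h'' => by
    obtain ⟨e'', rfl⟩ := all h''
    obtain ⟨c, hc, c1, cu⟩ := h''.exists_v
    by_cases h1 : c ∈ Q
    · obtain rfl := same h'' h hc c1 cu h1
      exact le_sup_of_le_left (h''.le_of_eq h)
    by_cases h2 : c ∈ Q'
    · obtain rfl := same h'' h' hc c1 cu h2
      exact le_sup_of_le_right (h''.le_of_eq h')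
    exfalso
    have hcS : c ∈ S := h''.lt.le (h''.le hc)
    have k1 : c * b ∈ Q := (h.idx (e.ge hbS) hbQ).mul_mem (e.ge hcS) (e.ge hbS) h1 hbQ
    have k2 : c * b ∉ Q' := fun e => h2 (by simpa using mul_mem e (inv_mem (h'.le hb)))
    have k3 : a * (c * b) ∈ Q' := (h'.idx (e'.ge haS) haQ).mul_mem (e'.ge haS)
      (e'.ge (mul_mem hcS hbS)) haQ k2
    have k4 : a * (c * b) ∈ Q := mul_mem (h.le ha) k1
    have aa := elem_mul_self h.sing.elem ha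
    have bb := elem_mul_self h'.sing.elem hb
    have cc := elem_mul_self h''.sing.elem hc
    have ba := h.out (e.ge hbS) hbQ ha a1 au
    have w1 := comm_of h.comm (h.le ha) k4
    have w2 := comm_of h'.comm (h'.le hb) k3
    refine h.sq_ne k4 ?_
    set w := a * (c * b) with hw
    have ec : c = a * w * b := by
      rw [hw, ← mul_assoc, aa, one_mul, mul_assoc, bb, mul_one]
    have ai := inv_eq_of_mul_eq_one_right aa
    have bi := inv_eq_of_mul_eq_one_right bb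
    have ub := h.ufix a (e.ge haS)
    have : w * w * u'' = 1 := by
      calc w * w * u'' = w * w * (a * (u'' * a)) := by
            rw [ai] at ub
            rw [← mul_assoc a, ub]
        _ = c * c := by
            rw [← ba, bi, ec]
            have ha' : ∀ t, a * (w * t) = w * (a * t) := fun t => by
              rw [← mul_assoc, w1, mul_assoc]
            have hb' : ∀ t, b * (w * t) = w * (b * t) := fun t => by
              rw [← mul_assoc, w2, mul_assoc]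
            simp only [mul_assoc, ha', hb']
        _ = 1 := cc
    rw [eq_inv_of_mul_eq_one_left this, inv_eq_of_mul_eq_one_right h.uu]
  refine le_antisymm (fun g hg => ?_) h.le
  obtain ⟨c, hc, d, hd, rfl⟩ := (mem_sup_of_le_normalizer_left
    ((h'.le.trans h'.lt.le).trans (hn.trans h.norm))).1 (hle (h.lt.le hg))
  have hdQ : d ∈ Q := by simpa using mul_mem (inv_mem (h.le hc)) hg
  refine mul_mem hc ?_
  by_cases d1 : d = 1
  · exact d1 ▸ one_mem _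
  by_cases du : d = u'
  · exact du ▸ h.uU
  · exact (hbQ (same h' h hd d1 du hdQ ▸ h'.le hb)).elim

theorem Eu.conj_ne (H : Hyp G) {S Q U : Subgroup G} {x u g w : G} (h : Eu S Q U x u)
    (hg : g ∈ 𝐍(S ⊓ 𝐍(Q))) (hw : w ∈ Q ⊓ 𝐂[x]) (w1 : w ≠ 1) (e : g * w * g⁻¹ = w) :
    g ∈ 𝐍(Q) := by
  have hN : 𝐍(Q) ≤ 𝐂[w] := h.fix.trans (centralizer_le (Set.singleton_subset_iff.2 hw))
  have hgw : g ∈ 𝐂[w] := mem_cent1_iff.2 e
  have hg' := conj_smul_eq_iff_mem_normalizer.2 hg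
  have hU : U ≤ S ⊓ 𝐍(Q) := h.le.trans h.QS
  have hU' : MulAut.conj g • U ≤ S ⊓ 𝐍(Q) := hg' ▸ conj_smul_le_conj_smul_iff.2 hU
  have h1 := core (H.cent1 w1) (h.sing.conj g) h.sing (hU'.trans (inf_le_right.trans hN))
    (hU.trans (inf_le_right.trans hN)) (conj_mem_of_norm (le_normalizer hgw) (hN h.xN)) (hN h.xN)
    (h.two.to_le ((commutator_mono hU' hU).trans ((commutator_le_left_of_norm le_normalizer).trans
      inf_le_left)))
  have h2 : MulAut.conj g • U ≤ Q := fun a ha => h.mem_of_cent (hU' ha) (h1 ha)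
  rw [← conj_smul_eq_iff_mem_normalizer]
  refine (eq_of_le_of_card_ge (fun a ha => mem_conj_smul.2 (h.mem_of_cent ?_ ?_))
    (card_conj_smul _ _).le).symm
  · exact inv_conj_mem_of_mem_normalizer hg (h.QS ha)
  · rw [← mem_conj_smul, conj_smul_centralizer]
    exact centralizer_anti h2 (le_cent_of_comm h.comm ha)

theorem Eu.nonnormal (H : Hyp G) {S Q U : Subgroup G} {x u : G} (h : Eu S Q U x u)
    (hn : ¬ S ≤ 𝐍(Q)) (hR : Q ≠ U) : IsElementaryAbelian 2 Q ∧ 8 ≤ Nat.card Q ∧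
      ∃ g ∈ S ⊓ 𝐍(S ⊓ 𝐍(Q)), g ∉ 𝐍(Q) ∧ Idx (S ⊓ 𝐍(S ⊓ 𝐍(Q))) (S ⊓ 𝐍(Q)) g ∧
        ∀ k ∈ S ⊓ 𝐍(S ⊓ 𝐍(Q)), k ∉ 𝐍(Q) → ∀ c ∈ Q, S ⊓ 𝐍(Q) ≤ 𝐂[c] → k * c * k⁻¹ = c →
          c = 1 ∨ c = u := by
  have hlt : S ⊓ 𝐍(Q) < S := lt_of_le_of_ne inf_le_left fun e => hn (inf_eq_left.1 e)
  obtain ⟨g, hg, hgQ, hgg⟩ := exists_sq_mem (h.two.to_le inf_le_left)
    (lt_inf_normalizer_of_lt h.two hlt).not_ge
  have hgQ' : g ∉ 𝐍(Q) := fun e => hgQ ⟨hg.1, e⟩
  obtain ⟨s, hs, hsQ⟩ := h.exists_out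
  have uc : ∀ a ∈ Q, u * a = a * u := fun a ha => comm_of h.comm h.uQ ha
  have fixz : ∀ k ∈ S ⊓ 𝐍(S ⊓ 𝐍(Q)), k ∉ 𝐍(Q) → ∀ c ∈ Q, S ⊓ 𝐍(Q) ≤ 𝐂[c] → k * c * k⁻¹ = c →
      c = 1 ∨ c = u := by
    intro k hk hkQ c hc hcc e
    rcases h.center hs hsQ hc (mem_cent1_iff.1 (hcc hs)) with h1 | h1
    · by_contra hne
      exact hkQ (h.conj_ne H hk.2 h1 (fun e => hne (Or.inl e)) e)
    · by_contra hne
      refine hkQ (h.conj_ne H hk.2 h1 (fun e => hne (Or.inr ?_)) ?_)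
      · rw [eq_inv_of_mul_eq_one_right e, inv_eq_of_mul_eq_one_right h.uu]
      · conv_rhs => rw [← e, ← h.u_fix hk.2]
        group
  have hRc : ∀ r ∈ Q ⊓ 𝐂[x], S ⊓ 𝐍(Q) ≤ 𝐂[r] := fun r hr =>
    inf_le_right.trans (h.fix.trans (centralizer_le (Set.singleton_subset_iff.2 hr)))
  have hcj : ∀ k ∈ S ⊓ 𝐍(S ⊓ 𝐍(Q)), ∀ r ∈ Q ⊓ 𝐂[x],
      k * r * k⁻¹ ∈ Q ∧ S ⊓ 𝐍(Q) ≤ 𝐂[k * r * k⁻¹] := by
    intro k hk r hr
    have h1 : S ⊓ 𝐍(Q) ≤ 𝐂[k * r * k⁻¹] := by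
      rw [← conj_smul_centralizer_singleton, ← conj_smul_eq_iff_mem_normalizer.2 hk.2]
      exact conj_smul_le_conj_smul_iff.2 (hRc r hr)
    refine ⟨h.centric ⟨(conj_mem_of_norm hk.2 (h.QS hr.1)).1, mem_centralizer_iff.2 fun a ha => ?_⟩,
      h1⟩
    exact mem_centralizer_singleton_iff.1 (h1 (h.QS ha))
  have k1 : ∀ r ∈ Q ⊓ 𝐂[x], g * r * g⁻¹ = r⁻¹ ∨ g * r * g⁻¹ = r⁻¹ * u := by
    intro r hr
    obtain ⟨h1, h2⟩ := hcj g hg r hr
    have := fixz g hg hgQ' _ (mul_mem hr.1 h1) (fun a ha => mem_centralizer_singleton_iff.2 (by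
      rw [← mul_assoc, mem_centralizer_singleton_iff.1 (hRc r hr ha), mul_assoc,
        mem_centralizer_singleton_iff.1 (h2 ha), ← mul_assoc])) (by
      calc g * (r * (g * r * g⁻¹)) * g⁻¹ = (g * r * g⁻¹) * (g * g * r * (g * g)⁻¹) := by group
        _ = _ := by rw [h.conj_R hgg.2 hr, comm_of h.comm h1 hr.1])
    exact this.imp eq_inv_of_mul_eq_one_right fun e => by rw [← e]; group
  have k2 : ∀ r ∈ Q ⊓ 𝐂[x], r * r = 1 := by
    intro r hr
    by_contra hrr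
    obtain ⟨w, hw, ww, w1⟩ := exists_mul_self_mem_zpowers
      (isPElt_of_mem h.two (h.lt.le (mul_mem hr.1 hr.1))) hrr
    have e : g * (r * r) * g⁻¹ = (r * r)⁻¹ := by
      calc g * (r * r) * g⁻¹ = (g * r * g⁻¹) * (g * r * g⁻¹) := by group
        _ = _ := by
          rcases k1 r hr with e | e <;> rw [e]
          · group
          · rw [mul_assoc, ← mul_assoc u, uc _ (inv_mem hr.1), mul_assoc, h.uu]; group
    exact hgQ' (h.conj_ne H hg.2 (zpowers_le.2 (mul_mem hr hr) hw) w1 (by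
      rw [conj_zpowers_inv e hw, inv_eq_of_mul_eq_one_right ww]))
  have k3 : ∀ r ∈ Q ⊓ 𝐂[x], r ≠ 1 → g * r * g⁻¹ = r * u := by
    intro r hr r1
    have := k1 r hr
    rw [inv_eq_of_mul_eq_one_right (k2 r hr)] at this
    exact this.resolve_left fun e => hgQ' (h.conj_ne H hg.2 hr r1 e)
  obtain ⟨w, hw, w1⟩ := exists_ne_one (U := Q ⊓ 𝐂[x]) fun e => hR (by
    rw [← h.sup, e, sup_bot_eq])
  have k4 : ∀ r ∈ Q ⊓ 𝐂[x], r = 1 ∨ r = w := by
    intro r hr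
    by_contra hne
    push Not at hne
    refine hgQ' (h.conj_ne H hg.2 (mul_mem hr hw) (fun e => hne.2 ?_) ?_)
    · rw [eq_inv_of_mul_eq_one_left e, inv_eq_of_mul_eq_one_right (k2 w hw)]
    · calc g * (r * w) * g⁻¹ = (g * r * g⁻¹) * (g * w * g⁻¹) := by group
        _ = _ := by
          rw [k3 r hr hne.1, k3 w hw w1, mul_assoc, ← mul_assoc u, uc w hw.1, mul_assoc, h.uu,
            mul_one]
  have k5 : ∀ k ∈ S ⊓ 𝐍(S ⊓ 𝐍(Q)), k ∉ 𝐍(Q) → k * w * k⁻¹ = w * u := by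
    intro k hk hkQ
    obtain ⟨h1, h2⟩ := hcj k hk w hw
    rcases h.center hs hsQ h1 (mem_cent1_iff.1 (h2 hs)) with h3 | h3
    · rcases k4 _ h3 with e | e
      · exact absurd (by simpa using e) w1
      · exact absurd (h.conj_ne H hk.2 hw w1 e) hkQ
    · rcases k4 _ h3 with e | e
      · rw [← h.u_fix hk.2] at e
        refine absurd (h.eq_one hw ?_) w1
        have : u * w = 1 := by
          rw [← conj_eq_one_iff (a := k), ← e]; group
        rw [eq_inv_of_mul_eq_one_right this]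
        exact inv_mem h.uU
      · calc k * w * k⁻¹ = u * (u * (k * w * k⁻¹)) := by rw [← mul_assoc u u, h.uu, one_mul]
          _ = w * u := by rw [e, uc w hw.1]
  have hel : IsElementaryAbelian 2 Q := ⟨h.comm, fun a ha => by
    obtain ⟨b, hb, r, hr, rfl⟩ := h.decomp ha
    rw [pow_two, mul_assoc, ← mul_assoc r b, ← comm_of h.comm (h.le hb) hr.1, ← mul_assoc,
      ← mul_assoc, elem_mul_self h.sing.elem hb, one_mul, k2 r hr]⟩
  refine ⟨hel, ?_, g, hg, hgQ', fun k hk => ?_, fixz⟩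
  · obtain ⟨n, hn⟩ := exists_elemN_of_elem hel le_rfl
    have := h.sing.four.lt_of_lt hn (lt_of_le_of_ne h.le hR.symm)
    rw [hn.card]
    exact Nat.pow_le_pow_right (n := 2) (i := 3) (by norm_num) this
  · by_cases hkQ : k ∈ 𝐍(Q)
    · exact Or.inl ⟨hk.1, hkQ⟩
    have h1 := mul_mem hk (inv_mem hg)
    refine Or.inr ⟨h1.1, h.conj_ne H h1.2 hw w1 ?_⟩
    have e := k5 g⁻¹ (inv_mem hg) (by simpa using hgQ')
    calc k * g⁻¹ * w * (k * g⁻¹)⁻¹ = k * (g⁻¹ * w * g⁻¹⁻¹) * k⁻¹ := by group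
      _ = (k * w * k⁻¹) * (k * u * k⁻¹) := by rw [e]; group
      _ = w := by rw [k5 k hk hkQ, h.u_fix hk.2, mul_assoc, h.uu, mul_one]

theorem Eu.elem_le (H : Hyp G) {S Q U : Subgroup G} {x u g : G} (h : Eu S Q U x u)
    (hel : IsElementaryAbelian 2 Q) (hI : Idx (S ⊓ 𝐍(S ⊓ 𝐍(Q))) (S ⊓ 𝐍(Q)) g)
    (fixz : ∀ k ∈ S ⊓ 𝐍(S ⊓ 𝐍(Q)), k ∉ 𝐍(Q) → ∀ c ∈ Q, S ⊓ 𝐍(Q) ≤ 𝐂[c] → k * c * k⁻¹ = c →
      c = 1 ∨ c = u) {E : Subgroup G} (hE : IsElementaryAbelian 2 E) (h8 : 8 ≤ Nat.card E)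
    (hle : E ≤ S ⊓ 𝐍(S ⊓ 𝐍(Q))) : E ≤ 𝐍(Q) := by
  intro k hk
  by_contra hkQ
  have hk' := hle hk
  have hQk : MulAut.conj k • Q ≤ S ⊓ 𝐍(Q) :=
    conj_smul_eq_iff_mem_normalizer.2 hk'.2 ▸ conj_smul_le_conj_smul_iff.2 h.QS
  obtain ⟨b, hb, hbQ⟩ : ∃ b ∈ MulAut.conj k • Q, b ∉ Q := SetLike.not_le_iff_exists.1 fun e =>
    hkQ (conj_smul_eq_iff_mem_normalizer.1 (eq_of_le_of_card_ge e (card_conj_smul _ _).ge))
  have hel' := elem_conj hel k
  have hcen : ∀ c ∈ Q, c * b = b * c → S ⊓ 𝐍(Q) ≤ 𝐂[c] := by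
    intro c hc e a ha
    have hb' : b ∈ 𝐂[c] := mem_centralizer_singleton_iff.2 e.symm
    have hQ' : Q ≤ 𝐂[c] := fun q hq => mem_centralizer_singleton_iff.2 (comm_of h.comm hq hc)
    rcases h.idx (hQk hb) hbQ a ha with e | e
    · exact hQ' e
    · simpa using mul_mem (hQ' e) hb'
  have hfix : ∀ e ∈ E, k * e * k⁻¹ = e := fun e he => by rw [comm_of hE.1 hk he]; group
  obtain ⟨e, he, e1, eu⟩ := exists_ne_ne (U := E ⊓ (S ⊓ 𝐍(Q))) (by
    have := (Idx.card_le (D := E) (C := E ⊓ (S ⊓ 𝐍(Q))) (y := k) fun a ha =>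
      ((hI.change hk' fun e => hkQ e.2) a (hle ha)).imp (fun e => ⟨ha, e⟩)
        fun e => ⟨E.mul_mem ha (E.inv_mem hk), e⟩)
    omega) u
  have heQ : e ∉ Q := fun hq => by
    have h1 : e ∈ MulAut.conj k • Q := hfix e he.1 ▸ conj_mem_conj_smul.2 hq
    rcases fixz k hk' hkQ e hq (hcen e hq (comm_of hel'.1 h1 hb)) (hfix e he.1) with e | e
    exacts [e1 e, eu e]
  have ha : e * b ∈ Q := (h.idx (hQk hb) hbQ).mul_mem he.2 (hQk hb) heQ hbQ
  have bb := elem_mul_self hel' hb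
  have h1 := hcen _ ha (by
    have h2 := elem_mul_self hel ha
    have h3 := elem_mul_self hE he.1
    calc e * b * b = e * (e * b * (e * b)) := by rw [h2, mul_assoc, bb]
      _ = (e * e) * (b * (e * b)) := by group
      _ = _ := by rw [h3, one_mul])
  have h2 : k⁻¹ * (e * b) * k ∈ Q := by
    refine h.centric ⟨(inv_conj_mem_of_mem_normalizer hk'.2 (h.QS ha)).1,
      mem_centralizer_iff.2 fun c hc => ?_⟩
    have := mem_centralizer_singleton_iff.1 (h1 (conj_mem_of_norm hk'.2 (h.QS hc)))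
    calc c * (k⁻¹ * (e * b) * k) = k⁻¹ * (k * c * k⁻¹ * (e * b)) * k := by group
      _ = _ := by rw [this]; group
  have h3 := mul_mem h2 (inv_mem (mem_conj_smul.1 hb))
  refine heQ ?_
  have : k⁻¹ * e * k = e := by
    conv_lhs => rw [← hfix e he.1]
    group
  rw [← this]
  simpa [mul_assoc] using h3

theorem Hyp.exists_four (H : Hyp G) {S : Subgroup G} (hS : IsSylowIn 2 S ⊤) {Q : Subgroup G}
    (hQ : Rad 2 S Q) : ∃ U x u, Eu S U U x u := by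
  by_contra hn
  have hne : ∀ {Q U x u}, Eu S Q U x u → Q ≠ U := fun h e => hn ⟨_, _, _, e ▸ h⟩
  have hnn : ∀ {Q U x u}, Eu S Q U x u → ¬ S ≤ 𝐍(Q) := fun h e => hne h (h.eq_of_normal H hS e)
  obtain ⟨U, x, u, h⟩ := H.eu hS hQ
  obtain ⟨hel, h8, g, hg, hgQ, hI, fixz⟩ := h.nonnormal H (hnn h) (hne h)
  have key := fun E => h.elem_le (E := E) H hel hI fixz
  have hS1 : S ⊓ 𝐍(Q) ≤ S ⊓ 𝐍(S ⊓ 𝐍(Q)) := le_inf inf_le_left le_normalizer
  have hQg : MulAut.conj g • Q ≤ S ⊓ 𝐍(Q) :=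
    conj_smul_eq_iff_mem_normalizer.2 hg.2 ▸ conj_smul_le_conj_smul_iff.2 h.QS
  obtain ⟨b, hb, hbQ⟩ : ∃ b ∈ MulAut.conj g • Q, b ∉ Q := SetLike.not_le_iff_exists.1 fun e =>
    hgQ (conj_smul_eq_iff_mem_normalizer.1 (eq_of_le_of_card_ge e (card_conj_smul _ _).ge))
  have hN : 𝐍(S ⊓ 𝐍(S ⊓ 𝐍(Q))) ≤ 𝐍(S ⊓ 𝐍(Q)) := by
    intro k hk
    have k1 : ∀ E, IsElementaryAbelian 2 E → 8 ≤ Nat.card E → E ≤ S ⊓ 𝐍(Q) →
        ∀ a ∈ E, k * a * k⁻¹ ∈ S ⊓ 𝐍(Q) := by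
      intro E hE h8 hle a ha
      have h1 : MulAut.conj k • E ≤ S ⊓ 𝐍(S ⊓ 𝐍(Q)) :=
        conj_smul_eq_iff_mem_normalizer.2 hk ▸ conj_smul_le_conj_smul_iff.2 (hle.trans hS1)
      exact le_inf (h1.trans inf_le_left) (key _ (elem_conj hE k) (by rwa [card_conj_smul]) h1)
        (conj_mem_conj_smul.2 ha)
    refine mem_normalizer_of_conj_mem fun a ha => ?_
    rcases h.idx (hQg hb) hbQ a ha with e | e
    · exact k1 Q hel h8 h.QS a e
    · have := mul_mem (k1 Q hel h8 h.QS _ e)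
        (k1 _ (elem_conj hel g) (by rwa [card_conj_smul]) hQg b hb)
      simpa [mul_assoc] using this
  have e : S ⊓ 𝐍(S ⊓ 𝐍(Q)) = S := by
    by_contra hne
    exact (lt_inf_normalizer_of_lt hS.isPGroup (lt_of_le_of_ne inf_le_left hne)).not_ge
      (inf_le_inf_left _ hN)
  rw [e] at hN hI key
  refine hnn h ((H.focal hS (M := S ⊓ 𝐍(Q)) (fun q _ _ n hn _ _ a ha => ?_)
    fun Q' U' x' u' h' => ?_).trans inf_le_right)
  · by_cases h1 : a ∈ S ⊓ 𝐍(Q)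
    · exact mul_mem (conj_mem_of_norm (hN hn) h1) (inv_mem h1)
    · exact hI.mul_inv_mem (conj_mem_of_norm hn ha) ha
        (fun e => h1 ((mem_normalizer_iff.1 (hN hn) a).2 e)) h1
  · obtain ⟨hel', h8', -⟩ := h'.nonnormal H (hnn h') (hne h')
    exact h'.le.trans (le_inf h'.lt.le (key _ hel' h8' h'.lt.le))

theorem Hyp.no_rad (H : Hyp G) {S : Subgroup G} (hS : IsSylowIn 2 S ⊤) (hn : ∀ Q, ¬ Rad 2 S Q) :
    ∃ y r, Sing S y r ∧ 𝐍(S) ≤ zpowers y ⊔ 𝐂(S) := by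
  have foc : ∀ M, (∀ q, q.Prime → q ≠ 2 → ∀ n ∈ 𝐍(S), IsPElt q n → n ∉ 𝐂(S) →
      ⁅S, zpowers n⁆ ≤ M) → S ≤ M := fun M hM => le_of_focal H.perfect hS
    (fun q hq q2 n hn hp hc a ha => hM q hq q2 n hn hp hc (comm_mem_commutator ha))
    fun Q hQ => (hn Q hQ).elim
  have hle : ∀ n ∈ 𝐍(S), ⁅S, zpowers n⁆ ≤ S := fun n hn =>
    commutator_le_left_of_norm (zpowers_le.2 hn)
  have hq8 : ∀ n ∈ 𝐍(S), ∀ z, Q8 ⁅S, zpowers n⁆ z → ∀ g ∈ 𝐍(⁅S, zpowers n⁆), g * z * g⁻¹ = z :=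
    fun n hn z hz g hg => (hz.uniq _ (conj_mem_of_norm hg hz.mem)
      (BT.conj_mul_self_of_sq hz.zz g)).resolve_left (by simpa using hz.ne)
  have hsing : ∀ q, q.Prime → q ≠ 2 → ∀ n ∈ 𝐍(S), IsPElt q n → n ∉ 𝐂(S) →
      Sing ⁅S, zpowers n⁆ n q ∧ ⁅S, zpowers n⁆ ≤ 𝐂(S) := by
    intro q hq q2 y hy hp hc
    refine (H.oddS hS hq q2 hy hp hc).resolve_right fun ⟨z, hz⟩ => ?_
    have hSz : S ≤ 𝐂[z] := fun s hs =>
      mem_cent1_iff.2 (hq8 y hy z hz s (le_norm_commutator_left _ _ hs))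
    have hzS := hle y hy hz.mem
    have hNz : 𝐍(S) ≤ 𝐂[z] := by
      refine le_of_forall_isPElt_mem fun q hq n hn hp => ?_
      by_cases q2 : q = 2
      · subst q2
        exact hSz (hS.mem_of_mem_normalizer hp (mem_top n) hn)
      by_cases hc : n ∈ 𝐂(S)
      · exact centralizer_le (Set.singleton_subset_iff.2 hzS) hc
      have hreg := hp.isPRegular_of_ne (Ne.symm q2)
      rcases H.oddS hS hq.out q2 hn hp hc with ⟨-, h2⟩ | ⟨z', hz'⟩
      · obtain ⟨a, ha, b, hb, rfl⟩ := hz.comm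
        obtain ⟨a1, ha1, a2, ha2, rfl⟩ :=
          (cop2 hS.isPGroup hreg hn).exists_commutator_mul_centralizer (hle y hy ha)
        obtain ⟨b1, hb1, b2, hb2, rfl⟩ :=
          (cop2 hS.isPGroup hreg hn).exists_commutator_mul_centralizer (hle y hy hb)
        have e1 := mem_cent_iff'.1 (h2 ha1) _ (mul_mem (mul_mem ha2.1 (hle y hy hb)) (inv_mem ha2.1))
        have e2 := mem_cent_iff'.1 (h2 hb1) _ (mul_mem (mul_mem hb2.1 (inv_mem ha2.1)) (inv_mem hb2.1))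
        have : ⁅a1 * a2, b1 * b2⁆ = ⁅a2, b2⁆ := by
          calc ⁅a1 * a2, b1 * b2⁆ = a1 * (a2 * (b1 * b2) * a2⁻¹) * a1⁻¹ * (b1 * b2)⁻¹ := by
                simp only [commutatorElement_def]; group
            _ = a2 * (b1 * (b2 * a2⁻¹ * b2⁻¹) * b1⁻¹) := by rw [e1]; group
            _ = _ := by rw [e2]; simp only [commutatorElement_def]; group
        rw [this]
        have h3 : ⁅a2, b2⁆ ∈ 𝐂(zpowers n) := by
          rw [commutatorElement_def]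
          exact mul_mem (mul_mem (mul_mem ha2.2 hb2.2) (inv_mem ha2.2)) (inv_mem hb2.2)
        exact mem_centralizer_singleton_iff.2 (mem_centralizer_iff.1 h3 n (mem_zpowers n))
      · have h1 := mem_centralizer_singleton_iff.1 (hSz (conj_mem_of_norm hn hzS))
        rcases hz'.uniq _ (comm_mem_commutator hzS) (by
          rw [inv_eq_of_mul_eq_one_right hz.zz, mul_assoc _ z, ← mul_assoc z, ← h1,
            mul_assoc _ z z, hz.zz, mul_one, BT.conj_mul_self_of_sq hz.zz]) with e | e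
        · exact mem_cent1_iff.2 (mul_inv_eq_one.1 e)
        · exact absurd (eq_one_of_conj_eq_mul' (isPElt_two_of_mul_self hz'.zz) hreg
            (hq8 n hn z' hz' n (norm_commutator hn)) (mul_inv_eq_iff_eq_mul.1 e)) hz'.ne
    refine H.not_isol hz.ne (BT.isol_of_forall_commute hz.zz fun g hg => ?_)
    obtain ⟨c, hc, hcS⟩ := (hS.of_le hSz le_top).exists_conj_mem
      (isPElt_two_of_mul_self (BT.conj_mul_self_of_sq hz.zz g))
      (mem_centralizer_singleton_iff.2 hg.eq.symm)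
    have := alperin' hS (fun a => a = z) (fun n hn a _ => propext ⟨fun e => by
        rw [← mem_cent1_iff.1 (hNz hn)] at e; simpa using e,
      fun e => by rw [e]; exact mem_cent1_iff.1 (hNz hn)⟩) (fun Q hQ => (hn Q hQ).elim) hzS (g := c * g)
      (by simpa [mul_assoc] using hcS)
    have e := this.mpr rfl
    calc g * z * g⁻¹ = c⁻¹ * (c * g * z * (c * g)⁻¹) * c⁻¹⁻¹ := by group
      _ = z := by rw [e]; exact mem_cent1_iff.1 (inv_mem hc)
  have hSC : S ≤ 𝐂(S) := foc _ fun q hq q2 n hn hp hc => (hsing q hq q2 n hn hp hc).2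
  have hab : IsMulCommutative S := le_centralizer_iff_isMulCommutative.1 hSC
  have hSN : IsSylowIn 2 S 𝐍(S) := hS.of_le le_normalizer le_top
  obtain ⟨y, hy, r, h1, hN, hC, hyr, hn⟩ := aut (H.smN hS) hS.isPGroup hab
    (pCore_eq_bot_of_not_dvd (by rw [card_quo]; exact hSN.not_dvd_relIndex_of_le hSC))
    fun e => H.not_compl H.even (hasNormalPComplement_of_normalizer_le_centralizer hS.toSylowTop e)
  have e : ⁅S, zpowers y⁆ = S := by
    refine le_antisymm (hle y hy) (foc _ fun q hq q2 n hn hp hc => ?_)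
    refine (hsing q hq q2 n hn hp hc).1.le_of_norm (hN hn) fun e => hc (hC ⟨hn, zpowers_le.1 ?_⟩)
    rw [le_cent_iff_commutator, eq_bot_iff, ← e, commutator_comm]
    exact le_inf (commutator_mono (hle y hy) le_rfl)
      (commutator_le_left_of_norm (zpowers_le.2 (hN hn)))
  rw [e] at h1
  exact ⟨y, r, h1, aut_odd (H.smN hS) hSN h1 hyr hn⟩

end SAD.L
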