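import Cfsg.Agent.Lib.Char.SadL4
import Cfsg.Agent.Lib.Grp.Zass3

/-!
# Local analysis for S4753, part 5: elementary abelian Sylow `2`-subgroups, the case `SL₂(2^q)`
-/

set_option autoImplicit false
set_option linter.unusedSectionVars false

namespace SAD.L

open Cfsg GT FT Subgroup
open scoped Pointwise commutatorElement

universe u

section
variable {G : Type*} [Group G] [Finite G]

theorem eq_one_of_odd_of_sq {y : G} (h : y * y = 1) (ho : IsPRegular 2 y) : y = 1 :=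
  (isPElt_two_of_mul_self h).eq_one_of_isPRegular ho

theorem exists_invol_zpowers {y : G} (h : ¬ IsPRegular 2 y) :
    ∃ w ∈ zpowers y, w * w = 1 ∧ w ≠ 1 := by
  obtain ⟨w, hw⟩ := exists_prime_orderOf_dvd_card' (G := zpowers y) 2
    (by rw [Nat.card_zpowers]; exact not_not.1 h)
  rw [← orderOf_coe] at hw
  exact ⟨w, w.2, by rw [← pow_two, ← hw, pow_orderOf_eq_one], fun e => by simp [e] at hw⟩

theorem exists_invol_of_dvd {K : Subgroup G} (h : 2 ∣ Nat.card K) :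
    ∃ w ∈ K, w * w = 1 ∧ w ≠ 1 := by
  obtain ⟨w, hw⟩ := exists_prime_orderOf_dvd_card' (G := K) 2 h
  rw [← orderOf_coe] at hw
  exact ⟨w, w.2, by rw [← pow_two, ← hw, pow_orderOf_eq_one], fun e => by simp [e] at hw⟩

theorem mem_norm_zpowers_of_inv {u d : G} (h : u * d * u⁻¹ = d⁻¹) : u ∈ 𝐍(zpowers d) :=
  mem_normalizer_of_conj_mem fun a ha => by
    rw [conj_zpowers_inv h ha]; exact inv_mem ha

theorem norm_zpowers_le (d : G) : 𝐍(zpowers d) ≤ 𝐍(𝐂[d]) := by
  rw [← centralizer_zpowers]; exact le_normalizer_centralizer le_rfl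

theorem cent1_le_norm (d : G) : 𝐂[d] ≤ 𝐍(zpowers d) :=
  centralizer_zpowers d ▸ centralizer_le_normalizer _

theorem mem_cent1_comm {a b : G} (h : a ∈ 𝐂[b]) : b ∈ 𝐂[a] :=
  mem_centralizer_singleton_iff.2 (mem_centralizer_singleton_iff.1 h).symm

theorem le_cent1_of_mem {S : Subgroup G} {d : G} (h : d ∈ 𝐂(S)) : S ≤ 𝐂[d] :=
  fun s hs => mem_centralizer_singleton_iff.2 (mem_centralizer_iff.1 h s hs)

theorem cent_le_cent1 {S : Subgroup G} {t : G} (h : t ∈ S) : 𝐂(S) ≤ 𝐂[t] :=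
  centralizer_le (Set.singleton_subset_iff.2 h)

/-- elements centralizing a Sylow `2`-subgroup are not inverted by `2`-elements -/
theorem sq_of_inv {S : Subgroup G} (hS : IsSylowIn 2 S ⊤) {d u : G} (hd : d ∈ 𝐂(S))
    (hu : u * u = 1) (h : u * d * u⁻¹ = d⁻¹) : d * d = 1 := by
  have h1 := le_cent1_of_mem hd
  obtain ⟨g, hg, e⟩ := (hS.of_le (h1.trans (cent1_le_norm d)) le_top).exists_conj_mem
    (isPElt_two_of_mul_self hu) (mem_norm_zpowers_of_inv h)
  have := mem_cent1_iff.1 ((mem_normalizer_iff.1 (norm_zpowers_le d hg) u).2 (h1 e))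
  rw [this] at h
  exact eq_inv_iff_mul_eq_one.1 h

theorem exists_invol_conj {t t' : G} (ht : t * t = 1) (ht' : t' * t' = 1)
    (h : IsPRegular 2 (t * t')) : ∃ u : G, u * u = 1 ∧ u * t * u⁻¹ = t' := by
  obtain ⟨m, hm⟩ := Nat.odd_iff.2 (Nat.two_dvd_ne_zero.1 h)
  have h1 := BT.conj_pow_mul_of_sq ht ht' (m + 1)
  have h2 : t * (t * t') ^ (m + 1) * (t * (t * t') ^ (m + 1)) = 1 := by
    refine (congrArg (· * (t * (t * t') ^ (m + 1))) h1).trans ?_
    rw [mul_assoc, ← mul_assoc t t, ht, one_mul, inv_mul_cancel]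
  refine ⟨_, h2, ?_⟩
  rw [inv_eq_of_mul_eq_one_right h2, mul_assoc _ t, ← mul_assoc t t, ht, one_mul, mul_assoc,
    ← pow_add, show m + 1 + (m + 1) = orderOf (t * t') + 1 by omega, pow_succ, pow_orderOf_eq_one,
    one_mul, ← mul_assoc, ht, one_mul]

theorem pretransitive_of_free {X : Type*} [MulAction G X] [Finite X]
    (h : ∀ (g : G) (x : X), g • x = x → g = 1) (hc : Nat.card X ≤ Nat.card G) :
    MulAction.IsPretransitive G X :=
  ⟨fun x y => ((Nat.bijective_iff_injective_and_card (fun g : G => g • x)).2 ⟨fun g g' e => by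
      have := h (g'⁻¹ * g) x (by rw [mul_smul, show g • x = g' • x from e, inv_smul_smul])
      exact (inv_mul_eq_one.1 this).symm,
    le_antisymm (Nat.card_le_card_of_injective (fun g : G => g • x) fun g g' e => by
      have := h (g'⁻¹ * g) x (by rw [mul_smul, show g • x = g' • x from e, inv_smul_smul])
      exact (inv_mul_eq_one.1 this).symm) hc⟩).2 y⟩

/-- an elementary abelian Sylow `2`-subgroup with a transitive cyclic automizer -/
structure El (S : Subgroup G) (y : G) (r : ℕ) : Prop where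
  syl : IsSylowIn 2 S ⊤
  sing : Sing S y r
  norm : 𝐍(S) ≤ zpowers y ⊔ 𝐂(S)

namespace El

variable {S : Subgroup G} {y : G} {r : ℕ} (h : El S y r)
include h

theorem SC : S ≤ 𝐂(S) := le_cent_of_comm h.sing.elem.1

theorem decomp {n : G} (hn : n ∈ 𝐍(S)) : ∃ w ∈ zpowers y, ∃ c ∈ 𝐂(S), w * c = n :=
  (mem_sup_of_le_normalizer_right (le_normalizer_centralizer (zpowers_le.2 h.sing.norm))).1
    (h.norm hn)

theorem cent_of_fix {n t : G} (hn : n ∈ 𝐍(S)) (ht : t ∈ S) (t1 : t ≠ 1) (e : n ∈ 𝐂[t]) :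
    n ∈ 𝐂(S) := by
  obtain ⟨w, hw, c, hc, rfl⟩ := h.decomp hn
  refine mul_mem ?_ hc
  by_contra hw'
  exact t1 (h.sing.zfix hw hw' ht (mem_cent1_iff.1
    (by simpa using mul_mem e (inv_mem (cent_le_cent1 ht hc)))))

theorem mem_of_sq {u : G} (hu : u * u = 1) (hn : u ∈ 𝐍(S)) : u ∈ S :=
  h.syl.mem_of_mem_normalizer (isPElt_two_of_mul_self hu) (mem_top u) hn

theorem exists_conj {u : G} (hu : u * u = 1) : ∃ g, g * u * g⁻¹ ∈ S := by
  obtain ⟨g, -, e⟩ := h.syl.exists_conj_mem (isPElt_two_of_mul_self hu) (mem_top u)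
  exact ⟨g, e⟩

theorem not_cyclic : ¬ IsCyclic S := by
  rw [isCyclic_elem_iff h.sing.elem, h.sing.card]
  intro e
  have := Nat.le_of_dvd two_pos e
  have := h.sing.three_le
  omega

theorem sing_of {n : G} {q : ℕ} (hn : n ∈ 𝐍(S)) (hq : q.Prime) (hp : IsPElt q n) (hc : n ∉ 𝐂(S)) :
    Sing S n r := by
  haveI := Fact.mk hq
  obtain ⟨k, hk⟩ := hp.exists_pow_eq_one
  have h1 := card_conj_modEq (W := S) hq hn (k := k) (by simp [hk])
  have h2 : S ⊓ 𝐂[n] = ⊥ := eq_bot_iff.2 fun t ht => by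
    by_contra t1
    exact hc (h.cent_of_fix hn ht.1 t1 (mem_cent1_comm ht.2))
  rw [h2, card_bot, h.sing.card] at h1
  have : q ∣ r := by simpa using (Nat.modEq_iff_dvd' (by omega)).1 h1.symm
  rw [(Nat.prime_dvd_prime_iff_eq hq h.sing.prime).1 this] at hp
  exact h.sing.of_mem hp hn hc

end El

end

variable [T : Tools.{u}] {G : Type u} [Group G] [Finite G]

theorem El.dich {S X : Subgroup G} {y : G} {r : ℕ} (h : El S y r) (hX : AllSm X) (hSX : S ≤ X) :
    X ≤ 𝐍(S) ∨ HasNormalPComplement 2 X := by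
  have hS := h.syl.of_le hSX le_top
  by_cases hc : X ⊓ 𝐍(S) ≤ 𝐂(S)
  · exact Or.inr (hS.hasNormalPComplement_of_le_centralizer hc)
  left
  by_contra hn
  refine hc (le_of_forall_isPElt_mem fun q hq n hn' hp => ?_)
  by_contra hc'
  exact hn (le_norm_of_sing hX hS (h.sing_of hn'.2 hq.out hp hc') hn'.1)

section SE

variable (H : Hyp G) {S : Subgroup G} {y : G} {r : ℕ} (h : El S y r)
  (hc : ∀ t ∈ S, t ≠ 1 → 𝐂[t] ≤ 𝐂(S))
include H h hc

theorem se_le {X : Subgroup G} (hX : AllSm X) (hSX : S ≤ X) : X ≤ 𝐍(S) := by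
  haveI := h.sing.elem.1
  rw [← abelian_sylow (Tools.solv hX) (h.syl.of_le hSX le_top) h.sing.elem.1]
  refine sup_le (le_trans ?_ (centralizer_le_normalizer _)) inf_le_left
  have hn : S ≤ 𝐍(Op' 2 X) := hSX.trans (le_norm_piCoreOf _ _)
  exact le_of_forall_centralizer_le hn
    (coprimeAct_of_isPGroup_left hn h.syl.isPGroup (not_dvd_card_Op' 2 X)).cop h.not_cyclic
    fun a ha a1 => inf_le_right.trans (hc a ha a1)

theorem se_ti {g t : G} (ht : t ∈ S) (t1 : t ≠ 1) (e : g * t * g⁻¹ ∈ S) : g ∈ 𝐍(S) := by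
  refine mem_normalizer_of_conj_mem fun a ha => h.mem_of_sq
    (BT.conj_mul_self_of_sq (elem_mul_self h.sing.elem ha) g) (centralizer_le_normalizer _
      (hc _ e (by simpa using t1) ?_))
  rw [← conj_smul_centralizer_singleton]
  exact conj_mem_conj_smul.2 (cent_le_cent1 ht (h.SC ha))

theorem se_coset {g : G} (hg : g ∉ 𝐍(S)) : ∃ u : G, u * u = 1 ∧ g⁻¹ * u ∈ 𝐂(S) := by
  obtain ⟨t, ht, t1⟩ := exists_ne_one h.sing.ne_bot
  have tt := elem_mul_self h.sing.elem ht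
  have tt' := BT.conj_mul_self_of_sq tt g
  obtain ⟨u, hu, e⟩ := exists_invol_conj tt tt' (by
    rintro ⟨m, hm⟩
    obtain ⟨w1, w2, w3, w4⟩ := BT.exists_central_invol tt tt' hm
      (fun e => (orderOf_pos _).ne' (by rw [hm, e]))
    have hw := h.mem_of_sq w1 (centralizer_le_normalizer _
      (hc t ht t1 (mem_centralizer_singleton_iff.2 w3.eq)))
    exact hg (se_ti H h hc ht t1 (h.mem_of_sq tt' (centralizer_le_normalizer _
      (hc _ hw w2 (mem_centralizer_singleton_iff.2 w4.eq.symm))))))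
  refine ⟨u, hu, hc t ht t1 (mem_cent1_iff.2 ?_)⟩
  calc g⁻¹ * u * t * (g⁻¹ * u)⁻¹ = g⁻¹ * (u * t * u⁻¹) * g := by group
    _ = t := by rw [e]; group

theorem se_reg {g x : G} (hg : g ∉ 𝐍(S)) (hx : x ∈ 𝐍(S)) (e : g⁻¹ * x * g ∈ 𝐍(S)) :
    IsPRegular 2 x := by
  by_contra hr
  obtain ⟨w, hw, ww, w1⟩ := exists_invol_zpowers hr
  have h1 : zpowers x ≤ MulAut.conj g • 𝐍(S) := zpowers_le.2 (mem_conj_smul.2 e)
  have h2 := h.mem_of_sq (u := g⁻¹ * w * g⁻¹⁻¹) (BT.conj_mul_self_of_sq ww _)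
    (by simpa using mem_conj_smul.1 (h1 hw))
  exact hg (by simpa using se_ti H h hc (h.mem_of_sq ww (zpowers_le.2 hx hw)) w1 h2)

theorem se_exists_inv {u : G} (hu : u * u = 1) (hn : u ∉ 𝐍(S)) :
    ∃ j, Sing S j r ∧ u * j * u⁻¹ = j⁻¹ := by
  obtain ⟨v, hv, e⟩ := se_coset H h hc (g := u * y)
    fun e => hn (by simpa using mul_mem e (inv_mem h.sing.norm))
  have ui := inv_eq_of_mul_eq_one_right hu
  have e1 : u * v = y * ((u * y)⁻¹ * v) := by conv_lhs => rw [← ui]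
                                              group
  have h1 : u * v ∈ 𝐍(S) := e1 ▸ mul_mem h.sing.norm (centralizer_le_normalizer _ e)
  have h2 : u * (u * v) * u⁻¹ = (u * v)⁻¹ := by
    rw [← mul_assoc, hu, one_mul, mul_inv_rev, inv_eq_of_mul_eq_one_right hv]
  by_contra hj
  push Not at hj
  have : zpowers (u * v) ≤ 𝐂(S) := le_of_forall_isPElt_mem fun q hq j hj' hp => by
    by_contra hc'
    exact hj j (h.sing_of (zpowers_le.2 h1 hj') hq.out hp hc') (conj_zpowers_inv h2 hj')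
  refine h.sing.nc ?_
  have := mul_mem (this (mem_zpowers _)) (inv_mem e)
  rwa [e1, mul_inv_cancel_right] at this

theorem se_exists_invol : ∃ u : G, u * u = 1 ∧ u ∉ 𝐍(S) := by
  obtain ⟨g, hg⟩ : ∃ g, g ∉ 𝐍(S) := by
    by_contra hn
    push Not at hn
    exact H.ne_top (Tools.solv (H.smN h.syl)) (eq_top_iff.2 fun g _ => hn g)
  obtain ⟨u, hu, e⟩ := se_coset H h hc hg
  exact ⟨u, hu, fun e' => hg (by simpa using mul_mem (centralizer_le_normalizer _ e) (inv_mem e'))⟩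

theorem se_cent : 𝐂(S) ≤ S := by
  haveI := Fact.mk h.sing.prime
  obtain ⟨u, hu, hn⟩ := se_exists_invol H h hc
  obtain ⟨j, hj, e⟩ := se_exists_inv H h hc hu hn
  have j1 : j ≠ 1 := fun e => hj.nc (e ▸ one_mem _)
  have conjinv : ∀ g : G, g * u * g⁻¹ * (g * j * g⁻¹) * (g * u * g⁻¹)⁻¹ = (g * j * g⁻¹)⁻¹ :=
    fun g => by
      calc _ = g * (u * j * u⁻¹) * g⁻¹ := by group
        _ = _ := by rw [e]; group
  have hodd : ¬ 2 ∣ Nat.card 𝐂[j] := fun h2 => by
    obtain ⟨w, hw, ww, w1⟩ := exists_invol_of_dvd h2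
    obtain ⟨g, hg⟩ := h.exists_conj ww
    have := sq_of_inv h.syl (hc _ hg (by simpa using w1) (by
      rw [← conj_smul_centralizer_singleton]; exact conj_mem_conj_smul.2 (mem_cent1_comm hw)))
      (BT.conj_mul_self_of_sq hu g) (conjinv g)
    exact j1 (by simpa using eq_one_of_odd_of_sq this (hj.reg.conj g))
  have hfpf : ∀ d ∈ 𝐂[j], d * u = u * d → d = 1 := by
    intro d hd e'
    by_contra d1
    obtain ⟨g, hg⟩ := h.exists_conj hu
    have h1 : g * d * g⁻¹ ∈ 𝐂(S) := hc _ hg (by simpa using fun e : u = 1 => hn (e ▸ one_mem _)) (by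
      rw [← conj_smul_centralizer_singleton]
      exact conj_mem_conj_smul.2 (mem_centralizer_singleton_iff.2 e'))
    have h2 := se_le H h hc (H.cent1 (w := g * d * g⁻¹) (by simpa using d1)) (le_cent1_of_mem h1)
      (x := g * j * g⁻¹) (by
        rw [← conj_smul_centralizer_singleton]; exact conj_mem_conj_smul.2 (mem_cent1_comm hd))
    have h3 := mul_mem hg (conj_mem_of_norm h2 (inv_mem hg))
    rw [← mul_assoc, ← mul_assoc, conjinv g, ← mul_inv_rev, inv_mem_iff] at h3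
    have h4 := (isPElt_of_mem h.syl.isPGroup h3).eq_one_of_isPRegular
      (by rw [← pow_two]; exact (hj.reg.conj g).pow 2)
    exact j1 (by simpa using eq_one_of_odd_of_sq h4 (hj.reg.conj g))
  have hbot : 𝐂(S) ⊓ 𝐂[j] = ⊥ := eq_bot_iff.2 fun d hd => eq_one_of_odd_of_sq
    (sq_of_inv h.syl hd.1 hu (conj_eq_inv_of_fpf (norm_zpowers_le j (mem_norm_zpowers_of_inv e))
      hfpf (by rw [pow_two, hu]; exact one_mem _) hd.2)) (isPRegular_of_mem hodd hd.2)
  have hjn : j ∈ 𝐍(𝐂(S)) := le_normalizer_centralizer le_rfl hj.norm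
  have hr : ¬ r ∣ Nat.card 𝐂(S) := by
    obtain ⟨k, hk⟩ := hj.pelt.exists_pow_eq_one
    have h1 := card_conj_modEq (W := 𝐂(S)) hj.prime hjn (k := k) (by simp [hk])
    rw [hbot, card_bot] at h1
    exact fun e => hj.prime.one_lt.ne' (Nat.dvd_one.1 ((h1.dvd_iff dvd_rfl).1 e))
  have e1 : ⁅𝐂(S), zpowers j⁆ = 𝐂(S) := by
    have := (coprimeAct_of_isPGroup_left (zpowers_le.2 hjn) hj.pelt.isPGroup_zpowers
      hr).commutator_sup_inf_centralizer
    rwa [centralizer_zpowers, hbot, sup_bot_eq] at this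
  have := Tools.odd (H.smN h.syl) (centralizer_le_normalizer _) hj.norm hj.ne_two hj.pelt hr hjn
    fun e => hj.nc (centralizer_anti h.SC e)
  rw [e1] at this
  rcases this with h1 | h1 | h1
  · exact (eq_of_le_of_card_ge h.SC (by rw [h1.2, hj.card])).ge
  · obtain ⟨z, hz⟩ := exists_q8 h1.2
    exact absurd h.SC (hz.not_elem hj.elem (by rw [hj.card]; have := hj.three_le; omega))
  · have := card_dvd_of_le h.SC
    rw [h1.2, hj.card, h1.1] at this
    omega

theorem se_order {j : G} (hj : Sing S j r) : orderOf j = r ∧ S ⊔ zpowers j = 𝐍(S) ∧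
    Nat.card 𝐍(S) = (r + 1) * r := by
  haveI := Fact.mk h.sing.prime
  have key : ∀ j, Sing S j r → orderOf j = r ∧ Nat.card ↥(S ⊔ zpowers j) = (r + 1) * r := by
    intro j hj
    have hF : FrobAct (zpowers j) S := ⟨zpowers_le.2 hj.norm, fun w hw w1 a ha e => hj.zfix hw
      (fun e => w1 ((isPElt_of_mem h.syl.isPGroup (se_cent H h hc e)).eq_one_of_isPRegular
        (hj.reg.of_mem_zpowers hw))) ha (by rw [← e]; group)⟩
    have h1 := hF.card_dvd_sub_one
    rw [hj.card, Nat.card_zpowers, Nat.add_sub_cancel] at h1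
    have h2 : orderOf j = r := ((Nat.dvd_prime hj.prime).1 h1).resolve_left
      fun e => hj.nc (orderOf_eq_one_iff.1 e ▸ one_mem _)
    refine ⟨h2, ?_⟩
    rw [sup_comm, card_sup_of_disjoint_of_le_normalizer hF.norm hF.disjoint.symm, Nat.card_zpowers,
      h2, hj.card, mul_comm]
  have hle : ∀ j, Sing S j r → S ⊔ zpowers j ≤ 𝐍(S) := fun j hj =>
    sup_le le_normalizer (zpowers_le.2 hj.norm)
  have e : S ⊔ zpowers y = 𝐍(S) := le_antisymm (hle y h.sing)
    (h.norm.trans (sup_le le_sup_right ((se_cent H h hc).trans le_sup_left)))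
  have h1 := e ▸ (key y h.sing).2
  exact ⟨(key j hj).1, eq_of_le_of_card_ge (hle j hj) (by rw [h1, (key j hj).2]), h1⟩

theorem se_inv {a : G} (ha : a ∉ 𝐍(S)) : ∃ u j : G, a⁻¹ * u ∈ S ∧ Sing S j r ∧
    a⁻¹ * j * a ∈ 𝐍(S) ∧ ∀ x ∈ 𝐍(S), a⁻¹ * x * a ∈ 𝐍(S) → u * x * u⁻¹ = x⁻¹ := by
  obtain ⟨u, hu, e⟩ := se_coset H h hc ha
  have e' := centralizer_le_normalizer _ e
  obtain ⟨j, hj, ej⟩ := se_exists_inv H h hc hu
    fun e'' => ha (by simpa using mul_mem e' (inv_mem e''))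
  have h1 : a⁻¹ * j * a ∈ 𝐍(S) := by
    have := conj_mem_of_norm (le_normalizer e') (inv_mem hj.norm)
    rw [← ej, inv_eq_of_mul_eq_one_right hu] at this
    have e2 : a⁻¹ * j * a = a⁻¹ * (u * u) * j * (u * u⁻¹) * a := by rw [hu]; group
    rw [e2]
    simpa [mul_assoc] using this
  refine ⟨u, j, se_cent H h hc e, hj, h1, fun x hx hx' => conj_zpowers_inv ej ?_⟩
  obtain ⟨o1, -, o2⟩ := se_order H h hc hj
  have hle : zpowers j ≤ 𝐍(S) ⊓ MulAut.conj a • 𝐍(S) := zpowers_le.2 ⟨hj.norm, mem_conj_smul.2 h1⟩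
  refine (eq_of_le_of_card_ge hle ?_).ge ⟨hx, mem_conj_smul.2 hx'⟩
  have h2 : ¬ 2 ∣ Nat.card ↥(𝐍(S) ⊓ MulAut.conj a • 𝐍(S)) := not_dvd_card_iff_forall_isPRegular.2
    fun x hx => se_reg H h hc ha hx.1 (mem_conj_smul.1 hx.2)
  have h3 := card_dvd_of_le (inf_le_left : 𝐍(S) ⊓ MulAut.conj a • 𝐍(S) ≤ _)
  obtain ⟨n, hn⟩ := IsPGroup.iff_card.1 hj.pgroup
  rw [o2, ← hj.card, hn] at h3
  rw [Nat.card_zpowers, o1]
  exact Nat.le_of_dvd hj.prime.pos (Nat.Coprime.dvd_of_dvd_mul_left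
    (((Nat.Prime.coprime_iff_not_dvd Nat.prime_two).2 h2).symm.pow_right n) h3)

theorem se_two {a b x : G} (ha : a ∉ 𝐍(S)) (hb : b ∉ 𝐍(S)) (hx : x ∈ 𝐍(S)) (x1 : x ≠ 1)
    (ea : a⁻¹ * x * a ∈ 𝐍(S)) (eb : b⁻¹ * x * b ∈ 𝐍(S)) : a⁻¹ * b ∈ 𝐍(S) := by
  obtain ⟨u, -, hu, -, -, iu⟩ := se_inv H h hc ha
  obtain ⟨v, -, hv, -, -, iv⟩ := se_inv H h hc hb
  have e1 : (u⁻¹ * v) * x * (u⁻¹ * v)⁻¹ = x := by
    calc _ = u⁻¹ * (v * x * v⁻¹) * u := by group
      _ = x := by rw [iv x hx eb, ← iu x hx ea]; group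
  have : u⁻¹ * v ∈ 𝐍(S) := by
    by_contra hn
    obtain ⟨w, -, hw, -, -, iw⟩ := se_inv H h hc hn
    have e2 : (u⁻¹ * v)⁻¹ * x * (u⁻¹ * v) = x := by
      conv_lhs => rw [← e1]
      group
    have h1 := mul_mem hw (conj_mem_of_norm hx (inv_mem hw))
    have e3 : (u⁻¹ * v)⁻¹ * w * (x * ((u⁻¹ * v)⁻¹ * w)⁻¹ * x⁻¹) = (x * x)⁻¹ := by
      calc _ = (u⁻¹ * v)⁻¹ * (w * x * w⁻¹) * (u⁻¹ * v) * x⁻¹ := by group
        _ = ((u⁻¹ * v)⁻¹ * x * (u⁻¹ * v))⁻¹ * x⁻¹ := by rw [iw x hx (by rwa [e2])]; group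
        _ = _ := by rw [e2]; group
    rw [e3, inv_mem_iff] at h1
    have hr := se_reg H h hc ha hx ea
    exact x1 (eq_one_of_odd_of_sq ((isPElt_of_mem h.syl.isPGroup h1).eq_one_of_isPRegular
      (by rw [← pow_two]; exact hr.pow 2)) hr)
  have := mul_mem (mul_mem (le_normalizer hu) this) (inv_mem (le_normalizer hv))
  simpa [mul_assoc] using this

theorem se_card : Nat.card (G ⧸ 𝐍(S)) = r + 2 := by
  haveI := Fact.mk h.sing.prime
  obtain ⟨a, -, ha⟩ := se_exists_invol H h hc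
  obtain ⟨-, j, -, hj, ej, -⟩ := se_inv H h hc ha
  obtain ⟨o1, o2, o3⟩ := se_order H h hc hj
  let f : Option S → G ⧸ 𝐍(S) := fun o => o.elim ((1 : G) : G ⧸ 𝐍(S)) fun s => ((s * a : G) : _)
  have hne : ∀ s : S, ((1 : G) : G ⧸ 𝐍(S)) ≠ ((s * a : G) : _) := fun s e =>
    ha (by simpa using mul_mem (inv_mem (le_normalizer s.2)) (QuotientGroup.eq.1 e))
  have hf : Function.Bijective f := by
    refine ⟨?_, fun ω => ?_⟩
    · rintro (_ | s) (_ | s') e
      · rfl
      · exact (hne s' e).elim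
      · exact (hne s e.symm).elim
      · have h1 := S.mul_mem (S.inv_mem s.2) s'.2
        have := (isPElt_of_mem h.syl.isPGroup h1).eq_one_of_isPRegular (se_reg H h hc ha
          (le_normalizer h1) (by simpa [mul_assoc] using QuotientGroup.eq.1 e))
        rw [Subtype.ext (inv_mul_eq_one.1 this)]
    · obtain ⟨b, rfl⟩ := QuotientGroup.mk_surjective ω
      by_cases hb : b ∈ 𝐍(S)
      · exact ⟨none, QuotientGroup.eq.2 (by simpa using hb)⟩
      obtain ⟨-, i, -, hi, ei, -⟩ := se_inv H h hc hb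
      have hP : IsSylowIn r (zpowers j) 𝐍(S) := ⟨zpowers_le.2 hj.norm, hj.pelt.isPGroup_zpowers, by
        have := card_mul_relIndex (zpowers_le.2 hj.norm)
        rw [o3, Nat.card_zpowers, o1, mul_comm] at this
        rw [Nat.eq_of_mul_eq_mul_right hj.prime.pos this]
        exact fun e => hj.prime.one_lt.ne' (Nat.dvd_one.1 ((Nat.dvd_add_right dvd_rfl).1 e))⟩
      obtain ⟨m, hm, em⟩ := hP.exists_conj_mem hi.pelt hi.norm
      have hja : zpowers j ≤ MulAut.conj a • 𝐍(S) := zpowers_le.2 (mem_conj_smul.2 ej)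
      have h1 := se_two H h hc ha (b := m * b) (fun e => hb (by simpa using mul_mem (inv_mem hm) e))
        (zpowers_le.2 hj.norm em) (by simpa using fun e : i = 1 => hi.nc (e ▸ one_mem _))
        (mem_conj_smul.1 (hja em)) (by simpa [mul_assoc] using ei)
      obtain ⟨s, hs, w, hw, e⟩ := (mem_sup_of_le_normalizer_left (zpowers_le.2 hj.norm)).1
        (o2.ge (inv_mem hm))
      refine ⟨some ⟨s, hs⟩, QuotientGroup.eq.2 ?_⟩
      have := mul_mem (mem_conj_smul.1 (hja hw)) h1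
      change (s * a)⁻¹ * b ∈ _
      rw [eq_mul_inv_of_mul_eq e]
      simpa [mul_assoc] using this
  rw [← Nat.card_congr (Equiv.ofBijective f hf), Finite.card_option, hj.card]

theorem se_main : ∃ (F : Type) (_ : Field F) (_ : Fintype F) (q : ℕ), q.Prime ∧
    Fintype.card F = 2 ^ q ∧ Nonempty (G ≃* Matrix.SpecialLinearGroup (Fin 2) F) := by
  have hcard := se_card H h hc
  have hfix : ∀ (g : G) (a b c : G ⧸ 𝐍(S)), a ≠ b → a ≠ c → b ≠ c →
      g • a = a → g • b = b → g • c = c → g = 1 := by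
    intro g a b c ab ac bc ea eb ec
    obtain ⟨a, rfl⟩ := QuotientGroup.mk_surjective a
    obtain ⟨b, rfl⟩ := QuotientGroup.mk_surjective b
    obtain ⟨c, rfl⟩ := QuotientGroup.mk_surjective c
    have key : ∀ a : G, g • (a : G ⧸ 𝐍(S)) = a → a⁻¹ * g * a ∈ 𝐍(S) := fun a e => by
      simpa [mul_assoc] using QuotientGroup.eq.1 (e.symm : (a : G ⧸ 𝐍(S)) = (g * a : G))
    by_contra g1
    refine bc (QuotientGroup.eq.2 ?_)
    simpa [mul_assoc] using se_two H h hc (fun e => ab (QuotientGroup.eq.2 e))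
      (fun e => ac (QuotientGroup.eq.2 e)) (key a ea)
      (fun e => g1 (by simpa using (conj_eq_one_iff (a := a⁻¹)).1 (by simpa using e)))
      (by simpa [mul_assoc] using key b eb) (by simpa [mul_assoc] using key c ec)
  obtain ⟨n, hn⟩ := IsPGroup.iff_card.1 h.sing.pgroup
  obtain ⟨q, -, hq, F, _, _, hF, e⟩ := exists_SL2_of_sharply_three_transitive (G := G)
    (Ω := G ⧸ 𝐍(S)) (pretransitive_of_free (fun g x e => hfix g (x 0) (x 1) (x 2)
      (x.injective.ne (by decide)) (x.injective.ne (by decide)) (x.injective.ne (by decide))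
      (congrArg (fun z : Fin 3 ↪ _ => z 0) e) (congrArg (fun z : Fin 3 ↪ _ => z 1) e)
      (congrArg (fun z : Fin 3 ↪ _ => z 2) e)) (by
        classical
        haveI := Fintype.ofFinite (G ⧸ 𝐍(S))
        rw [card_eq_card_quotient_mul_card_subgroup 𝐍(S), (se_order H h hc h.sing).2.2,
          Nat.card_eq_fintype_card, Fintype.card_embedding_eq, ← Nat.card_eq_fintype_card, hcard]
        simp [Nat.descFactorial]
        ring_nf
        exact le_rfl)) hfix (by have := h.sing.three_le; omega)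
      (by rw [hcard]; exact (h.sing.prime.odd_of_ne_two h.sing.ne_two).add_even even_two)
  refine ⟨F, inferInstance, inferInstance, q, Nat.Prime.of_mersenne ?_, hF, e⟩
  rw [mersenne, show 2 ^ q - 1 = r by omega]
  exact h.sing.prime

end SE

end SAD.L
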