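import Cfsg.Agent.Lib.Char.SadL5

/-!
# Local analysis for S4753, part 6: elementary abelian Sylow `2`-subgroups, the remaining case
-/

set_option autoImplicit false
set_option linter.unusedSectionVars false

namespace SAD.L

open Cfsg GT FT Subgroup
open scoped Pointwise commutatorElement IsMulCommutative

universe u

section
variable {G : Type*} [Group G] [Finite G]

theorem Sing.trans_idx {S B B' : Subgroup G} {y a a' : G} {r : ℕ} (h : Sing S y r)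
    (hB : B ≤ S) (hI : Idx S B a) (ha : a ∈ S) (ha' : a ∉ B)
    (hB' : B' ≤ S) (hI' : Idx S B' a') (hb : a' ∈ S) (hb' : a' ∉ B') :
    ∃ w ∈ zpowers y, MulAut.conj w • B = B' := by
  haveI := h.elem.1
  haveI := Fact.mk h.prime
  have key : ∀ {B : Subgroup G} {a : G}, Idx S B a → a ∈ S → a ∉ B →
      ∃ φ : S →* ℂˣ, φ ≠ 1 ∧ ∀ g : S, φ g = 1 ↔ (g : G) ∈ B := by
    intro B a hI ha ha'
    have := (CommGroup.forall_monoidHom_apply_eq_one_iff ℂ (B.subgroupOf S) ⟨a, ha⟩).not.2 ha'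
    push Not at this
    obtain ⟨φ, h1, h2⟩ := this
    refine ⟨φ, fun e => h2 (by simp [e]), fun g => ⟨fun e => ?_, h1 g⟩⟩
    refine (hI g g.2).resolve_right fun e' => h2 ?_
    have := h1 (g * ⟨a, ha⟩⁻¹) e'
    rwa [map_mul, e, one_mul, map_inv, inv_eq_one] at this
  obtain ⟨φ, φ1, hφ⟩ := key hI ha ha'
  obtain ⟨ψ, ψ1, hψ⟩ := key hI' hb hb'
  let e : MulAut S := S.normalizerMonoidHom ⟨y, h.norm⟩
  let σ : Equiv.Perm (S →* ℂˣ) := (MulEquiv.monoidHomCongrLeft (N := ℂˣ) e).toEquiv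
  have hσ : ∀ (i : ℕ) (φ : S →* ℂˣ) (g : S), (σ ^ i) φ ((e ^ i) g) = φ g := by
    intro i
    induction i with
    | zero => intro φ g; rfl
    | succ i ih =>
      intro φ g
      rw [pow_succ, pow_succ, Equiv.Perm.mul_apply, MulAut.mul_apply, ih]
      simp [σ]
  have he : ∀ (i : ℕ) (g : S), ((e ^ i) g : G) = y ^ i * g * (y ^ i)⁻¹ := fun i g => by
    rw [← map_pow]; rfl
  obtain ⟨k, hk⟩ := h.pelt.exists_pow_eq_one
  obtain ⟨i, hi⟩ := perm_trans (σ := σ) (isPElt_of_pow_eq_one (k := k) (by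
      ext φ g
      have := hσ (r ^ k) φ g
      rw [show (e ^ r ^ k) g = g from Subtype.ext (by rw [he, hk]; simp)] at this
      rw [this]; rfl))
    (by rw [CommGroup.card_monoidHom_of_hasEnoughRootsOfUnity, h.card]) (o := 1) rfl
    (fun e1 => h.nc (mem_cent_iff'.2 fun g hg => by
      have := (CommGroup.forall_apply_eq_apply_iff S (M := ℂ) (g := (e ^ 1) ⟨g, hg⟩)
        (g' := ⟨g, hg⟩)).1 fun φ => by simpa [e1] using hσ 1 φ ⟨g, hg⟩
      simpa using (he 1 ⟨g, hg⟩).symm.trans (congrArg Subtype.val this))) φ1 ψ1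
  refine ⟨y ^ i, pow_mem (mem_zpowers y) i, eq_of_le_of_card_ge (fun g hg => ?_) ?_⟩
  · obtain ⟨b, hb, rfl⟩ := mem_conj_smul'.1 hg
    rw [← he i ⟨b, hB hb⟩, ← hψ, ← hi, hσ, hφ]
    exact hb
  · have h1 := hI.card_eq hB ha ha'
    have h2 := hI'.card_eq hB' hb hb'
    rw [card_conj_smul]; omega

theorem zpowers_cases {a w : G} (ha : a * a = 1) (hw : w ∈ zpowers a) : w = 1 ∨ w = a := by
  by_cases a1 : a = 1
  · exact Or.inl (by simpa [a1] using hw)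
  refine eq_of_mul_self_of_mem_zpowers (mem_zpowers a) hw ha a1 ?_
  obtain ⟨i, rfl⟩ := mem_zpowers_iff.1 hw
  rw [← (Commute.refl a).mul_zpow, ha, one_zpow]

theorem inf_cent_le {O V : Subgroup G} (hc : CoprimeAct V O) {v : G} (hv : v ∈ V)
    (hab : IsMulCommutative V) (h : ⁅O, V⁆ ⊓ 𝐂[v] = ⊥) : O ⊓ 𝐂[v] ≤ 𝐂(V) := by
  intro g hg
  obtain ⟨k, hk, c, hc', rfl⟩ := hc.exists_commutator_mul_centralizer hg.1
  have : k = 1 := mem_bot.1 (h ▸ ⟨hk, by
    simpa using (𝐂[v]).mul_mem hg.2 (inv_mem (cent_le_cent1 hv hc'.2))⟩)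
  rw [this, one_mul]
  exact hc'.2

theorem mem_Op' {X : Subgroup G} (h : HasNormalPComplement 2 X) {d : G} (hd : d ∈ X)
    (hr : IsPRegular 2 d) : d ∈ Op' 2 X := mem_Op'_of_hall (hall_Op'_iff.2 h) hd hr

theorem Op'_sup {X S : Subgroup G} (h : HasNormalPComplement 2 X) (hS : IsSylowIn 2 S X) :
    Op' 2 X ⊔ S = X := (sdp_Op'_of_hall (hall_Op'_iff.2 h) hS).sup

theorem reg_of_Op' {X : Subgroup G} {d : G} (hd : d ∈ Op' 2 X) : IsPRegular 2 d :=
  isPRegular_of_mem (not_dvd_card_Op' 2 X) hd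

theorem elemN_two {v w : G} (hv : v * v = 1) (hw : w * w = 1) (v1 : v ≠ 1) (w1 : w ≠ 1)
    (vw : v ≠ w) (hc : v * w = w * v) : ElemN 2 2 (zpowers v ⊔ zpowers w) ⊤ := by
  have h1 : ElemN 2 1 (zpowers v) ⊤ := ⟨le_top, elem_zpowers (by rwa [pow_two]), by
    rw [Nat.card_zpowers, orderOf_eq_two_of_mul_self hv v1]; rfl⟩
  refine h1.sup_zpowers (mem_top w) (by
    rw [centralizer_zpowers]; exact mem_centralizer_singleton_iff.2 hc.symm) (by rwa [pow_two])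
    fun e => ?_
  rcases zpowers_cases hv e with e | e
  exacts [w1 e, vw e.symm]

end

variable [T : Tools.{u}] {G : Type u} [Group G] [Finite G]

section NSE

variable (H : Hyp G) {S : Subgroup G} {y t : G} {r : ℕ} (h : El S y r) (ht : t ∈ S) (t1 : t ≠ 1)
  (hc : ¬ 𝐂[t] ≤ 𝐂(S))
include H h ht t1 hc

theorem ns_all {v : G} (hv : v ∈ S) (v1 : v ≠ 1) : ¬ 𝐂[v] ≤ 𝐂(S) := by
  obtain ⟨w, hw, rfl⟩ := h.sing.trans hv v1 ht t1
  intro e
  rw [← conj_smul_centralizer_singleton, ← conj_smul_eq_iff_mem_normalizer.2 (h.sing.znorm hw),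
    ← conj_smul_centralizer] at hc
  exact hc (conj_smul_le_conj_smul_iff.2 e)

theorem ns_nilp {v : G} (hv : v ∈ S) (v1 : v ≠ 1) : HasNormalPComplement 2 𝐂[v] :=
  (h.dich (H.cent1 v1) (h.SC.trans (cent_le_cent1 hv))).resolve_left fun e =>
    ns_all H h ht t1 hc hv v1 fun n hn => h.cent_of_fix (e hn) hv v1 hn

theorem ns_not_le {v : G} (hv : v ∈ S) (v1 : v ≠ 1) : ¬ Op' 2 𝐂[v] ≤ 𝐂(S) := fun e =>
  ns_all H h ht t1 hc hv v1 ((Op'_sup (ns_nilp H h ht t1 hc hv v1)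
    (h.syl.of_le (h.SC.trans (cent_le_cent1 hv)) le_top)).ge.trans (sup_le e h.SC))

theorem ns_three : r = 3 := by
  haveI := h.sing.elem.1
  by_contra r3
  have h8 : 8 ≤ Nat.card S := by
    obtain ⟨n, hn⟩ := IsPGroup.iff_card.1 h.sing.pgroup
    have h1 := h.sing.card
    have h2 := h.sing.three_le
    rcases n with _ | _ | _ | n
    · omega
    · omega
    · omega
    · rw [hn]; exact Nat.pow_le_pow_right (n := 2) (i := 3) (by norm_num) (by omega)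
  have hn : S ≤ 𝐍(Op' 2 𝐂[t]) := (h.SC.trans (cent_le_cent1 ht)).trans (le_norm_piCoreOf _ _)
  obtain ⟨B, hB, ⟨a, ha, hBa⟩, hd⟩ : ∃ B, B ≤ S ∧ (∃ a ∈ S, S ≤ B ⊔ zpowers a) ∧
      ¬ Op' 2 𝐂[t] ⊓ 𝐂(B) ≤ 𝐂(S) := by
    by_contra hn'
    push Not at hn'
    exact ns_not_le H h ht t1 hc ht t1 (le_of_forall_centralizer_cocyclic_le hn
      (coprimeAct_of_isPGroup_left hn h.syl.isPGroup (not_dvd_card_Op' 2 _)).cop
      fun B hB ⟨a, ha, e⟩ => hn' B hB ⟨a, ha, e⟩)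
  obtain ⟨d, hd, hdS⟩ := SetLike.not_le_iff_exists.1 hd
  have sq := fun a (ha : a ∈ S) => elem_mul_self h.sing.elem ha
  have nrm : ∀ {A B : Subgroup G}, A ≤ S → B ≤ S → A ≤ 𝐍(B) := fun hA hB =>
    le_normalizer_of_le_centralizer (hA.trans (h.SC.trans (centralizer_anti hB)))
  have hI : Idx S B a := fun g hg => by
    obtain ⟨b, hb, w, hw, rfl⟩ := (mem_sup_of_le_normalizer_left (nrm (zpowers_le.2 ha) hB)).1
      (hBa hg)
    rcases zpowers_cases (sq a ha) hw with rfl | rfl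
    · exact Or.inl (by simpa using hb)
    · exact Or.inr (by simpa using hb)
  have haB : a ∉ B := fun e => hdS (centralizer_anti (hBa.trans (sup_le le_rfl (zpowers_le.2 e)))
    hd.2)
  have beta : ∀ {B' a'}, B' ≤ S → Idx S B' a' → a' ∈ S → a' ∉ B' →
      ∃ d, IsPRegular 2 d ∧ d ∈ 𝐂(B') ∧ d ∉ 𝐂(S) := by
    intro B' a' h1 h2 h3 h4
    obtain ⟨w, hw, rfl⟩ := h.sing.trans_idx hB hI ha haB h1 h2 h3 h4
    refine ⟨_, (reg_of_Op' hd.1).conj w, conj_smul_centralizer w B ▸ conj_mem_conj_smul.2 hd.2,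
      fun e => hdS ?_⟩
    simpa [mul_assoc] using cent_conj_mem (inv_mem (h.sing.znorm hw)) e
  set B2 := MulAut.conj y • B with hB2
  have hy := conj_smul_eq_iff_mem_normalizer.2 h.sing.norm
  have hB2S : B2 ≤ S := hy ▸ conj_smul_le_conj_smul_iff.2 hB
  have hcB := hI.card_eq hB ha haB
  have hc2 : Nat.card B2 = Nat.card B := card_conj_smul _ _
  have hne : ¬ B2 ≤ B := fun e => haB (h.sing.le_of_norm (conj_smul_eq_iff_mem_normalizer.1
    (eq_of_le_of_card_ge e hc2.ge)) (by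
      rw [inf_eq_right.2 hB]; rintro rfl; rw [card_bot] at hcB; omega) ha)
  obtain ⟨w, hw2, hw1⟩ := SetLike.not_le_iff_exists.1 hne
  obtain ⟨v, hv1, hv2⟩ := SetLike.not_le_iff_exists.1
    (fun e : B ≤ B2 => hne (eq_of_le_of_card_ge e hc2.le).ge)
  have hvS := hB hv1
  have hwS := hB2S hw2
  have I1 : Idx S B w := hI.change hwS hw1
  have I2 : Idx S B2 v := by
    obtain ⟨c, -, hc⟩ := exists_idx_of_card_le hB2S (by omega)
    exact hc.change hvS hv2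
  have cases : ∀ g ∈ S, g ∈ B ⊓ B2 ∨ g * v ∈ B ⊓ B2 ∨ g * w ∈ B ⊓ B2 ∨ g * (v * w) ∈ B ⊓ B2 := by
    intro g hg
    by_cases h1 : g ∈ B <;> by_cases h2 : g ∈ B2
    · exact Or.inl ⟨h1, h2⟩
    · exact Or.inr (Or.inl ⟨B.mul_mem h1 hv1, I2.mul_mem hg hvS h2 hv2⟩)
    · exact Or.inr (Or.inr (Or.inl ⟨I1.mul_mem hg hwS h1 hw1, B2.mul_mem h2 hw2⟩))
    · refine Or.inr (Or.inr (Or.inr ⟨I1.mul_mem hg (mul_mem hvS hwS) h1 fun e => hw1 ?_,
        I2.mul_mem hg (mul_mem hvS hwS) h2 fun e => hv2 ?_⟩))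
      · simpa using mul_mem (inv_mem hv1) e
      · simpa using mul_mem e (inv_mem hw2)
  have hT : B ⊓ B2 ≤ S := inf_le_left.trans hB
  have v1 : v ≠ 1 := fun e => hv2 (e ▸ one_mem _)
  have w1 : w ≠ 1 := fun e => hw1 (e ▸ one_mem _)
  have vw : v ≠ w := fun e => hw1 (e ▸ hv1)
  have hV := elemN_two (sq v hvS) (sq w hwS) v1 w1 vw (comm_of h.sing.elem.1 hvS hwS)
  set V := zpowers v ⊔ zpowers w with hVd
  have hvV : v ∈ V := mem_sup_left (mem_zpowers v)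
  have hwV : w ∈ V := mem_sup_right (mem_zpowers w)
  have hVS : V ≤ S := sup_le (zpowers_le.2 hvS) (zpowers_le.2 hwS)
  have hgen : ∀ d ∈ 𝐂(B ⊓ B2), d ∈ 𝐂(V) → d ∈ 𝐂(S) := by
    intro d h1 h2
    refine centralizer_anti (fun g hg => ?_) ((centralizer_sup (B ⊓ B2) V).ge ⟨h1, h2⟩)
    have k : ∀ c ∈ V, g * c ∈ B ⊓ B2 → g ∈ B ⊓ B2 ⊔ V := fun c hc e => by
      simpa using mul_mem (mem_sup_left e : _ ∈ B ⊓ B2 ⊔ V) (mem_sup_right (inv_mem hc))
    rcases cases g hg with e | e | e | e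
    exacts [mem_sup_left e, k _ hvV e, k _ hwV e, k _ (mul_mem hvV hwV) e]
  have hall : ∀ c ∈ V, c ≠ 1 → ∃ d, IsPRegular 2 d ∧ d ∈ 𝐂(B ⊓ B2) ∧ d ∈ 𝐂[c] ∧ d ∉ 𝐂(S) := by
    intro c hc c1
    have fin : ∀ {B' a'}, B' ≤ S → Idx S B' a' → a' ∈ S → a' ∉ B' → B ⊓ B2 ≤ B' → c ∈ B' →
        ∃ d, IsPRegular 2 d ∧ d ∈ 𝐂(B ⊓ B2) ∧ d ∈ 𝐂[c] ∧ d ∉ 𝐂(S) := fun h1 h2 h3 h4 h5 h6 => by
      obtain ⟨d, k1, k2, k3⟩ := beta h1 h2 h3 h4
      exact ⟨d, k1, centralizer_anti h5 k2, cent_le_cent1 h6 k2, k3⟩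
    rcases four_cases hV hvV hwV v1 w1 vw hc with e | e | e | e
    · exact (c1 e).elim
    · exact fin hB I1 hwS hw1 inf_le_left (e ▸ hv1)
    · exact fin hB2S I2 hvS hv2 inf_le_right (e ▸ hw2)
    have hcS := hVS hc
    have k : ∀ g, g * c ∈ B ⊓ B2 → g ∈ B ⊓ B2 ⊔ zpowers c := fun g e => by
      simpa using mul_mem (mem_sup_left e : _ ∈ B ⊓ B2 ⊔ zpowers c)
        (mem_sup_right (inv_mem (mem_zpowers c)))
    refine fin (B' := B ⊓ B2 ⊔ zpowers c) (a' := v) (sup_le hT (zpowers_le.2 hcS)) (fun g hg => ?_)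
      hvS (fun e' => ?_) le_sup_left (mem_sup_right (mem_zpowers c))
    · rw [elem_inv h.sing.elem hvS]
      rcases cases g hg with e' | e' | e' | e'
      · exact Or.inl (mem_sup_left e')
      · exact Or.inr (mem_sup_left e')
      · exact Or.inr (k _ (by rwa [e, mul_assoc, ← mul_assoc v v, sq v hvS, one_mul]))
      · exact Or.inl (k _ (e ▸ e'))
    · obtain ⟨b, hb, z, hz, e2⟩ := (mem_sup_of_le_normalizer_left (nrm (zpowers_le.2 hcS) hT)).1 e'
      rcases zpowers_cases (sq c hcS) hz with rfl | rfl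
      · exact hv2 (by rw [← e2]; simpa using hb.2)
      · rw [e, comm_of h.sing.elem.1 hvS hwS, ← mul_assoc, mul_eq_right] at e2
        exact hw1 (by rw [eq_inv_of_mul_eq_one_right e2]; exact inv_mem hb.1)
  obtain ⟨t', ht', t1'⟩ := exists_ne_one (U := B ⊓ B2) fun e => by
    have := Idx.card_le (D := B) (C := B ⊓ B2) (y := v) fun g hg =>
      (I2 g (hB hg)).imp (fun e => ⟨hg, e⟩) fun e => ⟨B.mul_mem hg (B.inv_mem hv1), e⟩
    rw [e, card_bot] at this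
    omega
  have hX : AllSm 𝐂(B ⊓ B2) := (H.cent1 t1').mono (cent_le_cent1 ht')
  have hnil : HasNormalPComplement 2 𝐂(B ⊓ B2) :=
    hasNormalPComplement_of_le (ns_nilp H h ht t1 hc (hT ht') t1') (cent_le_cent1 ht')
  have hVX : V ≤ 𝐂(B ⊓ B2) := hVS.trans (h.SC.trans (centralizer_anti hT))
  have hVn : V ≤ 𝐍(Op' 2 𝐂(B ⊓ B2)) := hVX.trans (le_norm_piCoreOf _ _)
  obtain ⟨a, ha, b, hb, a1, b1, ab, -, -, c3, -⟩ := Tools.four hX (piCoreOf_le _ _) hVX hV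
    (not_dvd_card_Op' 2 _) hVn (eq_bot_iff.2 fun c hc => by
      by_contra c1
      obtain ⟨c', hc', c1', cc⟩ := exists_ne_ne (U := V) (by rw [hV.card]; norm_num) c
      obtain ⟨d, k1, k2, k3, k4⟩ := hall c' hc' c1'
      refine k4 (hgen d k2 (mem_cent_iff'.2 fun g hg => ?_))
      have e1 := mem_cent1_iff.1 k3
      have e2 : d * c * d⁻¹ = c := by rw [mem_centralizer_iff.1 hc.2 d (mem_Op' hnil k2 k1)]; group
      rcases four_cases hV hc.1 hc' c1 c1' cc.symm hg with rfl | rfl | rfl | rfl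
      · simp
      · exact e2
      · exact e1
      · conv_rhs => rw [← e1, ← e2]
        group)
  obtain ⟨d, k1, k2, k3, k4⟩ := hall _ (mul_mem ha hb) fun e => ab (by
    rw [eq_inv_of_mul_eq_one_left e, elem_inv hV.elem hb])
  exact k4 (hgen d k2 (inf_cent_le (coprimeAct_of_isPGroup_left hVn hV.isPGroup
    (not_dvd_card_Op' 2 _)) (mul_mem ha hb) hV.comm c3 ⟨mem_Op' hnil k2 k1, k3⟩))

theorem ns_B {v : G} (hv : v ∈ S) (v1 : v ≠ 1) (r3 : r = 3) : ⁅Op' 2 𝐂[v], S⁆ ⊓ 𝐂(S) = ⊥ ∧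
    ⁅Op' 2 𝐂[v], S⁆ ≠ ⊥ := by
  subst r3
  have hX : S ≤ 𝐂[v] := h.SC.trans (cent_le_cent1 hv)
  have hn : S ≤ 𝐍(Op' 2 𝐂[v]) := hX.trans (le_norm_piCoreOf _ _)
  have hcop := coprimeAct_of_isPGroup_left hn h.syl.isPGroup (not_dvd_card_Op' 2 _)
  obtain ⟨s, hs, s1, sv⟩ := exists_ne_ne (U := S) (by rw [h.sing.card]; norm_num) v
  have e : ⁅Op' 2 𝐂[v], S⁆ ≤ ⁅Op' 2 𝐂[v], zpowers s⁆ := by
    rw [commutator_comm]
    refine commutator_le.2 fun g hg d hd => ?_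
    have : g ∈ zpowers s ⊔ 𝐂(Op' 2 𝐂[v]) := by
      have h1 : v ∈ zpowers s ⊔ 𝐂(Op' 2 𝐂[v]) := mem_sup_right (mem_centralizer_iff.2 fun a ha =>
        mem_centralizer_singleton_iff.1 (piCoreOf_le _ _ ha))
      have h2 : s ∈ zpowers s ⊔ 𝐂(Op' 2 𝐂[v]) := mem_sup_left (mem_zpowers s)
      rcases four_cases h.sing.four hv hs v1 s1 sv.symm hg with rfl | rfl | rfl | rfl
      exacts [one_mem _, h1, h2, mul_mem h1 h2]
    refine commutator_zpowers_le (hn hs) this ?_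
    rw [commutator_comm]
    exact commutator_mem_commutator (mem_zpowers g) hd
  haveI := Tools.inv (H.cent1 v1) (piCoreOf_le _ _) (hX hs) (elem_mul_self h.sing.elem hs)
    (not_dvd_card_Op' 2 _) (hn hs)
  haveI : IsMulCommutative ↥⁅Op' 2 𝐂[v], S⁆ := isMulCommutative_of_le e
  have := hcop.commutator.disjoint_commutator_centralizer
  rw [hcop.commutator_commutator_eq] at this
  exact ⟨this.eq_bot, fun e => ns_not_le H h ht t1 hc hv v1
    (le_cent_iff_commutator.2 e)⟩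

theorem ns_fix (r3 : r = 3) {E : Subgroup G} (hE : E ≤ 𝐂(S)) (hE2 : ¬ 2 ∣ Nat.card E)
    (E1 : E ≠ ⊥) (hy : y ∈ 𝐍(E)) : ∃ z ∈ E, z ≠ 1 ∧ z ^ 3 = 1 ∧ ∀ v ∈ S, v ≠ 1 →
      ⁅Op' 2 𝐂[v], S⁆ ⊓ 𝐂[z] = ⊥ ∧ Nat.card ↥⁅Op' 2 𝐂[v], S⁆ = 7 := by
  subst r3
  haveI : Fact (Nat.Prime 3) := ⟨by norm_num⟩
  obtain ⟨k, hk⟩ := h.sing.pelt.exists_pow_eq_one
  obtain ⟨z, hz, z1⟩ := exists_ne_one (U := E ⊓ 𝐂[y]) fun e => by
    have h1 := card_conj_modEq (W := E) (r := 3) (by norm_num) hy (k := k) (by simp [hk])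
    rw [e, card_bot] at h1
    have h3 : ¬ 3 ∣ Nat.card E := fun e => by simpa using (h1.dvd_iff dvd_rfl).1 e
    have e1 : ⁅E, zpowers y⁆ = E := by
      have := (coprimeAct_of_isPGroup_left (zpowers_le.2 hy) h.sing.pelt.isPGroup_zpowers
        h3).commutator_sup_inf_centralizer
      rwa [centralizer_zpowers, e, sup_bot_eq] at this
    have hES : E ≤ 𝐍(S) := hE.trans (centralizer_le_normalizer _)
    have k1 : E ≤ ⁅E ⊔ S, zpowers y⁆ := e1.ge.trans (commutator_mono le_sup_left le_rfl)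
    have k2 : S ≤ ⁅E ⊔ S, zpowers y⁆ :=
      h.sing.commutator_eq.ge.trans (commutator_mono le_sup_right le_rfl)
    have k3 : ¬ IsPGroup 2 ↥⁅E ⊔ S, zpowers y⁆ := fun e =>
      E1 (by simpa using disjoint_of_isPGroup_of_not_dvd (e.to_le k1) hE2)
    rcases Tools.odd (H.smN h.syl) (sup_le hES le_normalizer) h.sing.norm (by norm_num) h.sing.pelt
      (fun e => by
        have := e.trans (card_sup_dvd_of_le_normalizer hES)
        rw [h.sing.card] at this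
        omega) (zpowers_le.1 (le_normalizer_sup (zpowers_le.2 hy) (zpowers_le.2 h.sing.norm)))
      (fun e => h.sing.nc (centralizer_anti le_sup_right e)) with h1 | h1 | h1
    · exact k3 (elem_isPGroup h1.1)
    · obtain ⟨z, hz⟩ := exists_q8 h1.2
      exact k3 (IsPGroup.of_card (n := 3) hz.card)
    · have := card_dvd_of_le k2
      rw [h1.2, h.sing.card] at this
      omega
  obtain ⟨p, hp, hpd, w, hw, w1, hwp⟩ := exists_prime_mem z1
  haveI := Fact.mk hp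
  have hw' := zpowers_le.2 hz hw
  have hwS := hE hw'.1
  have hle := le_norm_of_sing (H.cent1 w1) (h.syl.of_le (le_cent1_of_mem hwS) le_top) h.sing
    (mem_cent1_comm hw'.2)
  have key : ∀ v ∈ S, v ≠ 1 → ⁅Op' 2 𝐂[v], S⁆ ⊓ 𝐂[w] = ⊥ ∧ p = 3 ∧
      Nat.card ↥⁅Op' 2 𝐂[v], S⁆ = 7 := by
    intro v hv v1
    obtain ⟨b1, b2⟩ := ns_B H h ht t1 hc hv v1 rfl
    have hX : S ≤ 𝐂[v] := h.SC.trans (cent_le_cent1 hv)
    have hB : ⁅Op' 2 𝐂[v], S⁆ ≤ Op' 2 𝐂[v] :=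
      commutator_le_left_of_norm (hX.trans (le_norm_piCoreOf _ _))
    have hB' := hB.trans (piCoreOf_le _ _)
    have e : ⁅Op' 2 𝐂[v], S⁆ ⊓ 𝐂[w] = ⊥ := eq_bot_iff.2 fun b hb =>
      b1.le ⟨hb.1, h.cent_of_fix (hle hb.2) hv v1 (hB' hb.1)⟩
    have hwn : w ∈ 𝐍(⁅Op' 2 𝐂[v], S⁆) := normalizer_inf_normalizer_le_normalizer_commutator _ _
      ⟨le_norm_piCoreOf _ _ (cent_le_cent1 hv hwS), centralizer_le_normalizer _ hwS⟩
    have h1 := card_conj_modEq hp hwn (k := 1) (by simp [hwp])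
    rw [e, card_bot] at h1
    have h3 : ¬ p ∣ Nat.card ↥⁅Op' 2 𝐂[v], S⁆ := fun e =>
      hp.one_lt.ne' (Nat.dvd_one.1 ((h1.dvd_iff dvd_rfl).1 e))
    have hpw : IsPElt p w := isPElt_of_pow_eq_one (k := 1) (by rwa [pow_one])
    have e1 := (coprimeAct_of_isPGroup_left (zpowers_le.2 hwn) hpw.isPGroup_zpowers
      h3).commutator_sup_inf_centralizer
    rw [centralizer_zpowers, e, sup_bot_eq] at e1
    have := oddO hp (H.cent1 v1) (fun e => not_dvd_card_Op' 2 _ (e.trans (card_dvd_of_le hB))) h3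
      hB' (cent_le_cent1 hv hwS) (fun e => hE2 (e ▸ hpd.trans (orderOf_dvd_natCard _ hz.1))) hpw hwn
      fun e' => b2 (by rw [← e, left_eq_inf]; exact le_cent1_of_mem e')
    rw [e1] at this
    exact ⟨e, this⟩
  exact ⟨w, hw'.1, w1, (key t ht t1).2.1 ▸ hwp, fun v hv v1 => ⟨(key v hv v1).1, (key v hv v1).2.2⟩⟩

theorem ns_cent (r3 : r = 3) : 𝐂(S) ≤ S := by
  haveI : Fact (Nat.Prime 3) := ⟨by norm_num⟩
  haveI : Fact (Nat.Prime 7) := ⟨by norm_num⟩
  have hnil : HasNormalPComplement 2 𝐂(S) :=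
    hasNormalPComplement_of_le (ns_nilp H h ht t1 hc ht t1) (cent_le_cent1 ht)
  by_contra hn
  have hyD : y ∈ 𝐍(Op' 2 𝐂(S)) :=
    norm_le_norm_piCoreOf _ _ (le_normalizer_centralizer le_rfl h.sing.norm)
  obtain ⟨z, hz, z1, z3, h7⟩ := ns_fix H h ht t1 hc r3 (piCoreOf_le _ _) (not_dvd_card_Op' 2 _)
    (fun e => hn ((Op'_sup hnil (h.syl.of_le h.SC le_top)).ge.trans (sup_le (e.le.trans bot_le) le_rfl))) hyD
  set B : G → Subgroup G := fun v => ⁅Op' 2 𝐂[v], S⁆ with hB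
  have hX : ∀ v ∈ S, S ≤ 𝐂[v] := fun v hv => h.SC.trans (cent_le_cent1 hv)
  have hBD : ∀ v ∈ S, B v ≤ Op' 2 𝐂[v] := fun v hv =>
    commutator_le_left_of_norm ((hX v hv).trans (le_norm_piCoreOf _ _))
  have hBn : ∀ v ∈ S, 𝐂(S) ≤ 𝐍(B v) := fun v hv => le_normalizer_commutator
    ((cent_le_cent1 hv).trans (le_norm_piCoreOf _ _)) (centralizer_le_normalizer _)
  have hsup : ∀ v ∈ S, B v ⊔ (Op' 2 𝐂[v] ⊓ 𝐂(S)) = Op' 2 𝐂[v] := fun v hv =>
    (coprimeAct_of_isPGroup_left ((hX v hv).trans (le_norm_piCoreOf _ _)) h.syl.isPGroup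
      (not_dvd_card_Op' 2 _)).commutator_sup_inf_centralizer
  have hB7 : ∀ v ∈ S, v ≠ 1 → IsPGroup 7 (B v) := fun v hv v1 =>
    IsPGroup.of_card (n := 1) (h7 v hv v1).2
  -- no elements of order seven centralize `S`
  have no7 : ∀ d ∈ 𝐂(S), IsPElt 7 d → d = 1 := by
    intro d hd hp
    by_contra d1
    let E : Subgroup G := Op' 2 𝐂(S) ⊓ ⨅ (v ∈ S) (_ : v ≠ 1), 𝐂(B v)
    obtain ⟨w, hw, -, -, hw'⟩ := ns_fix H h ht t1 hc r3 (E := E)
      (inf_le_left.trans (piCoreOf_le _ _))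
      (fun e => not_dvd_card_Op' 2 _ (e.trans (card_dvd_of_le inf_le_left)))
      (ne_bot_of_mem (a := d) (mem_inf.2 ⟨mem_Op' hnil hd (hp.isPRegular_of_ne (by norm_num)), by
        simp only [Subgroup.mem_iInf]
        intro v hv v1
        obtain ⟨b, hb, b1⟩ := exists_ne_one (inf_centralizer_ne_bot_of_isPGroup hp.isPGroup_zpowers
          (hB7 v hv v1) (ns_B H h ht t1 hc hv v1 r3).2 (zpowers_le.2 (hBn v hv hd)))
        have : zpowers b = B v := eq_of_le_of_card_ge (zpowers_le.2 hb.1) (by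
          have h1 := card_dvd_of_le (zpowers_le.2 hb.1)
          rw [(h7 v hv v1).2] at h1 ⊢
          rcases (Nat.dvd_prime (by norm_num)).1 h1 with e | e
          · exact absurd (zpowers_eq_bot.1 (card_eq_one.1 e)) b1
          · exact e.ge)
        rw [← this]
        exact le_centralizer_iff.1 (zpowers_le.2 hb.2) (mem_zpowers _)⟩) d1)
      (mem_normalizer_of_conj_mem fun d hd => mem_inf.2 ⟨conj_mem_of_norm hyD hd.1, by
        have h2 := (mem_inf.1 hd).2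
        simp only [Subgroup.mem_iInf] at h2 ⊢
        intro v hv v1
        have := conj_mem_conj_smul (g := y).2 (h2 _ (conj_mem_of_norm (inv_mem h.sing.norm) hv)
          fun e => v1 (conj_eq_one_iff.1 e))
        rwa [conj_smul_centralizer, hB, conj_smul_commutator, conj_piCoreOf,
          conj_smul_centralizer_singleton, conj_smul_eq_iff_mem_normalizer.2 h.sing.norm,
          show y * (y⁻¹ * v * y⁻¹⁻¹) * y⁻¹ = v by group] at this⟩)
    have h2 := (mem_inf.1 hw).2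
    simp only [Subgroup.mem_iInf] at h2
    exact (ns_B H h ht t1 hc ht t1 r3).2 (by
      rw [← (hw' t ht t1).1, left_eq_inf]; exact le_cent1_of_mem (h2 t ht t1))
  have cj : ∀ v ∈ S, v ≠ 1 → ∀ d ∈ 𝐂[v], IsPRegular 2 d → IsPRegular 7 d →
      ∃ n ∈ 𝐂[v], n⁻¹ * d * n ∈ 𝐂(S) := by
    intro v hv v1 d hd h2 h7'
    obtain ⟨n, hn, e⟩ := exists_le_conj_of_le_sup (inf_le_right.trans (hBn v hv))
      (zpowers_le.2 ((hsup v hv).ge (mem_Op' (ns_nilp H h ht t1 hc hv v1) hd h2))) (by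
        rw [(h7 v hv v1).2, Nat.card_zpowers]
        exact (Nat.Prime.coprime_iff_not_dvd (by norm_num)).2 h7')
      (Or.inr (Group.isSolvable_of_comm fun a b => mul_comm' a b))
    exact ⟨n, piCoreOf_le _ _ (hBD v hv hn), (mem_conj_smul.1 (e (mem_zpowers d))).2⟩
  have cinv : ∀ (g : G) {u f : G}, u * f * u⁻¹ = f⁻¹ →
      g * u * g⁻¹ * (g * f * g⁻¹) * (g * u * g⁻¹)⁻¹ = (g * f * g⁻¹)⁻¹ := fun g u f e => by
    calc _ = g * (u * f * u⁻¹) * g⁻¹ := by group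
      _ = _ := by rw [e]; group
  have nr : ∀ w : G, w * w = 1 → w ≠ 1 → ∀ f ∈ 𝐂[w], IsPElt 3 f → ∀ u : G, u * u = 1 →
      u * f * u⁻¹ = f⁻¹ → f = 1 := by
    intro w ww w1 f hf hp u hu e
    obtain ⟨g, hg⟩ := h.exists_conj ww
    obtain ⟨n, -, hn⟩ := cj _ hg (by simpa using w1) (g * f * g⁻¹) (by
      rw [← conj_smul_centralizer_singleton]; exact conj_mem_conj_smul.2 hf)
      ((hp.conj g).isPRegular_of_ne (by norm_num)) ((hp.conj g).isPRegular_of_ne (by norm_num))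
    have := sq_of_inv h.syl (d := n⁻¹ * g * f * (n⁻¹ * g)⁻¹) (by simpa [mul_assoc] using hn)
      (BT.conj_mul_self_of_sq hu _) (cinv _ e)
    exact conj_eq_one_iff.1 (eq_one_of_odd_of_sq this ((hp.conj _).isPRegular_of_ne (by norm_num)))
  have star : ∀ X, AllSm X → S ≤ X → ∀ f ∈ X, IsPElt 3 f → ∀ v ∈ S, v * f * v⁻¹ = f⁻¹ → f = 1 := by
    intro X hX hSX f hf hp v hv e
    have hr : IsPRegular 2 f := hp.isPRegular_of_ne (by norm_num)
    rcases h.dich hX hSX with h1 | h1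
    · have h3 := mul_mem hv (conj_mem_of_norm (h1 hf) (inv_mem hv))
      rw [← mul_assoc, ← mul_assoc, e, ← mul_inv_rev, inv_mem_iff] at h3
      exact eq_one_of_odd_of_sq ((isPElt_of_mem h.syl.isPGroup h3).eq_one_of_isPRegular
        (by rw [← pow_two]; exact hr.pow 2)) hr
    have hO := mem_Op' h1 hf hr
    have hn : S ≤ 𝐍(Op' 2 X) := hSX.trans (le_norm_piCoreOf _ _)
    by_contra f1
    obtain ⟨a, ha, b, hb, a1, b1, -, c1, -, c3, -⟩ := Tools.four hX (piCoreOf_le _ _) hSX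
      (r3 ▸ h.sing).four (not_dvd_card_Op' 2 _) hn (eq_bot_iff.2 fun c hc' => by
        by_contra c1
        exact f1 (nr c (elem_mul_self h.sing.elem hc'.1) c1 f (le_cent1_of_mem hc'.2 hO) hp v
          (elem_mul_self h.sing.elem hv) e))
    obtain ⟨c, hc', c1'⟩ := exists_ne_one (U := ⁅Op' 2 X, S⁆ ⊓ 𝐂[a]) fun e => by
      rw [e, card_bot] at c1; omega
    have bb := elem_mul_self h.sing.elem hb
    refine c1' (nr a (elem_mul_self h.sing.elem ha) a1 c hc'.2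
      (isPElt_of_mem (IsPGroup.of_card (n := 1) c1) hc') b bb (conj_eq_inv_of_fpf (zpowers_le.1
        (le_normalizer_inf (le_normalizer_commutator (zpowers_le.2 (hn hb))
          (zpowers_le.2 (le_normalizer hb))) (zpowers_le.2 (le_normalizer (cent_le_cent1 ha (h.SC hb))))))
        (fun n hn e => mem_bot.1 (c3 ▸ ⟨hn.1, mem_centralizer_singleton_iff.2 ?_⟩))
        (by rw [pow_two, bb]; exact one_mem _) hc'))
    rw [← mul_assoc, mem_centralizer_singleton_iff.1 hn.2, mul_assoc, e, mul_assoc]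
  have real : ∀ f u : G, f ≠ 1 → IsPElt 3 f → u * u = 1 → u * f * u⁻¹ = f⁻¹ →
      ∀ d ∈ 𝐂[f], u * d * u⁻¹ = d⁻¹ := by
    intro f u f1 hp hu e d hd
    refine conj_eq_inv_of_fpf (norm_zpowers_le f (mem_norm_zpowers_of_inv e)) (fun d hd e' => ?_)
      (by rw [pow_two, hu]; exact one_mem _) hd
    by_contra d1
    obtain ⟨p, hp', -, w, hw, w1, hwp⟩ := exists_prime_mem d1
    haveI := Fact.mk hp'
    have hpw : IsPElt p w := isPElt_of_pow_eq_one (k := 1) (by rwa [pow_one])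
    have hwf := zpowers_le.2 hd hw
    have hwu := zpowers_le.2 (mem_centralizer_singleton_iff.2 e') hw
    have p2 : p ≠ 2 := by
      rintro rfl
      exact f1 (nr w (by rwa [← pow_two]) w1 f (mem_cent1_comm hwf) hp u hu e)
    have u1 : u ≠ 1 := by
      rintro rfl
      exact f1 (eq_one_of_odd_of_sq (eq_inv_iff_mul_eq_one.1 (by simpa using e))
        (hp.isPRegular_of_ne (by norm_num)))
    obtain ⟨g, hg⟩ := h.exists_conj hu
    have g1 : g * u * g⁻¹ ≠ 1 := by simpa using u1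
    have hw2 : g * w * g⁻¹ ∈ 𝐂[g * u * g⁻¹] := by
      rw [← conj_smul_centralizer_singleton]; exact conj_mem_conj_smul.2 hwu
    have hreg : IsPRegular 2 (g * w * g⁻¹) := (hpw.conj g).isPRegular_of_ne p2.symm
    obtain ⟨n, hn, hS⟩ : ∃ n ∈ 𝐂[g * u * g⁻¹], S ≤ 𝐍(zpowers (n * g * w * (n * g)⁻¹)) := by
      by_cases p7 : p = 7
      · subst p7
        refine ⟨1, one_mem _, ?_⟩
        obtain ⟨b, hb, c, hc', e⟩ := (mem_sup_of_le_normalizer_left (inf_le_right.trans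
          (hBn _ hg))).1 ((hsup _ hg).ge (mem_Op' (ns_nilp H h ht t1 hc hg g1) hw2 hreg))
        have h1 : g * w * g⁻¹ ∈ 𝐍(B (g * u * g⁻¹)) :=
          e ▸ mul_mem (le_normalizer hb) (hBn _ hg hc'.2)
        have h2 : c = 1 := no7 c hc'.2 (isPElt_of_mem ((hB7 _ hg g1).to_sup_of_normal_left'
          (hpw.conj g).isPGroup_zpowers (zpowers_le.2 h1)) (by
            rw [eq_inv_mul_of_mul_eq e]
            exact mul_mem (mem_sup_left (inv_mem hb)) (mem_sup_right (mem_zpowers _))))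
        rw [h2, mul_one] at e
        have : zpowers b = B (g * u * g⁻¹) := eq_of_le_of_card_ge (zpowers_le.2 hb) (by
          rw [(h7 _ hg g1).2, Nat.card_zpowers, e, orderOf_conj', orderOf_eq_prime hwp w1])
        rw [one_mul, ← e, this]
        exact h.SC.trans (hBn _ hg)
      · obtain ⟨n, hn, e⟩ := cj _ hg g1 _ hw2 hreg ((hpw.conj g).isPRegular_of_ne (Ne.symm p7))
        exact ⟨n⁻¹, inv_mem hn, (le_cent1_of_mem (by simpa [mul_assoc] using e)).trans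
          (cent1_le_norm _)⟩
    have := star _ (H.normz fun e => w1 (conj_eq_one_iff.1 e)) hS (n * g * f * (n * g)⁻¹) (cent1_le_norm _ (by
      rw [← conj_smul_centralizer_singleton]; exact conj_mem_conj_smul.2 (mem_cent1_comm hwf)))
      (hp.conj _) _ hg (by
        rw [← mem_cent1_iff.1 hn]
        simpa [mul_assoc] using cinv (n * g) e)
    exact f1 (conj_eq_one_iff.1 this)
  obtain ⟨Q, hQ, Q1, q, hq, q3, g, hg, hp, hgc⟩ := H.frob (p := 3)
    (orderOf_eq_prime z3 z1 ▸ orderOf_dvd_natCard z)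
  obtain rfl : q = 2 := by
    by_contra q2
    exact q3 (oddO hq (H.normp Q1 hQ) (not_dvd_of_isPGroup (by norm_num) hQ (by norm_num))
      (not_dvd_of_isPGroup hq hQ q3) le_normalizer hg q2 hp hg hgc).1
  have gg : g * g = 1 := by
    obtain ⟨k, -, e⟩ := h.syl.exists_conj_mem hp (mem_top g)
    have := elem_mul_self h.sing.elem e
    rwa [show k * g * k⁻¹ * (k * g * k⁻¹) = k * (g * g) * k⁻¹ by group, conj_eq_one_iff] at this
  obtain ⟨a, ha, ea⟩ : ∃ a ∈ Q, g * a * g⁻¹ ≠ a := by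
    by_contra hn
    push Not at hn
    exact hgc (mem_cent_iff'.2 hn)
  have hf : a * (g * a * g⁻¹)⁻¹ ∈ Q := mul_mem ha (inv_mem (conj_mem_of_norm hg ha))
  obtain ⟨P, hP, hQP⟩ := exists_isSylowIn_ge hQ le_top
  obtain ⟨c, hc', c1⟩ := exists_ne_one (inf_centralizer_ne_bot_of_isPGroup hP.isPGroup hP.isPGroup
    (fun e => Q1 (eq_bot_iff.2 (e ▸ hQP))) le_normalizer)
  have h1 := real _ g (fun e => ea (mul_inv_eq_one.1 e).symm) (isPElt_of_mem hQ hf) gg (by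
    calc _ = g * a * g⁻¹ * (g * g * a⁻¹ * (g * g)⁻¹) := by group
      _ = _ := by rw [gg]; group) c (cent_le_cent1 (hQP hf) hc'.2)
  have h2 := real c g c1 (isPElt_of_mem hP.isPGroup hc'.1) gg h1
  obtain ⟨k, -, hk⟩ := hP.exists_conj_mem (isPElt_of_pow_eq_one (k := 1) z3) (mem_top z)
  have := sq_of_inv h.syl (piCoreOf_le _ _ hz) (BT.conj_mul_self_of_sq gg k⁻¹)
    (by simpa [mul_assoc] using cinv k⁻¹ (h2 _ (le_cent1_of_mem hc'.2 hk)))
  exact z1 (eq_one_of_odd_of_sq this (reg_of_Op' hz))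

end NSE

end SAD.L
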