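import Cfsg.Agent.Lib.Char.SadDih

/-!
# Local analysis for S4753, part 7: dihedral Sylow `2`-subgroups
-/

set_option autoImplicit false
set_option linter.unusedSectionVars false

namespace SAD.L

open Cfsg GT FT Subgroup
open scoped Pointwise commutatorElement

universe u

variable [T : Tools.{u}] {G : Type u} [Group G] [Finite G]

theorem exists_dih (H : Hyp G) {S U : Subgroup G} {x u : G} (hS : IsSylowIn 2 S ⊤)
    (h : Eu S U U x u) : ∃ σ τ J k, DSyl S σ τ J k ∧ 1 ≤ k ∧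
      ∀ v ∈ S, v ∉ zpowers σ → ∃ x, Sing (zpowers J ⊔ zpowers v) x 3 := by
  have hZ : ∀ c ∈ S, c ∈ 𝐂(S) → c = 1 ∨ c = u := by
    intro c hc hc'
    have h1 : c ∈ U := h.centric ⟨hc, centralizer_anti h.lt.le hc'⟩
    by_contra hn
    push Not at hn
    obtain ⟨s, hs, hsU⟩ := h.exists_out
    exact hsU (h.mem_of_comm h1 hn.1 hn.2 hs (mem_cent1_iff.1 (le_cent1_of_mem hc' hs.1)))
  obtain ⟨v, hv, v1, vu⟩ := h.exists_v
  have hvS := h.lt.le hv
  have hC : 𝐂[v] ⊓ S ≤ U := by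
    obtain ⟨c, ⟨hc, hc0⟩, c1⟩ := exists_ne_one (inf_centralizer_ne_bot_of_isPGroup hS.isPGroup
      hS.isPGroup (H.S_ne hS) le_normalizer)
    have hc' := le_cent1_of_mem hc0
    obtain rfl := (hZ c hc hc0).resolve_left c1
    refine fun g hg => h.centric ⟨hg.2, mem_cent_iff'.2 fun a ha => ?_⟩
    have e1 := mem_cent1_iff.1 hg.1
    have e2 := mem_cent1_iff.1 (hc' hg.2)
    rcases four_cases h.sing.four h.uU hv c1 v1 vu.symm ha with rfl | rfl | rfl | rfl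
    · simp
    · exact e2
    · exact e1
    · conv_rhs => rw [← e1, ← e2]
      group
  obtain ⟨w, hw⟩ := exists_orderOf_of_card_centralizer_le hS.isPGroup (b := ⟨v, hvS⟩) (by
    rw [← sgOf_cent1, card_subgroupOf]
    exact (card_le_of_le hC).trans h.sing.card.le)
  obtain ⟨y, hy, hI⟩ := exists_idx_of_card_le (zpowers_le.2 w.2)
    (by rwa [Nat.card_zpowers, orderOf_coe])
  obtain ⟨n, a, b, c, hM⟩ := (hI.cases hS.isPGroup w.2 hy).resolve_right fun e =>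
    h.sing.nc (e U h.lt.le h.centric x h.sing.reg h.xN)
  have hn : 1 ≤ n := by
    have := card_lt_of_lt h.lt
    rw [h.sing.card, hM.card] at this
    rcases n with _ | n
    · omega
    · omega
  have hodd : ∀ q, q.Prime → q ≠ 2 → ∀ g ∈ 𝐍(S), IsPElt q g → g ∈ 𝐂(S) := by
    intro q hq q2 g hg hp
    haveI := Fact.mk hq
    have hr := hp.isPRegular_of_ne q2.symm
    have hle : ⁅S, zpowers g⁆ ≤ S := commutator_le_left_of_norm (zpowers_le.2 hg)
    by_cases n1 : n = 1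
    · by_contra hc
      rcases H.oddS hS hq q2 hg hp hc with ⟨h1, h2⟩ | ⟨z, hz⟩
      · obtain ⟨d, hd, d1, du⟩ := exists_ne_ne (U := ⁅S, zpowers g⁆)
          (by rw [h1.card]; have := h1.three_le; omega) u
        rcases hZ d (hle hd) (h2 hd) with e | e
        exacts [d1 e, du e]
      · refine hz.not_elem h.sing.elem (by rw [h.sing.card]; norm_num) (h.lt.le.trans ?_)
        exact (eq_of_le_of_card_ge hle (by rw [hz.card, hM.card, n1]; rfl)).ge
    have h1 : g * a * g⁻¹ ∈ zpowers a := by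
      by_contra e
      have h4 : orderOf (g * a * g⁻¹) ∣ 4 := by
        rcases hM.sq_out (conj_mem_of_norm hg hM.xm) e with e | e
        · exact (orderOf_dvd_of_pow_eq_one (by rwa [pow_two])).trans (by norm_num : 2 ∣ 4)
        · exact hM.orderOf_dvd_four e
      rw [orderOf_conj', hM.ord] at h4
      have := (Nat.pow_dvd_pow_iff_le_right (k := n + 1) (l := 2) one_lt_two).1 h4
      omega
    have h2 : g ∈ 𝐂(zpowers a) := centralizer_zpowers a ▸ mem_cent1_iff.2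
      (conj_eq_of_conj_mem_zpowers (isPElt_of_mem hS.isPGroup hM.xm) hr h1)
    refine mem_centralizer_of_index_le_two hS.isPGroup hr hg (C := zpowers a)
      (fun d _ hd => mem_cent_iff'.1 h2 d hd)
      (fun d _ hd => (mem_normalizer_iff.1 (centralizer_le_normalizer _ h2) d).2 hd)
      fun d hd e he h3 h4 => (hM.mul_mem_iff (inv_mem hd) he).2 (by simp [h3, h4])
  have hc2 : c ∈ zpowers (a * a) := by
    obtain ⟨m, rfl⟩ := Nat.exists_eq_add_of_le' hn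
    rw [hM.zeq, pow_succ', pow_mul, pow_two]
    exact pow_mem (mem_zpowers _) _
  have haa := mul_mem (mem_zpowers a) (mem_zpowers a)
  have key : ∀ w ∈ S, w ∉ zpowers a → ∃ s ∈ S, ∃ Q U x u, Eu S Q U x u ∧ s * w * s⁻¹ ∈ U := by
    intro w hw hw'
    by_contra hno
    push Not at hno
    have haw : a * w ∉ zpowers a := fun e => hw' (by simpa using mul_mem (inv_mem (mem_zpowers a)) e)
    have haw' := mul_mem hM.xm hw
    have hle := H.focal hS (M := zpowers (a * a) ⊔ zpowers (a * w))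
      (fun q hq q2 g hg hp hc => (hc (hodd q hq q2 g hg hp)).elim) fun Q U x u h d hd => by
        have hdS := h.lt.le (h.le hd)
        by_cases h1 : d ∈ zpowers a
        · rcases hM.eq_of_mul_self h1 (elem_mul_self h.sing.elem hd) with e | e <;> rw [e]
          exacts [one_mem _, mem_sup_left hc2]
        obtain ⟨i, hi⟩ := mem_zpowers_iff.1 ((hM.mul_mem_iff hdS (inv_mem hw)).2 (by simp [h1, hw']))
        obtain ⟨j, rfl | rfl⟩ := Int.even_or_odd' i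
        · exfalso
          have e : a ^ j * a ^ j * w = d := by rw [← zpow_add, ← two_mul, hi]; group
          have hj := zpow_mem (mem_zpowers a) j
          rcases hM.conj_out_eq hj hw hw' with e' | ⟨-, -, e'⟩
          · exact hno _ (hM.X_le hj) _ _ _ _ h (by rwa [e', e])
          · obtain ⟨s, hs, es⟩ := hM.exists_conj_z_mul hn hdS h1
            refine hno _ (mul_mem (inv_mem hs) (hM.X_le hj)) _ _ _ _ h ?_
            have : s⁻¹ * a ^ j * w * (s⁻¹ * a ^ j)⁻¹ = s⁻¹ * (a ^ j * w * (a ^ j)⁻¹) * s := by group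
            rw [this, e', e, ← es]
            simpa [mul_assoc] using hd
        · have e : (a * a) ^ j * (a * w) = d := by
            rw [← pow_two, ← zpow_natCast, ← zpow_mul, ← mul_assoc, ← zpow_add_one]
            exact eq_mul_inv_iff_mul_eq.1 hi
          exact e ▸ mul_mem (mem_sup_left (zpow_mem (mem_zpowers _) j))
            (mem_sup_right (mem_zpowers _))
    have h1 := (card_le_of_le hle).trans (card_sup_zpowers_le (hM.le_normalizer haa haw') (by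
      rcases hM.sq_out haw' haw with e | e <;> rw [e]
      exacts [one_mem _, hc2]))
    have h2 : orderOf (a * a) ≤ 2 ^ n := orderOf_le_of_pow_eq_one (by positivity) (by
      rw [← pow_two, ← pow_mul, ← pow_succ', ← hM.ord, pow_orderOf_eq_one])
    rw [hM.card, Nat.card_zpowers, pow_succ, pow_succ] at h1
    have : 0 < 2 ^ n := by positivity
    omega
  have sq : ∀ w ∈ S, w ∉ zpowers a → w * w = 1 := fun w hw hw' => by
    obtain ⟨s, -, Q, U, x, u, h, e⟩ := key w hw hw'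
    have := elem_mul_self h.sing.elem e
    rwa [show s * w * s⁻¹ * (s * w * s⁻¹) = s * (w * w) * s⁻¹ by group, conj_eq_one_iff] at this
  have bb := sq b hM.ym hM.yn
  refine ⟨a, b, c, n, ⟨hS, hM.xm, hM.ym, hM.ord, bb, ?_, fun g hg => ?_, hM.yn, hM.zeq⟩, hn,
    fun w hw hw' => ?_⟩
  · rw [inv_eq_of_mul_eq_one_right bb, eq_inv_iff_mul_eq_one]
    have := sq _ hM.xy_mem hM.xy_not_mem
    calc b * a * b * a = a⁻¹ * (a * b * (a * b)) * a := by group
      _ = 1 := by rw [this]; group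
  · by_cases h1 : g ∈ zpowers a
    · exact Or.inl h1
    · exact Or.inr ((hM.mul_mem_iff hg hM.ym).2 (by simp [h1, hM.yn]))
  obtain ⟨s, hs, Q, U, x, u, h, e⟩ := key w hw hw'
  have h1 := h.sing.conj s⁻¹
  have hw1 : w ∈ MulAut.conj s⁻¹ • U := mem_conj_smul.2 (by rwa [inv_inv])
  have hle : MulAut.conj s⁻¹ • U ≤ S :=
    conj_smul_eq_of_mem (inv_mem hs) ▸ conj_smul_le_conj_smul_iff.2 (h.le.trans h.lt.le)
  have hc1 : c ∈ MulAut.conj s⁻¹ • U := by
    obtain ⟨d, hd, d1, dw⟩ := exists_ne_ne (U := MulAut.conj s⁻¹ • U) (by rw [h1.card]; norm_num) w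
    by_cases h2 : d ∈ zpowers a
    · exact ((hM.eq_of_mul_self h2 (elem_mul_self h1.elem hd)).resolve_left d1) ▸ hd
    · have h3 := mul_mem hd hw1
      refine ((hM.eq_of_mul_self ((hM.mul_mem_iff (hle hd) hw).2 (by simp [h2, hw']))
        (elem_mul_self h1.elem h3)).resolve_left fun e => dw ?_) ▸ h3
      rw [eq_inv_of_mul_eq_one_left e, elem_inv h1.elem hw1]
  have := h1.four.eq_of_le (elemN_two hM.zz (sq w hw hw') hM.z_ne (fun e => hw' (e ▸ one_mem _))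
    (fun e => hw' (e ▸ hM.zX)) (hM.commute_z hw).eq) (sup_le (zpowers_le.2 hc1) (zpowers_le.2 hw1))
  exact ⟨_, this ▸ h1⟩

section Dih

variable (H : Hyp G) {S : Subgroup G} {σ τ J : G} {k : ℕ} (D : DSyl S σ τ J k)
include H D

theorem dih_sup : Op' 2 𝐂[J] ⊔ S = 𝐂[J] := Op'_sup D.nilp D.isSylowIn_C

theorem dih_idx : Idx 𝐂[J] (Op' 2 𝐂[J] ⊔ zpowers σ) τ := by
  intro g hg
  obtain ⟨d, hd, s, hs, rfl⟩ := (mem_sup_of_le_normalizer_left
    (D.le_C.trans (le_norm_piCoreOf _ _))).1 ((dih_sup H D).ge hg)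
  refine (D.cases s hs).imp (fun e => mul_mem (mem_sup_left hd) (mem_sup_right e)) fun e => ?_
  rw [D.τ_inv, mul_assoc]
  exact mul_mem (mem_sup_left hd) (mem_sup_right e)

theorem dih_le : Op' 2 𝐂[J] ⊔ zpowers σ ≤ 𝐂[J] := sup_le (piCoreOf_le _ _) (D.le.trans D.le_C)

theorem dih_not_mem {v : G} (hv : v ∈ S) (hv' : v ∉ zpowers σ) : v ∉ Op' 2 𝐂[J] ⊔ zpowers σ := by
  intro e
  obtain ⟨d, hd, s, hs, rfl⟩ := (mem_sup_of_le_normalizer_left
    ((D.le.trans D.le_C).trans (le_norm_piCoreOf _ _))).1 e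
  have : d = 1 := (D.isPElt (by simpa using mul_mem hv (inv_mem (D.le hs)))).eq_one_of_isPRegular
    (reg_of_Op' hd)
  exact hv' (by simpa [this] using hs)

theorem dih_c4 (hk : 1 ≤ k) : ∃ c ∈ zpowers σ, c * c = J := by
  obtain ⟨m, rfl⟩ := Nat.exists_eq_add_of_le' hk
  exact ⟨σ ^ 2 ^ m, pow_mem (mem_zpowers σ) _, by rw [D.J_eq, ← pow_two, ← pow_mul, ← pow_succ]⟩

theorem dih_c4_conj {c v : G} (hc : c ∈ zpowers σ) (e : c * c = J) (hv : v ∈ S)
    (hv' : v ∉ zpowers σ) : c * v * c⁻¹ = J * v := by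
  rw [← e]
  calc c * v * c⁻¹ = c * (v * c⁻¹ * v⁻¹) * v := by group
    _ = _ := by rw [D.conj_of_not_mem hv hv' (inv_mem hc), inv_inv]

theorem dih_cent_norm (hk : 1 ≤ k) {v x : G} (hv : v ∈ S) (hv' : v ∉ zpowers σ)
    (h : Sing (zpowers J ⊔ zpowers v) x 3) :
    𝐍(zpowers J ⊔ zpowers v) ≤ 𝐂(Op' 2 𝐂[J] ⊓ 𝐂[v]) ∧
      ∀ c ∈ zpowers σ, c * c = J → c ∈ 𝐍(zpowers J ⊔ zpowers v) := by
  set V := zpowers J ⊔ zpowers v with hV
  have hJ : J ∈ V := mem_sup_left (mem_zpowers J)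
  have hvV : v ∈ V := mem_sup_right (mem_zpowers v)
  have hCV : 𝐂(V) = 𝐂[J] ⊓ 𝐂[v] := by rw [hV, centralizer_sup, centralizer_zpowers,
    centralizer_zpowers]
  have h4 : ∀ c ∈ zpowers σ, c * c = J → c ∈ 𝐍(V) := fun c hc e =>
    mem_normalizer_of_conj_mem fun a ha => (sup_le (zpowers_le.2 (by
      change c * J * c⁻¹ ∈ V
      rwa [mem_cent1_iff.1 (D.le_C (D.le hc))])) (zpowers_le.2 (by
      change c * v * c⁻¹ ∈ V
      rw [dih_c4_conj H D hc e hv hv']; exact mul_mem hJ hvV)) :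
        V ≤ V.comap (MulAut.conj c).toMonoidHom) ha
  refine ⟨?_, h4⟩
  obtain ⟨c, hc, e⟩ := dih_c4 H D hk
  have key := Tools.sym (H.normp h.ne_bot h.pgroup) (h.four.of_le le_normalizer) le_rfl hJ
    D.J_ne_one h.norm h.pelt h.nc (fun e' => D.J_ne_one (by
      have := mem_cent_iff'.1 (e' ⟨h4 c hc e, D.le_C (D.le hc)⟩) v hvV
      rwa [dih_c4_conj H D hc e hv hv', mul_eq_right] at this))
    fun e' => dih_not_mem H D hv hv' (idx_commutator_le (dih_idx H D) (dih_le H D)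
      (commutator_mono inf_le_right inf_le_right (e' hvV)))
  have h1 : Op' 2 𝐂[J] ⊓ 𝐂[v] ≤ 𝐂(V) := hCV ▸ inf_le_inf_right _ (piCoreOf_le _ _)
  have h2 : 𝐍(V) ≤ 𝐍(Op' 2 𝐂[J] ⊓ 𝐂[v]) := fun n hn => mem_normalizer_of_conj_mem fun d hd => by
    have := hCV.le (cent_conj_mem hn (h1 hd))
    exact ⟨mem_Op' D.nilp this.1 ((reg_of_Op' hd.1).conj n), this.2⟩
  have h3 := commutator_le_right_of_norm h2
  rw [le_cent_iff_commutator, eq_bot_iff]
  refine le_trans (le_inf (h3.trans inf_le_left) (le_trans (le_inf (commutator_mono le_rfl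
    (h1.trans (centralizer_le_normalizer _))) (h3.trans (inf_le_left.trans (piCoreOf_le _ _))))
    key)) (disjoint_Op' h.pgroup).le_bot

theorem dih_fpf (hk : 1 ≤ k)
    (hV : ∀ v ∈ S, v ∉ zpowers σ → ∃ x, Sing (zpowers J ⊔ zpowers v) x 3) {v : G} (hv : v ∈ S)
    (hv' : v ∉ zpowers σ) : Op' 2 𝐂[J] ⊓ 𝐂[v] = ⊥ := by
  refine eq_bot_iff.2 fun d hd => ?_
  by_contra d1
  obtain ⟨c, hc, e⟩ := dih_c4 H D hk
  have hw := mul_mem (D.le hc) hv
  have hw' : c * v ∉ zpowers σ := fun e => hv' (by simpa using mul_mem (inv_mem hc) e)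
  obtain ⟨x, hx⟩ := hV v hv hv'
  obtain ⟨x', hx'⟩ := hV _ hw hw'
  obtain ⟨h1, h2⟩ := dih_cent_norm H D hk hv hv' hx
  have h3 := h1.trans (cent_le_cent1 hd)
  have h4 := (dih_cent_norm H D hk hw hw' hx').1.trans (cent_le_cent1 (t := d) ⟨hd.1,
    mem_cent1_comm (mul_mem (h3 (h2 c hc e)) (mem_cent1_comm hd.2))⟩)
  have hle : ∀ v ∈ S, zpowers J ⊔ zpowers v ≤ S := fun v hv =>
    sup_le (zpowers_le.2 (D.le D.J_mem)) (zpowers_le.2 hv)
  have := core (H.cent1 d1) hx hx' (le_normalizer.trans h3) (le_normalizer.trans h4) (h3 hx.norm)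
    (h4 hx'.norm) (D.syl.isPGroup.to_le ((commutator_mono (hle _ hv) (hle _ hw)).trans
      (commutator_le_left_of_norm le_normalizer)))
  have e1 := mem_cent_iff'.1 (this (mem_sup_right (mem_zpowers v))) _
    (mem_sup_right (mem_zpowers _))
  have e2 := dih_c4_conj H D hc e hv hv'
  refine D.J_ne_one (mul_right_cancel (b := v) ?_)
  rw [← e2, one_mul]
  conv_lhs => rw [← e1]
  group

variable (hV : ∀ v ∈ S, v ∉ zpowers σ → ∃ x, Sing (zpowers J ⊔ zpowers v) x 3)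
  (hD : ∀ v ∈ S, v ∉ zpowers σ → Op' 2 𝐂[J] ⊓ 𝐂[v] = ⊥)
  (h0 : k = 0 → ∀ X, AllSm X → S ≤ X → X ≤ 𝐍(S) ∨ HasNormalPComplement 2 X)

include hV in
theorem dih_conj {v : G} (hv : v ∈ S) (hv' : v ∉ zpowers σ) : ∃ g, g * J * g⁻¹ = v := by
  obtain ⟨x, hx⟩ := hV v hv hv'
  obtain ⟨g, -, e⟩ := hx.trans (mem_sup_left (mem_zpowers J)) D.J_ne_one
    (mem_sup_right (mem_zpowers v)) fun e => hv' (e ▸ one_mem _)
  exact ⟨g, e⟩

include hD in
theorem dih_inv {v d : G} (hv : v ∈ S) (hv' : v ∉ zpowers σ) (hd : d ∈ Op' 2 𝐂[J]) :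
    v * d * v⁻¹ = d⁻¹ :=
  conj_eq_inv_of_fpf (le_norm_piCoreOf _ _ (D.le_C hv))
    (fun n hn e => mem_bot.1 (hD v hv hv' ▸ ⟨hn, mem_centralizer_singleton_iff.2 e⟩))
    (by rw [pow_two, D.sq_of_not_mem hv hv']; exact one_mem _) hd

include hD in
theorem dih_cent : zpowers σ ≤ 𝐂(Op' 2 𝐂[J]) := by
  refine fun s hs => mem_cent_iff'.2 fun d hd => ?_
  have h1 := dih_inv H D hD (mul_mem (D.le hs) D.τ_mem) (D.mul_τ_not_mem hs) (inv_mem hd)
  have h2 := dih_inv H D hD D.τ_mem D.not_mem (inv_mem hd)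
  rw [inv_inv] at h1 h2
  conv_lhs => rw [← h2]
  conv_rhs => rw [← h1]
  group

include hV hD h0 in
theorem dih_a5 {y : G} (hy : y ∈ Op' 2 𝐂[J]) (y1 : y ≠ 1) : 𝐂[y] ≤ 𝐂[J] := by
  haveI : Fact (Nat.Prime 3) := ⟨by norm_num⟩
  have hr := reg_of_Op' hy
  have hinv : ∀ v ∈ S, v ∉ zpowers σ → v ∉ 𝐂[y] := fun v hv hv' e => y1 (eq_one_of_odd_of_sq
    (eq_inv_iff_mul_eq_one.1 ((mem_cent1_iff.1 e).symm.trans (dih_inv H D hD hv hv' hy))) hr)
  have hσ : zpowers σ ≤ 𝐂[y] := (dih_cent H D hD).trans (cent_le_cent1 hy)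
  have hSX : S ≤ 𝐍(zpowers y) := fun s hs => by
    by_cases e : s ∈ zpowers σ
    · exact cent1_le_norm y (hσ e)
    · exact mem_norm_zpowers_of_inv (dih_inv H D hD hs e hy)
  have hP : IsSylowIn 2 (zpowers σ) 𝐂[y] := by
    have := (D.syl.of_le hSX le_top).inf_of_le_normalizer (cent1_le_norm y) (norm_zpowers_le y)
    rwa [show S ⊓ 𝐂[y] = zpowers σ from le_antisymm (fun s hs => by
      by_contra e
      exact hinv s hs.1 e hs.2) (le_inf D.le hσ)] at this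
  have hnil : HasNormalPComplement 2 𝐂[y] := by
    haveI : IsCyclic hP.toSylow := (sgOf_cyclic_iff hP.le).2 inferInstance
    exact hasNormalPComplement_two_of_isCyclic hP.toSylow
  set O := Op' 2 𝐂[y] with hO
  have hSO : S ≤ 𝐍(O) := hSX.trans ((norm_zpowers_le y).trans (norm_le_norm_piCoreOf _ _))
  have hyO : y ∈ O := mem_Op' hnil (mem_centralizer_singleton_iff.2 rfl) hr
  by_contra hn
  have hJ : J ∉ 𝐂(O) := fun e => hn ((Op'_sup hnil hP).ge.trans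
    (sup_le (le_cent1_of_mem e) (D.le.trans D.le_C)))
  have hJτ : J * τ ∉ zpowers σ := D.mul_τ_not_mem D.J_mem
  have hJS := D.le D.J_mem
  have τ1 : τ ≠ 1 := fun e => D.not_mem (e ▸ one_mem _)
  have Jτ : J ≠ τ := fun e => D.not_mem (e ▸ D.J_mem)
  have hV4 := elemN_two D.J_sq D.τ_sq D.J_ne_one τ1 Jτ
    (mem_centralizer_singleton_iff.1 (D.le_C D.τ_mem)).symm
  set V := zpowers J ⊔ zpowers τ with hVd
  have hJV : J ∈ V := mem_sup_left (mem_zpowers J)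
  have hτV : τ ∈ V := mem_sup_right (mem_zpowers τ)
  have hVS : V ≤ S := sup_le (zpowers_le.2 hJS) (zpowers_le.2 D.τ_mem)
  have hrefl : ∀ v ∈ V, v ≠ 1 → v ≠ J → v ∉ zpowers σ := fun v hv v1 vJ => by
    rcases four_cases hV4 hJV hτV D.J_ne_one τ1 Jτ hv with e | e | e | e
    exacts [(v1 e).elim, (vJ e).elim, e ▸ D.not_mem, e ▸ hJτ]
  have four : ∀ {X O' : Subgroup G}, AllSm X → S ≤ X → O' ≤ X → ¬ 2 ∣ Nat.card O' → S ≤ 𝐍(O') →
      O ≤ O' → ∃ a ∈ V, ∃ b ∈ V, a ≠ 1 ∧ b ≠ 1 ∧ a ≠ b ∧ Nat.card ↥(O' ⊓ 𝐂[a]) = 3 ∧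
        Nat.card ↥(O' ⊓ 𝐂[b]) ∈ ({3, 5} : Set ℕ) ∧ O' ⊓ 𝐂[a * b] = ⊥ ∧
        Nat.card O' = 3 * Nat.card ↥(O' ⊓ 𝐂[b]) := by
    intro X O' hX hSX hOX h2 hn hle
    have := Tools.four hX hOX (hVS.trans hSX) hV4 h2 (hVS.trans hn) (eq_bot_iff.2 fun c hc => by
      by_contra c1
      have h1 := centralizer_anti hle hc.2
      by_cases cJ : c = J
      · exact hJ (cJ ▸ h1)
      · exact hinv c (hVS hc.1) (hrefl c hc.1 c1 cJ) (cent_le_cent1 hyO h1))
    have e := (coprimeAct_of_isPGroup_left (hVS.trans hn) hV4.isPGroup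
      h2).commutator_sup_inf_centralizer
    rw [show O' ⊓ 𝐂(V) = ⊥ from eq_bot_iff.2 fun d hd => (hD τ D.τ_mem D.not_mem).le
      ⟨mem_Op' D.nilp (cent_le_cent1 hJV hd.2) (isPRegular_of_mem h2 hd.1),
        cent_le_cent1 hτV hd.2⟩, sup_bot_eq] at e
    rwa [e] at this
  obtain ⟨a, ha, b, hb, a1, b1, ab, c1, c2, c3, c4⟩ := four (H.normz y1) hSX
    ((piCoreOf_le _ _).trans (cent1_le_norm y)) (not_dvd_card_Op' 2 _) hSO le_rfl
  have aa := elem_mul_self hV4.elem ha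
  have bb := elem_mul_self hV4.elem hb
  have hab := comm_of hV4.comm ha hb
  have ab1 : a * b ≠ 1 := fun e => ab (by
    rw [eq_inv_of_mul_eq_one_left e, elem_inv hV4.elem hb])
  have abJ : a * b ≠ J := fun e => y1 (mem_bot.1 (c3 ▸ ⟨hyO, e ▸ piCoreOf_le _ _ hy⟩))
  have hs := hrefl _ (mul_mem ha hb) ab1 abJ
  obtain ⟨s, hsV, s1, sJ, es, c5⟩ : ∃ s ∈ V, s ≠ 1 ∧ s ≠ J ∧ J * (a * b) = s ∧
      ((Nat.card ↥(O ⊓ 𝐂[s]) = 3 ∧ Nat.card ↥(O ⊓ 𝐂[J]) ∈ ({3, 5} : Set ℕ) ∧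
        Nat.card O = 3 * Nat.card ↥(O ⊓ 𝐂[J])) ∨ (Nat.card ↥(O ⊓ 𝐂[J]) = 3 ∧
        Nat.card ↥(O ⊓ 𝐂[s]) ∈ ({3, 5} : Set ℕ) ∧ Nat.card O = 3 * Nat.card ↥(O ⊓ 𝐂[s]))) := by
    rcases four_cases hV4 ha hb a1 b1 ab hJV with e | e | e | e
    · exact (D.J_ne_one e).elim
    · exact ⟨b, hb, b1, e ▸ ab.symm, by rw [e, ← mul_assoc, aa, one_mul], Or.inr (e ▸ ⟨c1, c2, c4⟩)⟩
    · exact ⟨a, ha, a1, e ▸ ab, by rw [e, hab, ← mul_assoc, bb, one_mul], Or.inl (e ▸ ⟨c1, c2, c4⟩)⟩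
    · exact (abJ e.symm).elim
  rcases Nat.eq_zero_or_pos k with hk | hk
  swap
  · obtain ⟨c, hc, e⟩ := dih_c4 H D hk
    have := card_conj_smul c (O ⊓ 𝐂[a * b])
    rw [smul_inf, conj_smul_centralizer_singleton, dih_c4_conj H D hc e (hVS (mul_mem ha hb)) hs,
      es, conj_smul_eq_iff_mem_normalizer.2 (hSO (D.le hc)), c3, card_bot] at this
    rw [this] at c5
    simp at c5
  have hs' := hrefl s hsV s1 sJ
  obtain ⟨g, hg⟩ := dih_conj H D hV (hVS hsV) hs'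
  have hDc := isMulCommutative_of_conj_eq_inv fun d hd => dih_inv H D hD D.τ_mem D.not_mem hd
  have e1 : O ⊓ 𝐂[J] = Op' 2 𝐂[J] := le_antisymm
    (fun d hd => mem_Op' D.nilp hd.2 (reg_of_Op' hd.1)) (le_inf (fun d hd => mem_Op' hnil
      (cent_le_cent1 hy (le_cent_of_comm hDc hd)) (reg_of_Op' hd)) (piCoreOf_le _ _))
  have e2 : O ⊓ 𝐂[s] ≤ MulAut.conj g • Op' 2 𝐂[J] := fun d hd => mem_conj_smul.2 (mem_Op' D.nilp
    (by rw [← mem_conj_smul, conj_smul_centralizer_singleton, hg]; exact hd.2)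
    (by simpa using (reg_of_Op' hd.1).conj g⁻¹))
  have e3 := card_dvd_of_le e2
  rw [card_conj_smul, ← e1] at e3
  obtain ⟨c6, c7, c8⟩ : Nat.card ↥(O ⊓ 𝐂[s]) = 3 ∧ Nat.card ↥(O ⊓ 𝐂[J]) = 3 ∧ Nat.card O = 9 := by
    simp only [Set.mem_insert_iff, Set.mem_singleton_iff] at c5
    clear c1 c2 c4
    generalize Nat.card ↥(O ⊓ 𝐂[s]) = m, Nat.card ↥(O ⊓ 𝐂[J]) = n, Nat.card O = l at c5 e3 ⊢
    rcases c5 with ⟨rfl, rfl | rfl, rfl⟩ | ⟨rfl, rfl | rfl, rfl⟩ <;> simp at e3 ⊢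
  have e4 : O ⊓ 𝐂[s] = MulAut.conj g • Op' 2 𝐂[J] :=
    eq_of_le_of_card_ge e2 (by rw [card_conj_smul, ← e1, c6, c7])
  have hO3 : IsPGroup 3 O := IsPGroup.of_card (n := 2) c8
  have hX := H.normp (ne_bot_of_mem hyO y1) hO3
  have hOc : O ≤ 𝐂(O) := le_cent_of_comm (isMulCommutative_of_conj_eq_inv (x := a * b) fun d hd =>
    conj_eq_inv_of_fpf (hSO (hVS (mul_mem ha hb)))
      (fun n hn e => mem_bot.1 (c3 ▸ ⟨hn, mem_centralizer_singleton_iff.2 e⟩))
      (by rw [hV4.elem.2 _ (mul_mem ha hb)]; exact one_mem _) hd)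
  rcases h0 hk _ hX hSO with h1 | h1
  · exact hJ (commute_of_normal_of_disjoint' (le_normalizer.trans h1) hSO
      (disjoint_Op' D.syl.isPGroup).symm hJS)
  have hle : O ≤ Op' 2 𝐍(O) := le_Op' le_normalizer le_rfl (not_dvd_card_Op' 2 _)
  obtain ⟨-, -, b', -, -, -, -, -, c9, -, c10⟩ := four hX hSO (piCoreOf_le _ _)
    (not_dvd_card_Op' 2 _) (hSO.trans (le_norm_piCoreOf _ _)) hle
  have e5 : O = Op' 2 𝐍(O) := eq_of_le_of_card_ge hle (by
    have := card_dvd_of_le hle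
    simp only [Set.mem_insert_iff, Set.mem_singleton_iff] at c9
    rw [c8, c10] at this
    rw [c8, c10]
    rcases c9 with e | e <;> rw [e] at this ⊢ <;> simp at this ⊢)
  have hsd := sdp_Op'_of_hall (hall_Op'_iff.2 h1) (D.syl.of_le hSO le_top)
  rw [← show O = Op' 2 𝐍(O) from e5] at hsd
  have hsyl : IsSylowIn 3 O ⊤ := IsSylowIn.of_normalizer ⟨le_normalizer, hO3,
    hsd.relIndex_left ▸ not_dvd_of_isPGroup (by norm_num) D.syl.isPGroup (by norm_num)⟩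
  have hn : ∀ {E : Subgroup G}, E ≤ O → O ≤ 𝐍(E) := fun hE =>
    le_normalizer_of_le_centralizer (hOc.trans (centralizer_anti hE))
  have hDO : Op' 2 𝐂[J] ≤ O := e1 ▸ inf_le_left
  obtain ⟨n, hn', e6⟩ := exists_mem_normalizer_conj_eq hsyl.toSylowTop (g := g) (hn hDO)
    (hn (e4 ▸ inf_le_left))
  rw [conj_smul_eq_iff_mem_normalizer.2 (sup_le (hn hDO) (D.le_C.trans (le_norm_piCoreOf _ _))
    (hsd.sup.ge hn')), ← e4] at e6
  exact hinv s (hVS hsV) hs' (mem_cent1_comm (e6.le hy).2)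

include hV hD h0 in
theorem dih_main (h1 : k = 0 → Op' 2 𝐂[J] ≠ ⊥) : Dih (Op' 2 𝐂[J] ⊔ zpowers σ) J τ := by
  have hc := dih_cent H D hD
  have hn := le_normalizer_of_le_centralizer hc
  have hDc := isMulCommutative_of_conj_eq_inv fun d hd => dih_inv H D hD D.τ_mem D.not_mem hd
  have hinv : ∀ a ∈ Op' 2 𝐂[J] ⊔ zpowers σ, τ * a * τ⁻¹ = a⁻¹ := by
    intro a ha
    obtain ⟨d, hd, s, hs, rfl⟩ := (mem_sup_of_le_normalizer_left hn).1 ha
    calc τ * (d * s) * τ⁻¹ = (τ * d * τ⁻¹) * (τ * s * τ⁻¹) := by group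
      _ = _ := by
        rw [dih_inv H D hD D.τ_mem D.not_mem hd, D.τ_conj hs, mem_centralizer_iff.1 (hc hs) d hd,
          mul_inv_rev]
  have hA := isMulCommutative_of_conj_eq_inv hinv
  have huniq : ∀ u ∈ Op' 2 𝐂[J] ⊔ zpowers σ, u * u = 1 → u = 1 ∨ u = J := by
    intro u hu uu
    obtain ⟨d, hd, s, hs, rfl⟩ := (mem_sup_of_le_normalizer_left hn).1 hu
    have e := mem_centralizer_iff.1 (hc hs) d hd
    have h2 : IsPElt 2 d := by
      have := (isPElt_two_of_mul_self uu).mul_of_commute (D.isPElt (D.le (inv_mem hs)))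
        (Commute.inv_right (Commute.mul_left e (Commute.refl s)))
      simpa using this
    rw [h2.eq_one_of_isPRegular (reg_of_Op' hd), one_mul] at uu ⊢
    by_cases s1 : s = 1
    exacts [Or.inl s1, Or.inr (D.eq_J_of_sq hs s1 uu)]
  have hτ := dih_not_mem H D D.τ_mem D.not_mem
  have hcard := (dih_idx H D).card_eq (dih_le H D) (D.le_C D.τ_mem) hτ
  refine ⟨D.J_sq, D.J_ne_one, fun u uu u1 => ?_, hA, mem_sup_right D.J_mem, huniq, dih_le H D, ?_,
    D.le_C D.τ_mem, hτ, D.τ_sq, hinv, fun y hy y1 yJ => ?_, ?_⟩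
  · obtain ⟨g, -, hg⟩ := D.syl.exists_conj_mem (isPElt_two_of_mul_self uu) (mem_top u)
    refine IsConj.trans ?_ (isConj_iff.2 ⟨g, rfl⟩ : IsConj u _).symm
    by_cases e : g * u * g⁻¹ ∈ zpowers σ
    · rw [D.eq_J_of_sq e (by simpa using u1) (BT.conj_mul_self_of_sq uu g)]
    · exact isConj_iff.2 (dih_conj H D hV hg e)
  · have := card_mul_relIndex (dih_le H D)
    rw [hcard, mul_comm] at this
    exact Nat.eq_of_mul_eq_mul_right Nat.card_pos this
  · refine le_antisymm (fun g hg => ?_) ((le_cent_of_comm hA).trans (cent_le_cent1 hy))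
    have hle : 𝐂[y] ≤ 𝐂[J] := by
      by_cases hr : IsPRegular 2 y
      · exact dih_a5 H D hV hD h0 (mem_Op' D.nilp (dih_le H D hy) hr) y1
      · obtain ⟨w, hw, ww, w1⟩ := exists_invol_zpowers hr
        rw [← (huniq w (zpowers_le.2 hy hw) ww).resolve_left w1, ← centralizer_zpowers y]
        exact cent_le_cent1 hw
    refine (dih_idx H D g (hle hg)).resolve_right fun e => ?_
    have h2 := mem_cent_iff'.1 (le_cent_of_comm hA e) _ (inv_mem hy)
    rcases huniq y hy (eq_inv_iff_mul_eq_one.1 (by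
      rw [← h2, ← hinv y hy]
      conv_lhs => rw [← mem_cent1_iff.1 hg]
      group)) with e | e
    exacts [y1 e, yJ e]
  · have h2 := card_dvd_of_le (le_sup_right : zpowers σ ≤ Op' 2 𝐂[J] ⊔ zpowers σ)
    rw [D.card_S] at h2
    rcases Nat.eq_zero_or_pos k with hk | hk
    · have h3 := card_lt_of_lt (lt_of_le_of_ne (le_sup_right : zpowers σ ≤ Op' 2 𝐂[J] ⊔ zpowers σ)
        fun e => h1 hk (by
          simpa using (disjoint_Op' (X := 𝐂[J]) (D.syl.isPGroup.to_le D.le)).eq_bot_of_le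
            (le_sup_left.trans e.ge)))
      rw [D.card_S, hk] at h3
      rw [hk] at h2
      omega
    · exact (Nat.pow_le_pow_right (n := 2) (i := 2) (by norm_num) (by omega)).trans
        (Nat.le_of_dvd Nat.card_pos h2)

end Dih

instance instLocal : Local.{u} where
  main G _ _ _ hs hsm := by
    have H : Hyp G := ⟨inferInstance, hs, hsm⟩
    obtain ⟨S, hS⟩ := exists_isSylowIn 2 (⊤ : Subgroup G)
    by_cases hr : ∃ Q, Rad 2 S Q
    · obtain ⟨Q, hQ⟩ := hr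
      obtain ⟨U, x, u, h⟩ := H.exists_four hS hQ
      obtain ⟨σ, τ, J, k, D, hk, hV⟩ := exists_dih H hS h
      exact Or.inr ⟨_, _, _, dih_main H D hV (fun v hv hv' => dih_fpf H D hk hV hv hv')
        (fun e => by omega) fun e => by omega⟩
    obtain ⟨y, r, h1, h2⟩ := H.no_rad hS (not_exists.1 hr)
    have h : El S y r := ⟨hS, h1, h2⟩
    by_cases hc : ∀ t ∈ S, t ≠ 1 → 𝐂[t] ≤ 𝐂(S)
    · exact Or.inl (se_main H h hc)
    push Not at hc
    obtain ⟨t, ht, t1, hc⟩ := hc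
    obtain rfl := ns_three H h ht t1 hc
    have hC := ns_cent H h ht t1 hc rfl
    have tt := elem_mul_self h1.elem ht
    obtain ⟨τ, D⟩ := exists_dSyl hS h1.card h.not_cyclic ht
      (orderOf_eq_two_of_mul_self tt t1)
    have e : ∀ v ∈ S, v ∉ zpowers t → zpowers t ⊔ zpowers v = S := fun v hv hv' =>
      h1.four.eq_of_le (elemN_two tt (elem_mul_self h1.elem hv) t1 (fun e => hv' (e ▸ one_mem _))
        (fun e => hv' (e ▸ mem_zpowers t)) (comm_of h1.elem.1 ht hv))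
        (sup_le (zpowers_le.2 ht) (zpowers_le.2 hv))
    refine Or.inr ⟨_, _, _, dih_main H D (fun v hv hv' => ⟨y, (e v hv hv').symm ▸ h1⟩)
      (fun v hv hv' => eq_bot_iff.2 fun d hd => ?_) (fun _ X hX hSX => h.dich hX hSX)
      fun _ e => ns_not_le H h ht t1 hc ht t1 (e.le.trans bot_le)⟩
    refine (isPElt_of_mem hS.isPGroup (hC ?_)).eq_one_of_isPRegular (reg_of_Op' hd.1)
    rw [← e v hv hv', centralizer_sup, centralizer_zpowers, centralizer_zpowers]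
    exact ⟨piCoreOf_le _ _ hd.1, hd.2⟩

end SAD.L
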