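import Cfsg.Agent.Lib.Char.SadA
import Cfsg.Agent.Lib.Char.SadSt
import Cfsg.Agent.Lib.Char.FrobSchur
import Cfsg.Agent.Lib.FT.Pf.BG6

/-!
# Groups of average character degree at most two: quotients, solvability, involutions
-/

set_option autoImplicit false
set_option linter.unusedSectionVars false

namespace SAD

open Cfsg CT GT FT MulAction
open Subgroup (zpowers)
open scoped commutatorElement

variable {G : Type*} [Group G] [Finite G] {X : Type*} [Group X] [Finite X]

theorem sm_iff : Sm G ↔ wt G ≤ 0 := by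
  rw [wt_nonpos_iff, Sm, finsum_eq_sum_of_fintype]

theorem AllSm.wt_le {L H : Subgroup X} (h : AllSm L) (hH : H ≤ L) : wt H ≤ 0 := sm_iff.1 (h H hH)

theorem AllSm.map {Y : Type*} [Group Y] [Finite Y] {L : Subgroup X} (h : AllSm L) (f : X →* Y) :
    AllSm (L.map f) := fun H hH => by
  rw [← show (L ⊓ H.comap f).map f = H from le_antisymm
    ((Subgroup.map_mono inf_le_right).trans (Subgroup.map_comap_le f H)) fun y hy => by
      obtain ⟨x, hx, rfl⟩ := hH hy
      exact ⟨x, ⟨hx, hy⟩, rfl⟩]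
  exact sm_iff.2 (wt_nonpos_map _ f (h.wt_le inf_le_left))

theorem AllSm.commutator_ne_top {L H : Subgroup X} (h : AllSm L) (hH : H ≤ L) (h1 : H ≠ ⊥) :
    commutator H ≠ ⊤ :=
  haveI := (Subgroup.nontrivial_iff_ne_bot H).2 h1
  SAD.commutator_ne_top (h.wt_le hH)

theorem AllSm.solv {L : Subgroup X} (h : AllSm L) : Group.IsSolvable L := by
  refine Group.isSolvable_iff_commutator_lt.2 fun H h1 => lt_of_le_of_ne
    (der_le H) fun e => ?_
  have h2 : ⁅H.map L.subtype, H.map L.subtype⁆ = H.map L.subtype := by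
    rw [← Subgroup.map_commutator, e]
  refine h.commutator_ne_top (Subgroup.map_subtype_le H)
    (mt (Subgroup.map_eq_bot_iff_of_injective H L.subtype_injective).1 h1) ?_
  rw [← sgOf_der, h2, Subgroup.subgroupOf_self]

theorem sgOf_zpowers {M : Subgroup X} (x : M) : (zpowers (x : X)).subgroupOf M = zpowers x :=
  sgOf_eq_of_map (MonoidHom.map_zpowers _ x)

theorem sgOf_sup_eq_top (W K : Subgroup X) :
    W.subgroupOf (W ⊔ K) ⊔ K.subgroupOf (W ⊔ K) = ⊤ := by
  rw [← sgOf_sup le_sup_left le_sup_right, Subgroup.subgroupOf_self]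

theorem sgOf_normal_sup {W K : Subgroup X} (hn : K ≤ 𝐍(W)) : (W.subgroupOf (W ⊔ K)).Normal :=
  (sgOf_normal_iff le_sup_left).2 (sup_le Subgroup.le_normalizer hn)

theorem sgOf_comm_eq {W K M : Subgroup X} (hW : W ≤ M) (hK : K ≤ M) (h : ⁅W, K⁆ = W) :
    ⁅W.subgroupOf M, K.subgroupOf M⁆ = W.subgroupOf M := by
  rw [← sgOf_commutator hW hK, h]

variable {N : Subgroup G} [N.Normal]

theorem inv_core (h : wt G ≤ 0) {t : G} (ht : t * t = 1) (hs : N ⊔ zpowers t = ⊤)
    (hN : ⁅N, zpowers t⁆ = N) (ho : ¬ 2 ∣ Nat.card N) : IsMulCommutative N := by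
  have := isCyclic_quotient_of_sup_zpowers_eq_top hs
  have hc := le_commutator_of_eq hN
  refine isMulCommutative_iff_forall_degree_one.2 fun θ => by_contra fun h1 => ?_
  have key : ∀ φ : IrrCharacter N, charDegree φ.1 = charDegree θ.1 →
      φ ≠ irrOne N ∧ 1 ≤ pr G φ / (stabilizer G φ).index := fun φ e => by
    refine ⟨fun e' => h1 (by rw [← e, e', charDegree_irrOne]), ?_⟩
    have h2 : (3 : ℚ) ≤ charDegree θ.1 := by
      have h2 := irr_degree_pos θ
      have h3 : charDegree θ.1 ≠ 2 := fun e => ho (e ▸ irr_degree_dvd_card θ)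
      exact_mod_cast (by omega : 3 ≤ charDegree θ.1)
    have h3 := (index_dvd_of_sup hs (le_inertia φ)).trans (by
      rw [Nat.card_zpowers]; exact orderOf_dvd_of_pow_eq_one (by rw [sq, ht]) : _ ∣ 2)
    rcases (Nat.dvd_prime Nat.prime_two).1 h3 with e' | e' <;> rw [pr, e, e'] <;> push_cast <;>
      linarith
  have h2 : charDegree (irrBar θ).1 = charDegree θ.1 :=
    charDegree_eq_of_apply_one (by rw [irrBar_val, cbar_apply, irr_apply_one, map_natCast])
  have h3 : θ ≠ irrBar θ := fun e => (key θ rfl).1 (irr_eq_irrOne_of_isReal_of_odd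
    (Nat.odd_iff.2 (Nat.two_dvd_ne_zero.1 ho)) θ ((irr_isReal_iff_irrBar θ).2 e.symm))
  classical
  have h4 := sum_pr_le h hc {θ, irrBar θ} (by
    simp only [Finset.mem_insert, Finset.mem_singleton, not_or]
    exact ⟨(key θ rfl).1.symm, (key _ h2).1.symm⟩) fun φ hφ => good_of_isCyclic hc (by
      rcases Finset.mem_insert.1 hφ with rfl | hφ
      exacts [(key _ rfl).1, Finset.mem_singleton.1 hφ ▸ (key _ h2).1])
  rw [Finset.sum_pair h3] at h4
  linarith [(key θ rfl).2, (key _ h2).2]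

theorem AllSm.inv {L U : Subgroup X} {t : X} (h : AllSm L) (hU : U ≤ L) (htL : t ∈ L)
    (ht : t * t = 1) (ho : ¬ 2 ∣ Nat.card U) (hn : t ∈ 𝐍(U)) :
    IsMulCommutative ↥⁅U, zpowers t⁆ := by
  have ha := coprimeAct_zpowers hn (((Nat.Prime.coprime_iff_not_dvd Nat.prime_two).2
    ho).symm.coprime_dvd_right (orderOf_dvd_of_pow_eq_one (by rw [sq, ht])))
  have h1 : t ∈ ⁅U, zpowers t⁆ ⊔ zpowers t := Subgroup.mem_sup_right (Subgroup.mem_zpowers t)
  have := sgOf_normal_sup ha.commutator.norm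
  refine (sgOf_comm_iff le_sup_left).1 (inv_core (h.wt_le (sup_le (ha.commutator_le.trans hU)
    (Subgroup.zpowers_le.2 htL))) (t := ⟨t, h1⟩) (Subtype.ext ht) ?_ ?_ ?_)
  · rw [← sgOf_zpowers, sgOf_sup_eq_top]
  · rw [← sgOf_zpowers]
    exact sgOf_comm_eq le_sup_left le_sup_right ha.commutator_commutator_eq
  · rw [card_subgroupOf_of_le le_sup_left]
    exact fun e => ho (e.trans (Subgroup.card_dvd_of_le ha.commutator_le))

theorem free4_core (h : wt G ≤ 0) {c : G} (h4 : orderOf c = 4) (hs : N ⊔ zpowers c = ⊤)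
    (hN : ⁅N, zpowers (c ^ 2)⁆ = N) [IsMulCommutative N] : Nat.card N ≤ 9 := by
  classical
  have := isCyclic_quotient_of_sup_zpowers_eq_top hs
  have hc := le_commutator_of_eq hN
  have h1 := card_le_of_index h hc (Finset.univ.erase 1) (t := 4) (Finset.notMem_erase _ _)
    (fun f hf => good_of_isCyclic hc (mt linChar_eq_irrOne_iff.1 (Finset.ne_of_mem_erase hf)))
    fun f hf => by
      have h1 := index_dvd_of_sup hs (le_inertia (linChar f))
      rw [Nat.card_zpowers, h4] at h1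
      by_contra h2
      refine Finset.ne_of_mem_erase hf (eq_one_of_le_stab hN (Subgroup.zpowers_le.2 ?_))
      have h3 := Nat.le_of_dvd four_pos h1
      have h5 := index_pos (stabilizer G (linChar f))
      rcases (by omega : (stabilizer G (linChar f)).index = 1 ∨
        (stabilizer G (linChar f)).index = 2 ∨ (stabilizer G (linChar f)).index = 3) with e | e | e
      · rw [Subgroup.index_eq_one.1 e]; trivial
      · exact Subgroup.sq_mem_of_index_two e c
      · rw [e] at h1; norm_num at h1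
  rw [Finset.card_erase_of_mem (Finset.mem_univ _), Finset.card_univ, ← Nat.card_eq_fintype_card,
    card_units_hom, commutator_eq_bot_iff_forall_degree_one.2 irr_degree_eq_one_of_isMulCommutative,
    Subgroup.index_bot] at h1
  have h2 : ((Nat.card N - 1 : ℕ) : ℚ) ≤ (8 : ℕ) := by push_cast at h1 ⊢; linarith
  have := Nat.cast_le.1 h2
  omega

theorem free4 {L B : Subgroup X} {c : X} (h : AllSm L) (hB : B ≤ L) (hc : c ∈ L)
    (h4 : orderOf c = 4) (hn : c ∈ 𝐍(B)) [IsMulCommutative B] (hodd : ¬ 2 ∣ Nat.card B)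
    (hf : ∀ b ∈ B, b * c ^ 2 = c ^ 2 * b → b = 1) : Nat.card B ≤ 9 := by
  have ha := coprimeAct_zpowers (pow_mem hn 2) (((Nat.Prime.coprime_iff_not_dvd Nat.prime_two).2
    hodd).symm.coprime_dvd_right (orderOf_dvd_of_pow_eq_one (by
      rw [← pow_mul, show 2 * 2 = orderOf c from h4.symm, pow_orderOf_eq_one])))
  have h1 : c ∈ B ⊔ zpowers c := Subgroup.mem_sup_right (Subgroup.mem_zpowers c)
  have h2 := ha.commutator_sup_inf_centralizer
  rw [show B ⊓ 𝐂(zpowers (c ^ 2)) = ⊥ from eq_bot_iff.2 fun b hb =>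
    hf b hb.1 (hb.2 _ (Subgroup.mem_zpowers _)).symm, sup_bot_eq] at h2
  have := sgOf_normal_sup (Subgroup.zpowers_le.2 hn)
  have := (sgOf_comm_iff (H := B) (M := B ⊔ zpowers c) le_sup_left).2 ‹_›
  rw [← card_subgroupOf_of_le (le_sup_left : B ≤ B ⊔ zpowers c)]
  refine free4_core (h.wt_le (sup_le hB (Subgroup.zpowers_le.2 hc))) (c := ⟨c, h1⟩)
    (by rw [← h4, ← Subgroup.orderOf_coe]) ?_ ?_
  · rw [← sgOf_zpowers, sgOf_sup_eq_top]
  · rw [← sgOf_zpowers]
    exact sgOf_comm_eq le_sup_left (Subgroup.zpowers_le.2 (pow_mem h1 2)) h2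

end SAD
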