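import Cfsg.Agent.Lib.Char.SadB2
import Cfsg.Agent.Lib.Char.SadE
import Cfsg.Agent.Lib.Char.SadT1
import Cfsg.Agent.Lib.Char.SL2Even

/-!
# Groups all of whose proper subgroups have average character degree at most two
-/

set_option autoImplicit false
set_option linter.unusedSectionVars false

namespace SAD

open Cfsg GT FT Subgroup CT.SL2 LG Matrix
open scoped Pointwise commutatorElement

universe u

section SL2

variable {F : Type*} [Field F] [Fintype F]

theorem card_G2 : Nat.card (G2 F) =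
    (Fintype.card F - 1) * Fintype.card F * (Fintype.card F + 1) := by
  classical
  rw [← (borel F).card_mul_index, index_borel, Nat.card_congr (β := Fˣ × F)
    ⟨fun b => (dHom F b, slm b.1 0 1),
      fun x => ⟨m2 x.1 x.2 0 (x.1⁻¹ : Fˣ) (by simp), mem_borel.2 rfl⟩, fun b => Subtype.ext
        (ext_ent (coe_dHom b) rfl (mem_borel.1 b.2).symm (by
          rw [m2_11, Units.val_inv_eq_inv_val, coe_dHom]
          exact inv_eq_of_mul_eq_one_right (borel_det b))),
      fun x => Prod.ext (Units.ext (coe_dHom _)) rfl⟩,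
    Nat.card_prod, Nat.card_eq_fintype_card, Fintype.card_units, Nat.card_eq_fintype_card]

theorem cent_uu (h2 : (2 : F) = 0) : 𝐂[uu (1 : F)] = (uHom F).range := by
  ext g
  rw [mem_cent1]
  constructor
  · intro h
    have h0 := congrArg (slm · 0 0) h
    have h1 := congrArg (slm · 0 1) h
    have h3 := det_ent g
    simp only [mul_ent, uu_00, uu_01, uu_10, uu_11] at h0 h1
    have h4 : slm g 1 0 = 0 := by linear_combination -h0
    have h5 : slm g 1 1 = slm g 0 0 := by linear_combination -h1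
    have h6 : slm g 0 0 = 1 := by
      rw [h4, h5] at h3
      exact sub_eq_zero.1 (pow_eq_zero_iff two_ne_zero |>.1 (by
        linear_combination h3 + (1 - slm g 0 0) * h2))
    exact ⟨Multiplicative.ofAdd (slm g 0 1), ext_ent h6.symm rfl h4.symm (h5.trans h6).symm⟩
  · rintro ⟨x, rfl⟩
    change uu _ * uu 1 = uu 1 * uu _
    rw [← uu_add, ← uu_add, add_comm]

theorem uHom_injective : Function.Injective (uHom F) := fun x y h =>
  Multiplicative.toAdd.injective (congrArg (slm · 0 1) h)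

end SL2

variable {G : Type u} [Group G] [Finite G]

theorem nice_of_SL2 (h : Hyp G) {F : Type} [Field F] [Fintype F] {q : ℕ} (hq : q.Prime)
    (hF : Fintype.card F = 2 ^ q) (φ : G ≃* G2 F) : ∃ (A : Subgroup G) (t : G), Nice G A t := by
  have h2 := two_eq_zero_of_card hF
  have uu2 : ∀ x : F, uu x * uu x = 1 := fun x => by
    rw [← uu_add, ← two_mul, h2, zero_mul, uu_zero]
  have hC : 𝐂[φ.symm (uu 1)] = (uHom F).range.comap φ.toMonoidHom := by
    ext g
    rw [← cent_uu h2, mem_comap, mem_cent1, mem_cent1, ← φ.apply_eq_iff_eq]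
    simp
  have sq : ∀ a ∈ 𝐂[φ.symm (uu 1)], a * a = 1 := fun a ha => by
    obtain ⟨x, hx⟩ := mem_comap.1 (hC ▸ ha)
    rw [← φ.apply_eq_iff_eq, map_mul, map_one, ← show uu _ = φ a from hx, uu2]
  have hc : Nat.card 𝐂[φ.symm (uu 1)] = 2 ^ q := by
    rw [hC, card_comap_of_surjective φ.surjective, (MonoidHom.ker_eq_bot_iff _).2 φ.injective,
      card_bot, mul_one, ← Nat.card_congr (MonoidHom.ofInjective uHom_injective).toEquiv,
      Nat.card_eq_fintype_card, Fintype.card_multiplicative, hF]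
  refine ⟨_, φ.symm (uu 1), h, ⟨sq _ (mem_cent1.2 rfl), fun e => ?_, fun u hu h1 => ?_,
    mem_cent1.2 rfl, fun g hg h => absurd hg h, fun y hy h => absurd (sq y hy) h⟩,
    IsPGroup.of_card hc, .inl ⟨rfl, sq, ?_, fun h4 => ?_⟩⟩
  · have := congrArg (fun g => slm (φ g) 0 1) e
    simp at this
  · have := φ.symm.toMonoidHom.map_isConj (isConj_uu_one h2 (s := φ u)
      (by rw [← map_mul, hu, map_one]) (by simpa using h1))
    simpa using this
  · exact hc ▸ Nat.pow_le_pow_right two_pos hq.two_le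
  · rw [Nat.card_congr φ.toEquiv, card_G2, hF, ← hc, h4]

instance instTools4 : Tools4.{u} := ⟨fun h1 h2 h3 h4 h5 _ h6 h7 => free4 h1 h2 h3 h4 h5 h6 h7⟩

theorem main [Tools.{u}] [Local.{u}] (hG : ∀ H : Subgroup G, H ≠ ⊤ → Sm H) :
    Group.IsSolvable G ∨ Nonempty (G ≃* ProjectiveSpecialLinearGroup (Fin 2) (ZMod 7)) ∨
      (∃ (F : Type) (_ : Field F) (_ : Fintype F) (q : ℕ), q.Prime ∧ Fintype.card F = 2 ^ q ∧
        Nonempty (G ≃* ProjectiveSpecialLinearGroup (Fin 2) F)) ∨
      Nonempty (G ≃* SpecialLinearGroup (Fin 2) (ZMod 5)) := by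
  refine or_iff_not_imp_left.2 fun hs => ?_
  have sm : ∀ H : Subgroup G, H ≠ ⊤ → AllSm H := fun H hH K hK =>
    hG K fun e => hH (top_le_iff.1 (e ▸ hK))
  haveI : Nontrivial G := not_subsingleton_iff_nontrivial.1 fun _ => hs inferInstance
  obtain ⟨M, hM⟩ := exists_isMaxNormal G
  haveI := hM.normal
  haveI := isMaxNormal_iff_isSimpleGroup.1 hM
  haveI := Tools.solv (sm M hM.ne_top)
  have hs' := QuotientGroup.mk'_surjective M
  have hQ : Hyp (G ⧸ M) := ⟨‹_›, fun _ => hs (Group.isSolvable_of_ker_le_range M.subtype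
    (QuotientGroup.mk' M) (by simp)), fun H hH => by
      rw [← map_comap_eq_self_of_surjective hs' H]
      exact Tools.map (sm _ fun h => hH (comap_injective hs' (h.trans (comap_top _).symm))) _⟩
  have key : ∀ {A t}, Nice (G ⧸ M) A t → Nonempty (G ≃* G ⧸ M) ∨
      Nonempty (G ≃* SpecialLinearGroup (Fin 2) (ZMod 5)) := fun {A t} q =>
    (Nice.ext G _ ⟨q, hs', sm⟩).imp (fun h => ⟨MulEquiv.ofBijective _
      ⟨(MonoidHom.ker_eq_bot_iff _).1 h, hs'⟩⟩) fun ⟨h, z, c⟩ =>
        c.nonempty_mulEquiv_SL2_five h.2.2 (by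
          have := 𝐂[t].card_mul_index
          rw [h.2.1, h.2.2] at this
          rw [show 𝐂[t].index = 15 by omega]
          decide) h.1
  rcases Local.main (G ⧸ M) hQ.ns hQ.sm with ⟨F, _, _, q, hq, hF, ⟨φ⟩⟩ | ⟨A, t, s, d⟩
  · obtain ⟨A, t, g⟩ := nice_of_SL2 hQ hq hF φ
    exact .inr ((key g).imp_left fun ⟨ψ⟩ => ⟨F, _, _, q, hq, hF,
      ⟨ψ.trans (φ.trans (pslEquivOfTwo (two_eq_zero_of_card hF)).symm)⟩⟩)
  · obtain ⟨h4, ⟨φ⟩⟩ := d.psl hQ
    exact (key ⟨hQ, d.gen, IsPGroup.of_card (n := 2) h4, .inr ⟨s, d⟩⟩).imp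
      (fun ⟨ψ⟩ => ⟨ψ.trans φ⟩) .inr

end SAD
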