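import Cfsg.Agent.Lib.Char.SadT1

/-!
# Groups of average character degree at most two: elements of odd prime power order
-/

set_option autoImplicit false
set_option linter.unusedSectionVars false

namespace SAD

open Cfsg CT GT FT MulAction
open Subgroup (zpowers)
open scoped commutatorElement

variable {G : Type*} [Group G] [Finite G] {X : Type*} [Group X] [Finite X]

theorem eq_one_of_pow_add_one {r j q : ℕ} (hr : Odd r) (h1 : 1 < r) (hj : j ≠ 0)
    (h : r ^ j + 1 = 2 ^ q) : j = 1 := by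
  obtain ⟨s, rfl⟩ := hr
  have h2 : (2 * s + 1) ^ 2 ≡ 1 [MOD 4 * (s + 1)] :=
    ((Nat.modEq_iff_dvd' (Nat.one_le_pow _ _ (by omega))).2 ⟨s, by
      rw [Nat.sub_eq_of_eq_add]; ring⟩).symm
  have h3 := Nat.one_lt_pow hj h1
  obtain ⟨i, rfl | rfl⟩ := Nat.even_or_odd' j
  · have h4 := ((h2.pow i).of_dvd (dvd_mul_right 4 _)).add_right 1
    rw [← pow_mul, h, one_pow] at h4
    obtain _ | _ | q := q
    · omega
    · omega
    · have := ((Nat.modEq_zero_iff_dvd.2 (⟨2 ^ q, by ring⟩ : 4 ∣ 2 ^ (q + 1 + 1))).symm.trans h4)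
      norm_num [Nat.ModEq] at this
  · have h4 := ((h2.pow i).mul_right (2 * s + 1)).add_right 1
    rw [← pow_mul, ← pow_succ, h, one_pow, one_mul] at h4
    have h5 : 2 * s + 1 + 1 ∣ 2 ^ q := (Nat.modEq_zero_iff_dvd.1
      ((h4.of_dvd ⟨2, by ring⟩).trans (Nat.modEq_zero_iff_dvd.2 dvd_rfl)))
    obtain ⟨a, ha, h6⟩ := (Nat.dvd_prime_pow Nat.prime_two).1 h5
    rcases ha.lt_or_eq with ha | rfl
    · have h7 : 4 * (s + 1) ∣ 2 ^ q :=
        (show 4 * (s + 1) = 2 ^ (a + 1) by rw [pow_succ, ← h6]; ring) ▸ pow_dvd_pow 2 ha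
      have := Nat.le_of_dvd (by omega) ((Nat.modEq_zero_iff_dvd.1
        (h4.symm.trans (Nat.modEq_zero_iff_dvd.2 h7))))
      omega
    · exact Nat.pow_right_injective h1 (by simp only [pow_one]; omega)

theorem quat_equiv {x y : G} (h8 : Nat.card G = 8) (hx : orderOf x = 4) (hy : y * y = x ^ 2)
    (hc : y * x * y⁻¹ = x⁻¹) (hn : y ∉ zpowers x) : Nonempty (G ≃* QuaternionGroup 2) := by
  let g : ZMod (2 * 2) → G := fun i => x ^ i.val
  have h1 : ∀ i j, g (i + j) = g i * g j := fun i j => by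
    simp only [g]
    rw [ZMod.val_add, ← pow_add, ← pow_mod_orderOf x (i.val + j.val), hx]
  have h0 : g 0 = 1 := pow_zero x
  have h2 : ∀ i j, g (j - i) = (g i)⁻¹ * g j := fun i j => by
    rw [eq_inv_mul_iff_mul_eq, ← h1, add_sub_cancel]
  have h3 : ∀ i, g i * y = y * (g i)⁻¹ := fun i => by
    simp only [g]
    rw [← mul_inv_eq_iff_eq_mul, inv_inv, mul_assoc, ← eq_inv_mul_iff_mul_eq, ← inv_pow, ← hc,
      conj_pow, inv_mul_cancel_right]
  let f : QuaternionGroup 2 →* G := MonoidHom.mk' (fun q => match q with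
    | .a i => g i
    | .xa i => y * g i) (by
      rintro (i | i) (j | j)
      · exact h1 i j
      · show y * g (j - i) = g i * (y * g j)
        rw [h2, ← mul_assoc, ← mul_assoc, h3]
      · show y * g (i + j) = y * g i * g j
        rw [h1, mul_assoc]
      · show g (2 + j - i) = y * g i * (y * g j)
        rw [add_sub_assoc, h1, h2, mul_assoc y, ← mul_assoc (g i), h3, mul_assoc y,
          ← mul_assoc y, hy]
        rfl)
  have hf : Function.Injective f := (injective_iff_map_eq_one f).2 (by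
    rintro (i | i) e
    · have := orderOf_dvd_of_pow_eq_one (show x ^ i.val = 1 from e)
      rw [hx] at this
      rw [(ZMod.val_eq_zero i).1 (Nat.eq_zero_of_dvd_of_lt this i.val_lt)]
      rfl
    · exact (hn ((eq_inv_of_mul_eq_one_left e) ▸ inv_mem (pow_mem (Subgroup.mem_zpowers x) _))).elim)
  exact ⟨(MulEquiv.ofBijective f ((Nat.bijective_iff_injective_and_card f).2 ⟨hf, by
    rw [h8, Nat.card_eq_fintype_card, QuaternionGroup.card]⟩)).symm⟩

theorem eq_top_of_lt_of_lt {A B C : Subgroup G} (h4 : A.index = 4) (h1 : A < B) (h2 : B < C) :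
    C = ⊤ := by
  have h3 := Subgroup.relIndex_mul_index h1.le
  have h5 := Subgroup.relIndex_mul_index h2.le
  have h6 := mt Subgroup.relIndex_eq_one.1 h1.not_ge
  have h7 := mt Subgroup.relIndex_eq_one.1 h2.not_ge
  have h8 := index_pos C
  have h9 : A.relIndex B ≠ 0 := Subgroup.index_ne_zero_of_finite
  have h10 : B.relIndex C ≠ 0 := Subgroup.index_ne_zero_of_finite
  rw [← h5, h4] at h3
  have h11 : 2 * (2 * C.index) ≤ 4 :=
    h3 ▸ Nat.mul_le_mul (by omega) (Nat.mul_le_mul_right _ (by omega))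
  exact Subgroup.index_eq_one.1 (by omega)

theorem mem_zpowers_invol {c g : G} (hc : c * c = 1) (h : g ∈ zpowers c) : g = 1 ∨ g = c := by
  obtain ⟨n, rfl⟩ := h
  have h2 : c ^ (2 : ℤ) = 1 := by rw [zpow_two, hc]
  obtain ⟨k, rfl | rfl⟩ := Int.even_or_odd' n <;> simp [zpow_add, zpow_mul, h2]

/-- recognition of `Q₈` -/
theorem quat_of_aut (hZ : commutator G ≤ Subgroup.center G) (h4 : (commutator G).index = 4)
    (hna : ¬ IsMulCommutative G) (α : MulAut G)
    (hα : ∀ f : G →* ℂˣ, (∀ w, f (α w) = f w) → f = 1) : Nonempty (G ≃* QuaternionGroup 2) := by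
  have hC : ∀ g : G, commutator G ≤ 𝐂[g] := fun g => hZ.trans (Subgroup.center_le_centralizer _)
  have hT : ∀ g : G, 𝐂[g] = ⊤ → g ∈ Subgroup.center G := fun g e =>
    Subgroup.mem_center_iff.2 fun w => Subgroup.mem_centralizer_singleton_iff.1 (e.ge trivial)
  have hs : ∀ g : G, g ∈ 𝐂[g] := fun g => Subgroup.mem_centralizer_singleton_iff.2 rfl
  obtain ⟨a, b, hab⟩ : ∃ a b : G, a * b ≠ b * a := by
    by_contra hn
    push Not at hn
    exact hna ⟨⟨hn⟩⟩
  have ha : a ∉ Subgroup.center G := fun e => hab (Subgroup.mem_center_iff.1 e b).symm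
  have hZ' : Subgroup.center G ≤ commutator G := by
    by_contra h1
    exact ha (hT a (eq_top_of_lt_of_lt h4 (lt_of_le_not_ge hZ h1) (lt_of_le_not_ge
      (Subgroup.center_le_centralizer _) fun e => ha (e (hs a)))))
  have hlt : ∀ g ∉ Subgroup.center G, commutator G < 𝐂[g] := fun g hg =>
    lt_of_le_not_ge (hC g) fun e => hg (hZ (e (hs g)))
  have hsq : ∀ g : G, g * g ∈ commutator G := fun g => by
    by_cases hg : g ∈ Subgroup.center G
    · exact mul_mem (hZ' hg) (hZ' hg)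
    have h1 := Subgroup.relIndex_mul_index (hC g)
    have h2 := mt Subgroup.relIndex_eq_one.1 (hlt g hg).not_ge
    have h3 := mt Subgroup.index_eq_one.1 (mt (hT g) hg)
    rw [h4] at h1
    have h5 : (commutator G).relIndex 𝐂[g] = 2 := by
      have := Nat.le_of_dvd four_pos (Dvd.intro _ h1)
      interval_cases (commutator G).relIndex 𝐂[g] <;> omega
    exact Subgroup.mul_self_mem_of_index_two h5 ⟨g, hs g⟩
  have hcm : ⁅a, b⁆ ∈ commutator G := Subgroup.commutator_mem_commutator trivial trivial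
  have hc1 : ⁅a, b⁆ ≠ 1 := mt commutatorElement_eq_one_iff_mul_comm.1 hab
  have hcc : ⁅a, b⁆ * ⁅a, b⁆ = 1 := by
    have h1 := Subgroup.mem_center_iff.1 (hZ hcm) a
    have h2 := Subgroup.mem_center_iff.1 (hZ (hsq a)) b
    calc ⁅a, b⁆ * ⁅a, b⁆ = ⁅a, b⁆ * a * b * a⁻¹ * b⁻¹ := by rw [commutatorElement_def]; group
      _ = a * a * b * (a * a)⁻¹ * b⁻¹ := by rw [← h1, commutatorElement_def]; group
      _ = 1 := by rw [← h2]; group
  set c := ⁅a, b⁆ with hc
  have hD : commutator G ≤ zpowers c := by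
    have : (zpowers c).Normal := ⟨fun n hn g => by
      rwa [Subgroup.mem_center_iff.1 (Subgroup.zpowers_le.2 (hZ hcm) hn) g, mul_inv_cancel_right]⟩
    let π := QuotientGroup.mk' (zpowers c)
    have h1 : ∀ u v : G, u * v ≠ v * u → π u * π v = π v * π u →
        u ∈ (Subgroup.center _).comap π := fun u v h1 h2 => by
      have h3 := eq_top_of_lt_of_lt h4 (hlt u fun e => h1 (Subgroup.mem_center_iff.1 e v).symm)
        (C := 𝐂[π u].comap π) (lt_of_le_not_ge (fun w hw => by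
          rw [Subgroup.mem_comap, Subgroup.mem_centralizer_singleton_iff, ← map_mul, ← map_mul,
            Subgroup.mem_centralizer_singleton_iff.1 hw]) fun e => h1 (Subgroup.mem_centralizer_singleton_iff.1 (e (x := v)
          (Subgroup.mem_centralizer_singleton_iff.2 h2.symm))).symm)
      refine Subgroup.mem_center_iff.2 fun w => ?_
      obtain ⟨w, rfl⟩ := QuotientGroup.mk'_surjective _ w
      exact Subgroup.mem_centralizer_singleton_iff.1 (h3.ge (Subgroup.mem_top w))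
    have h2 : π a * π b = π b * π a := commutatorElement_eq_one_iff_mul_comm.1 (by
      rw [← map_commutatorElement]
      exact (QuotientGroup.eq_one_iff _).2 (Subgroup.mem_zpowers c))
    have h3 : commutator G ≤ (Subgroup.center _).comap π := fun z hz =>
      Subgroup.mem_center_iff.2 fun w => by
        obtain ⟨w, rfl⟩ := QuotientGroup.mk'_surjective _ w
        rw [← map_mul, ← map_mul, Subgroup.mem_center_iff.1 (hZ hz) w]
    have h5 := eq_top_of_lt_of_lt h4 (B := (Subgroup.center _).comap π ⊓ 𝐂[a])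
      (lt_of_le_not_ge (le_inf h3 (hC a)) fun e => ha (hZ (e ⟨h1 a b hab h2, hs a⟩)))
      (lt_of_le_not_ge inf_le_left fun e => hab (Subgroup.mem_centralizer_singleton_iff.1
        (e (h1 b a hab.symm h2.symm)).2).symm)
    refine Subgroup.commutator_le.2 fun u _ v _ => (QuotientGroup.eq_one_iff _).1 ?_
    exact (map_commutatorElement π u v).trans (commutatorElement_eq_one_iff_mul_comm.2
      (Subgroup.mem_center_iff.1 (h5.ge (Subgroup.mem_top v)) _))
  have hm : ∀ z ∈ commutator G, z = 1 ∨ z = c := fun z hz => mem_zpowers_invol hcc (hD hz)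
  have h8 : Nat.card G = 8 := by
    rw [← (commutator G).card_mul_index, h4, le_antisymm hD (Subgroup.zpowers_le.2 hcm),
      Nat.card_zpowers, orderOf_eq_prime (p := 2) (by rw [sq, hcc]) hc1]
  obtain ⟨x, hx⟩ : ∃ x : G, x * x = c := by
    rcases hm _ (hsq a) with h1 | h1
    · rcases hm _ (hsq b) with h2 | h2
      · exact ⟨a * b, by rw [hc, commutatorElement_def, inv_eq_of_mul_eq_one_right h1,
          inv_eq_of_mul_eq_one_right h2, mul_assoc (a * b)]⟩
      · exact ⟨b, h2⟩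
    · exact ⟨a, h1⟩
  have hx4 : orderOf x = 4 := orderOf_eq_prime_pow (p := 2) (n := 1) (by rwa [pow_one, sq, hx])
    (by rw [show 2 ^ (1 + 1) = 2 * 2 from rfl, pow_mul, sq, sq, hx, hcc])
  have hxZ : x ∉ commutator G := fun e => (hm x e).elim (fun e => hc1 (by rw [← hx, e, one_mul]))
    fun e => hc1 (by rw [← hx, e, hcc])
  have hP : (zpowers x).index = 2 := by
    have := (zpowers x).card_mul_index
    rw [Nat.card_zpowers, hx4, h8] at this
    omega
  have hy : α x ∉ zpowers x := fun e => by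
    have := Subgroup.normal_of_index_eq_two hP
    have : IsCyclic (G ⧸ zpowers x) := isCyclic_of_prime_card (p := 2) hP
    obtain ⟨f, hf⟩ := exists_units_hom_ker_eq (zpowers x)
    have h1 : (zpowers x).map α.toMonoidHom = zpowers x := Subgroup.eq_of_le_of_card_ge
      (by rw [MonoidHom.map_zpowers]; exact Subgroup.zpowers_le.2 e)
      (Subgroup.card_map_of_injective α.injective).ge
    rw [hα f fun w => by
      rw [← mul_inv_eq_one, ← map_inv, ← map_mul, ← MonoidHom.mem_ker, hf,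
        Subgroup.mul_mem_iff_of_index_two hP, inv_mem_iff, ← h1]
      exact (Subgroup.mem_map_iff_mem α.injective).trans (by rw [h1]), MonoidHom.ker_one] at hf
    rw [← hf, Subgroup.index_top] at hP
    omega
  refine quat_equiv h8 hx4 ?_ ?_ hy
  · rw [← map_mul, sq, hx]
    exact (hm _ (by
      rw [hc, map_commutatorElement]
      exact Subgroup.commutator_mem_commutator trivial trivial)).resolve_left
      (mt (map_eq_one_iff α α.injective).1 hc1)
  · rcases hm ⁅α x, x⁆ (Subgroup.commutator_mem_commutator trivial trivial) with e | e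
    · exact (hxZ (hZ' (hT x (eq_top_of_lt_of_lt h4 (B := zpowers x) (lt_of_le_not_ge
        (hD.trans (Subgroup.zpowers_le.2 (hx ▸ mul_mem (Subgroup.mem_zpowers x)
          (Subgroup.mem_zpowers x)))) fun e => hxZ (e (Subgroup.mem_zpowers x)))
        (lt_of_le_not_ge (Subgroup.zpowers_le.2 (hs x)) fun e' => hy (e'
          (Subgroup.mem_centralizer_singleton_iff.2
            (commutatorElement_eq_one_iff_mul_comm.1 e)))))))).elim
    · rw [commutatorElement_def, mul_inv_eq_iff_eq_mul] at e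
      rw [e, ← mul_eq_one_iff_eq_inv, mul_assoc, hx, hcc]

variable {N : Subgroup G} [N.Normal]

theorem conjLin_eq_one_iff {g : G} {f : N →* ℂˣ} : conjLin g f = 1 ↔ f = 1 :=
  ⟨fun e => by rw [← conjLin_one f, ← inv_mul_cancel g, ← conjLin_conjLin, e]; rfl,
    fun e => by rw [e]; rfl⟩

theorem conjLin_pow (g : G) (f : N →* ℂˣ) (n : ℕ) : conjLin g (f ^ n) = conjLin g f ^ n := rfl

theorem index_ne_one {K : Subgroup G} (hN : ⁅N, K⁆ = N) {f : N →* ℂˣ} (hf : f ≠ 1) :
    (stabilizer G (linChar f)).index ≠ 1 := fun e =>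
  hf (eq_one_of_le_stab hN (Subgroup.index_eq_one.1 e ▸ le_top))

theorem pr_linChar (f : N →* ℂˣ) :
    pr G (linChar f) = 1 - 2 / (stabilizer G (linChar f)).index := by
  rw [pr, charDegree_linChar, Nat.cast_one]

theorem third_le_pr {f : N →* ℂˣ} (h : 3 ≤ (stabilizer G (linChar f)).index) :
    1 / 3 ≤ pr G (linChar f) := by
  have : (2 : ℚ) / (stabilizer G (linChar f)).index ≤ 2 / 3 :=
    div_le_div_of_nonneg_left zero_le_two three_pos (by exact_mod_cast h)
  rw [pr_linChar]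
  linarith

theorem mul_le_of_pr {a b : ℕ} (ha : 0 < a) (hb : 0 < b) (h : (1 : ℚ) - 2 / a + (1 - 2 / b) ≤ 1) :
    a * b ≤ 2 * a + 2 * b := by
  have h1 : (0 : ℚ) < a := Nat.cast_pos.2 ha
  have h2 : (0 : ℚ) < b := Nat.cast_pos.2 hb
  have h3 : (1 : ℚ) ≤ (2 * a + 2 * b) / (a * b) := by
    rw [show (2 * a + 2 * b) / (a * b) = (2 : ℚ) / a + 2 / b by field_simp; ring]
    linarith
  rw [one_le_div (mul_pos h1 h2)] at h3
  exact_mod_cast h3

theorem exists_lin_ne_one {H : Type*} [Group H] [Finite H] (h : commutator H ≠ ⊤) :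
    ∃ f : H →* ℂˣ, f ≠ 1 := by
  obtain ⟨g, hg⟩ : ∃ g, g ∉ commutator H := not_forall.1 (mt (Subgroup.eq_top_iff' _).2 h)
  obtain ⟨f, -, hf⟩ := exists_units_hom_apply_ne_one le_rfl hg
  exact ⟨f, fun e => hf (by rw [e]; rfl)⟩

variable {x : G} {r : ℕ} [hp : Fact r.Prime]

theorem exists_index_eq_pow (hx : IsPElt r x) (hs : N ⊔ zpowers x = ⊤) (θ : IrrCharacter N) :
    ∃ j, (stabilizer G θ).index = r ^ j := by
  obtain ⟨k, hk⟩ := hx
  have := index_dvd_of_sup hs (le_inertia θ)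
  rw [Nat.card_zpowers, hk] at this
  exact ((Nat.dvd_prime_pow hp.out).1 this).imp fun _ h => h.2

theorem le_index_of_ne (hx : IsPElt r x) (hs : N ⊔ zpowers x = ⊤) {θ : IrrCharacter N}
    (h : (stabilizer G θ).index ≠ 1) : r ≤ (stabilizer G θ).index := by
  obtain ⟨j, hj⟩ := exists_index_eq_pow hx hs θ
  rw [hj] at h ⊢
  exact Nat.le_self_pow (fun e => h (by rw [e, pow_zero])) r

theorem odd_lin (h : wt G ≤ 0) (hr : r ≠ 2) (hx : IsPElt r x) (hs : N ⊔ zpowers x = ⊤)
    (hN : ⁅N, zpowers x⁆ = N) (hne : commutator N ≠ ⊤) :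
    (Nat.card (N →* ℂˣ) = r + 1 ∧ ∀ f : N →* ℂˣ, f ^ 2 = 1) ∨
      (r = 3 ∧ Nat.card (N →* ℂˣ) = 7) := by
  classical
  have := isCyclic_quotient_of_sup_zpowers_eq_top hs
  have hc := le_commutator_of_eq hN
  have h3 : 3 ≤ r := by have := hp.out.two_le; omega
  have hg : ∀ f : N →* ℂˣ, f ≠ 1 → Good G (linChar f) := fun f hf =>
    good_of_isCyclic hc (mt linChar_eq_irrOne_iff.1 hf)
  have hcard : (Finset.univ.erase (1 : N →* ℂˣ)).card + 1 = Nat.card (N →* ℂˣ) := by
    rw [Finset.card_erase_add_one (Finset.mem_univ _), Finset.card_univ, Nat.card_eq_fintype_card]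
  by_cases hA : ∃ f₀ : N →* ℂˣ, f₀ ≠ 1 ∧ ∀ f : N →* ℂˣ, f ≠ 1 → linChar f ∈ orbit G (linChar f₀)
  · obtain ⟨f₀, h0, hA⟩ := hA
    replace hA : ∀ f : N →* ℂˣ, f ≠ 1 → ∃ g : G, conjLin g f₀ = f := fun f hf =>
      (hA f hf).imp fun g hg => linChar_injective hg
    obtain ⟨j, hj⟩ := exists_index_eq_pow hx hs (linChar f₀)
    have h1 : (Finset.univ.erase (1 : N →* ℂˣ)).map ⟨_, linChar_injective⟩ =
        conjOrbit G (linChar f₀) := by
      ext φ
      simp only [Finset.mem_map, Finset.mem_erase, Finset.mem_univ, and_true, mem_conjOrbit,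
        Function.Embedding.coeFn_mk]
      exact ⟨fun ⟨f, hf, e⟩ => (hA f hf).imp fun g hg => by rw [← e, ← hg]; rfl,
        fun ⟨g, e⟩ => ⟨conjLin g f₀, mt conjLin_eq_one_iff.1 h0, e⟩⟩
    rw [← Finset.card_map ⟨_, linChar_injective⟩, h1, card_conjOrbit, hj] at hcard
    have ho := hp.out.odd_of_ne_two hr
    obtain ⟨f₁, h2⟩ := exists_prime_orderOf_dvd_card' (G := N →* ℂˣ) 2
      (hcard ▸ (ho.pow.add_one).two_dvd)
    obtain ⟨g, rfl⟩ := hA f₁ (fun e => by simp [e] at h2)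
    have h4 : f₀ ^ 2 = 1 := (conjLin_eq_one_iff (g := g)).1 (h2 ▸ pow_orderOf_eq_one (conjLin g f₀))
    have h5 : ∀ f : N →* ℂˣ, f ^ 2 = 1 := fun f => by
      by_cases e : f = 1
      · subst e
        exact one_pow (M := N →* ℂˣ) 2
      obtain ⟨g, rfl⟩ := hA f e
      rw [← conjLin_pow, h4]; rfl
    obtain ⟨q, hq⟩ := (IsPGroup.iff_card (p := 2) (G := N →* ℂˣ)).1 fun f => ⟨1, h5 f⟩
    refine .inl ⟨?_, h5⟩
    rw [← hcard, eq_one_of_pow_add_one ho hp.out.one_lt (fun e => index_ne_one hN h0 (by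
      rw [hj, e, pow_zero])) (hcard.trans hq), pow_one]
  push Not at hA
  have h1 : ∀ f : N →* ℂˣ, f ≠ 1 → r = 3 ∧ (stabilizer G (linChar f)).index = 3 := fun f hf => by
    obtain ⟨f', hf', h1⟩ := hA f hf
    have h2 := (hg f hf).add_le_one h hc (hg f' hf') (mt linChar_eq_irrOne_iff.1 hf)
      (mt linChar_eq_irrOne_iff.1 hf') h1
    rw [pr_linChar, pr_linChar] at h2
    have h4 := mul_le_of_pr (index_pos _) (index_pos _) h2
    have h5 := le_index_of_ne hx hs (index_ne_one hN hf)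
    have h6 := le_index_of_ne hx hs (index_ne_one hN hf')
    obtain rfl : r = 3 := by
      by_contra e
      have : r ≠ 4 := fun e => by have := hp.out; rw [e] at this; norm_num at this
      have : 5 ≤ r := by omega
      nlinarith
    obtain ⟨j, hj⟩ := exists_index_eq_pow hx hs (linChar f)
    refine ⟨rfl, ?_⟩
    obtain _ | _ | j := j
    · omega
    · exact hj
    · have : 9 ≤ (stabilizer G (linChar f)).index := by
        rw [hj, pow_succ, pow_succ]; have := Nat.one_le_pow j 3 three_pos; omega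
      nlinarith
  obtain ⟨f₀, h0⟩ := exists_lin_ne_one hne
  obtain rfl := (h1 f₀ h0).1
  have h2 := card_le_of_index h hc (Finset.univ.erase 1) (t := 3) (Finset.notMem_erase _ _)
    (fun f hf => hg f (Finset.ne_of_mem_erase hf)) fun f hf => (h1 f (Finset.ne_of_mem_erase hf)).2
  have h4 : ((Finset.univ.erase (1 : N →* ℂˣ)).card : ℚ) ≤ (9 : ℕ) := by
    push_cast at h2 ⊢; linarith
  have h5 := Nat.cast_le.1 h4
  have h6 := card_modEq_one hx hN ⊤ fun _ _ => trivial
  rw [Subgroup.card_top, Nat.ModEq] at h6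
  have h7 := Finset.card_pos.2 ⟨f₀, Finset.mem_erase.2 ⟨h0, Finset.mem_univ _⟩⟩
  by_cases e : Nat.card (N →* ℂˣ) = 7
  · exact .inr ⟨rfl, e⟩
  let S := MonoidHom.ker (G := N →* ℂˣ) (M := N →* ℂˣ) (by exact powMonoidHom 2)
  have hS : ∀ f, f ∈ S ↔ f ^ 2 = 1 := fun f => Iff.rfl
  have h8 := card_modEq_one hx hN S fun f hf => by rw [hS, ← conjLin_pow, (hS f).1 hf]; rfl
  obtain ⟨f₁, h9⟩ := exists_prime_orderOf_dvd_card' (G := N →* ℂˣ) 2 (by omega)
  have h10 : 2 ∣ Nat.card S := h9 ▸ Subgroup.orderOf_dvd_natCard S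
    ((hS f₁).2 (h9 ▸ pow_orderOf_eq_one f₁))
  have h11 := S.card_subgroup_dvd_card
  have h12 := Nat.le_of_dvd Nat.card_pos h11
  rw [Nat.ModEq] at h8
  rcases (by omega : Nat.card (N →* ℂˣ) = 4 ∨ Nat.card (N →* ℂˣ) = 10) with e | e
  · exact .inl ⟨e, fun f => (hS f).1
      ((Subgroup.eq_top_of_le_card S (by omega)).ge (Subgroup.mem_top f))⟩
  · obtain ⟨q, hq⟩ := (IsPGroup.iff_card (p := 2) (G := S)).1 fun f =>
      ⟨1, Subtype.ext f.2⟩
    rw [e] at h11
    have h13 : Nat.card S ≠ 4 := fun e => by rw [e] at h11; omega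
    have := Nat.Prime.dvd_of_dvd_pow Nat.prime_five (hq ▸ (by omega : 5 ∣ Nat.card S))
    omega

theorem odd_nonlin (h : wt G ≤ 0) (hr : r ≠ 2) (hx : IsPElt r x) (hs : N ⊔ zpowers x = ⊤)
    (hN : ⁅N, zpowers x⁆ = N) (hne : commutator N ≠ ⊤) {θ : IrrCharacter N}
    (hθ : charDegree θ.1 ≠ 1) :
    r = 3 ∧ 4 ∣ Nat.card (N →* ℂˣ) ∧ commutator N ≤ center θ.1 := by
  classical
  have := isCyclic_quotient_of_sup_zpowers_eq_top hs
  have hc := le_commutator_of_eq hN
  have h3 : 3 ≤ r := by have := hp.out.two_le; omega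
  obtain ⟨f₀, h0⟩ := exists_lin_ne_one hne
  have h1 : ∀ φ : IrrCharacter N, charDegree φ.1 ≠ 1 →
      charDegree φ.1 = 2 ∧ (stabilizer G φ).index = 1 := fun φ hφ => by
    have h1 : φ ≠ irrOne N := fun e => hφ (by rw [e, charDegree_irrOne])
    have h2 := (good_of_isCyclic hc (mt linChar_eq_irrOne_iff.1 h0)).add_le_one h hc
      (good_of_isCyclic hc h1) (mt linChar_eq_irrOne_iff.1 h0) h1
      fun e => hφ ((charDegree_of_mem_orbit e).trans (charDegree_linChar _))
    have h4 := third_le_pr (h3.trans (le_index_of_ne hx hs (index_ne_one hN h0)))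
    have h5 := irr_degree_pos φ
    rw [pr.eq_1 G φ] at h2
    by_cases e : (stabilizer G φ).index = 1
    · refine ⟨by_contra fun e' => ?_, e⟩
      have : (3 : ℚ) ≤ charDegree φ.1 := by exact_mod_cast (by omega : 3 ≤ charDegree φ.1)
      rw [e] at h2
      push_cast at h2
      linarith
    · have : (2 : ℚ) ≤ charDegree φ.1 := by exact_mod_cast (by omega : 2 ≤ charDegree φ.1)
      have : (2 : ℚ) / (stabilizer G φ).index ≤ 2 / 3 := div_le_div_of_nonneg_left zero_le_two
        three_pos (by exact_mod_cast h3.trans (le_index_of_ne hx hs e))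
      linarith
  have hF := (irr_isCharacter θ).mul (irr_isCharacter θ).cbar
  have h2 : charDegree (θ.1 * cbar θ.1) = 4 := charDegree_eq_of_apply_one (by
    rw [Pi.mul_apply, cbar_apply, irr_apply_one, (h1 θ hθ).1, map_natCast]; norm_num)
  have h4 := hF.degree_eq_sum_mult
  rw [h2, ← Finset.sum_filter_add_sum_filter_not _ fun φ => charDegree φ.1 = 1, ← sum_linChar,
    Finset.sum_congr rfl (g := fun f => if f • θ = θ then 1 else 0) fun f _ => by
      rw [charDegree_linChar, mul_one]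
      exact mult_eq_of_ip_eq (by rw [ip_mul_cbar_linChar]; split_ifs <;> simp),
    Finset.sum_congr rfl (s₂ := Finset.univ.filter fun φ : IrrCharacter N => ¬ charDegree φ.1 = 1)
      (g := fun φ => mult (θ.1 * cbar θ.1) φ.1 * 2)
      fun φ hφ => by rw [(h1 φ (Finset.mem_filter.1 hφ).2).1],
    ← Finset.sum_mul, ← Finset.card_filter, ← Fintype.card_subtype,
    ← Nat.card_eq_fintype_card] at h4
  have h5 := card_modEq_one hx hN (stabilizer (N →* ℂˣ) θ) fun f hf => by
    have h5 : x • θ = θ := (Subgroup.index_eq_one.1 (h1 θ hθ).2).ge (Subgroup.mem_top x)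
    rw [mem_stabilizer_iff, ← h5, ← conjSmul_lin_smul, mem_stabilizer_iff.1 hf]
  have h6 := (stabilizer (N →* ℂˣ) θ).card_subgroup_dvd_card
  have h7 : 0 < Nat.card (stabilizer (N →* ℂˣ) θ) := Nat.card_pos
  change 4 = Nat.card (stabilizer (N →* ℂˣ) θ) + _ at h4
  have h8 := Nat.le_of_dvd (by omega) ((Nat.modEq_iff_dvd' h7).1 h5.symm)
  have h9 : Nat.card (stabilizer (N →* ℂˣ) θ) = 4 := by omega
  refine ⟨by omega, h9 ▸ h6, fun n hn => ?_⟩
  have h10 := hF.mem_ker_iff.1 (hF.mem_ker_iff_forall_irr.2 fun φ hφ =>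
    (irr_commutator_le_ker_iff φ).2 (by_contra fun e => hφ (by
      rw [hF.ip_eq_mult (irr_isCharacter φ), Finset.sum_eq_zero_iff.1
        (show ∑ φ with ¬ charDegree φ.1 = 1, mult (θ.1 * cbar θ.1) φ.1 = 0 by omega) φ
        (Finset.mem_filter.2 ⟨Finset.mem_univ _, e⟩), Nat.cast_zero])) hn)
  rw [Pi.mul_apply, Pi.mul_apply, cbar_apply, cbar_apply, Complex.mul_conj', Complex.mul_conj',
    ← Complex.ofReal_pow, ← Complex.ofReal_pow, Complex.ofReal_inj,
    sq_eq_sq₀ (norm_nonneg _) (norm_nonneg _), (irr_isCharacter θ).norm_apply_one] at h10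
  exact (irr_mem_center_iff θ).2 h10

theorem odd_core (h : wt G ≤ 0) (hr : r ≠ 2) (hx : IsPElt r x) (hs : N ⊔ zpowers x = ⊤)
    (hN : ⁅N, zpowers x⁆ = N) (hne : commutator N ≠ ⊤) :
    ((IsMulCommutative N ∧ ∀ n : N, n ^ 2 = 1) ∧ Nat.card N = r + 1) ∨
      (r = 3 ∧ Nonempty (N ≃* QuaternionGroup 2)) ∨ (r = 3 ∧ Nat.card N = 7) := by
  have h1 := odd_lin h hr hx hs hN hne
  by_cases hna : IsMulCommutative N
  · rw [card_units_hom, commutator_eq_bot_iff_forall_degree_one.2
      irr_degree_eq_one_of_isMulCommutative, Subgroup.index_bot] at h1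
    refine h1.imp (fun h1 => ⟨⟨hna, fun n => by_contra fun e => ?_⟩, h1.1⟩) .inr
    obtain ⟨f, hf⟩ := exists_units_hom_ne_one_of_comm e
    exact hf ((map_pow f n 2).trans (DFunLike.congr_fun (h1.2 f) n))
  obtain ⟨θ, hθ⟩ := exists_irr_one_lt_degree hna
  obtain ⟨rfl, h2, -⟩ := odd_nonlin h hr hx hs hN hne hθ.ne'
  refine .inr (.inl ⟨rfl, quat_of_aut (fun n hn => Subgroup.mem_center_iff.2 fun g => ?_) ?_ hna
    (MulAut.conjNormal x⁻¹) fun f hf => eq_one_of_le_stab hN (Subgroup.zpowers_le.2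
      (mem_stab_iff.2 (MonoidHom.ext hf)))⟩)
  · refine (commutatorElement_eq_one_iff_mul_comm.1 (Subgroup.mem_bot.1 ?_)).symm
    rw [← iInf_ker_irr, Subgroup.mem_iInf]
    intro φ
    refine (irr_mem_center_iff_commutator φ).1 ?_ g
    by_cases e : charDegree φ.1 = 1
    · exact ((irr_center_eq_top_iff φ).2 e).ge trivial
    · exact (odd_nonlin h hr hx hs hN hne e).2.2 hn
  · rw [← card_units_hom]
    rcases h1 with h1 | h1
    · exact h1.1
    · rw [h1.2] at h2; omega

theorem AllSm.odd {L U : Subgroup X} {x : X} (h : AllSm L) (hU : U ≤ L) (hxL : x ∈ L) (hr : r ≠ 2)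
    (hx : IsPElt r x) (hc : ¬ r ∣ Nat.card U) (hn : x ∈ 𝐍(U)) (hx' : x ∉ 𝐂(U)) :
    (IsElementaryAbelian 2 ⁅U, zpowers x⁆ ∧ Nat.card ↥⁅U, zpowers x⁆ = r + 1) ∨
      (r = 3 ∧ Nonempty (↥⁅U, zpowers x⁆ ≃* QuaternionGroup 2)) ∨
      (r = 3 ∧ Nat.card ↥⁅U, zpowers x⁆ = 7) := by
  have ha := coprimeAct_of_isPGroup_left (Subgroup.zpowers_le.2 hn) hx.isPGroup_zpowers hc
  have h1 : x ∈ ⁅U, zpowers x⁆ ⊔ zpowers x := Subgroup.mem_sup_right (Subgroup.mem_zpowers x)
  have := sgOf_normal_sup ha.commutator.norm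
  have hW := ha.commutator_le.trans hU
  have e := Subgroup.subgroupOfEquivOfLe (le_sup_left : _ ≤ ⁅U, zpowers x⁆ ⊔ zpowers x)
  have h2 := odd_core (h.wt_le (sup_le hW (Subgroup.zpowers_le.2 hxL))) hr (x := ⟨x, h1⟩)
    (isPElt_coe.1 hx) (by rw [← sgOf_zpowers, sgOf_sup_eq_top]) (by
      rw [← sgOf_zpowers]
      exact sgOf_comm_eq le_sup_left le_sup_right ha.commutator_commutator_eq) (by
      have := (Subgroup.nontrivial_iff_ne_bot _).2 fun e => hx' (Subgroup.zpowers_le.1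
        (Subgroup.le_centralizer_iff.1 (Subgroup.commutator_eq_bot_iff_le_centralizer.1 e)))
      have := e.toEquiv.nontrivial
      exact SAD.commutator_ne_top (wt_nonpos_of_mulEquiv e.symm (h.wt_le hW)))
  rw [Nat.card_congr e.toEquiv] at h2
  refine h2.imp (fun h2 => ⟨⟨(sgOf_comm_iff le_sup_left).1 h2.1.1, fun a ha => ?_⟩, h2.2⟩)
    (Or.imp_left fun h2 => ⟨h2.1, ⟨e.symm.trans h2.2.some⟩⟩)
  exact congrArg (fun y => y.1.1) (h2.1.2 ⟨⟨a, Subgroup.mem_sup_left ha⟩, ha⟩)

end SAD
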