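import Cfsg.Agent.Lib.Char.SadT2
import Mathlib.GroupTheory.SpecificGroups.KleinFour

/-!
# Groups of average character degree at most two: four-groups acting on groups of odd order
-/

set_option autoImplicit false
set_option linter.unusedSectionVars false

namespace SAD

open Cfsg CT GT FT MulAction
open Subgroup (zpowers)
open scoped commutatorElement

variable {G : Type*} [Group G] [Finite G] {X : Type*} [Group X] [Finite X]

theorem four_mem {V H : Subgroup X} (h : ElemN 2 2 V H) {a b : X} (ha : a ∈ V) (hb : b ∈ V)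
    (a1 : a ≠ 1) (b1 : b ≠ 1) (hab : a ≠ b) {v : X} (hv : v ∈ V) :
    v = 1 ∨ v = a ∨ v = b ∨ v = a * b := by
  have : Nontrivial V := ⟨⟨a, ha⟩, 1, fun e => a1 (congrArg Subtype.val e)⟩
  have : IsKleinFour V := ⟨h.card, (Monoid.exponent_eq_prime_iff Nat.prime_two).2 fun g hg =>
    orderOf_eq_prime (Subtype.ext (h.elem.2 g g.2)) hg⟩
  refine or_iff_not_imp_left.2 fun h1 => or_iff_not_imp_left.2 fun h2 =>
    or_iff_not_imp_left.2 fun h3 => congrArg Subtype.val (IsKleinFour.eq_mul_of_ne_all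
      (x := (⟨a, ha⟩ : V)) (y := ⟨b, hb⟩) (z := ⟨v, hv⟩) ?_ ?_ ?_ ?_ ?_ ?_) <;>
    simpa [Subtype.ext_iff]

theorem exists_four {V H : Subgroup X} (h : ElemN 2 2 V H) :
    ∃ a ∈ V, ∃ b ∈ V, a ≠ 1 ∧ b ≠ 1 ∧ a ≠ b := by
  have := Fintype.ofFinite V
  have h1 : 2 < Fintype.card V := by rw [← Nat.card_eq_fintype_card, h.card]; norm_num
  obtain ⟨a, a1⟩ := Fintype.exists_ne_of_one_lt_card (by omega) (1 : V)
  obtain ⟨b, b1, b2⟩ : ∃ b : V, b ≠ 1 ∧ b ≠ a := by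
    classical
    simpa using Finset.exists_mem_notMem_of_card_lt_card (s := {1, a}) (t := Finset.univ)
      (Finset.card_le_two.trans_lt h1)
  exact ⟨a, a.2, b, b.2, fun e => a1 (Subtype.ext e), fun e => b1 (Subtype.ext e),
    fun e => b2 (Subtype.ext e.symm)⟩

theorem prod_le_card {L : Type*} [CommGroup L] [Finite L] (ho : ∀ f : L, f * f = 1 → f = 1)
    (A B C : Subgroup L) (α β : L →* L) (aa : ∀ f, α (α f) = f) (bb : ∀ f, β (β f) = f)
    (ab : ∀ f, α (β f) = β (α f)) (h : ∀ f, α f = f → β f = f → f = 1) (hA : ∀ f ∈ A, α f = f)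
    (hB : ∀ f ∈ B, β f = f) (hC : ∀ f ∈ C, α (β f) = f) :
    Nat.card A * (Nat.card B * Nat.card C) ≤ Nat.card L := by
  replace hA : ∀ f ∈ A, α f = f ∧ β f = f⁻¹ := fun f hf => ⟨hA f hf, eq_inv_of_mul_eq_one_right
    (h _ (by rw [map_mul, ab, hA f hf]) (by rw [map_mul, bb, mul_comm]))⟩
  replace hB : ∀ f ∈ B, α f = f⁻¹ ∧ β f = f := fun f hf => ⟨eq_inv_of_mul_eq_one_right
    (h _ (by rw [map_mul, aa, mul_comm]) (by rw [map_mul, ← ab, hB f hf])), hB f hf⟩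
  replace hC : ∀ f ∈ C, α f = f⁻¹ ∧ β f = f⁻¹ := fun f hf => by
    have e : α f = β f := by rw [← aa (β f), hC f hf]
    have : α f = f⁻¹ := eq_inv_of_mul_eq_one_right
      (h _ (by rw [map_mul, aa, mul_comm]) (by rw [map_mul, ← ab, hC f hf, e, mul_comm]))
    exact ⟨this, e.symm.trans this⟩
  rw [← Nat.card_prod, ← Nat.card_prod]
  refine Nat.card_le_card_of_injective (A.subtype.coprod (B.subtype.coprod C.subtype))
    ((injective_iff_map_eq_one _).2 ?_)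
  rintro ⟨x, y, z⟩ (e : (x : L) * (y * z) = 1)
  have h1 := congrArg α e
  have h2 := congrArg β e
  rw [map_mul, map_mul, map_one, (hA _ x.2).1, (hB _ y.2).1, (hC _ z.2).1, ← mul_inv,
    mul_inv_eq_one] at h1
  rw [map_mul, map_mul, map_one, (hA _ x.2).2, (hB _ y.2).2, (hC _ z.2).2, mul_left_comm,
    ← mul_inv, mul_inv_eq_one] at h2
  have h3 := ho x (by rw [← e, ← h1])
  have h4 := ho y (by rw [← e, mul_left_comm, ← h2])
  rw [h3, h4, one_mul, one_mul] at e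
  exact Prod.ext (Subtype.ext h3) (Prod.ext (Subtype.ext h4) (Subtype.ext e))

variable {N : Subgroup G} [N.Normal]

theorem index_eq_relIndex {K T : Subgroup G} (hs : N ⊔ K = ⊤) (hT : N ≤ T) :
    T.index = T.relIndex K := by
  rw [← Subgroup.relIndex_top_right]
  refine (relIndex_eq_relIndex_of_forall_exists_mul_eq le_top le_top fun g _ => ?_).symm
  obtain ⟨k, hk, n, hn, e⟩ := (mem_sup_of_le_normalizer_right
    (Subgroup.le_normalizer_of_normal (H := N))).1 ((sup_comm K N).trans hs |>.ge (Subgroup.mem_top g))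
  exact ⟨k, hk, n, hT hn, e⟩

/-- the linear characters fixed by `v` -/
def Fx (N : Subgroup G) [N.Normal] (v : G) : Subgroup (N →* ℂˣ) :=
  (MonoidHom.mk' (conjLin v) (conjLin_mul v)).eqLocus (MonoidHom.id _)

theorem sadT3_realise_eqns : True := by
  have := @Fx.eq_1.{0}
  trivial

theorem mem_Fx {v : G} {f : N →* ℂˣ} : f ∈ Fx N v ↔ conjLin v f = f := Iff.rfl

theorem card_Fx (v : G) :
    Nat.card (Fx N v) = ((⁅N, zpowers v⁆ ⊔ ⁅N, N⁆ : Subgroup G).subgroupOf N).index := by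
  have h1 : (⁅N, zpowers v⁆ : Subgroup G) ≤ N := Subgroup.commutator_le_left _ _
  have := (sgOf_normal_iff h1).2 (le_norm_commutator_left _ _)
  rw [sgOf_sup h1 (der_le N), sgOf_der, ← card_units_hom_le_ker le_sup_right]
  refine Nat.card_congr (Equiv.subtypeEquivRight fun f => ?_)
  rw [mem_Fx, ← mem_stab_iff, ← Subgroup.zpowers_le, le_stab_iff, sup_le_iff]
  exact ⟨fun h => ⟨h, Abelianization.commutator_subset_ker f⟩, fun h => h.1⟩

theorem four_core (h : wt G ≤ 0) {V : Subgroup G} (hV : ElemN 2 2 V ⊤) (hs : N ⊔ V = ⊤)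
    (hN : ⁅N, V⁆ = N) (ho : ¬ 2 ∣ Nat.card N) {a b : G} (ha : a ∈ V) (hb : b ∈ V)
    (a1 : a ≠ 1) (b1 : b ≠ 1) (hab : a ≠ b) :
    Nat.card (Fx N a) * (Nat.card (Fx N b) * Nat.card (Fx N (a * b))) ≤
      Nat.card (Fx N a) + Nat.card (Fx N b) + Nat.card (Fx N (a * b)) + 6 := by
  classical
  have hc := le_commutator_of_eq hN
  have := hV.comm
  have aa : a * a = 1 := by rw [← sq, hV.elem.2 a ha]
  have bb : b * b = 1 := by rw [← sq, hV.elem.2 b hb]
  have ab : a * b = b * a := isMulCommutative_iff_forall.1 this a ha b hb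
  have h1 : ∀ f : N →* ℂˣ, conjLin a f = f → conjLin b f = f → f = 1 := fun f e e' =>
    eq_one_of_le_stab hN fun v hv => mem_stab_iff.2 (by
      rcases four_mem hV ha hb a1 b1 hab hv with rfl | rfl | rfl | rfl
      exacts [conjLin_one f, e, e', by rw [← conjLin_conjLin, e', e]])
  refine (prod_le_card (fun f e => orderOf_eq_one_iff.1 (Nat.eq_one_of_dvd_coprimes
    ((Nat.Prime.coprime_iff_not_dvd Nat.prime_two).2 ho)
    (orderOf_dvd_of_pow_eq_one ((sq f).trans e)) ((orderOf_dvd_natCard f).trans (by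
      rw [card_units_hom]; exact Subgroup.index_dvd_card _)))) _ _ _
    (MonoidHom.mk' (conjLin a) (conjLin_mul a)) (MonoidHom.mk' (conjLin b) (conjLin_mul b))
    (fun f => (conjLin_conjLin a a f).trans (by rw [aa, conjLin_one]))
    (fun f => (conjLin_conjLin b b f).trans (by rw [bb, conjLin_one]))
    (fun f => (conjLin_conjLin a b f).trans (by rw [ab]; exact (conjLin_conjLin b a f).symm)) h1
    (fun f hf => hf) (fun f hf => hf) fun f hf => (conjLin_conjLin a b f).trans hf).trans ?_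
  let S := Finset.univ.filter fun f : N →* ℂˣ => f ∉ Fx N a ∧ f ∉ Fx N b ∧ f ∉ Fx N (a * b)
  have h5 : (1 : N →* ℂˣ) ∉ S := fun e => (Finset.mem_filter.1 e).2.1 (one_mem _)
  have h6 := card_le_of_index h hc S (t := 4) h5 (fun f hf => good_of_mult hc
    (mt linChar_eq_irrOne_iff.1 (ne_of_mem_of_not_mem hf h5)) (mult_eq_one_of_sup hs f))
    fun f hf => by
      obtain ⟨e1, e2, e3⟩ := (Finset.mem_filter.1 hf).2
      suffices (stabilizer G (linChar f)).subgroupOf V = ⊥ by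
        rw [index_eq_relIndex hs (le_inertia _), Subgroup.relIndex, this, Subgroup.index_bot]
        exact hV.card
      refine (Subgroup.eq_bot_iff_forall _).2 fun v hv => Subtype.ext ?_
      have := mem_stab_iff.1 hv
      rcases four_mem hV ha hb a1 b1 hab v.2 with e | e | e | e
      exacts [e, (e1 (e ▸ this)).elim, (e2 (e ▸ this)).elim, (e3 (e ▸ this)).elim]
  have h7 : (S.card : ℚ) ≤ (8 : ℕ) := by push_cast at h6 ⊢; linarith
  have h8 := Nat.cast_le.1 h7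
  have h9 : ∀ v : G, ((Finset.univ.filter (· ∈ Fx N v)).erase 1).card + 1 = Nat.card (Fx N v) :=
    fun v => by
      rw [Finset.card_erase_add_one (Finset.mem_filter.2 ⟨Finset.mem_univ _, one_mem _⟩),
        ← Fintype.card_subtype, Nat.card_eq_fintype_card]
  have h10 := (Finset.card_le_card (s := Finset.univ) (t := S ∪
      (Finset.univ.filter (· ∈ Fx N a) ∪ ((Finset.univ.filter (· ∈ Fx N b)).erase 1 ∪
      (Finset.univ.filter (· ∈ Fx N (a * b))).erase 1))) fun f _ => by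
    simp only [S, Finset.mem_union, Finset.mem_erase, Finset.mem_filter, Finset.mem_univ, true_and]
    have : f = 1 → f ∈ Fx N a := fun e => e ▸ one_mem _
    tauto).trans ((Finset.card_union_le _ _).trans (Nat.add_le_add_left
      ((Finset.card_union_le _ _).trans (Nat.add_le_add_left (Finset.card_union_le _ _) _)) _))
  rw [Finset.card_univ, ← Nat.card_eq_fintype_card, ← Finset.card_erase_add_one
    (Finset.mem_filter.2 ⟨Finset.mem_univ _, (Fx N a).one_mem⟩), h9] at h10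
  have := h9 b
  have := h9 (a * b)
  omega

theorem conj_eq_inv {A : Subgroup X} [IsMulCommutative A] {c w : X} (hc : c * c = 1)
    (hn : c ∈ 𝐍(A)) (h : A ⊓ 𝐂[c] = ⊥) (hw : w ∈ A) : c * w * c⁻¹ = w⁻¹ := by
  have h1 := (Subgroup.mem_normalizer_iff.1 hn w).1 hw
  refine eq_inv_of_mul_eq_one_right (Subgroup.mem_bot.1 (h.le ⟨mul_mem hw h1,
    Subgroup.mem_centralizer_singleton_iff.2 ?_⟩))
  rw [isMulCommutative_iff_forall.1 ‹_› _ hw _ h1, inv_eq_of_mul_eq_one_right hc]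
  have h2 := isMulCommutative_iff_forall.1 ‹_› _ hw _ h1
  rw [inv_eq_of_mul_eq_one_right hc] at h2
  calc c * w * c * w * c = c * (w * (c * w * c)) := by group
    _ = _ := by rw [h2]

theorem AllSm.four_ineq {L O V : Subgroup X} (h : AllSm L) (hO : O ≤ L) (hVL : V ≤ L)
    (hV : ElemN 2 2 V ⊤) (ho : ¬ 2 ∣ Nat.card O) (hn : V ≤ 𝐍(O)) {a b : X} (ha : a ∈ V)
    (hb : b ∈ V) (a1 : a ≠ 1) (b1 : b ≠ 1) (hab : a ≠ b) (d : X → ℕ)
    (hd : ∀ v, d v = (⁅⁅O, V⁆, zpowers v⁆ ⊔ ⁅⁅O, V⁆, ⁅O, V⁆⁆).relIndex ⁅O, V⁆) :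
    d a * (d b * d (a * b)) ≤ d a + d b + d (a * b) + 6 := by
  have hc := coprimeAct_of_isPGroup_left hn hV.isPGroup ho
  have := sgOf_normal_sup hc.commutator.norm
  have key : ∀ v : ↥(⁅O, V⁆ ⊔ V), d v = Nat.card (Fx (⁅O, V⁆.subgroupOf _) v) := fun v => by
    rw [card_Fx, hd, ← sgOf_zpowers, ← sgOf_commutator le_sup_left (Subgroup.zpowers_le.2 v.2),
      ← sgOf_commutator le_sup_left le_sup_left, ← sgOf_sup ((Subgroup.commutator_mono le_sup_left
      (Subgroup.zpowers_le.2 v.2)).trans (der_le _)) ((der_le _).trans le_sup_left),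
      ← sgOf_relIndex (M := ⁅O, V⁆ ⊔ V) le_sup_left, Subgroup.relIndex]
  have h1 := four_core (h.wt_le (sup_le (hc.commutator_le.trans hO) hVL))
    (V := V.subgroupOf (⁅O, V⁆ ⊔ V)) ⟨le_top, ⟨(sgOf_comm_iff le_sup_right).2 hV.comm,
      fun v hv => Subtype.ext (hV.elem.2 v hv)⟩, (card_subgroupOf_of_le le_sup_right).trans hV.card⟩
    (sgOf_sup_eq_top _ _) (sgOf_comm_eq le_sup_left le_sup_right hc.commutator_commutator_eq) (by
      rw [card_subgroupOf_of_le le_sup_left]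
      exact fun e => ho (e.trans (Subgroup.card_dvd_of_le hc.commutator_le)))
    (a := ⟨a, Subgroup.mem_sup_right ha⟩) (b := ⟨b, Subgroup.mem_sup_right hb⟩) ha hb
    (fun e => a1 (congrArg Subtype.val e)) (fun e => b1 (congrArg Subtype.val e))
    fun e => hab (congrArg Subtype.val e)
  rwa [← key, ← key, ← key] at h1

theorem AllSm.four_aux {L O V : Subgroup X} (h : AllSm L) (hO : O ≤ L) (hVL : V ≤ L)
    (hV : ElemN 2 2 V ⊤) (ho : ¬ 2 ∣ Nat.card O) (hn : V ≤ 𝐍(O)) (hf : V ⊓ 𝐂(O) = ⊥) {a b : X}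
    (ha : a ∈ V) (hb : b ∈ V) (b1 : b ≠ 1) (d : X → ℕ)
    (hd : ∀ v, d v = (⁅⁅O, V⁆, zpowers v⁆ ⊔ ⁅⁅O, V⁆, ⁅O, V⁆⁆).relIndex ⁅O, V⁆)
    (h1 : d (a * b) = 1) : ⁅O, V⁆ ⊓ 𝐂[a * b] = ⊥ ∧ Nat.card ↥(⁅O, V⁆ ⊓ 𝐂[a]) = d a ∧ 3 ≤ d a ∧
      ¬ 2 ∣ d a ∧ Nat.card ↥⁅O, V⁆ = d a * Nat.card ↥(⁅O, V⁆ ⊓ 𝐂[b]) := by
  have hc := coprimeAct_of_isPGroup_left hn hV.isPGroup ho
  set A := ⁅O, V⁆ with hA
  have hAL := hc.commutator_le.trans hO
  have hz : ∀ v ∈ V, CoprimeAct (zpowers v) A := fun v hv =>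
    hc.commutator.of_le_left (Subgroup.zpowers_le.2 hv)
  have hv2 : ∀ v ∈ V, v * v = 1 := fun v hv => by rw [← sq, hV.elem.2 v hv]
  have hab := mul_mem ha hb
  have hoA : ¬ 2 ∣ Nat.card A := fun e => ho (e.trans (Subgroup.card_dvd_of_le hc.commutator_le))
  have := (h.mono hAL).solv
  have h2 : ⁅A, zpowers (a * b)⁆ = A := le_antisymm (hz _ hab).commutator_le
    (P6.le_of_le_der_sup (hz _ hab).commutator_le (le_norm_commutator_left _ _)
      ((Subgroup.relIndex_eq_one.1 ((hd _).symm.trans h1)).trans_eq (sup_comm _ _)))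
  have hAc : IsMulCommutative A := h2 ▸ h.inv hAL (hVL hab) (hv2 _ hab) hoA (hc.commutator.norm hab)
  have h3 : ∀ v ∈ V, Disjoint ⁅A, zpowers v⁆ 𝐂[v] := fun v hv =>
    centralizer_zpowers v ▸ (hz v hv).disjoint_commutator_centralizer
  have h4 : A ⊓ 𝐂[a * b] = ⊥ := h2 ▸ (h3 _ hab).eq_bot
  have h5 := (hz a ha).commutator_sup_inf_centralizer
  rw [centralizer_zpowers] at h5
  have h6 : ⁅A, zpowers a⁆ ≤ A ⊓ 𝐂[b] := fun w hw => by
    have hwA := (hz a ha).commutator_le hw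
    have := isMulCommutative_of_le (hz a ha).commutator_le
    have e1 := conj_eq_inv (hv2 a ha) ((hz a ha).commutator.norm (Subgroup.mem_zpowers a))
      (h3 a ha).eq_bot hw
    have e2 := conj_eq_inv (hv2 _ hab) (hc.commutator.norm hab) h4 hwA
    refine ⟨hwA, Subgroup.mem_centralizer_singleton_iff.2 ?_⟩
    rw [← e1, mul_inv_rev, ← mul_assoc, mul_left_inj, mul_assoc, mul_assoc, mul_right_inj,
      ← mul_assoc, mul_inv_eq_iff_eq_mul] at e2
    exact e2.symm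
  have hNA : A ⊓ 𝐂[a] ≤ 𝐍(⁅A, zpowers a⁆) := inf_le_left.trans (le_norm_commutator_left _ _)
  have h7 : ⁅A, zpowers a⁆ = A ⊓ 𝐂[b] := le_antisymm h6 fun w hw => by
    obtain ⟨x, hx, y, hy, rfl⟩ := (mem_sup_of_le_normalizer_left hNA).1 (h5.ge hw.1)
    have e1 := Subgroup.mem_centralizer_singleton_iff.1
      ((Subgroup.mul_mem_cancel_left _ (h6 hx).2).1 hw.2)
    rwa [Subgroup.mem_bot.1 (h4.le (x := y) ⟨hy.1, Subgroup.mem_centralizer_singleton_iff.2 (by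
      rw [← mul_assoc, Subgroup.mem_centralizer_singleton_iff.1 hy.2, mul_assoc, e1,
        mul_assoc])⟩), mul_one]
  have h8 := card_sup_of_disjoint_of_le_normalizer hNA ((h3 a ha).symm.mono_left inf_le_right)
  rw [sup_comm, h5] at h8
  have h9 : Nat.card ↥(A ⊓ 𝐂[a]) = d a := by
    refine Nat.eq_of_mul_eq_mul_right (Nat.card_pos (α := ↥⁅A, zpowers a⁆)) ?_
    rw [← h8, hd, Subgroup.commutator_eq_bot_iff_le_centralizer.2 (comm_iff_le_cent.1 hAc),
      sup_bot_eq, relIndex_mul_card_of_le (hz a ha).commutator_le]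
  have h10 : ¬ 2 ∣ d a := fun e => hoA (h8 ▸ (h9 ▸ e).mul_right _)
  refine ⟨h4, h9, by_contra fun e => b1 (Subgroup.mem_bot.1 (hf.le ⟨hb, ?_⟩)), h10, by
    rw [← h9, ← h7, h8]⟩
  rw [Subgroup.card_eq_one.1 (h9.trans (by omega : d a = 1)), sup_bot_eq, h7] at h5
  refine Subgroup.zpowers_le.1 (Subgroup.le_centralizer_iff.1 ?_)
  rw [← hc.commutator_sup_inf_centralizer, centralizer_zpowers]
  exact sup_le (h5.ge.trans inf_le_right) (inf_le_right.trans (Subgroup.centralizer_le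
    (Set.singleton_subset_iff.2 hb)))

theorem AllSm.four {L O V : Subgroup X} (h : AllSm L) (hO : O ≤ L) (hVL : V ≤ L)
    (hV : ElemN 2 2 V ⊤) (ho : ¬ 2 ∣ Nat.card O) (hn : V ≤ 𝐍(O)) (hf : V ⊓ 𝐂(O) = ⊥) :
    ∃ a ∈ V, ∃ b ∈ V, a ≠ 1 ∧ b ≠ 1 ∧ a ≠ b ∧
      Nat.card ↥(⁅O, V⁆ ⊓ 𝐂[a]) = 3 ∧ Nat.card ↥(⁅O, V⁆ ⊓ 𝐂[b]) ∈ ({3, 5} : Set ℕ) ∧
      ⁅O, V⁆ ⊓ 𝐂[a * b] = ⊥ ∧ Nat.card ↥⁅O, V⁆ = 3 * Nat.card ↥(⁅O, V⁆ ⊓ 𝐂[b]) := by
  let d : X → ℕ := fun v => (⁅⁅O, V⁆, zpowers v⁆ ⊔ ⁅⁅O, V⁆, ⁅O, V⁆⁆).relIndex ⁅O, V⁆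
  have hm := isMulCommutative_iff_forall.1 hV.comm
  have hv2 : ∀ v ∈ V, v * v = 1 := fun v hv => by rw [← sq, hV.elem.2 v hv]
  obtain ⟨a, ha, b, hb, a1, b1, hab, h1⟩ :
      ∃ a ∈ V, ∃ b ∈ V, a ≠ 1 ∧ b ≠ 1 ∧ a ≠ b ∧ d (a * b) = 1 := by
    obtain ⟨a, ha, b, hb, a1, b1, hab⟩ := exists_four hV
    have h1 := h.four_ineq hO hVL hV ho hn ha hb a1 b1 hab d fun _ => rfl
    have c1 : a * b ≠ 1 := fun e => hab (mul_left_cancel ((hv2 a ha).trans e.symm))
    by_contra hd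
    push Not at hd
    have h2 := hd a ha b hb a1 b1 hab
    have h3 := hd a ha _ (mul_mem ha hb) a1 c1 (by simpa using b1)
    have h4 := hd _ (mul_mem ha hb) b hb c1 b1 (by simpa using a1)
    rw [← mul_assoc, hv2 a ha, one_mul] at h3
    rw [mul_assoc, hv2 b hb, mul_one] at h4
    have h5 : ∀ v, d v ≠ 1 → 3 ≤ d v := fun v hv => by
      have : ¬ 2 ∣ d v := fun e => ho ((e.trans (Subgroup.relIndex_dvd_card _ _)).trans
        (Subgroup.card_dvd_of_le (coprimeAct_of_isPGroup_left hn hV.isPGroup ho).commutator_le))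
      omega
    have := h5 _ h2
    have := h5 _ h3
    have := h5 _ h4
    nlinarith [Nat.mul_le_mul (h5 _ h3) (h5 _ h2)]
  have h2 := h.four_ineq hO hVL hV ho hn ha hb a1 b1 hab d fun _ => rfl
  obtain ⟨h3, h4, h5, h6, h7⟩ := h.four_aux hO hVL hV ho hn hf ha hb b1 d (fun _ => rfl) h1
  obtain ⟨h8, h9, h10, h11, h12⟩ := h.four_aux hO hVL hV ho hn hf hb ha a1 d (fun _ => rfl)
    (hm a ha b hb ▸ h1)
  rw [h1] at h2
  have h13 : d b ≤ 5 := by nlinarith
  have h14 : d a ≤ 5 := by nlinarith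
  by_cases e : d a = 3
  · exact ⟨a, ha, b, hb, a1, b1, hab, h4.trans e, by
      rw [h9, Set.mem_insert_iff, Set.mem_singleton_iff]; omega, h3, e ▸ h7⟩
  · have e' : d b = 3 := by
      rw [show d a = 5 by omega] at h2
      omega
    exact ⟨b, hb, a, ha, b1, a1, hab.symm, h9.trans e', by
      rw [h4, Set.mem_insert_iff, Set.mem_singleton_iff]; omega, h8, e' ▸ h12⟩

end SAD
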