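import Cfsg.Agent.Lib.Char.SadT3

/-!
# Groups of average character degree at most two: the remaining tools
-/

set_option autoImplicit false
set_option linter.unusedSectionVars false

namespace SAD

open Cfsg CT GT FT MulAction
open Subgroup (zpowers)
open scoped commutatorElement Pointwise

universe u

variable {G : Type*} [Group G] [Finite G] {X : Type*} [Group X] [Finite X]

theorem eq_of_le_of_index_le {A B : Subgroup G} (h : A ≤ B) (h' : A.index ≤ B.index) : A = B := by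
  have h1 := Subgroup.relIndex_mul_index h
  have h2 := index_pos B
  have h3 : A.relIndex B ≠ 0 := Subgroup.index_ne_zero_of_finite
  exact le_antisymm h (Subgroup.relIndex_eq_one.1 (by_contra fun e => by
    nlinarith [show 2 ≤ A.relIndex B by omega]))

theorem sup_eq_top_of_index_prime {T K : Subgroup G} (hp : T.index.Prime) (h : ¬ K ≤ T) :
    K ⊔ T = ⊤ :=
  ((Nat.dvd_prime hp).1 (Subgroup.index_dvd_of_le (le_sup_right : T ≤ K ⊔ T))).elim
    Subgroup.index_eq_one.1 fun e => (h (le_sup_left.trans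
      (eq_of_le_of_index_le le_sup_right e.ge).ge)).elim

variable {N : Subgroup G} [N.Normal]

theorem index_lt_card {f : N →* ℂˣ} (hf : f ≠ 1) :
    (stabilizer G (linChar f)).index < Nat.card (N →* ℂˣ) := by
  classical
  rw [← card_conjOrbit, Nat.card_eq_fintype_card, ← Finset.card_univ,
    ← Finset.card_erase_add_one (Finset.mem_univ (1 : N →* ℂˣ)), Nat.lt_succ_iff,
    ← Finset.card_map ⟨_, linChar_injective⟩]
  refine Finset.card_le_card fun φ hφ => ?_
  obtain ⟨g, rfl⟩ := mem_conjOrbit.1 hφ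
  exact Finset.mem_map.2 ⟨conjLin g f, Finset.mem_erase.2
    ⟨mt conjLin_eq_one_iff.1 hf, Finset.mem_univ _⟩, rfl⟩

theorem card_lin_of_comm (H : Type*) [Group H] [Finite H] [IsMulCommutative H] :
    Nat.card (H →* ℂˣ) = Nat.card H := by
  rw [card_units_hom, commutator_eq_bot_iff_forall_degree_one.2
    irr_degree_eq_one_of_isMulCommutative, Subgroup.index_bot]

/-- the budget bounds the number of characters of `T / N` -/
theorem card_irr_le (h : wt G ≤ 0) (hN : N ≤ commutator G) {θ : IrrCharacter N}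
    (h1 : θ ≠ irrOne N) {η : stabilizer G θ → ℂ} (hη : IsCharacter _ η)
    (he : resLe (le_inertia θ) η = θ.1) (hT : commutator G ⊔ stabilizer G θ = ⊤) {k : ℕ}
    (hk : k + 2 ≤ (stabilizer G θ).index) :
    Nat.card (IrrCharacter (stabilizer G θ ⧸ N.subgroupOf (stabilizer G θ))) * k ≤
      (commutator G).relIndex (stabilizer G θ) := by
  have h2 := (le_cost_of_ext hη he).trans (cost_le h hN h1)
  rw [index_eq_relIndex hT le_rfl] at h2
  have h3 : (k : ℚ) ≤ (stabilizer G θ).index - 2 := by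
    rw [le_sub_iff_add_le]; exact_mod_cast hk
  exact_mod_cast (mul_le_mul_of_nonneg_left h3 (Nat.cast_nonneg _)).trans h2

theorem sym_core (h : wt G ≤ 0) (hU : ElemN 2 2 N ⊤) {u x : G} (hu : u ∈ N) (u1 : u ≠ 1)
    (hx : IsPElt 3 x) (hN : ⁅N, zpowers x⁆ = N) (h1 : ¬ 𝐂[u] ≤ 𝐂(N))
    (h2 : ¬ N ≤ ⁅𝐂[u], 𝐂[u]⁆) : commutator G ⊓ 𝐂[u] ≤ N := by
  have hc := le_commutator_of_eq hN
  have := hU.comm
  have uu : u * u = 1 := by rw [← sq, hU.elem.2 u hu]
  have hP : ((zpowers u).subgroupOf N).index = 2 := by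
    have := relIndex_mul_card_of_le (Subgroup.zpowers_le.2 hu)
    rw [Nat.card_zpowers, orderOf_eq_prime (p := 2) (by rw [sq, uu]) u1, hU.card] at this
    exact (by omega : (zpowers u).relIndex N = 2)
  have := Subgroup.normal_of_index_eq_two hP
  have : IsCyclic (N ⧸ (zpowers u).subgroupOf N) := isCyclic_of_prime_card (p := 2) hP
  obtain ⟨f, hf⟩ := exists_units_hom_ker_eq ((zpowers u).subgroupOf N)
  have f1 : f ≠ 1 := fun e => by
    rw [← hf, e, MonoidHom.ker_one, Subgroup.index_top] at hP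
    omega
  have hcm : ∀ {g w : G}, g ∈ 𝐂[u] → w ∈ N → ⁅w, g⁆ = 1 ∨ ⁅w, g⁆ = u := fun {g w} hg hw => by
    have e := Subgroup.mem_centralizer_singleton_iff.1 hg
    have hm := isMulCommutative_iff_forall.1 ‹_›
    have ww : w⁻¹ = w := inv_eq_of_mul_eq_one_right (by rw [← sq, hU.elem.2 w hw])
    rw [commutatorElement_def, ww, mul_assoc, mul_assoc, ← mul_assoc g]
    by_cases w1 : w = 1
    · simp [w1]
    by_cases wu : u = w
    · rw [← wu, e, mul_inv_cancel_right, uu]; exact .inl rfl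
    rcases four_mem hU hu hw u1 w1 wu (Subgroup.Normal.conj_mem ‹_› w hw g) with e' | e' | e' | e'
    · exact (w1 (conj_eq_one_iff.1 e')).elim
    · exact (wu (mul_left_cancel (e.trans (mul_inv_eq_iff_eq_mul.1 e').symm))).elim
    · rw [e', ← sq, hU.elem.2 w hw]; exact .inl rfl
    · rw [e', hm u hu w hw, ← mul_assoc, ← sq, hU.elem.2 w hw, one_mul]; exact .inr rfl
  have hT : stabilizer G (linChar f) = 𝐂[u] := le_antisymm (fun g hg => by
    have e : MulAut.conjNormal g ⟨u, hu⟩ ∈ f.ker := by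
      have := DFunLike.congr_fun (mem_stab_iff.1 (inv_mem hg)) ⟨u, hu⟩
      rw [conjLin_apply, inv_inv] at this
      rw [MonoidHom.mem_ker, this, ← MonoidHom.mem_ker, hf]
      exact Subgroup.mem_zpowers u
    rw [hf] at e
    exact Subgroup.mem_centralizer_singleton_iff.2 (mul_inv_eq_iff_eq_mul.1
      ((mem_zpowers_invol uu e).resolve_left (mt conj_eq_one_iff.1 u1))))
    (le_stab_iff.2 (hf ▸ Subgroup.comap_mono (Subgroup.commutator_le.2 fun w hw g hg =>
      (hcm hg hw).elim (fun e => e ▸ one_mem _) fun e => e ▸ Subgroup.mem_zpowers u)))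
  have hxT : x ∉ 𝐂[u] := fun e => f1 (eq_one_of_le_stab hN (Subgroup.zpowers_le.2 (hT.ge e)))
  have h3 : (stabilizer G (linChar f)).index = 3 := by
    have e1 := index_lt_card f1
    rw [card_lin_of_comm, hU.card] at e1
    obtain ⟨k, hk⟩ := hx
    obtain ⟨j, -, hj⟩ := (Nat.dvd_prime_pow Nat.prime_three).1 (hk ▸ Nat.card_zpowers x ▸
      Subgroup.relIndex_dvd_card (stabilizer G (linChar f)) (zpowers x))
    have e2 := Subgroup.relIndex_le_of_le_right (H := stabilizer G (linChar f))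
      (le_top (a := zpowers x)) Subgroup.index_ne_zero_of_finite
    have e3 := Nat.le_self_pow (n := j) (fun e => hxT (hT.le (Subgroup.relIndex_eq_one.1
      (by rw [hj, e, pow_zero]) (Subgroup.mem_zpowers x)))) 3
    rw [Subgroup.relIndex_top_right, hj] at e2
    omega
  have h4 : commutator G ⊔ stabilizer G (linChar f) = ⊤ :=
    sup_eq_top_of_index_prime (h3 ▸ Nat.prime_three) fun e => h1 fun g hg w hw => by
      have hn := Subgroup.Normal.of_commutator_le _ e
      have e1 : g * (x * u * x⁻¹) = x * u * x⁻¹ * g := by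
        have := Subgroup.mem_centralizer_singleton_iff.1 (hT.le (hn.conj_mem' g (hT.ge hg) x))
        calc g * (x * u * x⁻¹) = x * (x⁻¹ * g * x * u) * x⁻¹ := by group
          _ = _ := by rw [this]; group
      have e2 := Subgroup.mem_centralizer_singleton_iff.1 hg
      rcases four_mem hU hu (Subgroup.Normal.conj_mem ‹_› u hu x) u1 (mt conj_eq_one_iff.1 u1)
        (fun e => hxT (Subgroup.mem_centralizer_singleton_iff.2 (mul_inv_eq_iff_eq_mul.1 e.symm)))
        hw with rfl | rfl | rfl | rfl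
      exacts [by rw [one_mul, mul_one], e2.symm, e1.symm,
        by rw [mul_assoc, ← e1, ← mul_assoc, ← e2, mul_assoc]]
  have hNT : N ≤ 𝐂[u] := hT ▸ le_inertia _
  have h5 : u ∈ ⁅𝐂[u], 𝐂[u]⁆ := by
    by_contra e
    exact h1 fun g hg w hw => commutatorElement_eq_one_iff_mul_comm.1 ((hcm hg hw).resolve_right
      fun e' => e (e'.subst (motive := (· ∈ ⁅𝐂[u], 𝐂[u]⁆))
        (Subgroup.commutator_mem_commutator (hNT hw) hg)))
  obtain ⟨F, hF⟩ := exists_units_hom_extend (N.subgroupOf (stabilizer G (linChar f)))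
    (f.comp (Subgroup.subgroupOfEquivOfLe (le_inertia _)).toMonoidHom) fun k hk => by
      rw [← sgOf_der, Subgroup.mem_subgroupOf] at hk
      replace hk := Subgroup.commutator_mono hT.le hT.le hk
      refine hf.ge (by_contra fun e => h2 fun w hw => ?_)
      rcases four_mem hU hu k.2 u1
        (fun e' => e (e'.symm.subst (motive := (· ∈ zpowers u)) (one_mem _)))
        (fun e' => e (e'.subst (motive := (· ∈ zpowers u)) (Subgroup.mem_zpowers u))) hw with
        rfl | rfl | rfl | rfl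
      exacts [one_mem _, h5, hk, mul_mem h5 hk]
  have h6 := card_irr_le h hc (mt linChar_eq_irrOne_iff.1 f1) (isCharacter_units_hom F)
    (funext fun n => congrArg Units.val (hF ⟨⟨n, le_inertia _ n.2⟩, n.2⟩)) h4 (k := 1) h3.ge
  rw [mul_one] at h6
  have h7 := commutator_eq_bot_of_card_irr_le (h6.trans (relIndex_le_index_commutator hc _))
  have h8 := (index_commutator_le_card_irr _).trans h6
  rw [h7, Subgroup.index_bot] at h8
  intro g hg
  exact (eq_of_le_of_index_le (Subgroup.comap_mono hc) h8).ge (x := ⟨g, hT.ge hg.2⟩) hg.1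

theorem eq_of_odd_four {L U : Subgroup X} {x : X} (h : AllSm L) (hU : ElemN 2 2 U L) (hxL : x ∈ L)
    (hx : IsPElt 3 x) (hn : x ∈ 𝐍(U)) (hx' : x ∉ 𝐂(U)) : ⁅U, zpowers x⁆ = U := by
  have hc : ¬ 3 ∣ Nat.card U := by rw [hU.card]; norm_num
  have h1 := (coprimeAct_of_isPGroup_left (Subgroup.zpowers_le.2 hn) hx.isPGroup_zpowers
    hc).commutator_le
  have h2 := Nat.le_of_dvd Nat.card_pos (Subgroup.card_dvd_of_le h1)
  refine Subgroup.eq_of_le_of_card_ge h1 ?_
  rw [hU.card] at h2 ⊢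
  rcases h.odd hU.le hxL (by norm_num) hx hc hn hx' with e | ⟨-, ⟨e⟩⟩ | e
  · exact e.2.ge
  · rw [Nat.card_congr e.toEquiv, Nat.card_eq_fintype_card, QuaternionGroup.card]; norm_num
  · omega

theorem AllSm.sym {H U : Subgroup X} {u x : X} (h : AllSm H) (hU : ElemN 2 2 U H) (hn : H ≤ 𝐍(U))
    (hu : u ∈ U) (u1 : u ≠ 1) (hxH : x ∈ H) (hx : IsPElt 3 x) (hx' : x ∉ 𝐂(U))
    (h1 : ¬ H ⊓ 𝐂[u] ≤ 𝐂(U)) (h2 : ¬ U ≤ ⁅H ⊓ 𝐂[u], H ⊓ 𝐂[u]⁆) : ⁅H, H⁆ ⊓ 𝐂[u] ≤ U := by
  have := (sgOf_normal_iff hU.le).2 hn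
  have e : 𝐂[(⟨u, hU.le hu⟩ : H)] = (H ⊓ 𝐂[u]).subgroupOf H := by
    rw [Subgroup.inf_subgroupOf_left, ← sgOf_cent1]
  have h3 := sym_core (h.wt_le le_rfl) (N := U.subgroupOf H) ⟨le_top,
    ⟨(sgOf_comm_iff hU.le).2 hU.comm, fun v hv => Subtype.ext (hU.elem.2 v hv)⟩,
    (card_subgroupOf_of_le hU.le).trans hU.card⟩ (u := ⟨u, hU.le hu⟩) (x := ⟨x, hxH⟩) hu
    (fun e => u1 (congrArg Subtype.val e)) (isPElt_coe.1 hx) (by
      rw [← sgOf_zpowers]
      exact sgOf_comm_eq hU.le (Subgroup.zpowers_le.2 hxH)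
        (eq_of_odd_four h hU hxH hx (hn hxH) hx'))
    (by rwa [e, sgOf_le_cent_iff inf_le_left hU.le])
    (by rwa [e, ← sgOf_commutator inf_le_left inf_le_left, sgOf_le_iff hU.le])
  intro g hg
  exact h3 (x := ⟨g, der_le H hg.1⟩) ⟨(sgOf_der H).le hg.1, e.ge ⟨der_le H hg.1, hg.2⟩⟩

theorem eight_core (h : wt G ≤ 0) {K : Subgroup G} [IsMulCommutative N] (hs : N ⊔ K = ⊤)
    (hN : ⁅N, K⁆ = N) (h8 : Nat.card N ∣ 8) (ho : ¬ 2 ∣ Nat.card K) : ⁅K, K⁆ ≤ 𝐂(N) := by
  have hc := le_commutator_of_eq hN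
  have key : ∀ f : N →* ℂˣ, ⁅K, K⁆ ≤ stabilizer G (linChar f) := fun f => by
    by_cases f1 : f = 1
    · exact fun g _ => mem_stab_iff.2 (by rw [f1]; rfl)
    have h1 := index_lt_card f1
    have h2 := index_ne_one hN f1
    have h3 := index_dvd_of_sup hs (le_inertia (linChar f))
    have h4 : ¬ 2 ∣ _ := fun e => ho (e.trans h3)
    have h5 := Nat.le_of_dvd (by norm_num) h8
    rw [card_lin_of_comm] at h1
    by_cases e : (stabilizer G (linChar f)).index = 3
    · rw [e] at h3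
      rw [index_eq_relIndex hs (le_inertia _)] at e
      have := Subgroup.normal_of_index_eq_minFac_card (e.trans (le_antisymm (by
        have := (Nat.minFac_prime (n := Nat.card K) fun e => by rw [e] at h3; omega).two_le
        have : (Nat.card K).minFac ≠ 2 := fun e => ho (e ▸ Nat.minFac_dvd _)
        omega) (Nat.minFac_le_of_dvd (by norm_num) h3)))
      exact (sgOf_le_iff (der_le K)).1 ((sgOf_der K).trans_le
        (CT.commutator_le_of_index_prime (e.symm.subst (motive := Nat.Prime) Nat.prime_three)))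
    refine (Subgroup.commutator_mono le_top le_top).trans (by_contra fun h6 => ?_)
    obtain ⟨η, h7, h9⟩ := exists_ext_of_coprime (Nat.Coprime.coprime_dvd_left h8
      (Nat.Coprime.pow_left 3 ((Nat.Prime.coprime_iff_not_dvd Nat.prime_two).2
        fun e => ho (e.trans (index_dvd_of_sup hs le_rfl))))) (linChar f)
    have h10 := card_irr_le h hc (mt linChar_eq_irrOne_iff.1 f1) h7 h9 (sup_eq_top_of_index_prime
      (by rcases (by omega : (stabilizer G (linChar f)).index = 5 ∨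
        (stabilizer G (linChar f)).index = 7) with e | e <;> rw [e] <;> norm_num) h6) (k := 2)
      (by omega)
    have h11 := (relIndex_le_index_commutator hc _).trans
      (index_commutator_le_card_irr (stabilizer G (linChar f) ⧸ _))
    have h12 : (commutator G).relIndex (stabilizer G (linChar f)) ≠ 0 :=
      Subgroup.index_ne_zero_of_finite
    omega
  refine Subgroup.le_centralizer_iff.1 (Subgroup.commutator_eq_bot_iff_le_centralizer.1
    (eq_bot_iff.2 fun n hn => by_contra fun e => ?_))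
  obtain ⟨f, hf⟩ := exists_units_hom_ne_one_of_comm (G := N)
    (g := ⟨n, Subgroup.commutator_le_left _ _ hn⟩) fun e' => e (congrArg Subtype.val e')
  exact hf (le_stab_iff.1 (key f) hn)

theorem AllSm.eight {L W K : Subgroup X} (h : AllSm L) (hW : W ≤ L) (hK : K ≤ L)
    (h8 : ElemN 2 3 W ⊤) (ho : ¬ 2 ∣ Nat.card K) (hn : K ≤ 𝐍(W)) : ⁅K, K⁆ ≤ 𝐂(W) := by
  have ha := coprimeAct_of_isPGroup_right hn h8.isPGroup ho
  have := sgOf_normal_sup ha.commutator.norm
  have := h8.comm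
  have := (sgOf_comm_iff (H := ⁅W, K⁆) (M := ⁅W, K⁆ ⊔ K) le_sup_left).2
    (isMulCommutative_of_le ha.commutator_le)
  have h1 := eight_core (h.wt_le (sup_le (ha.commutator_le.trans hW) hK)) (sgOf_sup_eq_top _ _)
    (sgOf_comm_eq le_sup_left le_sup_right ha.commutator_commutator_eq) (by
      rw [card_subgroupOf_of_le le_sup_left]
      exact (Subgroup.card_dvd_of_le ha.commutator_le).trans h8.card.dvd)
    (by rwa [card_subgroupOf_of_le le_sup_right])
  rw [← sgOf_commutator le_sup_right le_sup_right,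
    sgOf_le_cent_iff ((der_le K).trans le_sup_right) le_sup_left] at h1
  rw [← ha.commutator_sup_inf_centralizer, centralizer_sup]
  exact le_inf h1 ((der_le K).trans (Subgroup.le_centralizer_iff.1 inf_le_right))

theorem lin_ext_sup {A B : Subgroup G} (hAB : A ⊔ B = N) {f g : N →* ℂˣ}
    (hA : ∀ n : N, (n : G) ∈ A → f n = g n) (hB : ∀ n : N, (n : G) ∈ B → f n = g n) : f = g := by
  have : A.subgroupOf N ⊔ B.subgroupOf N ≤ f.eqLocus g := sup_le hA hB
  rw [← sgOf_sup (hAB ▸ le_sup_left) (hAB ▸ le_sup_right), hAB, Subgroup.subgroupOf_self] at this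
  exact MonoidHom.ext fun n => this trivial

theorem exists_lin_le_ker [IsMulCommutative N] {A : Subgroup G} (h : ¬ N ≤ A) :
    ∃ f : N →* ℂˣ, f ≠ 1 ∧ A.subgroupOf N ≤ f.ker := by
  obtain ⟨n, hn, h1⟩ := SetLike.not_le_iff_exists.1 h
  have := Subgroup.normal_of_isMulCommutative (A.subgroupOf N)
  obtain ⟨f, h2, h3⟩ := exists_units_hom_apply_ne_one (N := A.subgroupOf N) (g := ⟨n, hn⟩) (by
    rw [commutator_eq_bot_iff_forall_degree_one.2 irr_degree_eq_one_of_isMulCommutative]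
    exact bot_le) h1
  exact ⟨f, fun e => h3 (by rw [e]; rfl), h2⟩

theorem indep_core (h : wt G ≤ 0) [IsMulCommutative N] {A B : Subgroup G} [A.Normal] [B.Normal]
    {x y : G} (hAB : A ⊔ B = N) (hs : N ⊔ (zpowers x ⊔ zpowers y) = ⊤) (h2 : IsPGroup 2 N)
    (ho : ¬ 2 ∣ Nat.card ↥(zpowers x ⊔ zpowers y)) (hA : ⁅A, zpowers x⁆ = A)
    (hB : ⁅B, zpowers y⁆ = B) (hx : x ∈ 𝐂(B)) (hy : y ∈ 𝐂(A)) (a1 : A ≠ ⊥) (b1 : B ≠ ⊥) :
    False := by
  have hAN : A ≤ N := hAB ▸ le_sup_left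
  have hBN : B ≤ N := hAB ▸ le_sup_right
  have hN : ⁅N, zpowers x ⊔ zpowers y⁆ = N := le_antisymm (Subgroup.commutator_le_left _ _)
    (hAB.ge.trans (sup_le (hA.ge.trans (Subgroup.commutator_mono hAN le_sup_left))
      (hB.ge.trans (Subgroup.commutator_mono hBN le_sup_right))))
  have hc := le_commutator_of_eq hN
  have hNC : N ≤ 𝐂(N) := comm_iff_le_cent.1 ‹_›
  have hG : commutator G ≤ 𝐂(N) := by
    rw [← hAB, centralizer_sup]
    refine le_inf (CT.commutator_le_of_sup_zpowers_eq_top (g := x) (eq_top_iff.2 (hs.ge.trans ?_)))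
      (CT.commutator_le_of_sup_zpowers_eq_top (g := y) (eq_top_iff.2 (hs.ge.trans ?_)))
    · exact sup_le ((hNC.trans (centralizer_anti hAN)).trans le_sup_left)
        (sup_le le_sup_right ((Subgroup.zpowers_le.2 hy).trans le_sup_left))
    · exact sup_le ((hNC.trans (centralizer_anti hBN)).trans le_sup_left)
        (sup_le ((Subgroup.zpowers_le.2 hx).trans le_sup_left) le_sup_right)
  have ht : ∀ f : N →* ℂˣ, ¬ 2 ∣ (stabilizer G (linChar f)).index := fun f e =>
    ho (e.trans (index_dvd_of_sup hs (le_inertia _)))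
  have hg : ∀ f : N →* ℂˣ, f ≠ 1 → Good G (linChar f) := fun f hf => by
    obtain ⟨k, hk⟩ := IsPGroup.iff_card.1 h2
    obtain ⟨η, h7, h9⟩ := exists_ext_of_coprime (hk ▸ (Nat.Coprime.pow_left k
      ((Nat.Prime.coprime_iff_not_dvd Nat.prime_two).2
        fun e => ho (e.trans (index_dvd_of_sup hs le_rfl))))) (linChar f)
    have := index_ne_one hN hf
    have := index_pos (stabilizer G (linChar f))
    exact good_of_ext hc h7 h9 (hG.trans (centralizer_le_inertia _)) (by omega)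
  obtain ⟨f, f1, hf⟩ := exists_lin_le_ker (N := N) (A := A) fun e => b1 (hB.symm.trans
    (Subgroup.commutator_eq_bot_iff_le_centralizer.2 (Subgroup.le_centralizer_iff.1
      (Subgroup.zpowers_le.2 (centralizer_anti (hBN.trans e) hy)))))
  obtain ⟨g, g1, hg'⟩ := exists_lin_le_ker (N := N) (A := B) fun e => a1 (hA.symm.trans
    (Subgroup.commutator_eq_bot_iff_le_centralizer.2 (Subgroup.le_centralizer_iff.1
      (Subgroup.zpowers_le.2 (centralizer_anti (hAN.trans e) hx)))))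
  have h3 : ¬ A.subgroupOf N ≤ (f * g).ker := fun e => g1 (lin_ext_sup hAB (fun n hn => by
    have := MonoidHom.mem_ker.1 (e hn)
    rwa [MonoidHom.mul_apply, MonoidHom.mem_ker.1 (hf hn), one_mul] at this) hg')
  have h4 : f * g ≠ 1 := fun e => h3 (by rw [e, MonoidHom.ker_one]; exact le_top)
  have h5 : stabilizer G (linChar (f * g)) ≤ stabilizer G (linChar f) := fun z hz =>
    mem_stab_iff.2 (lin_ext_sup hAB (fun n hn => (le_ker_conjLin z hf hn).trans (hf hn).symm)
      fun n hn => by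
        have := DFunLike.congr_fun (mem_stab_iff.1 hz) n
        rwa [conjLin_mul, MonoidHom.mul_apply, MonoidHom.mul_apply, MonoidHom.mem_ker.1 (hg' hn),
          MonoidHom.mem_ker.1 (le_ker_conjLin z hg' hn), mul_one, mul_one] at this)
  have h6 : x ∈ stabilizer G (linChar f) :=
    mem_stab_iff.2 (lin_ext_sup hAB (fun n hn => (le_ker_conjLin x hf hn).trans (hf hn).symm)
      fun n hn => congrArg f (Subtype.ext (by
        simp [mul_assoc, hx n hn])))
  have h7 := mt Subgroup.relIndex_eq_one.1 fun e : stabilizer G (linChar f) ≤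
      stabilizer G (linChar (f * g)) => h3 (le_trans (Subgroup.comap_mono
        (hA.ge.trans (Subgroup.commutator_mono hAN le_rfl)))
        (le_stab_iff.1 (Subgroup.zpowers_le.2 (e h6))))
  have h8 := (hg f f1).add_le_one h hc (hg _ h4) (mt linChar_eq_irrOne_iff.1 f1)
    (mt linChar_eq_irrOne_iff.1 h4) fun ⟨z, e⟩ =>
      h3 (linChar_injective (show linChar (conjLin z f) = _ from e) ▸ le_ker_conjLin z hf)
  rw [pr_linChar, pr_linChar] at h8
  have h9 := mul_le_of_pr (index_pos _) (index_pos _) h8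
  have h10 := Subgroup.relIndex_mul_index h5
  have h11 := ht f
  have h12 := index_ne_one hN f1
  have h13 : ¬ 2 ∣ _ := fun e => ht (f * g) (e.trans (Dvd.intro _ h10))
  have h14 : 3 * 3 ≤ _ := (Nat.mul_le_mul (by omega) (by omega)).trans_eq h10
  nlinarith [show 3 ≤ (stabilizer G (linChar f)).index by omega]

theorem AllSm.indep {L U W : Subgroup X} {x y : X} (h : AllSm L) (hU : U ≤ L) (hW : W ≤ L)
    (hxL : x ∈ L) (hyL : y ∈ L) (eU : IsElementaryAbelian 2 U) (eW : IsElementaryAbelian 2 W)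
    (hUW : U ≤ 𝐂(W)) (ox : ¬ 2 ∣ orderOf x) (oy : ¬ 2 ∣ orderOf y) (xn : x ∈ 𝐍(U))
    (xc : x ∉ 𝐂(U)) (xc' : x ∈ 𝐂(W)) (yn : y ∈ 𝐍(W)) (yc : y ∉ 𝐂(W)) (yc' : y ∈ 𝐂(U)) :
    False := by
  wlog ho : ¬ 2 ∣ Nat.card ↥(zpowers x ⊔ zpowers y) generalizing y
  · have hsolv := (h.mono (sup_le (Subgroup.zpowers_le.2 hxL) (Subgroup.zpowers_le.2 hyL))).solv
    have hh := hallOK_of_isSolvable (π := {2}ᶜ) (G := ↥(zpowers x ⊔ zpowers y))
    obtain ⟨K, hK, h1⟩ := hh.exists_isPiHallOf_ge (U := zpowers x)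
      ((isPiNat_compl_singleton_iff Nat.prime_two).2 (by rwa [Nat.card_zpowers])) le_sup_left
    obtain ⟨g, hg, h2⟩ := hh.exists_le_conj_of hK (U := zpowers y)
      ((isPiNat_compl_singleton_iff Nat.prime_two).2 (by rwa [Nat.card_zpowers])) le_sup_right
    have h3 := mem_conj_smul.1 (h2 (Subgroup.mem_zpowers y))
    have gU : g ∈ 𝐍(U) := sup_le (Subgroup.zpowers_le.2 xn)
      (Subgroup.zpowers_le.2 (Subgroup.centralizer_le_normalizer _ yc')) hg
    have gW : g ∈ 𝐍(W) := sup_le (Subgroup.zpowers_le.2 (Subgroup.centralizer_le_normalizer _ xc'))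
      (Subgroup.zpowers_le.2 yn) hg
    have gL : g ∈ L := sup_le (Subgroup.zpowers_le.2 hxL) (Subgroup.zpowers_le.2 hyL) hg
    refine this (y := g⁻¹ * y * g) (mul_mem (mul_mem (inv_mem gL) hyL) gL) ?_
      (mul_mem (mul_mem (inv_mem gW) yn) gW) (fun e => yc ?_) ?_ fun e => ?_
    · rwa [SemiconjBy.orderOf_eq g (show SemiconjBy g (g⁻¹ * y * g) y by
        simp [SemiconjBy, mul_assoc])]
    · exact (Subgroup.mem_normalizer_iff''.1
        (le_normalizer_centralizer (H := W) le_rfl gW) y).2 e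
    · exact (Subgroup.mem_normalizer_iff''.1
        (le_normalizer_centralizer (H := U) le_rfl gU) y).1 yc'
    · exact (isPiNat_compl_singleton_iff Nat.prime_two).1 (isPiNat_card_of_isPiHallOf hK)
        (e.trans (Subgroup.card_dvd_of_le (sup_le h1 (Subgroup.zpowers_le.2 h3))))
  have ha := coprimeAct_of_isPGroup_right (Subgroup.zpowers_le.2 xn) (elem_isPGroup eU)
    (by rwa [Nat.card_zpowers])
  have hb := coprimeAct_of_isPGroup_right (Subgroup.zpowers_le.2 yn) (elem_isPGroup eW)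
    (by rwa [Nat.card_zpowers])
  set A := ⁅U, zpowers x⁆
  set B := ⁅W, zpowers y⁆
  have hAU : A ≤ U := ha.commutator_le
  have hBW : B ≤ W := hb.commutator_le
  have hAA : A ≤ 𝐂(A) := hAU.trans ((elem_le_cent eU).trans (centralizer_anti hAU))
  have hBB : B ≤ 𝐂(B) := hBW.trans ((elem_le_cent eW).trans (centralizer_anti hBW))
  have hAB : A ≤ 𝐂(B) := hAU.trans (hUW.trans (centralizer_anti hBW))
  have hBA := Subgroup.le_centralizer_iff.1 hAB
  have xB := centralizer_anti hBW xc'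
  have yA := centralizer_anti hAU yc'
  have hKA : zpowers x ⊔ zpowers y ≤ 𝐍(A) := sup_le ha.commutator.norm
    (Subgroup.zpowers_le.2 (Subgroup.centralizer_le_normalizer _ yA))
  have hKB : zpowers x ⊔ zpowers y ≤ 𝐍(B) :=
    sup_le (Subgroup.zpowers_le.2 (Subgroup.centralizer_le_normalizer _ xB)) hb.commutator.norm
  set H := (A ⊔ B) ⊔ (zpowers x ⊔ zpowers y)
  have hAH : A ≤ H := le_sup_left.trans le_sup_left
  have hBH : B ≤ H := le_sup_right.trans le_sup_left
  have hxH : zpowers x ≤ H := le_sup_left.trans le_sup_right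
  have hyH : zpowers y ≤ H := le_sup_right.trans le_sup_right
  have := sgOf_normal_sup (le_normalizer_sup hKA hKB)
  have := (sgOf_normal_iff hAH).2 (sup_le (sup_le Subgroup.le_normalizer
    (le_normalizer_of_le_centralizer hBA)) hKA)
  have := (sgOf_normal_iff hBH).2 (sup_le (sup_le (le_normalizer_of_le_centralizer hAB)
    Subgroup.le_normalizer) hKB)
  have := (sgOf_comm_iff (H := A ⊔ B) (M := H) le_sup_left).2 (comm_iff_le_cent.2 (by
    rw [centralizer_sup]; exact le_inf (sup_le hAA hBA) (sup_le hAB hBB)))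
  refine indep_core (N := (A ⊔ B).subgroupOf H) (h.wt_le (sup_le (sup_le (hAU.trans hU)
    (hBW.trans hW)) (sup_le (Subgroup.zpowers_le.2 hxL) (Subgroup.zpowers_le.2 hyL))))
    (x := ⟨x, Subgroup.zpowers_le.1 hxH⟩) (y := ⟨y, Subgroup.zpowers_le.1 hyH⟩)
    (sgOf_sup hAH hBH).symm ?_ ?_ ?_ ?_ ?_ ((sgOf_cent hBH).le xB) ((sgOf_cent hAH).le yA)
    (mt (sgOf_eq_bot_iff hAH).1 fun e => xc ?_) (mt (sgOf_eq_bot_iff hBH).1 fun e => yc ?_)
  · rw [← sgOf_zpowers, ← sgOf_zpowers, ← sgOf_sup hxH hyH, sgOf_sup_eq_top]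
  · exact (((elem_isPGroup eU).to_le hAU).to_sup_of_normal_right' ((elem_isPGroup eW).to_le hBW)
      (le_normalizer_of_le_centralizer hAB)).comap_subtype
  · rwa [← sgOf_zpowers, ← sgOf_zpowers, ← sgOf_sup hxH hyH, card_subgroupOf_of_le le_sup_right]
  · rw [← sgOf_zpowers]
    exact sgOf_comm_eq hAH hxH ha.commutator_commutator_eq
  · rw [← sgOf_zpowers]
    exact sgOf_comm_eq hBH hyH hb.commutator_commutator_eq
  · exact Subgroup.zpowers_le.1 (Subgroup.le_centralizer_iff.1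
      (Subgroup.commutator_eq_bot_iff_le_centralizer.1 e))
  · exact Subgroup.zpowers_le.1 (Subgroup.le_centralizer_iff.1
      (Subgroup.commutator_eq_bot_iff_le_centralizer.1 e))

theorem quat_core (h : wt G ≤ 0) {W : Subgroup G} [W.Normal] {x s : G} (hD : W ⊔ zpowers x = N)
    (hs : N ⊔ zpowers s = ⊤) (hW : ⁅W, zpowers x⁆ = W) (hx : IsPElt 3 x) (hxW : x ∉ W)
    (h1 : ¬ W ≤ ⁅W, W⁆) (h2 : ⁅W, W⁆ ≠ ⊥) (hsx : s * x * s⁻¹ = x⁻¹) : False := by
  have := isCyclic_quotient_of_sup_zpowers_eq_top hs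
  have hWN : W ≤ N := hD ▸ le_sup_left
  have hxN : zpowers x ≤ N := hD ▸ le_sup_right
  obtain ⟨k, hk⟩ := hx.exists_pow_eq_one
  have hc : N ≤ commutator G := hD.ge.trans (sup_le (le_commutator_of_eq hW)
    (Subgroup.zpowers_le.2 (by
      have e : ⁅x, s⁆ = x ^ 2 := by
        rw [commutatorElement_def, mul_assoc x, mul_assoc x, ← conj_inv, hsx, inv_inv, sq]
      obtain ⟨j, hj⟩ := (show Odd 3 by decide).pow (n := k)
      have : x = (⁅x, s⁆ ^ j)⁻¹ := by
        rw [eq_inv_iff_mul_eq_one, e, ← pow_mul, ← pow_succ', ← hj, hk]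
      rw [this]
      exact inv_mem (pow_mem (Subgroup.commutator_mem_commutator (Subgroup.mem_top x)
        (Subgroup.mem_top s)) _))))
  set x' : N := ⟨x, Subgroup.zpowers_le.1 hxN⟩
  have hM : W.subgroupOf N ⊔ zpowers x' = ⊤ := by
    rw [← sgOf_zpowers, ← sgOf_sup hWN hxN, hD, Subgroup.subgroupOf_self]
  have hM' : ⁅W.subgroupOf N, zpowers x'⁆ = W.subgroupOf N := by
    rw [← sgOf_zpowers]
    exact sgOf_comm_eq hWN hxN hW
  obtain ⟨w, hw, hw'⟩ := SetLike.not_le_iff_exists.1 h1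
  obtain ⟨φ, h3, h4⟩ := exists_irr_le_ker_apply_ne ((⁅W, W⁆ : Subgroup G).subgroupOf N)
    (g := ⟨w, hWN hw⟩) hw'
  have h5 : 3 ≤ charDegree φ.1 := by
    obtain ⟨θ, hθ⟩ := exists_irr_liesUnder (W.subgroupOf N) φ
    obtain ⟨f, rfl⟩ := (exists_linChar_eq_iff θ).2 ((irr_commutator_le_ker_iff θ).1 (le_trans (by
      rw [(irr_isCharacter φ).ker_res, ← sgOf_der, ← sgOf_commutator hWN hWN]
      exact Subgroup.comap_mono h3)
      (((irr_isCharacter φ).res _).ker_le_of_ip_ne_zero θ hθ)))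
    rw [clifford_degree hθ, charDegree_linChar, mul_one]
    refine (le_index_of_ne (isPElt_coe.1 hx) hM (index_ne_one hM' fun e => h4 ?_)).trans
      (Nat.le_mul_of_pos_left _ ((liesOver_iff_mult_pos (irr_isCharacter φ)
        (irr_isCharacter _)).1 hθ))
    rw [e, linChar_one] at hθ
    exact (liesOver_irrOne_iff φ).1 hθ _ hw
  have h6 : φ ≠ irrOne N := fun e => h4 (by rw [e]; rfl)
  have key : ∀ ψ : IrrCharacter N, ¬ (⁅W, W⁆ : Subgroup G).subgroupOf N ≤ ker ψ.1 →
      charDegree ψ.1 = 2 ∧ s⁻¹ • ψ = ψ := fun ψ hψ => by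
    have e1 : charDegree ψ.1 ≠ 1 := fun e => hψ (le_trans (by
      rw [← sgOf_der]; exact Subgroup.comap_mono (Subgroup.commutator_mono hWN hWN))
      ((irr_commutator_le_ker_iff ψ).2 e))
    have e2 : ψ ≠ irrOne N := fun e => e1 (by rw [e, charDegree_irrOne])
    have e3 := (good_of_isCyclic hc h6).add_le_one h hc (good_of_isCyclic hc e2) h6 e2
      fun ⟨g, e⟩ => hψ fun n hn => by
        rw [← e, irr_mem_ker_iff, conjSmul_apply_one, conjSmul_apply, ← irr_mem_ker_iff]
        exact h3 ((inferInstance : (⁅W, W⁆ : Subgroup G).Normal).conj_mem _ hn g⁻¹)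
    have e4 : ∀ χ : IrrCharacter N, (2 : ℚ) / (stabilizer G χ).index ≤ 2 := fun χ =>
      div_le_self zero_le_two (Nat.one_le_cast.2 (index_pos _))
    have e5 : (3 : ℚ) ≤ charDegree φ.1 := by exact_mod_cast h5
    have e6 := irr_degree_pos ψ
    have e7 : (2 : ℚ) ≤ charDegree ψ.1 := by exact_mod_cast (by omega : 2 ≤ charDegree ψ.1)
    rw [pr, pr] at e3
    have := e4 φ
    refine ⟨by have := e4 ψ; exact_mod_cast (by linarith : (charDegree ψ.1 : ℚ) = 2), ?_⟩
    have e8 : (2 : ℚ) ≤ 2 / (stabilizer G ψ).index := by linarith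
    rw [le_div_iff₀ (Nat.cast_pos.2 (index_pos _)), mul_le_iff_le_one_right two_pos,
      Nat.cast_le_one] at e8
    exact (Subgroup.index_eq_one.1 (le_antisymm e8 (index_pos _))).ge (Subgroup.mem_top _)
  obtain ⟨z, hz, z1⟩ := (Subgroup.bot_or_exists_ne_one _).resolve_left h2
  obtain ⟨ψ, hψ⟩ := exists_irr_apply_ne (G := N) (g := ⟨z, hWN (der_le W hz)⟩)
    fun e => z1 (congrArg Subtype.val e)
  obtain ⟨μ, h7, h8⟩ := exists_units_hom_apply_ne_one
    (CT.commutator_le_of_sup_zpowers_eq_top hM) (g := x') hxW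
  obtain ⟨h9, h10⟩ := key ψ fun e => hψ ((irr_mem_ker_iff ψ).1 (e hz))
  have h11 := (key (μ • ψ) fun e => hψ (by
    simpa [MonoidHom.mem_ker.1 (h7 (x := ⟨z, hWN (der_le W hz)⟩) (der_le W hz))] using
      (irr_mem_ker_iff _).1 (e (x := ⟨z, hWN (der_le W hz)⟩) hz))).2
  rw [conjSmul_lin_smul, h10, lin_smul_eq_iff, lin_smul_eq_self_iff] at h11
  have h12 := index_dvd_degree_sq_of_vanish h11
  rw [h9, ← orderOf_units_hom] at h12
  have h13 : ((μ x')⁻¹ * μ (MulAut.conjNormal s⁻¹⁻¹ x')) ^ 2 ^ 2 = 1 :=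
    DFunLike.congr_fun (orderOf_dvd_iff_pow_eq_one.1 h12) x'
  rw [show MulAut.conjNormal s⁻¹⁻¹ x' = x'⁻¹ from Subtype.ext (by rw [inv_inv]; exact hsx),
    map_inv, ← sq, ← pow_mul, inv_pow, inv_eq_one] at h13
  refine h8 (orderOf_eq_one_iff.1 (Nat.eq_one_of_dvd_coprimes
    (Nat.Coprime.pow_right k (by norm_num : Nat.Coprime (2 * 2 ^ 2) 3))
    (orderOf_dvd_of_pow_eq_one h13) (orderOf_dvd_of_pow_eq_one ?_)))
  rw [← map_pow, show x' ^ 3 ^ k = 1 from Subtype.ext hk, map_one]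

theorem AllSm.quat {L W : Subgroup X} {x s : X} (h : AllSm L) (hW : W ≤ L) (hxL : x ∈ L)
    (hsL : s ∈ L) (hq : Nonempty (W ≃* QuaternionGroup 2)) (xn : x ∈ 𝐍(W)) (sn : s ∈ 𝐍(W))
    (hx : IsPElt 3 x) (xc : x ∉ 𝐂(W)) (hsx : s * x * s⁻¹ = x⁻¹) : False := by
  obtain ⟨e⟩ := hq
  have h8 : Nat.card W = 8 := by
    rw [Nat.card_congr e.toEquiv, Nat.card_eq_fintype_card, QuaternionGroup.card]
  have hc : ¬ 3 ∣ Nat.card W := by rw [h8]; norm_num
  have ha := coprimeAct_of_isPGroup_left (Subgroup.zpowers_le.2 xn) hx.isPGroup_zpowers hc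
  have h1 : ⁅W, zpowers x⁆ = W := by
    rcases h.odd hW hxL (by norm_num) hx hc xn xc with e' | ⟨-, ⟨e'⟩⟩ | e'
    · exfalso
      have key : ∀ q : QuaternionGroup 2, q ^ 2 = 1 → q = 1 ∨ q = .a 2 := by decide
      obtain ⟨a, ha', b, hb, a1, b1, hab⟩ := exists_four ⟨le_top, e'.1, e'.2⟩
      have key' : ∀ a (ha' : a ∈ ⁅W, zpowers x⁆), a ≠ 1 → e ⟨a, ha.commutator_le ha'⟩ = .a 2 :=
        fun a ha' a1 => (key _ (by
          rw [← map_pow, map_eq_one_iff e e.injective]
          exact Subtype.ext (e'.1.2 a ha'))).resolve_left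
          fun e'' => a1 (congrArg Subtype.val ((map_eq_one_iff e e.injective).1 e''))
      exact hab (congrArg Subtype.val (e.injective ((key' a ha' a1).trans (key' b hb b1).symm)))
    · exact Subgroup.eq_of_le_of_card_ge ha.commutator_le (Nat.card_congr (e.trans e'.symm).toEquiv).le
    · have := Subgroup.card_dvd_of_le ha.commutator_le
      rw [e'.2, h8] at this
      omega
  have hWb : W ≠ ⊥ := fun e => by rw [e, Subgroup.card_bot] at h8; omega
  have hsD : zpowers s ≤ 𝐍(W ⊔ zpowers x) := le_normalizer_sup (Subgroup.zpowers_le.2 sn)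
    (Subgroup.zpowers_le.2 (mem_normalizer_of_conj_mem fun y hy => by
      obtain ⟨n, rfl⟩ := hy
      rw [← conj_zpow, hsx]
      exact zpow_mem (inv_mem (Subgroup.mem_zpowers x)) n))
  set H := (W ⊔ zpowers x) ⊔ zpowers s
  have hWH : W ≤ H := le_sup_left.trans le_sup_left
  have hxH : zpowers x ≤ H := le_sup_right.trans le_sup_left
  have := sgOf_normal_sup hsD
  have := (sgOf_normal_iff hWH).2 (sup_le (sup_le Subgroup.le_normalizer ha.norm)
    (Subgroup.zpowers_le.2 sn))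
  refine quat_core (N := (W ⊔ zpowers x).subgroupOf H) (W := W.subgroupOf H)
    (h.wt_le (sup_le (sup_le hW (Subgroup.zpowers_le.2 hxL)) (Subgroup.zpowers_le.2 hsL)))
    (x := ⟨x, Subgroup.zpowers_le.1 hxH⟩) (s := ⟨s, Subgroup.zpowers_le.1 le_sup_right⟩)
    ?_ ?_ ?_ (isPElt_coe.1 hx) (fun e => xc ?_) ?_ ?_ (Subtype.ext hsx)
  · rw [← sgOf_zpowers, ← sgOf_sup hWH hxH]
  · rw [← sgOf_zpowers, sgOf_sup_eq_top]
  · rw [← sgOf_zpowers]
    exact sgOf_comm_eq hWH hxH h1
  · rw [Subgroup.mem_bot.1 (ha.disjoint.le_bot (x := x) ⟨e, Subgroup.mem_zpowers x⟩)]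
    exact one_mem _
  · rw [← sgOf_commutator hWH hWH, sgOf_le_iff hWH]
    exact fun e => h.commutator_ne_top hW hWb (by rw [← sgOf_der, Subgroup.subgroupOf_eq_top.2 e])
  · rw [← sgOf_commutator hWH hWH, Ne, sgOf_eq_bot_iff ((der_le W).trans hWH),
      Subgroup.commutator_eq_bot_iff_le_centralizer]
    intro e'
    have key : (QuaternionGroup.a 1 : QuaternionGroup 2) * .xa 0 ≠ .xa 0 * .a 1 := by decide
    refine key (e.symm.injective ?_)
    rw [map_mul, map_mul]
    exact Subtype.ext (e' (e.symm _).2 _ (e.symm _).2)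

instance instTools : Tools.{u} where
  map h f := h.map f
  solv h := h.solv
  odd h := h.odd
  inv h := h.inv
  four h := h.four
  sym h := h.sym
  quat h := h.quat
  indep h := h.indep
  eight h := h.eight

end SAD
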