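import Cfsg.Agent.Lib.Char.SzStr

/-!
# The character degrees of a Suzuki group
-/

set_option autoImplicit false
set_option linter.unusedSectionVars false

namespace CT

open Cfsg Subgroup
open scoped ComplexConjugate commutatorElement

variable {G : Type*} [Group G] [Finite G]

open Classical in
theorem isCharacter_reg_sub (N : Subgroup G) [N.Normal] {d : ℕ} (hd0 : d ≠ 0)
    (hd : ∀ ξ : IrrCharacter G, ¬ N ≤ ker ξ.1 → d ∣ charDegree ξ.1) {θ : G → ℂ}
    (hθ : ∀ g, d * θ g = (if g = 1 then (Nat.card G : ℂ) else 0) -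
      if g ∈ N then (N.index : ℂ) else 0) : IsCharacter G θ := by
  have : θ = ∑ ξ : IrrCharacter G with ¬ N ≤ ker ξ.1,
      ((charDegree ξ.1 / d : ℕ) : ℂ) • ξ.1 := by
    funext g
    refine mul_left_cancel₀ (Nat.cast_ne_zero.2 hd0) ?_
    rw [hθ, ← sum_irr_degree_mul, ← sum_le_ker_degree_mul N g,
      ← Finset.sum_filter_add_sum_filter_not Finset.univ (fun ξ : IrrCharacter G => N ≤ ker ξ.1),
      add_sub_cancel_left, Finset.sum_apply, Finset.mul_sum]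
    refine Finset.sum_congr rfl fun ξ hξ => ?_
    rw [Pi.smul_apply, smul_eq_mul, ← mul_assoc, ← Nat.cast_mul,
      Nat.mul_div_cancel' (hd ξ (Finset.mem_filter.1 hξ).2), irr_apply_one]
  rw [this]
  exact isCharacter_sum _ _ fun ξ _ => (irr_isCharacter ξ).nsmul _

theorem eq_of_sum_sq_eq_two_mul {ι : Type*} {R : Finset ι} {g : ι → ℕ} {D : ℕ} (hD : 0 < D)
    (h : ∀ x ∈ R, D ≤ g x) (hs : ∑ x ∈ R, g x ^ 2 = 2 * D ^ 2) :
    R.Nonempty ∧ ∀ x ∈ R, g x = D := by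
  classical
  refine ⟨Finset.nonempty_of_sum_ne_zero (by rw [hs]; positivity), fun x hx => ?_⟩
  by_contra hne
  have h1 : D < g x := lt_of_le_of_ne (h x hx) (Ne.symm hne)
  rw [← Finset.add_sum_erase R _ hx] at hs
  rcases (R.erase x).eq_empty_or_nonempty with e | ⟨y, hy⟩
  · rw [e, Finset.sum_empty, add_zero] at hs
    have h2 := congrArg (padicValNat 2) hs
    rw [padicValNat.mul two_ne_zero (by positivity), padicValNat.pow, padicValNat.pow,
      padicValNat_self] at h2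
    omega
  · have h2 := Finset.single_le_sum (f := fun x => g x ^ 2) (fun _ _ => Nat.zero_le _) hy
    have h3 := h y (Finset.mem_of_mem_erase hy)
    nlinarith

namespace SzStr

variable {m : ℕ} {Z Q K B : Subgroup G} {w : G} (S : SzStr m Z Q K B w)
include S

theorem normalZ : (Z.subgroupOf B).Normal := ⟨fun a ha n => by
  have := S.normZ _ (B.inv_mem n.2) _ ha
  rw [inv_inv] at this
  exact this⟩

theorem card_subQ : Nat.card (Q.subgroupOf B) = (2 ^ (2 * m + 1)) ^ 2 := by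
  rw [Nat.card_congr (subgroupOfEquivOfLe S.QB).toEquiv, S.cardQ]

theorem card_subZ : Nat.card (Z.subgroupOf B) = 2 ^ (2 * m + 1) := by
  rw [Nat.card_congr (subgroupOfEquivOfLe (S.ZQ.trans S.QB)).toEquiv, S.cardZ]

theorem index_subQ : (Q.subgroupOf B).index = Nat.card K :=
  Nat.eq_of_mul_eq_mul_right (Nat.card_pos (α := Q.subgroupOf B)) (by
    rw [index_mul_card, S.cardB, S.card_subQ, S.cardQ, mul_comm])

theorem index_subZ : (Z.subgroupOf B).index = 2 ^ (2 * m + 1) * Nat.card K :=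
  Nat.eq_of_mul_eq_mul_right (Nat.card_pos (α := Z.subgroupOf B)) (by
    rw [index_mul_card, S.cardB, S.card_subZ, S.cardQ]; ring)

theorem exists_ind_borel {ξ : IrrCharacter B} (hξ : ¬ Q.subgroupOf B ≤ ker ξ.1) :
    ∃ θ : IrrCharacter (Q.subgroupOf B), ind _ θ.1 = ξ.1 := by
  have := S.tiQ.normal
  obtain ⟨θ, -, e⟩ := exists_ind_eq_of_centralizer_le (N := Q.subgroupOf B) (fun x hx h1 y hy => by
    refine S.centralizer_le_Q hx (fun e => h1 (Subtype.ext e)) ?_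
    rw [mem_centralizer_singleton_iff] at hy ⊢
    exact congrArg Subtype.val hy) hξ
  exact ⟨θ, e⟩

theorem degree_borel {ξ : IrrCharacter B} (hξ : ¬ Z.subgroupOf B ≤ ker ξ.1) :
    charDegree ξ.1 = Nat.card K * 2 ^ m := by
  have := S.normalZ
  have hZQ : Z.subgroupOf B ≤ Q.subgroupOf B := fun x hx => S.ZQ hx
  obtain ⟨θ, e⟩ := S.exists_ind_borel fun h => hξ (hZQ.trans h)
  rw [← e, charDegree_ind (irr_isCharacter θ), S.index_subQ]
  congr 1
  set ι : Q.subgroupOf B →* G := B.subtype.comp (Q.subgroupOf B).subtype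
  have hι : Function.Injective ι := B.subtype_injective.comp (Q.subgroupOf B).subtype_injective
  have hc : ∀ x : Q.subgroupOf B, ι x ∈ Z → x ∈ center θ.1 := fun x hx =>
    center_le_center_irr θ (mem_center_iff.2 fun y => hι (by
      rw [map_mul, map_mul]; exact S.cent _ hx _ y.2))
  have h1 : charDegree θ.1 ^ 2 = (center θ.1).index :=
    irr_degree_sq_eq_index_center_of_commutator_le θ (commutator_le.2 fun a _ b _ => hc _ (by
      rw [map_commutatorElement]; exact S.comm _ a.2 _ b.2))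
  have h2 : Nat.card ((center θ.1).map ι) = Nat.card (center θ.1) :=
    card_map_of_injective hι
  have h3 : 2 ^ (2 * m + 1) ≤ Nat.card (center θ.1) := by
    rw [← h2, ← S.cardZ]
    exact card_le_of_le fun z hz => ⟨⟨⟨z, S.QB (S.ZQ hz)⟩, S.ZQ hz⟩, hc _ hz, rfl⟩
  have h4 : Nat.card (center θ.1) ≤ 2 * 2 ^ (2 * m + 1) := by
    rw [← h2]
    refine S.rad ((ker θ.1).map ι ⊓ Z) _ (lt_of_le_of_ne inf_le_right fun h => hξ ?_) ?_ ?_
    · rw [← e]
      refine le_ker_ind_of_normal hZQ fun x hx => ?_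
      obtain ⟨y, hy, e'⟩ := (inf_eq_right.1 h) (show ι x ∈ Z from hx)
      exact hι e' ▸ hy
    · rintro _ ⟨x, -, rfl⟩; exact x.2
    · rintro _ ⟨x, hx, rfl⟩ v hv
      exact ⟨⟨⁅(⟨⟨v, S.QB hv⟩, hv⟩ : Q.subgroupOf B), x⁆,
        commutatorElement_mem_ker_of_mem_center (irr_isClassFunction θ) hx _,
        map_commutatorElement _ _ _⟩, S.comm v hv _ x.2⟩
  obtain ⟨j, hj⟩ := exists_degree_eq_pow_of_isPGroup (p := 2)
    (IsPGroup.of_card (by rw [S.card_subQ, ← pow_mul])) θ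
  have h5 := (center θ.1).index_mul_card
  rw [← h1, hj, S.card_subQ] at h5
  have h6 : 2 ^ (j * 2 + (2 * m + 1)) ≤ 2 ^ ((2 * m + 1) * 2) := by
    rw [pow_add, pow_mul, pow_mul, ← h5]; exact Nat.mul_le_mul_left _ h3
  have h7 : 2 ^ ((2 * m + 1) * 2) ≤ 2 ^ (j * 2 + ((2 * m + 1) + 1)) := by
    rw [pow_add, pow_mul, pow_mul, ← h5, pow_succ' 2 (2 * m + 1)]; exact Nat.mul_le_mul_left _ h4
  rw [Nat.pow_le_pow_iff_right one_lt_two] at h6 h7
  rw [hj, show j = m by omega]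

theorem le_degree {χ : IrrCharacter G} (h : χ ≠ irrOne G) :
    Nat.card K * 2 ^ m ≤ charDegree χ.1 := by
  have h1 : ¬ Z ≤ ker χ.1 := fun e => h ((ker_irr_eq_top_iff χ).1 (S.eq_top_of_normal e))
  obtain ⟨z, hz, h2⟩ := SetLike.not_le_iff_exists.1 h1
  have hc := (irr_isCharacter χ).res B
  have h3 : (⟨z, S.QB (S.ZQ hz)⟩ : B) ∉ ker (res B χ.1) := fun e =>
    h2 ((irr_mem_ker_iff χ).2 (ker_apply_eq (χ := res B χ.1) e))
  rw [mem_ker_iff_forall_constituent hc.isClassFunction] at h3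
  push Not at h3
  obtain ⟨ξ, h4, h5⟩ := h3
  rw [← S.degree_borel (ξ := ξ) fun e => h5 (e hz)]
  exact hc.degree_le_of_ip_ne_zero ξ h4

end SzStr

open Classical in
/-- A class function on the Borel subgroup. -/
noncomputable def szFun (Z Q B : Subgroup G) (x y : ℂ) : B → ℂ := fun b =>
  (if b = 1 then x else 0) - (if (b : G) ∈ Q then 1 else 0) - if (b : G) ∈ Z then y else 0

namespace SzStr

variable {m : ℕ} {Z Q K B : Subgroup G} {w : G} (S : SzStr m Z Q K B w)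
include S

theorem cast_cardK : (Nat.card K : ℂ) = 2 * (2 ^ m) ^ 2 - 1 := by
  have h : ((Nat.card K + 1 : ℕ) : ℂ) = ((2 ^ (2 * m + 1) : ℕ) : ℂ) := by rw [S.cardK]
  push_cast at h
  linear_combination h

theorem cast_cardB : (Nat.card B : ℂ) = (2 * (2 ^ m) ^ 2) ^ 2 * Nat.card K := by
  rw [S.cardB, S.cardQ]; push_cast; ring

theorem isGen_szFun (c : ℤ) : IsGeneralizedCharacter B (szFun Z Q B
    ((2 * (2 ^ m) ^ 2) ^ 2 + c * (2 * 2 ^ m) * (2 * (2 ^ m) ^ 2)) (c * (2 * 2 ^ m))) := by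
  classical
  have := S.normalZ
  have := S.tiQ.normal
  have hk : Nat.card K ≠ 0 := Nat.card_pos.ne'
  have h1 := isCharacter_reg_sub (Q.subgroupOf B) hk (fun ξ hξ => by
      obtain ⟨θ, e⟩ := S.exists_ind_borel hξ
      rw [← e, charDegree_ind (irr_isCharacter θ), S.index_subQ]
      exact Dvd.intro _ rfl)
    (θ := fun b => (if b = 1 then (2 * (2 ^ m) ^ 2) ^ 2 else 0) - if (b : G) ∈ Q then 1 else 0)
    (fun b => by
      rw [S.index_subQ, S.cast_cardB, mem_subgroupOf]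
      split_ifs <;> ring)
  have h2 := isCharacter_reg_sub (Z.subgroupOf B) (d := Nat.card K * 2 ^ m) (by positivity)
    (fun ξ hξ => by rw [S.degree_borel hξ])
    (θ := fun b => (if b = 1 then (2 * 2 ^ m) * (2 * (2 ^ m) ^ 2) else 0) -
      if (b : G) ∈ Z then 2 * 2 ^ m else 0)
    (fun b => by
      rw [S.index_subZ, S.cast_cardB, mem_subgroupOf]
      push_cast
      split_ifs <;> ring)
  convert h1.isGen.add (h2.isGen.zsmul c) using 1
  funext b
  simp only [szFun, Pi.add_apply, Pi.smul_apply, smul_eq_mul]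
  split_ifs <;> ring

theorem szFun_eq_zero (x y : ℂ) (b : B) (hb : (b : G) ∉ Q) : szFun Z Q B x y b = 0 := by
  have h1 : b ≠ 1 := by rintro rfl; exact hb Q.one_mem
  simp [szFun, h1, hb, show (b : G) ∉ Z from fun h => hb (S.ZQ h)]

omit S in
theorem szFun_one (x y : ℂ) : szFun Z Q B x y 1 = x - 1 - y := by
  simp [szFun]

theorem ip_szFun (x y : ℂ) (hx : conj x = x) (hy : conj y = y) :
    Nat.card B * ip (szFun Z Q B x y) (szFun Z Q B x y) =
      x ^ 2 - 2 * x - 2 * x * y + (2 * (2 ^ m) ^ 2) ^ 2 + (y ^ 2 + 2 * y) * (2 * (2 ^ m) ^ 2) := by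
  classical
  have := Fintype.ofFinite B
  rw [ip_def, mul_inv_cancel_left₀ card_cast_ne_zero]
  have key : ∀ b : B, szFun Z Q B x y b * conj (szFun Z Q B x y b) =
      (if b = 1 then x ^ 2 - 2 * x - 2 * x * y else 0) +
        (if b ∈ Q.subgroupOf B then 1 else 0) +
        (y ^ 2 + 2 * y) * if b ∈ Z.subgroupOf B then 1 else 0 := by
    intro b
    simp only [szFun, mem_subgroupOf]
    by_cases h1 : b = 1
    · simp [h1, hx, hy]; ring
    by_cases h2 : (b : G) ∈ Z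
    · simp [h1, h2, S.ZQ h2, hy]; ring
    by_cases h3 : (b : G) ∈ Q <;> simp [h1, h2, h3]
  have cnt : ∀ H : Subgroup B, ∑ b : B, (if b ∈ H then (1 : ℂ) else 0) = Nat.card H := by
    intro H
    rw [Finset.sum_boole, Nat.card_eq_fintype_card, Fintype.card_subtype]
  simp only [key, Finset.sum_add_distrib, ← Finset.mul_sum, cnt, Finset.sum_ite_eq',
    Finset.mem_univ, if_true, S.card_subQ, S.card_subZ]
  push_cast
  ring

/-- The generalised characters induced from the Borel subgroup. -/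
theorem exists_gen (c : ℤ) : ∃ f : G → ℂ, IsGeneralizedCharacter G f ∧
    (∀ g ∈ notConjInto B, f g = 0) ∧ (∀ g ∈ K, g ≠ 1 → f g = 0) ∧
    f 1 = ((2 * (2 ^ m) ^ 2) ^ 2 + 1) * (Nat.card K * (2 * (2 ^ m) ^ 2 + 1 + c * (2 * 2 ^ m))) ∧
    ip f f = 2 * (2 ^ m) ^ 2 + 1 + 2 * c * (2 * 2 ^ m) + 2 * c ^ 2 +
      Nat.card K * (2 * (2 ^ m) ^ 2 + 1 + c * (2 * 2 ^ m)) ^ 2 := by
  have hg := S.isGen_szFun c
  have hI : (B.index : ℂ) = (2 * (2 ^ m) ^ 2) ^ 2 + 1 := by rw [S.indexB]; push_cast; ring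
  refine ⟨ind B _, hg.ind, fun g h => ind_apply_eq_zero _ h, fun g h h1 => ?_, ?_, ?_⟩
  · refine ind_apply_eq_zero' fun b hb => S.szFun_eq_zero _ _ b fun hq => ?_
    obtain ⟨x, hx⟩ := isConj_iff.1 hb
    exact Set.disjoint_left.1 S.disjoint_QK ⟨h1, x⁻¹, by rw [inv_inv, hx]; exact hq⟩
      ⟨h1, 1, by simpa using h⟩
  · rw [ind_apply_one, hI, szFun_one, S.cast_cardK]; ring
  · have h2 := S.ip_szFun ((2 * (2 ^ m) ^ 2) ^ 2 + c * (2 * 2 ^ m) * (2 * (2 ^ m) ^ 2))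
      (c * (2 * 2 ^ m)) (by simp [map_ofNat]) (by simp [map_ofNat])
    rw [S.tiQ.ip_ind_ind hg.isClassFunction (S.szFun_eq_zero _ _) (S.szFun_eq_zero _ _), hI,
      szFun_one]
    refine mul_left_cancel₀ (card_cast_ne_zero (G := B)) ?_
    rw [mul_add, h2, mul_div_cancel₀ _ (card_cast_ne_zero (G := B)), S.cast_cardB, S.cast_cardK]
    simp only [map_sub, map_add, map_mul, map_pow, map_one, map_intCast, map_ofNat]
    ring

theorem exists_steinberg : ∃ χ : IrrCharacter G, charDegree χ.1 = (2 ^ (2 * m + 1)) ^ 2 := by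
  have h1 : ip (ind B fun _ => 1) (ind B fun _ => 1) = 2 := by
    rw [ip_ind_ind_eq_sum_doubleCoset B B (fun i : Bool => if i then w else 1) ?_
      isCharacter_one.isClassFunction isCharacter_one.isClassFunction]
    · have : ∀ x : G, ip (res (mackeySub B B x) fun _ => (1 : ℂ)) (fun _ => 1) = 1 :=
        fun x => ip_irr_self (irrOne _)
      simp only [this]
      simp
    · intro g
      have aux : ∀ a ∈ B, ∀ b ∈ B, a * w * b ∉ B := fun a ha b hb h => S.w_notMem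
        ((B.mul_mem_cancel_left ha).1 ((B.mul_mem_cancel_right hb).1 h))
      by_cases hg : g ∈ B
      · refine ⟨false, ⟨g, hg, 1, B.one_mem, by simp⟩, ?_⟩
        rintro (_ | _) ⟨a, ha, b, hb, e⟩
        · rfl
        · exact absurd (e ▸ hg) (aux a ha b hb)
      · obtain ⟨u, hu, b, hb, rfl⟩ := S.bruhat g hg
        refine ⟨true, ⟨u, S.QB hu, b, hb, rfl⟩, ?_⟩
        rintro (_ | _) ⟨a, ha, b, hb, e⟩
        · exact absurd (e ▸ B.mul_mem (B.mul_mem ha B.one_mem) hb) hg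
        · rfl
  have hπ : IsCharacter G (ind B fun _ => 1) := isCharacter_one.ind
  have h2 : ip (ind B fun _ => 1) (irrOne G).1 = 1 := ip_ind_one_one B
  have h3 := hπ.sub_irr (irrOne G) (by rw [h2]; exact one_ne_zero)
  refine ⟨⟨_, h3.isIrr_iff_ip_self.2 ?_⟩, charDegree_eq_of_apply_one ?_⟩
  · rw [ip_sub_left, ip_sub_right, ip_sub_right, h1, ← hπ.ip_comm (irr_isCharacter _), h2,
      ip_irr_self]
    norm_num
  · simp only [Pi.sub_apply, ind_apply_one, S.indexB, irrOne_apply]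
    push_cast; ring

theorem exists_principal : ∃ E : Finset (IrrCharacter G), E.card * 2 + 1 = Nat.card K ∧
    ∀ χ ∈ E, charDegree χ.1 = (2 ^ (2 * m + 1)) ^ 2 + 1 := by
  obtain ⟨f, h1, -, h2, h3, h4⟩ := S.exists_gen 0
  have := S.caK.comm
  have h := S.caK.tiSub.exists_family (fun x hx h => (S.caK.cent x hx h).le) h1 h2
    (d := (2 ^ (2 * m + 1)) ^ 2 + 1)
    (by rw [h3, h4, S.relIndex_K, S.indexK, S.cast_cardK]; push_cast; ring)
    (by rw [h3, S.indexK, S.cast_cardK]; push_cast; ring)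
  rwa [S.relIndex_K] at h

theorem exists_cusp {A : Subgroup G} (T : SzTorus B A) {c : ℤ} (hc : c ^ 2 = 1) {a : ℕ}
    (hA : (Nat.card A : ℂ) = 2 * (2 ^ m) ^ 2 + 1 - c * (2 * 2 ^ m))
    (ha : (a : ℂ) = 2 * (2 ^ m) ^ 2 + 1 + c * (2 * 2 ^ m)) :
    ∃ E : Finset (IrrCharacter G), E.card * 4 + 1 = Nat.card A ∧
      ∀ χ ∈ E, charDegree χ.1 = Nat.card K * a := by
  obtain ⟨f, h1, h2, -, h3, h4⟩ := S.exists_gen c
  have := T.ca.comm
  have hI : (A.index : ℂ) = a * ((2 * (2 ^ m) ^ 2) ^ 2 * Nat.card K) := by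
    refine mul_right_cancel₀ (card_cast_ne_zero (G := A)) ?_
    rw [← Nat.cast_mul, index_mul_card, S.cardG, hA, ha]
    rcases sq_eq_one_iff.1 hc with rfl | rfl <;> push_cast <;> ring
  rw [← T.four]
  refine T.ca.tiSub.exists_family (fun x hx h => (T.ca.cent x hx h).le) h1
    (fun x hx h => h2 x (T.sub x hx h)) ?_ ?_
  · rw [h3, h4, T.four, hI, S.cast_cardK, hA, ha]
    rcases sq_eq_one_iff.1 hc with rfl | rfl <;> push_cast <;> ring
  · rw [h3, hI]; push_cast; rw [ha]; ring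

theorem charDegrees_eq : ∃ a : ℕ, a + 2 ^ (m + 1) = 2 ^ (2 * m + 1) + 1 ∧
    charDegrees G = {1, (2 ^ (2 * m + 1)) ^ 2, (2 ^ (2 * m + 1)) ^ 2 + 1,
      Nat.card K * (2 ^ (2 * m + 1) + 1 + 2 ^ (m + 1)), Nat.card K * a, Nat.card K * 2 ^ m} := by
  classical
  obtain ⟨A₁, A₂, T₁, T₂, c₁, c₂⟩ := S.exists_tori
  have hA₁ : (Nat.card A₁ : ℂ) = 2 * (2 ^ m) ^ 2 + 1 + 2 * 2 ^ m := by
    rw [c₁]; push_cast; ring
  have hA₂ : (Nat.card A₂ : ℂ) = 2 * (2 ^ m) ^ 2 + 1 - 2 * 2 ^ m := by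
    have h : ((Nat.card A₂ + 2 ^ (m + 1) : ℕ) : ℂ) = ((2 ^ (2 * m + 1) + 1 : ℕ) : ℂ) := by rw [c₂]
    push_cast at h
    linear_combination h
  obtain ⟨St, hSt⟩ := S.exists_steinberg
  obtain ⟨E₀, n₀, d₀⟩ := S.exists_principal
  obtain ⟨E₁, n₁, d₁⟩ := S.exists_cusp T₁ (c := -1) (by norm_num) (a := Nat.card A₂)
    (by rw [hA₁]; push_cast; ring) (by rw [hA₂]; push_cast; ring)
  obtain ⟨E₂, n₂, d₂⟩ := S.exists_cusp T₂ (c := 1) (by norm_num) (a := Nat.card A₁)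
    (by rw [hA₂]; push_cast; ring) (by rw [hA₁]; push_cast; ring)
  refine ⟨Nat.card A₂, c₂, ?_⟩
  rw [← c₁]
  have hK := S.cardK
  have h8 := S.eight_le
  have hG := S.cardG
  have hs : 2 ≤ 2 ^ m := by
    calc 2 = 2 ^ 1 := rfl
      _ ≤ _ := Nat.pow_le_pow_right two_pos S.hm
  have hlow := fun χ h => S.le_degree (χ := χ) h
  have e1 : 2 ^ (2 * m + 1) = 2 * (2 ^ m) ^ 2 := by ring
  rw [pow_succ' 2 m] at c₁ c₂
  rw [e1] at hK h8 hG hSt d₀ c₁ c₂ ⊢
  set k := Nat.card K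
  set a₁ := Nat.card A₁
  set a₂ := Nat.card A₂
  set s := 2 ^ m
  have d1 := charDegree_irrOne (G := G)
  have ne : ∀ a b : ℕ, b ≤ 2 → 0 < b → k * a ≠ b ∧ k * a ≠ (2 * s ^ 2) ^ 2 - 1 + b := by
    intro a b h1 h2
    have h3 : ¬ k ∣ b := fun h => by have := Nat.le_of_dvd h2 h; omega
    refine ⟨fun e => h3 ⟨a, e.symm⟩, fun e => h3 ?_⟩
    have h4 : (2 * s ^ 2) ^ 2 - 1 = k * (k + 2) := by
      rw [← hK]; exact Nat.sub_eq_of_eq_add (by ring)
    rw [h4] at e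
    exact (Nat.dvd_add_right (Dvd.intro _ rfl)).1 ⟨a, e.symm⟩
  have hq : 1 < (2 * s ^ 2) ^ 2 := by nlinarith
  have ne1 := fun a => (ne a 1 (by omega) (by omega)).1
  have ne2 : ∀ a, k * a ≠ (2 * s ^ 2) ^ 2 := fun a => by
    have := (ne a 1 (by omega) (by omega)).2; omega
  have ne3 : ∀ a, k * a ≠ (2 * s ^ 2) ^ 2 + 1 := fun a => by
    have := (ne a 2 (by omega) (by omega)).2; omega
  have ne4 : k * a₂ ≠ k * a₁ := fun e => by
    have := Nat.eq_of_mul_eq_mul_left (by omega) e; omega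
  have j₁ : Disjoint E₁ E₂ :=
    Finset.disjoint_left.2 fun χ h h' => ne4 ((d₁ χ h).symm.trans (d₂ χ h'))
  have j₀ : Disjoint E₀ (E₁ ∪ E₂) := Finset.disjoint_union_right.2
    ⟨Finset.disjoint_left.2 fun χ h h' => ne3 _ ((d₁ χ h').symm.trans (d₀ χ h)),
    Finset.disjoint_left.2 fun χ h h' => ne3 _ ((d₂ χ h').symm.trans (d₀ χ h))⟩
  have j₂ : St ∉ E₀ ∪ (E₁ ∪ E₂) := by
    simp only [Finset.mem_union, not_or]
    exact ⟨fun h => by have := d₀ _ h; omega, fun h => ne2 _ ((d₁ _ h).symm.trans hSt),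
      fun h => ne2 _ ((d₂ _ h).symm.trans hSt)⟩
  have j₃ : irrOne G ∉ insert St (E₀ ∪ (E₁ ∪ E₂)) := by
    simp only [Finset.mem_insert, Finset.mem_union, not_or]
    exact ⟨fun h => by rw [h] at d1; omega, fun h => by have := d₀ _ h; omega,
      fun h => ne1 _ ((d₁ _ h).symm.trans d1), fun h => ne1 _ ((d₂ _ h).symm.trans d1)⟩
  set T := insert (irrOne G) (insert St (E₀ ∪ (E₁ ∪ E₂))) with hT
  have hsum := sum_irr_degree_sq (G := G)
  rw [← Finset.sum_sdiff (Finset.subset_univ T), hT, Finset.sum_insert j₃, Finset.sum_insert j₂,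
    Finset.sum_union j₀, Finset.sum_union j₁,
    Finset.sum_congr rfl (s₁ := E₀) (g := fun _ => _) fun χ h => by rw [d₀ χ h],
    Finset.sum_congr rfl (s₁ := E₁) (g := fun _ => _) fun χ h => by rw [d₁ χ h],
    Finset.sum_congr rfl (s₁ := E₂) (g := fun _ => _) fun χ h => by rw [d₂ χ h],
    Finset.sum_const, Finset.sum_const, Finset.sum_const, d1, hSt, hG, ← hT] at hsum
  simp only [smul_eq_mul] at hsum
  obtain ⟨⟨ψ, hψ⟩, hR⟩ := eq_of_sum_sq_eq_two_mul (R := Finset.univ \ T)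
    (g := fun χ => charDegree χ.1) (D := k * s) (Nat.mul_pos (by omega) (by omega))
    (fun χ h => hlow χ fun e => (Finset.mem_sdiff.1 h).2 (e ▸ Finset.mem_insert_self _ _)) (by
      zify at hsum n₀ n₁ n₂ hK c₁ c₂ ⊢
      have f₀ : (k : ℤ) = 2 * s ^ 2 - 1 := by linarith
      have f₂ : (a₂ : ℤ) = 2 * s ^ 2 + 1 - 2 * s := by linarith
      rw [f₀, f₂, c₁] at hsum
      rw [f₀] at n₀ ⊢
      rw [c₁] at n₁
      rw [f₂] at n₂
      have : (4 : ℤ) ≠ 0 := by norm_num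
      apply mul_left_cancel₀ this
      linear_combination 4 * hsum - 2 * ((2 * (s : ℤ) ^ 2) ^ 2 + 1) ^ 2 * n₀ -
        ((2 * (s : ℤ) ^ 2 - 1) * (2 * s ^ 2 + 1 - 2 * s)) ^ 2 * n₁ -
        ((2 * (s : ℤ) ^ 2 - 1) * (2 * s ^ 2 + 1 + 2 * s)) ^ 2 * n₂)
  ext d
  simp only [Set.mem_insert_iff, Set.mem_singleton_iff]
  constructor
  · rintro ⟨χ, rfl⟩
    by_cases h : χ ∈ T
    · simp only [hT, Finset.mem_insert, Finset.mem_union] at h
      rcases h with rfl | rfl | h | h | h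
      · exact Or.inl d1
      · exact Or.inr (Or.inl hSt)
      · exact Or.inr (Or.inr (Or.inl (d₀ χ h)))
      · exact Or.inr (Or.inr (Or.inr (Or.inr (Or.inl (d₁ χ h)))))
      · exact Or.inr (Or.inr (Or.inr (Or.inl (d₂ χ h))))
    · exact Or.inr (Or.inr (Or.inr (Or.inr (Or.inr (hR χ (by simpa using h))))))
  · obtain ⟨χ₀, h₀⟩ : E₀.Nonempty := Finset.card_pos.1 (by omega)
    obtain ⟨χ₁, h₁⟩ : E₁.Nonempty := Finset.card_pos.1 (by omega)
    obtain ⟨χ₂, h₂⟩ : E₂.Nonempty := Finset.card_pos.1 (by nlinarith)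
    rintro (rfl | rfl | rfl | rfl | rfl | rfl)
    exacts [⟨_, d1⟩, ⟨_, hSt⟩, ⟨_, d₀ _ h₀⟩, ⟨_, d₂ _ h₂⟩, ⟨_, d₁ _ h₁⟩, ⟨_, hR _ hψ⟩]

end SzStr

end CT
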