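import Cfsg.Agent.Lib.Char.Degrees
import Cfsg.Agent.Lib.Char.Invol
import Cfsg.Agent.Lib.Char.RelDeg
import Cfsg.Agent.Lib.Grp.NormalCompl

/-!
# A theorem of Tate (Thompson's character theoretic proof)
-/

set_option autoImplicit false

namespace CT

open Cfsg GT Subgroup MulAction

variable {G : Type*} [Group G] [Finite G] {p : ℕ} [hp : Fact p.Prime]

/-- If `N` is normal and `N ⊓ P ≤ P'`, then `N` has a normal `p`-complement. -/
theorem tate_hasNormalPComplement (P : Sylow p G) (N : Subgroup G) [N.Normal]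
    (h : N ⊓ (P : Subgroup G) ≤ ⁅(P : Subgroup G), (P : Subgroup G)⁆) :
    HasNormalPComplement p N := by
  classical
  rw [hasNormalPComplement_iff_not_dvd_card_pResidual]
  set K : Subgroup G := (pResidual p N).map N.subtype with hKdef
  haveI : K.Normal := normal_map_subtype_of_characteristic N _
  have hKN : K ≤ N := map_subtype_le _
  have e := (pResidual p N).equivMapOfInjective N.subtype N.subtype_injective
  have hK : pResidual p K = ⊤ := by
    rw [← map_pResidual_of_surjective (f := e.toMonoidHom) e.surjective, pResidual_pResidual,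
      ← MonoidHom.range_eq_map, MonoidHom.range_eq_top.2 e.surjective]
  rw [Nat.card_congr e.toEquiv]
  intro hd
  have hS : IsSylowIn p ((P : Subgroup G) ⊓ K) K := isSylowIn_inf_of_normal P K
  set Q : Subgroup G := (P : Subgroup G) ⊓ K with hQ
  have hQP : Q ≤ P := inf_le_left
  have hQK : Q ≤ K := inf_le_right
  have hPQ : (P : Subgroup G) ≤ normalizer (Q : Set G) :=
    le_normalizer_inf le_normalizer (by rw [normalizer_eq_top]; exact le_top)
  have hlt := commutator_lt_of_isPGroup P.isPGroup' hS.isPGroup hPQ (hS.ne_bot hd)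
  obtain ⟨x, hxQ, hx⟩ := SetLike.exists_of_lt hlt
  have hc : commutator Q ≤ (⁅Q, (P : Subgroup G)⁆).subgroupOf Q := by
    rw [_root_.commutator_def, Subgroup.commutator_le]
    exact fun a _ b _ => Subgroup.commutator_mem_commutator a.2 (hQP b.2)
  haveI := Subgroup.Normal.of_commutator_le Q hc
  obtain ⟨l, hl, hlx⟩ := exists_units_hom_apply_ne_one hc (g := ⟨x, hxQ⟩) hx
  have hinv : ∀ t ∈ (P : Subgroup G), IsConjCharOf Q t (linChar l).1 (linChar l).1 := by
    intro t ht k k' hk
    have h1 : k⁻¹ * k' ∈ l.ker := hl (by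
      rw [mem_subgroupOf, Subgroup.coe_mul, hk, InvMemClass.coe_inv]
      have := Subgroup.commutator_mem_commutator (Q.inv_mem k.2) ht
      rw [commutatorElement_def, inv_inv] at this
      simpa only [mul_assoc] using this)
    rw [MonoidHom.mem_ker, map_mul, map_inv, inv_mul_eq_one] at h1
    rw [linChar_apply, linChar_apply, h1]
  let F : IrrCharacter K → ℕ := fun θ => mult (resLe hQK θ.1) (linChar l).1 * charDegree θ.1
  have hsum : ∑ θ, F θ = Q.relIndex K := by
    have h1 := (irr_isCharacter (linChar l)).indHom (inclusion hQK)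
    have h2 := charDegree_indHom_inclusion hQK (irr_isCharacter (linChar l))
    rw [charDegree_linChar, mul_one] at h2
    rw [← h2, h1.degree_eq_sum_mult]
    refine Finset.sum_congr rfl fun θ _ => ?_
    simp only [F]
    congr 1
    symm
    apply mult_eq_of_ip_eq
    rw [ip_indHom_inclusion_left hQK _ (irr_isClassFunction θ), (irr_isCharacter _).ip_comm
      ((irr_isCharacter θ).resLe hQK), ((irr_isCharacter θ).resLe hQK).ip_eq_mult
      (irr_isCharacter _)]
  have hF : ∀ (a : (P : Subgroup G)) (θ : IrrCharacter K), F (a • θ) = F θ := by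
    intro a θ
    have ha : (a • θ) = (a : G) • θ := rfl
    simp only [F, ha, charDegree_conjSmul]
    congr 1
    let σ : Q ≃* Q := Q.normalizerMonoidHom ⟨a, hPQ a.2⟩
    rw [← mult_comp_mulEquiv σ]
    congr 1
    · funext n
      exact conjSmul_apply_of_eq θ (n := ⟨n, hQK n.2⟩) rfl
    · funext n
      exact hinv a a.2 n _ rfl
  have hmod := sum_modEq_sum_fixed (A := (P : Subgroup G)) (X := IrrCharacter K) (p := p)
    (fun θ => by
      obtain ⟨k, hk⟩ := P.isPGroup'.index (stabilizer (P : Subgroup G) θ)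
      rcases k with _ | k
      · left
        rw [pow_zero, index_eq_one] at hk
        exact fun a => mem_stabilizer_iff.1 (hk ▸ mem_top a)
      · right
        rw [hk]; exact dvd_pow_self p k.succ_ne_zero) F hF
  have hex : ∃ θ : IrrCharacter K, (∀ a : (P : Subgroup G), a • θ = θ) ∧ ¬ p ∣ F θ := by
    by_contra hne
    push Not at hne
    apply hS.not_dvd
    rw [← hsum, hmod.dvd_iff dvd_rfl]
    exact Finset.dvd_sum fun θ hθ => hne θ (Finset.mem_filter.1 hθ).2
  obtain ⟨θ, hθ, hθF⟩ := hex
  obtain ⟨k, hk⟩ : ∃ k, K.relIndex (K ⊔ P) = p ^ k := by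
    rw [relIndex_sup_left]; exact P.isPGroup'.exists_relIndex_eq_pow K
  have hcop : ∀ n, ¬ p ∣ n → (K.relIndex (K ⊔ P)).Coprime n := fun n hn => by
    rw [hk]; exact ((Nat.Prime.coprime_iff_not_dvd hp.out).2 hn).pow_left k
  obtain ⟨φ, hφ⟩ := exists_extension_le_of_coprime_det (le_sup_left : K ≤ K ⊔ P) (θ := θ)
    (sup_le (le_inertia θ) fun a ha => hθ ⟨a, ha⟩)
    (hcop _ fun h => hθF (Dvd.dvd.mul_left h _))
    (hcop _ (not_dvd_detOrder_of_pResidual_eq_top hK _))
  have hφP := (irr_isCharacter φ).resLe (le_sup_right : (P : Subgroup G) ≤ K ⊔ P)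
  have h3 := mult_comp_eq_sum_mul (inclusion hQP) hφP (irr_isCharacter (linChar l))
  have h4 : (fun n : Q => resLe (le_sup_right : (P : Subgroup G) ≤ K ⊔ P) φ.1 (inclusion hQP n)) =
      resLe hQK θ.1 := by rw [← hφ]; rfl
  rw [h4] at h3
  obtain ⟨ψ, hψ⟩ : ∃ ψ : IrrCharacter (P : Subgroup G),
      ¬ p ∣ mult (resLe hQP ψ.1) (linChar l).1 := by
    by_contra hne
    push Not at hne
    apply hθF
    refine Dvd.dvd.mul_right ?_ _
    rw [h3]
    exact Finset.dvd_sum fun ψ _ => Dvd.dvd.mul_left (hne ψ) _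
  haveI : (Q.subgroupOf P).Normal := (normal_subgroupOf_iff_le_normalizer hQP).2 hPQ
  have h5 : LiesOverLe hQP ψ.1 (linChar l).1 :=
    (liesOverLe_iff_mult_pos hQP (irr_isCharacter ψ) (irr_isCharacter _)).2
      (Nat.pos_of_ne_zero fun h => hψ (h ▸ dvd_zero p))
  have h6 := clifford_invariant_le hinv h5
  have h7 : charDegree ψ.1 = mult (resLe hQP ψ.1) (linChar l).1 := by
    apply charDegree_eq_of_apply_one
    have := congrFun h6 1
    simp only [Pi.smul_apply, linChar_apply, map_one, Units.val_one, smul_eq_mul, mul_one] at this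
    exact this
  have h8 : charDegree ψ.1 = 1 := by
    obtain ⟨j, hj⟩ := IsPGroup.iff_card.1 P.isPGroup'
    have : charDegree ψ.1 ∣ p ^ j := hj ▸ irr_degree_dvd_card ψ
    obtain ⟨i, -, hi⟩ := (Nat.dvd_prime_pow hp.out).1 this
    rcases i with _ | i
    · simpa using hi
    · exact absurd (by rw [← h7, hi]; exact dvd_pow_self p i.succ_ne_zero) hψ
  have h9 : (⟨x, hQP hxQ⟩ : (P : Subgroup G)) ∈ commutator (P : Subgroup G) := by
    have := h ⟨hKN (hQK hxQ), hQP hxQ⟩
    rw [← map_subtype_commutator] at this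
    obtain ⟨y, hy, hyx⟩ := this
    rwa [show (⟨x, hQP hxQ⟩ : (P : Subgroup G)) = y from Subtype.ext hyx.symm]
  have h10 := (irr_mem_ker_iff ψ).1 ((irr_degree_eq_one_iff_commutator_le_ker ψ).1 h8 h9)
  have h11 := congrFun h6 ⟨x, hxQ⟩
  rw [← h7, h8, resLe_apply, h10, irr_apply_one, h8] at h11
  simp only [Nat.cast_one, one_smul, linChar_apply] at h11
  exact hlx (Units.ext h11.symm)

theorem tate_of_le_normalizer (P : Sylow p G) (A : Subgroup G)
    (hA : (P : Subgroup G) ≤ normalizer (A : Set G))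
    (h : A ⊓ (P : Subgroup G) ≤ ⁅(P : Subgroup G), (P : Subgroup G)⁆) :
    HasNormalPComplement p A := by
  have h1 := tate_hasNormalPComplement (P.subtype hA) (A.subgroupOf (normalizer (A : Set G))) (by
    rintro x ⟨hxA, hxP⟩
    have h2 := h ⟨hxA, hxP⟩
    have h3 : (P : Subgroup G) = (P.subtype hA : Subgroup (normalizer (A : Set G))).map
        (normalizer (A : Set G)).subtype := by
      rw [Sylow.coe_subtype, map_subgroupOf_eq_of_le hA]
    rw [h3, ← map_commutator] at h2
    obtain ⟨y, hy, hyx⟩ := h2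
    rwa [← Subtype.ext hyx])
  exact hasNormalPComplement_of_mulEquiv h1 (subgroupOfEquivOfLe le_normalizer)

end CT
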