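import Cfsg.Agent.Lib.Char.NqExt
import Cfsg.Agent.Lib.Grp.Frob
import Cfsg.Agent.Lib.Grp.PPart

/-!
# Solvable groups whose vanishing elements of order divisible by `p` have one order
-/

set_option autoImplicit false

namespace CT

open Cfsg GT Subgroup MulAction
open scoped commutatorElement

attribute [local instance] linAct

/-- An abelian group acting coprimely on an abelian group has an orbit that is regular modulo
the kernel. -/
theorem exists_regular_of_comm {H W : Type*} [Group H] [Finite H] [CommGroup W] [Finite W]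
    [MulDistribMulAction H W] (A : Subgroup H) [IsMulCommutative A]
    (hc : (Nat.card A).Coprime (Nat.card W)) :
    ∃ w : W, ∀ a ∈ A, a • w = w → ∀ v : W, a • v = v := by
  obtain ⟨w, hw⟩ := Finite.exists_min fun w : W => Nat.card ↥(A ⊓ stabilizer H w)
  refine ⟨w, fun a ha h v => ?_⟩
  set B := A ⊓ stabilizer H w
  have := Fintype.ofFinite B
  have h1 : (Nat.card W).Coprime (Nat.card B) :=
    (hc.coprime_dvd_left (card_dvd_of_le inf_le_left)).symm
  have h2 : ∀ {x y : W}, x ^ Nat.card B = y ^ Nat.card B → x = y := fun e => h1.pow_left_bijective.1 e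
  let f : W →* W := ∏ b : B, MulDistribMulAction.toMonoidHom W b.1
  have hf : ∀ x, f x = ∏ b : B, b.1 • x := fun x => MonoidHom.finsetProd_apply _ _ _
  have h3 : ∀ c ∈ A, ∀ x, f (c • x) = c • f x := fun c hc x => by
    rw [hf, hf, Finset.smul_prod']
    exact Finset.prod_congr rfl fun b _ => by
      rw [← mul_smul, ← mul_smul, isMulCommutative_iff_forall.1 ‹_› c hc b b.2.1]
  have h4 : ∀ b : B, ∀ x, b.1 • f x = f x := fun b x => by
    rw [hf, Finset.smul_prod']
    exact Fintype.prod_equiv (Equiv.mulLeft b) _ _ fun c => (mul_smul _ _ _).symm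
  have h5 : ∀ x, (∀ b : B, b.1 • x = x) → f x = x ^ Nat.card B := fun x hx => by
    simp [hf, hx]
  let u := v ^ Nat.card B / f v
  have h6 : f u = 1 := by rw [map_div, map_pow, h5 _ fun b => h4 b v, div_self']
  have h7 : A ⊓ stabilizer H (w * u) ≤ B := fun c hc => ⟨hc.1, h2 (by
    have := congrArg f hc.2
    rwa [h3 c hc.1, map_mul, h6, mul_one, h5 _ fun b => b.2.2, smul_pow'] at this)⟩
  have h8 := eq_of_le_of_card_ge h7 (hw _)
  have h9 : ∀ b : B, b.1 • u = u := fun b => by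
    have : b.1 • (w * u) = w * u := (h8.ge b.2).2
    rwa [smul_mul', b.2.2, mul_right_inj] at this
  have h10 : u = 1 := h2 (by rw [← h5 u h9, h6, one_pow])
  exact h2 (by rw [← smul_pow', div_eq_one.1 h10]; exact h4 ⟨a, ha, h⟩ v)

variable {G : Type*} [Group G] [Finite G] {p : ℕ} [hp : Fact p.Prime]

/-- `x` is a vanishing element. -/
def Van (x : G) : Prop := ∃ χ : IrrCharacter G, χ.1 x = 0

/-- Vanishing powers of order divisible by `p` of a vanishing element have the same order. -/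
def VanHyp (p : ℕ) (G : Type*) [Group G] : Prop :=
  ∀ (x : G) (n : ℕ), Van x → Van (x ^ n) → p ∣ orderOf (x ^ n) → orderOf (x ^ n) = orderOf x

omit [Finite G] in
theorem Van.of_map {H : Type*} [Group H] {f : G →* H} (hf : Function.Surjective f) {x : G}
    (h : Van (f x)) : Van x := h.elim fun χ h => ⟨irrComp f hf χ, h⟩

omit hp in
theorem VanHyp.of_surjective {H : Type*} [Group H] (h : VanHyp p G) {f : G →* H}
    (hf : Function.Surjective f) : VanHyp p H := fun y n h1 h2 h3 => by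
  obtain ⟨x, rfl⟩ := hf y
  rw [← map_pow] at h2 h3
  have h4 := h x n (h1.of_map hf) (h2.of_map hf) (h3.trans (orderOf_map_dvd f _))
  rw [orderOf_pow, Nat.div_eq_self, or_iff_right (orderOf_pos x).ne'] at h4
  exact (Nat.Coprime.coprime_dvd_left (orderOf_map_dvd f x) h4).orderOf_pow

theorem VanHyp.eq_one (h : VanHyp p G) {a c : G} (ha : IsPElt p a) (ha1 : a ≠ 1)
    (hc : IsPRegular p c) (hac : Commute a c) (h1 : Van a) (h2 : Van (a * c)) : c = 1 := by
  obtain ⟨n, hn⟩ := exists_pPart_eq_pow p (a * c)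
  have h3 := orderOf_pPart_mul_orderOf_pRegPart p (a * c)
  rw [pRegPart_mul_eq hac ha hc, hn] at h3
  rw [pPart_mul_eq hac ha hc] at hn
  rw [h _ n h2 (hn ▸ h1) (hn ▸ ha.dvd_orderOf ha1), mul_eq_left₀ (orderOf_pos _).ne'] at h3
  exact orderOf_eq_one_iff.1 h3

theorem normal_of_sup_normal_of_le_centralizer {A X : Subgroup G} (hA : IsPGroup p A)
    (hX : ¬ p ∣ Nat.card X) (hc : A ≤ centralizer (X : Set G)) [h : (A ⊔ X).Normal] : A.Normal :=
  ⟨fun a ha g => by
    obtain ⟨b, hb, x, hx, e⟩ := (mem_sup_of_le_normalizer_right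
      (le_normalizer_of_le_centralizer hc)).1 (h.conj_mem a (mem_sup_left ha) g)
    have h1 := pPart_mul_eq (Commute.symm (hc hb x hx)) (isPElt_of_mem hA hb)
      (isPRegular_of_mem hX hx)
    rw [e, ((isPElt_of_mem hA ha).conj g).pPart_eq] at h1
    exact h1 ▸ hb⟩

theorem van_of_notMem_centralizer {A V : Subgroup G} [V.Normal] [IsMulCommutative V]
    [IsMulCommutative A] (hA : IsPGroup p A) (hV : ¬ p ∣ Nat.card V) [h : (A ⊔ V).Normal] {x : G}
    (hx : x ∈ A ⊔ V) (hx' : x ∉ centralizer (V : Set G)) : Van x := by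
  obtain ⟨f, hf⟩ := exists_regular_of_comm (W := V →* ℂˣ) A (by
    obtain ⟨k, hk⟩ := hA.exists_card_eq
    rw [hk, card_units_hom]
    exact (hp.out.coprime_iff_not_dvd.2 fun h => hV (h.trans (index_dvd_card _))).pow_left k)
  obtain ⟨χ, hχ⟩ := exists_irr_liesOver (G := G) (linChar f)
  obtain ⟨ψ, -, h1, -⟩ := exists_clifford_correspondent hχ
  refine ⟨χ, h1 ▸ ind_apply_eq_zero _ fun g hg => hx' ?_⟩
  obtain ⟨a, ha, v, hv, e⟩ := (mem_sup_of_le_normalizer_right le_normalizer_of_normal).1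
    (h.conj_mem' x hx g)
  rw [← e, mul_mem_cancel_right (le_inertia _ hv), mem_stabilizer_linChar] at hg
  have h2 : a ∈ centralizer (V : Set G) := fun w hw => by
    by_contra h2
    obtain ⟨l, hl⟩ := exists_units_hom_ne_one_of_comm (G := V)
      (g := (⟨w, hw⟩ : V)⁻¹ * MulAut.conjNormal a⁻¹ ⟨w, hw⟩) fun h3 => h2 (by
        have := congrArg Subtype.val (inv_mul_eq_one.1 h3)
        simp only [MulAut.conjNormal_apply, inv_inv] at this
        conv_rhs => rw [this]
        group)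
    exact hl (by rw [map_mul, map_inv, inv_mul_eq_one]; exact (DFunLike.congr_fun (hf a ha hg l) _).symm)
  have h3 : g⁻¹ * x * g ∈ centralizer (V : Set G) :=
    e ▸ mul_mem h2 (le_centralizer V hv)
  simpa [mul_assoc] using (normal_centralizer (H := V)).conj_mem _ h3 g

theorem exists_van_of_not_normal [Group.IsSolvable G] {A L : Subgroup G} [L.Normal]
    [IsMulCommutative A] (hA : IsPGroup p A) (hL : ¬ p ∣ Nat.card L) [h : (A ⊔ L).Normal]
    (hn : ¬ A.Normal) : ∃ X ≤ L, X.Normal ∧ X ≠ ⊥ ∧ ∃ B < A, (B ⊔ X).Normal ∧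
      ∀ a ∈ A, a ∉ B → ∀ x ∈ X, Van (a * x) := by
  obtain ⟨Y, ⟨hY, hYL, h1⟩, h2⟩ := Set.Finite.exists_maximal (s := {Y : Subgroup G |
    Y.Normal ∧ Y ≤ L ∧ ¬ (A ⊔ Y).Normal}) (Set.toFinite _) ⟨⊥, inferInstance, bot_le, by simpa⟩
  obtain ⟨X, hX, hXL⟩ := exists_isChief_le hY ‹_› (hYL.lt_of_ne fun e => h1 (e ▸ h))
  have := hX.normal_right
  have h3 : (A ⊔ X).Normal := by_contra fun h3 => hX.lt.not_ge (h2 ⟨‹_›, hXL, h3⟩ hX.le)
  let π := QuotientGroup.mk' Y
  have hπ : Function.Surjective π := QuotientGroup.mk'_surjective Y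
  have := (hX.isMinNormal_map).normal
  have := (hX.isMinNormal_map).isMulCommutative_of_isSolvable
  have h4 : (A.map π ⊔ X.map π).Normal := Subgroup.map_sup A X π ▸ h3.map π hπ
  have h5 : ¬ p ∣ Nat.card (X.map π) := fun h5 =>
    hL (h5.trans ((card_map_dvd X π).trans (card_dvd_of_le hXL)))
  have h6 : X ≤ (centralizer (X.map π : Set (G ⧸ Y))).comap π := fun x hx =>
    le_centralizer (X.map π) (mem_map_of_mem π hx)
  refine ⟨X, hXL, ‹_›, (bot_le.trans_lt hX.lt).ne', A ⊓ (centralizer (X.map π : Set (G ⧸ Y))).comap π,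
    inf_lt_left.2 fun h7 => h1 ?_, ?_, fun a ha h7 x hx => Van.of_map hπ
      (van_of_notMem_centralizer (hA.map π) h5 (by
        rw [map_mul]; exact mul_mem_sup (mem_map_of_mem π ha) (mem_map_of_mem π hx)) fun h8 =>
        h7 ⟨ha, (mul_mem_cancel_right (h6 hx)).1 h8⟩)⟩
  · have := (normal_of_sup_normal_of_le_centralizer (hA.map π) h5 (map_le_iff_le_comap.2 h7)).comap π
    rwa [comap_map_eq, QuotientGroup.ker_mk'] at this
  · have h7 : A ⊓ (centralizer (X.map π : Set (G ⧸ Y))).comap π ⊔ X =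
        (A ⊔ X) ⊓ (centralizer (X.map π : Set (G ⧸ Y))).comap π :=
      le_antisymm (sup_le (inf_le_inf_right _ le_sup_left) (le_inf le_sup_right h6)) fun g hg => by
        obtain ⟨a, ha, x, hx, rfl⟩ := (mem_sup_of_le_normalizer_right le_normalizer_of_normal).1 hg.1
        exact mul_mem_sup ⟨ha, (mul_mem_cancel_right (h6 hx)).1 hg.2⟩ hx
    rw [h7]; infer_instance

omit hp in
theorem van_of_conj_eq {N L : Subgroup G} [N.Normal] [L.Normal] {e y z : G} (hz : z ∈ N)
    (hzL : z ∉ L) (h1 : ∀ n ∈ N, ∃ k : ℕ, ∃ l ∈ L, z ^ k * l = n) (h2 : Commute y z)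
    (h3 : y * e * y⁻¹ = e * z) {l : G} (hl : l ∈ L) : Van (e * l) := by
  obtain ⟨χ, h4, h5⟩ := exists_irr_le_ker_not_mem L hzL
  have h6 := (irr_isCharacter χ).isClassFunction
  have h7 : ∀ k : ℕ, χ.1 (e * z ^ k) = χ.1 e := fun k => by
    induction k with
    | zero => simp
    | succ k ih =>
      rw [← ih, ← h6 (e * z ^ k) y, pow_succ', ← mul_assoc, ← h3, mul_assoc _ y⁻¹,
        (h2.inv_left.pow_right k).eq]
      simp only [mul_assoc]
  have := Fintype.ofFinite N
  have h8 := sum_normal_irr_eq_zero (N := N) (fun h => h5 (h hz)) e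
  rw [Finset.sum_congr rfl (g := fun _ => χ.1 e) fun n _ => by
    obtain ⟨k, l, hl, h⟩ := h1 n n.2
    rw [← h, ← mul_assoc, ker_apply_mul_right h6 (h4 hl), h7]] at h8
  exact ⟨χ, by simpa [ker_apply_mul_right h6 (h4 hl)] using h8⟩

theorem VanHyp.exists_van [Group.IsSolvable G] (h : VanHyp p G) (h0 : pCore p G = ⊥)
    {A L : Subgroup G} [L.Normal] [IsMulCommutative A] (hA : ∀ a ∈ A, a ^ p = 1)
    (hL : ¬ p ∣ Nat.card L) [(A ⊔ L).Normal] (h1 : A ≠ ⊥) : Nat.card A = p ∧
      ∃ X ≤ L, X.Normal ∧ X ≠ ⊥ ∧ ∀ a ∈ A, a ≠ 1 → ∀ x ∈ X, Van (a * x) := by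
  have hA' : IsPGroup p A := fun a => ⟨1, Subtype.ext (by simpa using hA a a.2)⟩
  have h2 := pCore_eq_bot_iff.1 h0
  obtain ⟨X, hXL, hX, hX1, B, hB, h3, h4⟩ := exists_van_of_not_normal hA' hL fun h => h1 (h2 A h hA')
  have h5 : ¬ p ∣ Nat.card X := fun h => hL (h.trans (card_dvd_of_le hXL))
  have h6 : ∀ a ∈ A, a ∉ B → X ⊓ centralizer {a} ≤ ⊥ := fun a ha haB x hx =>
    h.eq_one (isPElt_of_mem hA' ha) (fun e => haB (e ▸ one_mem B)) (isPRegular_of_mem h5 hx.1)
      (hx.2 a rfl) (by simpa using h4 a ha haB 1 (one_mem X)) (h4 a ha haB x hx.1)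
  have h7 := (coprimeAct_of_isPGroup_left (G := X) le_normalizer_of_normal hA' h5).2
  have h8 : ∀ C ≤ A, ∀ a ∈ A, A ≤ C ⊔ zpowers a → C ≤ B → B = C := fun C hC a ha h8 h9 =>
    le_antisymm (fun b hb => by
      obtain ⟨c, hc, d, hd, rfl⟩ := (mem_sup_of_le_normalizer_right (le_normalizer_of_le_centralizer
        (hC.trans ((le_centralizer A).trans (centralizer_anti (zpowers_le.2 ha)))))).1 (h8 (hB.le hb))
      have := (disjoint_zpowers_of_notMem (hA a ha) fun h => hB.not_ge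
        (h8.trans (sup_le h9 (zpowers_le.2 h)))).le_bot ⟨hd, (mul_mem_cancel_left (h9 hc)).1 hb⟩
      rwa [mem_bot.1 this, mul_one]) h9
  have h9 : ∀ C ≤ A, ¬ C ≤ B → X ⊓ centralizer (C : Set G) ≤ ⊥ := fun C hC h9 => by
    obtain ⟨c, hc, h9⟩ := SetLike.not_le_iff_exists.1 h9
    exact (inf_le_inf_left _ (centralizer_le (by simpa))).trans (h6 c (hC hc) h9)
  have h10 : X ≤ centralizer (B : Set G) :=
    le_of_forall_centralizer_cocyclic_le le_normalizer_of_normal h7 fun C hC ⟨a, ha, h⟩ => by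
      by_cases h10 : C ≤ B
      · exact h8 C hC a ha h h10 ▸ inf_le_right
      · exact (h9 C hC h10).trans bot_le
  obtain rfl : B = ⊥ := h2 B (normal_of_sup_normal_of_le_centralizer (hA'.to_le hB.le) h5
    (le_centralizer_iff.1 h10)) (hA'.to_le hB.le)
  refine ⟨?_, X, hXL, hX, hX1, h4⟩
  have h11 : IsCyclic A := by_contra fun h11 => hX1 (le_bot_iff.1
    (le_of_forall_centralizer_le le_normalizer_of_normal h7 h11 h6))
  obtain ⟨a, rfl⟩ := isCyclic_iff_exists_zpowers_eq.1 h11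
  exact card_zpowers_of_pow_eq_one (hA a (mem_zpowers a)) (mt zpowers_eq_bot.2 h1)

theorem VanHyp.isCyclic [Group.IsSolvable G] (h : VanHyp p G) (h0 : pCore p G = ⊥)
    {P : Subgroup G} (hP : IsSylowIn p P ⊤) : IsCyclic P := by
  set L := pPrimeCore p G
  have hL : ¬ p ∣ Nat.card L := not_dvd_card_pPrimeCore p G
  have hQ := hP.inf_of_le_normalizer (N := pPrimePCore p G) le_top le_normalizer_of_normal
  set Q := P ⊓ pPrimePCore p G
  have h1 : ∀ {A : Subgroup G}, normalizer (Q : Set G) ≤ normalizer (A : Set G) → (A ⊔ L).Normal :=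
    fun {A} hA => normalizer_eq_top_iff.1 (top_le_iff.1 (hQ.frattini_top.ge.trans (sup_le
      (by rw [← pPrimeCore_sup_eq_of_isSylowIn hQ]
          exact sup_le (le_sup_right.trans le_normalizer) (le_normalizer.trans
            (le_normalizer_sup hA le_normalizer_of_normal)))
      (le_normalizer_sup hA le_normalizer_of_normal))))
  suffices h2 : ⁅Q, P⁆ = ⊥ ∧ IsCyclic Q by
    have := h2.2
    exact isCyclic_of_le (A := Q) (le_inf le_rfl ((le_centralizer_iff.1
      (commutator_eq_bot_iff_le_centralizer.1 h2.1)).trans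
        (centralizer_le_pPrimePCore isPSolvable_of_isSolvable hQ)))
  obtain hQ1 | hQ1 := eq_or_ne Q ⊥
  · rw [hQ1]; exact ⟨commutator_bot_left P, inferInstance⟩
  set C := Q ⊓ centralizer (Q : Set G) with hC
  have hCc : IsMulCommutative C := isMulCommutative_iff_forall.2 fun a ha b hb => hb.2 a ha.1
  have hC1 : normalizer (Q : Set G) ≤ normalizer (C : Set G) :=
    le_normalizer_inf le_rfl (le_normalizer_centralizer le_rfl)
  have hCp : IsPGroup p C := hQ.isPGroup.to_le inf_le_left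
  have hC2 : C ≠ ⊥ := inf_centralizer_ne_bot_of_isPGroup hQ.isPGroup hQ.isPGroup hQ1 le_normalizer
  have := isMulCommutative_of_le (powKer_le C p)
  have hn := h1 (hC1.trans (normalizer_le_normalizer_powKer C p))
  obtain ⟨h2, X, hXL, hX, hX1, h3⟩ := h.exists_van h0 (A := powKer C p)
    (fun a ha => (mem_powKer.1 ha).2) hL (powKer_ne_bot C (hCp.card_eq_or_dvd.resolve_left
      (mt card_eq_one.1 hC2)))
  have h4 : ∀ a, IsPElt p a → a ≠ 1 → Van a → (∀ n : ℕ, (a ^ n) ^ p = 1 → a ^ n ∈ C) →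
      a ∈ powKer C p := fun a ha ha1 hv hn => by
    have h4 := orderOf_pow_orderOf_div (orderOf_pos a).ne' (ha.dvd_orderOf ha1)
    generalize orderOf a / p = n at h4
    have h5 := h4 ▸ pow_orderOf_eq_one (a ^ n)
    have h6 := h a n hv (by
      simpa using h3 _ (mem_powKer.2 ⟨hn n h5, h5⟩) (fun e => hp.out.ne_one (by
        rw [← h4, e, orderOf_one])) 1 (one_mem X)) h4.symm.dvd
    have h7 : a ^ p = 1 := by rw [← h4, h6, pow_orderOf_eq_one]
    exact mem_powKer.2 ⟨by simpa using hn 1 (by simpa), h7⟩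
  have h5 : powKer C p = C := by
    have := h1 hC1
    obtain ⟨Y, -, -, -, B, hB, -, h5⟩ := exists_van_of_not_normal hCp hL fun h =>
      hC2 (pCore_eq_bot_iff.1 h0 C h hCp)
    have h6 : ∀ a ∈ C, a ∉ B → a ∈ powKer C p := fun a ha h6 => h4 a (isPElt_of_mem hCp ha)
      (fun e => h6 (e ▸ one_mem B)) (by simpa using h5 a ha h6 1 (one_mem Y)) fun n _ => pow_mem ha n
    obtain ⟨a, ha, haB⟩ := SetLike.exists_of_lt hB
    refine le_antisymm (powKer_le C p) fun b hb => by_contra fun h7 => h7 ?_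
    exact (mul_mem_cancel_left (h6 a ha haB)).1 (h6 _ (mul_mem ha hb) fun h8 =>
      haB ((mul_mem_cancel_right (by_contra fun h9 => h7 (h6 b hb h9))).1 h8))
  rw [h5] at h2 h3 h4 hn
  suffices h6 : Q = C by
    rw [← h6] at h2
    exact ⟨(eq_bot_or_eq_of_card_prime (h2 ▸ hp.out) (commutator_lt_of_isPGroup hP.isPGroup
      hQ.isPGroup (le_normalizer_inf le_normalizer le_normalizer_of_normal) hQ1).le).resolve_right
      (commutator_lt_of_isPGroup hP.isPGroup hQ.isPGroup
        (le_normalizer_inf le_normalizer le_normalizer_of_normal) hQ1).ne, isCyclic_of_prime_card h2⟩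
  refine le_antisymm (by_contra fun h6 => ?_) inf_le_left
  obtain ⟨W, ⟨hW, hQW, hWC⟩, h7⟩ := Set.Finite.exists_minimal (s := {W : Subgroup G |
    W ≤ Q ∧ Q ≤ normalizer (W : Set G) ∧ ¬ W ≤ C}) (Set.toFinite _) ⟨Q, le_rfl, le_normalizer, h6⟩
  have h8 := commutator_lt_of_isPGroup hQ.isPGroup (hQ.isPGroup.to_le hW) hQW
    fun e => hWC (e ▸ bot_le)
  have h9 : ⁅W, Q⁆ ≤ C := by_contra fun h9 => h8.not_ge
    (h7 ⟨h8.le.trans hW, le_normalizer_commutator hQW le_normalizer, h9⟩ h8.le)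
  obtain ⟨x, hx, hxC⟩ := SetLike.not_le_iff_exists.1 hWC
  have := isMulCommutative_sup_zpowers (A := C) (x := x) fun c hc => (hc.2 x (hW hx)).symm
  set E := C ⊔ zpowers x
  have hEQ : E ≤ Q := sup_le inf_le_left (zpowers_le.2 (hW hx))
  have h10 : ∀ e ∈ E, e ≠ 1 → ∀ c ∈ X, Van (e * c) := fun e he he1 c hc => by
    by_cases h10 : e ∈ C
    · exact h3 e h10 he1 c hc
    obtain ⟨y, hy, h11⟩ : ∃ y ∈ Q, y * e ≠ e * y := by
      by_contra! h11
      exact h10 ⟨hEQ he, h11⟩
    have h12 : e⁻¹ * (y * e * y⁻¹) ∈ C := by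
      obtain ⟨w, hw, d, hd, rfl⟩ := (mem_sup_of_le_normalizer_right ((zpowers_le.2 (hW hx)).trans
        (le_normalizer.trans hC1))).1 ((sup_comm C _).le he)
      convert h9 (commutator_mem_commutator (inv_mem (zpowers_le.2 hx hw)) hy) using 1
      have h13 := hd.2 _ (h8.le.trans hW (commutator_mem_commutator (inv_mem (zpowers_le.2 hx hw)) hy))
      rw [mul_assoc y, mul_assoc w, ← hd.2 _ (inv_mem hy), ← mul_right_inj d, ← h13]
      group
    have h13 : e⁻¹ * (y * e * y⁻¹) ≠ 1 := fun e => h11 (by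
      rw [inv_mul_eq_one, eq_mul_inv_iff_mul_eq] at e; exact e.symm)
    have h14 := (eq_bot_or_eq_of_card_prime (h2 ▸ hp.out) (zpowers_le.2 h12)).resolve_left
      (mt zpowers_eq_bot.1 h13)
    refine van_of_conj_eq (N := C ⊔ L) (mem_sup_left h12) (fun h => h13 ?_) (fun n hn => ?_)
      (h12.2 y hy) (mul_inv_cancel_left _ _).symm (hXL hc)
    · exact (isPElt_of_mem hCp h12).eq_one_of_isPRegular (isPRegular_of_mem hL h)
    · obtain ⟨a, ha, l, hl, rfl⟩ := (mem_sup_of_le_normalizer_right le_normalizer_of_normal).1 hn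
      obtain ⟨k, rfl⟩ := mem_powers_iff_mem_zpowers.2 (h14.ge ha)
      exact ⟨k, l, hl, rfl⟩
  have hEp := hQ.isPGroup.to_le hEQ
  have h11 : ¬ p ∣ Nat.card X := fun h => hL (h.trans (card_dvd_of_le hXL))
  by_cases h12 : IsCyclic E
  · refine hxC (h4 x (isPElt_of_mem hQ.isPGroup (hW hx)) (fun e => hxC (e ▸ one_mem C))
      (by simpa using h10 x (mem_sup_right (mem_zpowers x)) (fun e => hxC (e ▸ one_mem C)) 1 (one_mem X))
      fun n hn => zpowers_le.1 (le_of_card_dvd_of_isCyclic (A := E) (zpowers_le.2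
        (pow_mem (mem_sup_right (mem_zpowers x)) n)) le_sup_left ?_))
    rw [h2, Nat.card_zpowers]
    exact orderOf_dvd_of_pow_eq_one hn
  obtain ⟨e, he, he1, h13⟩ := exists_centralizer_ne_bot_of_not_isCyclic le_normalizer_of_normal
    (coprimeAct_of_isPGroup_left (G := X) le_normalizer_of_normal hEp h11).2 h12 hX1
  exact h13 (le_bot_iff.1 fun c hc => h.eq_one (isPElt_of_mem hEp he) he1 (isPRegular_of_mem h11 hc.1)
    (hc.2 e rfl) (by simpa using h10 e he he1 1 (one_mem X)) (h10 e he he1 c hc.1))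

end CT
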